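import Cfsg.Agent.H5.Brd

/-! The affine group of a representation over `ZMod p`. -/

set_option autoImplicit false
set_option linter.unusedSectionVars false

namespace Cfsg.Agent.H5g

open Cfsg Subgroup Cfsg.Agent.FT SemidirectProduct
open scoped commutatorElement

variable {S M : Type*} [Group S] [AddCommGroup M] {p : ℕ} [Fact p.Prime] [Module (ZMod p) M]
  (ρ : Representation (ZMod p) S M)

/-- the action by automorphisms -/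
noncomputable def affφ : S →* MulAut (Multiplicative M) := (MulAutMultiplicative M).symm.toMonoidHom.comp
  ((DistribMulAction.toAddAut ((M →ₗ[ZMod p] M)ˣ) M).comp ρ.asGroupHom)

/-- the affine group -/
abbrev Aff : Type _ := Multiplicative M ⋊[affφ ρ] S

instance finite_Aff [Finite S] [Finite M] : Finite (Aff ρ) := Finite.of_equiv _ SemidirectProduct.equivProd.symm

/-- translations -/
noncomputable def tr (v : M) : Aff ρ := inl (Multiplicative.ofAdd v)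

/-- linear maps -/
noncomputable abbrev li : S →* Aff ρ := inr

theorem li_inj : Function.Injective (li ρ) := inr_injective

theorem tr_inj {v w : M} : tr ρ v = tr ρ w ↔ v = w :=
  ⟨fun e => Multiplicative.ofAdd.injective (inl_injective e), fun e => e ▸ rfl⟩
theorem tr_add (v w : M) : tr ρ (v + w) = tr ρ v * tr ρ w := by rw [tr, ofAdd_add, map_mul]; rfl
theorem tr_zero : tr ρ 0 = 1 := map_one _
theorem tr_neg (v : M) : tr ρ (-v) = (tr ρ v)⁻¹ := by rw [tr, ofAdd_neg, map_inv]; rfl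
theorem tr_nsmul (n : ℕ) (v : M) : tr ρ (n • v) = tr ρ v ^ n := by rw [tr, ofAdd_nsmul, map_pow]; rfl
theorem tr_eq_one {v : M} : tr ρ v = 1 ↔ v = 0 := by rw [← tr_zero, tr_inj]

theorem li_tr (s : S) (v : M) : li ρ s * tr ρ v * (li ρ s)⁻¹ = tr ρ (ρ s v) := by
  rw [← map_inv, tr, ← inl_aut]; rfl

theorem tr_cen1 {s : S} {v : M} : tr ρ v ∈ C[li ρ s] ↔ ρ s v = v := by
  rw [mem_cen1, ← tr_inj ρ, ← li_tr, mul_inv_eq_iff_eq_mul, eq_comm]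

theorem tr_cen {B : Subgroup S} {v : M} : tr ρ v ∈ C(B.map (li ρ)) ↔ ∀ b ∈ B, ρ b v = v :=
  ⟨fun h b hb => (tr_cen1 ρ).1 (cen_le_cen1 (mem_map_of_mem _ hb) h), fun h => mem_cen.2 (by
    rintro _ ⟨b, hb, rfl⟩; exact (mem_cen1.1 ((tr_cen1 ρ).2 (h b hb))).symm)⟩

/-- the translation group of a submodule -/
noncomputable def tsub (N : Submodule (ZMod p) M) : Subgroup (Aff ρ) where
  carrier := tr ρ '' N
  one_mem' := ⟨0, N.zero_mem, tr_zero ρ⟩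
  mul_mem' := by rintro _ _ ⟨v, hv, rfl⟩ ⟨w, hw, rfl⟩; exact ⟨v + w, N.add_mem hv hw, tr_add ρ v w⟩
  inv_mem' := by rintro _ ⟨v, hv, rfl⟩; exact ⟨-v, N.neg_mem hv, tr_neg ρ v⟩

variable {N N' : Submodule (ZMod p) M}

theorem mem_tsub {x : Aff ρ} : x ∈ tsub ρ N ↔ ∃ v ∈ N, tr ρ v = x := Iff.rfl
theorem tr_mem_tsub {v : M} : tr ρ v ∈ tsub ρ N ↔ v ∈ N :=
  ⟨fun ⟨_, hw, e⟩ => (tr_inj ρ).1 e ▸ hw, fun h => ⟨v, h, rfl⟩⟩
theorem tsub_le : tsub ρ N ≤ tsub ρ N' ↔ N ≤ N' :=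
  ⟨fun h _ hv => (tr_mem_tsub ρ).1 (h ((tr_mem_tsub ρ).2 hv)), by rintro h _ ⟨v, hv, rfl⟩; exact ⟨v, h hv, rfl⟩⟩
theorem tsub_inj : tsub ρ N = tsub ρ N' ↔ N = N' := by simp only [le_antisymm_iff, tsub_le]
theorem tsub_bot : tsub ρ ⊥ = ⊥ := eq_bot_iff.2 (by rintro _ ⟨v, rfl, rfl⟩; exact tr_zero ρ)
theorem tsub_eq_bot : tsub ρ N = ⊥ ↔ N = ⊥ := by rw [← tsub_bot, tsub_inj]
theorem tsub_inf : tsub ρ (N ⊓ N') = tsub ρ N ⊓ tsub ρ N' :=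
  le_antisymm (le_inf ((tsub_le ρ).2 inf_le_left) ((tsub_le ρ).2 inf_le_right)) (by
    rintro _ ⟨⟨v, hv, rfl⟩, h⟩; exact ⟨v, ⟨hv, (tr_mem_tsub ρ).1 h⟩, rfl⟩)
theorem tsub_sup : tsub ρ (N ⊔ N') = tsub ρ N ⊔ tsub ρ N' :=
  le_antisymm (by
    rintro _ ⟨v, hv, rfl⟩
    obtain ⟨a, ha, b, hb, rfl⟩ := Submodule.mem_sup.1 hv
    rw [tr_add]; exact mul_mem_sup ⟨a, ha, rfl⟩ ⟨b, hb, rfl⟩)
    (sup_le ((tsub_le ρ).2 le_sup_left) ((tsub_le ρ).2 le_sup_right))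

theorem exists_tsub {U : Subgroup (Aff ρ)} (h : U ≤ tsub ρ ⊤) : ∃ N, tsub ρ N = U :=
  ⟨AddSubgroup.toZModSubmodule p
    { carrier := {v | tr ρ v ∈ U}
      zero_mem' := by change tr ρ 0 ∈ U; rw [tr_zero]; exact one_mem _
      add_mem' := fun {a b} ha hb => by change tr ρ (a + b) ∈ U; rw [tr_add]; exact mul_mem ha hb
      neg_mem' := fun {a} ha => by change tr ρ (-a) ∈ U; rw [tr_neg]; exact inv_mem ha },
    le_antisymm (by rintro _ ⟨v, hv, rfl⟩; exact hv) fun x hx => by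
      obtain ⟨v, -, rfl⟩ := h hx; exact ⟨v, hx, rfl⟩⟩

theorem card_tr {U : Subgroup (Aff ρ)} {P : M → Prop} (hU : U ≤ tsub ρ ⊤) (h : ∀ v, tr ρ v ∈ U ↔ P v) :
    #U = Nat.card {v // P v} :=
  (Nat.card_congr (Equiv.ofBijective (fun v : {v // P v} => (⟨tr ρ v, (h v).2 v.2⟩ : U))
    ⟨fun _ _ e => Subtype.ext ((tr_inj ρ).1 (congrArg Subtype.val e)), by
      rintro ⟨x, hx⟩
      obtain ⟨v, -, rfl⟩ := hU hx
      exact ⟨⟨v, (h v).1 hx⟩, rfl⟩⟩)).symm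

theorem card_tsub (N : Submodule (ZMod p) M) : #(tsub ρ N) = Nat.card N :=
  card_tr ρ ((tsub_le ρ).2 le_top) fun _ => tr_mem_tsub ρ

theorem card_tsub_top : #(tsub ρ ⊤) = Nat.card M := (card_tsub ρ ⊤).trans (Nat.card_congr Submodule.topEquiv.toEquiv)

theorem card_fix (B : Subgroup S) : #(tsub ρ ⊤ ⊓ C(B.map (li ρ))) = Nat.card {v // ∀ b ∈ B, ρ b v = v} :=
  card_tr ρ inf_le_left fun _ => by rw [mem_inf, tr_mem_tsub, tr_cen]; simp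

theorem abelem_tsub [Finite S] [Finite M] (N : Submodule (ZMod p) M) : Abelem p (tsub ρ N) :=
  abelem_iff.2 ⟨ab_iff_forall.2 (by rintro _ ⟨v, -, rfl⟩ _ ⟨w, -, rfl⟩; rw [← tr_add, ← tr_add, add_comm]), by
    rintro _ ⟨v, -, rfl⟩
    rw [← tr_nsmul, ← Nat.cast_smul_eq_nsmul (ZMod p), CharP.cast_eq_zero, zero_smul, tr_zero]⟩

theorem norms_tsub {B : Subgroup S} : B.map (li ρ) ≤ N(tsub ρ N) ↔ ∀ b ∈ B, ∀ v ∈ N, ρ b v ∈ N := by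
  rw [le_nrm_iff]
  refine ⟨fun h b hb v hv => ?_, ?_⟩
  · rw [← tr_mem_tsub ρ, ← li_tr]; exact h _ (mem_map_of_mem _ hb) _ ⟨v, hv, rfl⟩
  · rintro h _ ⟨b, hb, rfl⟩ _ ⟨v, hv, rfl⟩
    rw [li_tr, tr_mem_tsub]; exact h b hb v hv

theorem norms_tsub_top (B : Subgroup S) : B.map (li ρ) ≤ N(tsub ρ ⊤) := (norms_tsub ρ).2 fun _ _ _ _ => trivial

theorem li_cen {s : S} : li ρ s ∈ C(tsub ρ N) ↔ ∀ v ∈ N, ρ s v = v :=
  ⟨fun h v hv => (tr_cen1 ρ).1 (cen1_comm.1 (cen_le_cen1 ((tr_mem_tsub ρ).2 hv) h)), fun h => mem_cen.2 (by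
    rintro _ ⟨v, hv, rfl⟩; exact mem_cen1.1 ((tr_cen1 ρ).2 (h v hv)))⟩

theorem faithful_tsub {B : Subgroup S} (h : ∀ x ∈ B, ρ x = 1 → x = 1) : B.map (li ρ) ⊓ C(tsub ρ ⊤) = ⊥ :=
  eq_bot_iff.2 (by
    rintro _ ⟨⟨b, hb, rfl⟩, e⟩
    rw [h b hb (LinearMap.ext fun v => (li_cen ρ).1 e v trivial), map_one]; exact one_mem _)

theorem irr_tsub (h : ∀ N : Submodule (ZMod p) M, (∀ s : S, ∀ m ∈ N, ρ s m ∈ N) → N = ⊥ ∨ N = ⊤)
    (U : Subgroup (Aff ρ)) (hU : U ≤ tsub ρ ⊤) (hn : (⊤ : Subgroup S).map (li ρ) ≤ N(U)) : U = ⊥ ∨ U = tsub ρ ⊤ := by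
  obtain ⟨N, rfl⟩ := exists_tsub ρ hU
  rw [tsub_eq_bot, tsub_inj]
  exact h N fun s => (norms_tsub ρ).1 hn s trivial

theorem tsub_top_ne [Nontrivial M] : tsub ρ ⊤ ≠ ⊥ := fun e => top_ne_bot ((tsub_eq_bot ρ).1 e)

end Cfsg.Agent.H5g
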