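import Cfsg.Agent.H5.Aff

/-! Faithful irreducible `𝔽₂`-modules of `3² : D₈`. -/

set_option autoImplicit false
set_option linter.unusedSectionVars false

namespace Cfsg.Agent.H5g

open Cfsg Subgroup Cfsg.Agent.FT DihedralGroup
open scoped commutatorElement

variable {G : Type*} [Group G] [Finite G] {A B S V U : Subgroup G} {a x y : G} {ψ : DihedralGroup 4 →* G}

theorem of_three (h : #U = 3) (hx : x ∈ U) (hy : y ∈ U) (x1 : x ≠ 1) (y1 : y ≠ 1) : y = x ∨ y = x⁻¹ := by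
  have x3 : x ^ (3 : ℤ) = 1 := by have := pow_card hx; rw [h] at this; exact_mod_cast this
  rw [eq_zpowers_of_prime (h ▸ Nat.prime_three) hx x1] at hy
  obtain ⟨k, rfl⟩ := mem_zpowers_iff.1 hy
  obtain ⟨m, e | e | e⟩ : ∃ m, k = 3 * m ∨ k = 3 * m + 1 ∨ k = 3 * m + -1 := ⟨(k + 1) / 3, by omega⟩ <;> subst e
  · exact absurd (by rw [zpow_mul, x3, one_zpow]) y1
  · left; rw [zpow_add, zpow_mul, x3, one_zpow, one_mul, zpow_one]
  · right; rw [zpow_add, zpow_mul, x3, one_zpow, one_mul, zpow_neg_one]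

/-- the hypotheses -/
structure Dm (V S A : Subgroup G) (ψ : DihedralGroup 4 →* G) : Prop where
  abV : Abelem 2 V
  nV : S ≤ N(V)
  ff : S ⊓ C(V) = ⊥
  ne : V ≠ ⊥
  irr : ∀ U, U ≤ V → S ≤ N(U) → U = ⊥ ∨ U = V
  abA : Abelem 3 A
  cA : #A = 9
  nA : A ⊴ S
  sc : S ⊓ C(A) ≤ A
  inj : Function.Injective ψ
  gen : A ⊔ ψ.range = S

namespace Dm

theorem mem (h : Dm V S A ψ) (u : DihedralGroup 4) : ψ u ∈ S := h.gen.le (mem_sup_right ⟨u, rfl⟩)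
theorem nrm (h : Dm V S A ψ) (u : DihedralGroup 4) : ψ u ∈ N(A) := h.nA.nrm (h.mem u)
theorem pA (h : Dm V S A ψ) : PGrp 3 A := h.abA.pGrp Nat.prime_three
theorem pV (h : Dm V S A ψ) : PGrp 2 V := h.abV.pGrp Nat.prime_two
theorem p2 (ψ : DihedralGroup 4 →* G) (u : DihedralGroup 4) : PiElt {2} (ψ u) :=
  (pElt_iff Nat.prime_two).2 ⟨2, by rw [← map_pow, show u ^ 2 ^ 2 = 1 by revert u; decide, map_one]⟩
theorem pX (ψ : DihedralGroup 4 →* G) : PGrp 2 ψ.range := piGrp_iff_forall.2 (by rintro _ ⟨u, rfl⟩; exact p2 ψ u)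

theorem not_cen (h : Dm V S A ψ) {u : DihedralGroup 4} (hu : u ≠ 1) : ψ u ∉ C(A) := fun e =>
  hu ((map_eq_one_iff ψ h.inj).1 ((p2 ψ u).eq_one_of_mem (h.pA.p' (by norm_num)) (h.sc ⟨h.mem u, e⟩)))

theorem card_sub (h : Dm V S A ψ) (h1 : U ≤ A) (h2 : U ≠ ⊥) (h3 : U ≠ A) : #U = 3 := by
  have a := card_dvd h1
  have b := one_lt_card h2
  have c := card_lt (lt_of_le_of_ne h1 h3)
  rw [h.cA] at a c
  generalize #U = m at *
  interval_cases m <;> omega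

theorem sq_cen (h : #U = 3) (hx : x ∈ N(U)) : x * x ∈ C(U) := mem_cen.2 fun u hu => by
  by_cases u1 : u = 1
  · simp [u1]
  rw [eq_comm, ← mul_inv_eq_iff_eq_mul, show x * x * u * (x * x)⁻¹ = x * (x * u * x⁻¹) * x⁻¹ by group]
  rcases of_three h hu (conj_mem hx hu) u1 (conj_ne_one.2 u1) with e | e
  · rw [e, e]
  · rw [e, ← conj_inv, e, inv_inv]

theorem z_fpf (h : Dm V S A ψ) : A ⊓ C[ψ (r 2)] = ⊥ := by
  by_contra e
  have n : ⟪ψ (r 2)⟫ ≤ N(A) := zpowers_le.2 (h.nrm _)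
  have d := coprime_abelian_cent_dprod n (h.pA.cop_of_ne (p2 ψ _).zpowers (by norm_num)) h.abA.ab
  rw [cen_zpowers] at d
  have n1 : A ⊓ C[ψ (r 2)] ≠ A := fun e => h.not_cen (by decide) (le_cen1.1 (inf_eq_left.1 e))
  have c1 := h.card_sub inf_le_left e n1
  have c2 : #⁅A, ⟪ψ (r 2)⟫⁆ = 3 := by have := d.card; rw [h.cA, c1] at this; omega
  have m : ψ (r 1) ∈ C[ψ (r 2)] := mem_cen1.2 (by rw [← map_mul, ← map_mul]; rfl)
  have n2 : ⟪ψ (r 1)⟫ ≤ N(⁅A, ⟪ψ (r 2)⟫⁆) := normsR (zpowers_le.2 (h.nrm _)) (norms_zpowers_of_cen1 (zpowers_le.2 m))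
  have := sq_cen c2 (n2 (mem_zpowers _))
  rw [← map_mul, show (r 1 * r 1 : DihedralGroup 4) = r 2 by decide] at this
  exact n1 (by
    have b : ⁅A, ⟪ψ (r 2)⟫⁆ = ⊥ := eq_bot_of_le (le_inf le_rfl (le_inf d.left (le_cen1.2 this))) d.inf
    rw [b, card_bot'] at c2; omega)

theorem sq (ψ : DihedralGroup 4 →* G) {u : DihedralGroup 4} (hu : u * u = 1) : ψ u * ψ u = 1 := by
  rw [← map_mul, hu, map_one]

theorem z_inv (h : Dm V S A ψ) (ha : a ∈ A) : ψ (r 2) * a * (ψ (r 2))⁻¹ = a⁻¹ :=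
  inv_of_fpf (sq ψ (by decide)) (h.nrm _) h.z_fpf ha

theorem conj2 (ψ : DihedralGroup 4 →* G) {u v w : DihedralGroup 4} (e : u * v = w) (a : G) :
    ψ w * a * (ψ w)⁻¹ = ψ u * (ψ v * a * (ψ v)⁻¹) * (ψ u)⁻¹ := by rw [← e, map_mul]; group

theorem card_cen (h : Dm V S A ψ) (i : ZMod 4) : #(A ⊓ C[ψ (sr i)]) = 3 := by
  refine h.card_sub inf_le_left (fun e => h.not_cen (u := sr (i + 2)) (by generalize i = j; clear * -; revert j; decide) (mem_cen.2 fun a ha => ?_))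
    fun e => h.not_cen (by generalize i = j; clear * -; revert j; decide) (le_cen1.1 (inf_eq_left.1 e))
  rw [eq_comm, ← mul_inv_eq_iff_eq_mul, conj2 ψ (sr_mul_r i 2), h.z_inv ha,
    inv_of_fpf (sq ψ (sr_mul_self i)) (h.nrm _) e (inv_mem ha), inv_inv]

theorem cj_cen (h : Dm V S A ψ) {u v w : DihedralGroup 4} (e : u * v * u⁻¹ = w) :
    cj (ψ u) (A ⊓ C[ψ v]) = A ⊓ C[ψ w] := by
  rw [cj_inf, cj_of_mem_nrm (h.nrm u), cj_cen1, ← map_inv, ← map_mul, ← map_mul, e]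

theorem cover (h : Dm V S A ψ) (ha : a ∈ A) : ∃ i, a ∈ C[ψ (sr i)] := by
  have cm := fun {x y} => h.abA.ab.comm (x := x) (y := y)
  have hb := conj_mem (h.nrm (sr 0)) ha
  set b := ψ (sr 0) * a * (ψ (sr 0))⁻¹ with hbd
  have sb : ψ (sr 0) * b * (ψ (sr 0))⁻¹ = a := by
    rw [hbd, ← conj2 ψ (sr_mul_self 0), map_one]; group
  have s2 : ∀ x ∈ A, ψ (sr 2) * x * (ψ (sr 2))⁻¹ = (ψ (sr 0) * x * (ψ (sr 0))⁻¹)⁻¹ := fun x hx => by
    rw [conj2 ψ (show sr 0 * r 2 = sr 2 by decide), h.z_inv hx]; group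
  have hx : a * b ∈ A ⊓ C[ψ (sr 0)] := ⟨mul_mem ha hb, mem_cen1.2 (mul_inv_eq_iff_eq_mul.1 (by
    rw [← conj_mul, sb, cm ha hb])).symm⟩
  have hy : a * b⁻¹ ∈ A ⊓ C[ψ (sr 2)] := ⟨A.mul_mem ha (A.inv_mem hb), mem_cen1.2 (mul_inv_eq_iff_eq_mul.1 (by
    rw [s2 _ (mul_mem ha (inv_mem hb)), ← conj_mul, conj_inv.symm, sb, ← hbd, mul_inv_rev, inv_inv])).symm⟩
  by_cases x1 : a * b = 1
  · exact ⟨2, mem_cen1.2 (mul_inv_eq_iff_eq_mul.1 (by rw [s2 a ha, ← hbd, eq_inv_of_mul_eq_one_left x1])).symm⟩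
  by_cases y1 : a * b⁻¹ = 1
  · exact ⟨0, mem_cen1.2 (mul_inv_eq_iff_eq_mul.1 (mul_inv_eq_one.1 y1).symm).symm⟩
  have hz : ψ (r 1) * (a * b) * (ψ (r 1))⁻¹ ∈ A ⊓ C[ψ (sr 2)] :=
    h.cj_cen (show r 1 * sr 0 * (r 1)⁻¹ = sr 2 by decide) ▸ conj_mem_cj.2 hx
  have e0 : a = (a * b * (a * b⁻¹)) ^ 2 := by
    have : a * b * (a * b⁻¹) = a * a := by rw [cm ha hb, mul_assoc, ← mul_assoc a, cm (mul_mem ha ha) (inv_mem hb)]; group
    rw [this, show (a * a) ^ 2 = a ^ 3 * a by simp only [pow_succ, pow_zero, one_mul, mul_assoc], h.abA.pow ha, one_mul]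
  generalize a * b = x at *
  generalize a * b⁻¹ = y at *
  have sx : ψ (sr 0) * x * (ψ (sr 0))⁻¹ = x := mul_inv_eq_iff_eq_mul.2 (mem_cen1.1 hx.2).symm
  have sy : ψ (sr 0) * y * (ψ (sr 0))⁻¹ = y⁻¹ := by
    rw [← inv_inj, ← s2 y hy.1, inv_inv]; exact mul_inv_eq_iff_eq_mul.2 (mem_cen1.1 hy.2).symm
  have rr : ψ (r 1) * (ψ (r 1) * x * (ψ (r 1))⁻¹) * (ψ (r 1))⁻¹ = x⁻¹ := by
    rw [← conj2 ψ (show r 1 * r 1 = r 2 by decide), h.z_inv hx.1]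
  rcases of_three (h.card_cen 2) hy hz y1 (conj_ne_one.2 x1) with e | e
  · refine ⟨3, e0 ▸ pow_mem (mem_cen1.2 (mul_inv_eq_iff_eq_mul.1 ?_).symm) 2⟩
    rw [e] at rr
    rw [conj2 ψ (show sr 1 * r 2 = sr 3 by decide), h.z_inv (mul_mem hx.1 hy.1), conj_inv.symm,
      conj2 ψ (show sr 0 * r 1 = sr 1 by decide), ← conj_mul (b := ψ (r 1)), e, rr, ← conj_mul, sy, conj_inv.symm, sx]
    group
  · refine ⟨1, e0 ▸ pow_mem (mem_cen1.2 (mul_inv_eq_iff_eq_mul.1 ?_).symm) 2⟩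
    rw [e, conj_inv.symm, inv_inj] at rr
    rw [conj2 ψ (show sr 0 * r 1 = sr 1 by decide), ← conj_mul (b := ψ (r 1)), e, rr, ← conj_mul, conj_inv.symm, sy, sx,
      inv_inv, cm hx.1 hy.1]

theorem cV (h : Dm V S A ψ) : V ⊓ C(A) = ⊥ :=
  (h.irr _ inf_le_left (norms_subcent h.nV h.nA.nrm)).resolve_right fun e => by
    have := eq_bot_of_le (le_inf h.nA.le (centsC (inf_eq_left.1 e))) h.ff
    have c := h.cA
    rw [this, card_bot'] at c; omega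

/-- the four-groups -/
abbrev Bf (ψ : DihedralGroup 4 →* G) (i : ZMod 4) : Subgroup G := ⟪ψ (sr i)⟫ ⊔ ⟪ψ (r 2)⟫

theorem Bf_le (ψ : DihedralGroup 4 →* G) (i : ZMod 4) : Bf ψ i ≤ ψ.range :=
  sup_le (zpowers_le.2 ⟨_, rfl⟩) (zpowers_le.2 ⟨_, rfl⟩)

theorem main (h : Dm V S A ψ) (i : ZMod 4) (hn : V ⊓ C(A ⊓ C[ψ (sr i)]) ≠ ⊥) :
    #V = 16 ∧ #(V ⊓ C(Bf ψ i)) ≠ 2 ∧ #(V ⊓ C(Bf ψ (i + 1))) = 2 := by
  have hAS := h.nA.le
  have e1 := h.cj_cen (show r 1 * sr i * (r 1)⁻¹ = sr (i + 2) by generalize i = j; clear * -; revert j; decide)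
  have e2 := h.cj_cen (show r 1 * sr (i + 2) * (r 1)⁻¹ = sr i by generalize i = j; clear * -; revert j; decide)
  have e3 := h.cj_cen (show sr i * sr i * (sr i)⁻¹ = sr i by generalize i = j; clear * -; revert j; decide)
  have e4 := h.cj_cen (show sr i * sr (i + 2) * (sr i)⁻¹ = sr (i + 2) by generalize i = j; clear * -; revert j; decide)
  have c1 := h.card_cen i
  have c2 := h.card_cen (i + 2)
  have i12 : A ⊓ C[ψ (sr i)] ⊓ (A ⊓ C[ψ (sr (i + 2))]) = ⊥ := eq_bot_of_le (fun a ha => mem_inf.2 ⟨ha.1.1, by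
    rw [show (r 2 : DihedralGroup 4) = sr i * sr (i + 2) by generalize i = j; clear * -; revert j; decide, map_mul]
    exact cen1_comm.1 (mul_mem (cen1_comm.1 ha.1.2) (cen1_comm.1 ha.2.2))⟩) h.z_fpf
  have s12 : A ⊓ C[ψ (sr i)] ⊔ A ⊓ C[ψ (sr (i + 2))] = A := eq_of_card_eq (sup_le inf_le_left inf_le_left) (by
    rw [card_sup_of_inf (inf_le_left.trans (h.abA.ab.norms inf_le_left)) i12, c1, c2, h.cA])
  have k2 : A ⊓ C[ψ (sr (i + 2))] ≤ C[ψ (sr (i + 2))] := inf_le_right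
  have l1 : A ⊓ C[ψ (sr i)] ≤ A := inf_le_left
  have l2 : A ⊓ C[ψ (sr (i + 2))] ≤ A := inf_le_left
  generalize A ⊓ C[ψ (sr i)] = A₁ at *
  generalize A ⊓ C[ψ (sr (i + 2))] = A₂ at *
  have f : ∀ {u : DihedralGroup 4} {X Y : Subgroup G}, cj (ψ u) X = Y → cj (ψ u) (V ⊓ C(X)) = V ⊓ C(Y) := fun e => by
    rw [cj_inf, cj_of_mem_nrm (h.nV (h.mem _)), FT.cj_cen, e]
  have f1 := f e1
  have f2 := f e2
  have f3 := cj_eq_self.1 (f e3)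
  have f4 := cj_eq_self.1 (f e4)
  have nA : ∀ {X}, X ≤ A → A ≤ N(V ⊓ C(X)) := fun hX => norms_subcent (hAS.trans h.nV) (h.abA.ab.norms hX)
  have v12 : V ⊓ C(A₁) ⊓ (V ⊓ C(A₂)) = ⊥ := by rw [← inf_inf_distrib_left, ← cen_sup, s12, h.cV]
  have a1 := nA l1
  have a2 := nA l2
  have cc : V ⊓ C(A₁) ≤ C(A₁) := inf_le_right
  have w1 : V ⊓ C(A₁) ≤ V := inf_le_left
  have w2 : V ⊓ C(A₂) ≤ V := inf_le_left
  have x2 : V ⊓ C(A₁) ⊓ C(A₂) = ⊥ := by rw [← v12, inf_assoc, inf_inf_distrib_left]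
  generalize V ⊓ C(A₁) = V₁ at *
  generalize V ⊓ C(A₂) = V₂ at *
  have zz : ∀ X : Subgroup G, cj (ψ (r 2)) X = cj (ψ (r 1)) (cj (ψ (r 1)) X) := fun X => by rw [cj_cj, ← map_mul]; rfl
  have z1 : ψ (r 2) ∈ N(V₁) := cj_eq_self.1 (by rw [zz, f1, f2])
  have z2 : ψ (r 2) ∈ N(V₂) := cj_eq_self.1 (by rw [zz, f2, f1])
  have key : ∀ U, U ≤ V₁ → U ≠ ⊥ → A ≤ N(U) → ψ (sr i) ∈ N(U) → ψ (r 2) ∈ N(U) → U ⊔ cj (ψ (r 1)) U = V := by
    intro U h1 h2 h3 h4 h5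
    refine (h.irr _ (sup_le (h1.trans w1) (cj_le_of_nrm (h.nV (h.mem _)) (h1.trans w1))) ?_).resolve_left
      (ne_bot_of_le le_sup_left h2)
    have a : ψ (r 1) ∈ N(U ⊔ cj (ψ (r 1)) U) := cj_eq_self.1 (by rw [cj_sup, ← zz, cj_of_mem_nrm h5, sup_comm])
    have b : ψ (sr i) ∈ N(U ⊔ cj (ψ (r 1)) U) := cj_eq_self.1 (by
      rw [cj_sup, cj_of_mem_nrm h4, cj_cj, ← map_mul, show sr i * r 1 = r 1 * (r 2 * sr i) by generalize i = j; clear * -; revert j; decide,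
        map_mul, map_mul, ← cj_cj, cj_of_mem_nrm (mul_mem h5 h4)])
    rw [← h.gen]
    refine sup_le (normsY h3 (cj_of_mem_nrm (h.nrm (r 1)) ▸ cj_norms.2 h3)) ?_
    rintro _ ⟨u, rfl⟩
    obtain ⟨k, e | e⟩ : ∃ k : Fin 4, u = r 1 ^ (k : ℕ) ∨ u = sr i * r 1 ^ (k : ℕ) := by
      generalize i = j; clear * -; revert u j; decide
    · rw [e, map_pow]; exact pow_mem a _
    · rw [e, map_mul, map_pow]; exact mul_mem b (pow_mem a _)
  have D : DP V₁ V₂ V := ⟨h.abV.ab.cents w1 w2, f1 ▸ key V₁ le_rfl hn a1 f3 z1, v12⟩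
  have cV2 : #V₂ = #V₁ := by rw [← f1, card_cj]
  have irr : ∀ U, U ≤ V₁ → U ≠ ⊥ → A₂ ≤ N(U) → ψ (sr i) ∈ N(U) → ψ (r 2) ∈ N(U) → U = V₁ := by
    intro U h1 h2 h3 h4 h5
    have a := key U h1 h2 (s12 ▸ sup_le (cents_norm (centsC (h1.trans cc))) h3) h4 h5
    have b := Nat.le_of_dvd (Nat.mul_pos (card_pos _) (card_pos _)) (card_sup_dvd
      ((cj_le_of_nrm (h.nV (h.mem (r 1))) (h1.trans w1)).trans (h.abV.ab.norms (h1.trans w1))))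
    rw [a, D.card, cV2, card_cj] at b
    exact eq_of_card_le h1 (by nlinarith)
  have mc : ∀ {W : Subgroup G} {B}, W ≤ V → W ≠ ⊥ → B ≤ ψ.range → B ≤ N(W) → W ⊓ C(B) ≠ ⊥ := fun h1 h2 h3 h4 =>
    ((pX ψ).mono h3).meet_cen (h.pV.mono h1) h4 h2
  have mc1 : ∀ {W : Subgroup G} {u}, W ≤ V → W ≠ ⊥ → ψ u ∈ N(W) → W ⊓ C[ψ u] ≠ ⊥ := fun h1 h2 h4 =>
    cen_zpowers (ψ _) ▸ mc h1 h2 (zpowers_le.2 ⟨_, rfl⟩) (zpowers_le.2 h4)
  have sz : ψ (sr (i + 2)) = ψ (sr i) * ψ (r 2) := by rw [← map_mul, sr_mul_r]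
  have cm : ∀ {u v : DihedralGroup 4}, u * v = v * u → ψ u ∈ N(C[ψ v]) := fun e =>
    le_nrm _ (mem_cen1.2 (by rw [← map_mul, ← map_mul, e]))
  have t1 : V₁ ≤ C[ψ (sr (i + 2))] := inf_eq_left.1 (irr _ inf_le_left (mc1 w1 hn (sz ▸ mul_mem f3 z1))
    (normsI (l2.trans a1) (norms_cen1 k2)) (normsI (X := ⟪_⟫) (zpowers_le.2 f3) (zpowers_le.2 (cm (by generalize i = j; clear * -; revert j; decide)))
      (mem_zpowers _)) (normsI (X := ⟪_⟫) (zpowers_le.2 z1) (zpowers_le.2 (cm (by generalize i = j; clear * -; revert j; decide))) (mem_zpowers _)))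
  obtain ⟨a, ha, a0⟩ := exists_ne_one (ne_bot_of_prime_card (c2 ▸ Nat.prime_three))
  have ea := eq_zpowers_of_prime (c2 ▸ Nat.prime_three) ha a0
  have x3 : V₁ ⊓ C[a] = ⊥ := by rw [← cen_zpowers, ← ea, x2]
  have a3 : a ^ 3 = 1 := h.abA.pow (l2 ha)
  have a3' : a * a * a = 1 := by rw [← a3, pow_succ, pow_two]
  have za := h.z_inv (l2 ha)
  have zV : ¬ V₁ ≤ C[ψ (r 2)] := fun e => hn (by
    have b : ψ (r 2) ∈ C(V₁) := le_cen1.1 e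
    have c := mul_mem (conj_mem (norms_cent (l2.trans a1) ha) b) (inv_mem b)
    rw [show a * ψ (r 2) * a⁻¹ * (ψ (r 2))⁻¹ = a * (ψ (r 2) * a * (ψ (r 2))⁻¹)⁻¹ by group, za, inv_inv] at c
    have d := pow_mem c 2
    rw [show (a * a) ^ 2 = a ^ 3 * a by simp only [pow_succ, pow_zero, one_mul, mul_assoc], a3, one_mul] at d
    rwa [inf_eq_left.2 (le_cen1.2 d)] at x3)
  obtain ⟨v, ⟨hv, vz⟩, v1⟩ := exists_ne_one (mc1 w1 hn z1)
  have cV1 : #V₁ = 4 := by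
    have n := a1 (l2 ha)
    have hv' := conj_mem n hv
    have hv'' := conj_mem n hv'
    have cm := fun {x y} hx hy => h.abV.ab.comm (x := x) (y := y) (w1 hx) (w1 hy)
    have sq : ∀ {x}, x ∈ V₁ → x * x = 1 := fun hx => by rw [← pow_two]; exact h.abV.pow (w1 hx)
    have aaa : a * (a * (a * v * a⁻¹) * a⁻¹) * a⁻¹ = v := by
      rw [show a * (a * (a * v * a⁻¹) * a⁻¹) * a⁻¹ = (a * a * a) * v * (a * a * a)⁻¹ by group, a3']; group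
    have zv' : ψ (r 2) * (a * v * a⁻¹) * (ψ (r 2))⁻¹ = a * (a * v * a⁻¹) * a⁻¹ := by
      have : a⁻¹ = a * a := by rw [eq_comm, ← mul_eq_one_iff_eq_inv, a3']
      rw [← conj_mul, ← conj_mul, conj_inv.symm, za, ← mem_cen1.1 vz, mul_inv_cancel_right]
      calc a⁻¹ * v * a⁻¹⁻¹ = (a * a) * v * (a * a)⁻¹ := by rw [this]
        _ = _ := by group
    generalize hw : a * v * a⁻¹ = w at *
    generalize hw' : a * w * a⁻¹ = w' at *
    have n0 : v * w * w' = 1 := eq_one_of_mem_inf x3 (mul_mem (mul_mem hv hv') hv'') (mem_cen1.2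
      (mul_inv_eq_iff_eq_mul.1 (by rw [← conj_mul, ← conj_mul, hw, hw', aaa, cm (mul_mem hv' hv'') hv, mul_assoc])).symm)
    have n1 : w' ∈ ⟪v⟫ ⊔ ⟪w⟫ := by
      rw [eq_inv_of_mul_eq_one_right n0]; exact inv_mem (mul_mem_sup (mem_zpowers _) (mem_zpowers _))
    have lU : ⟪v⟫ ⊔ ⟪w⟫ ≤ V₁ := sup_le (zpowers_le.2 hv) (zpowers_le.2 hv')
    have zU : ψ (r 2) ∈ N(⟪v⟫ ⊔ ⟪w⟫) := mem_nrm_of_cj_le (by
      rw [cj_sup, cj_zpowers, cj_zpowers, zv', ← mem_cen1.1 vz, mul_inv_cancel_right]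
      exact sup_le le_sup_left (zpowers_le.2 n1))
    have eU := irr _ lU (ne_bot_of_le le_sup_left (zpowers_ne_bot' v1)) (ea ▸ zpowers_le.2 (mem_nrm_of_cj_le (by
      rw [cj_sup, cj_zpowers, cj_zpowers, hw, hw']; exact sup_le le_sup_right (zpowers_le.2 n1))))
      (by
        have := mul_mem (cen_le_nrm _ (le_cen1.1 (lU.trans t1))) (inv_mem zU)
        rwa [sz, mul_inv_cancel_right] at this) zU
    have w0 : w ≠ 1 := hw ▸ conj_ne_one.2 v1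
    have cv := h.abV.card_zpowers Nat.prime_two (w1 hv) v1
    have cw := h.abV.card_zpowers Nat.prime_two (w1 hv') w0
    rw [← eU, card_sup_of_inf ((zpowers_le.2 (w1 hv')).trans (h.abV.ab.norms (zpowers_le.2 (w1 hv)))), cv, cw]
    refine prime_inf_of_not_le (cv ▸ Nat.prime_two) fun e => v1 (eq_one_of_mem_inf x3 hv ?_)
    have := eq_of_card_eq e (cv.trans cw.symm)
    exact cen1_comm.1 (cen_zpowers v ▸ cents_of_coprime_pred Nat.prime_two cv (zpowers_le.2 (cj_eq_self.1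
      (by rw [cj_zpowers, hw, this]))) (Nat.coprime_one_right _) (mem_zpowers a))
  have hn2 : V₂ ≠ ⊥ := f1 ▸ mt cj_eq_bot.1 hn
  refine ⟨by rw [D.card, cV2, cV1], ?_, ?_⟩
  · have n1 : Bf ψ i ≤ N(V₁) := sup_le (zpowers_le.2 f3) (zpowers_le.2 z1)
    have n2 : Bf ψ i ≤ N(V₂) := sup_le (zpowers_le.2 f4) (zpowers_le.2 z2)
    have b1 := one_lt_card (mc w1 hn (Bf_le ψ i) n1)
    have b2 := one_lt_card (mc w2 hn2 (Bf_le ψ i) n2)
    rw [(D.subcent n1 n2).card]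
    nlinarith
  · have b1 : #(V₁ ⊓ C[ψ (r 2)]) = 2 := by
      have a := card_dvd (inf_le_left : V₁ ⊓ C[ψ (r 2)] ≤ V₁)
      have b := one_lt_card (mc1 w1 hn z1)
      have c := card_lt (lt_of_le_of_ne (inf_le_left : V₁ ⊓ C[ψ (r 2)] ≤ V₁) fun e => zV (inf_eq_left.1 e))
      rw [cV1] at a c
      generalize #(V₁ ⊓ C[ψ (r 2)]) = m at *
      interval_cases m <;> omega
    have b2 : #(V₂ ⊓ C[ψ (r 2)]) = 2 := by
      rw [← b1, ← card_cj (ψ (r 1)) (V₁ ⊓ _), cj_inf, f1, cj_cen1, ← map_inv, ← map_mul, ← map_mul]; rfl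
    have b3 := (D.subcent1 z1 z2).card
    rw [b1, b2] at b3
    have le : V ⊓ C(Bf ψ (i + 1)) ≤ V ⊓ C[ψ (r 2)] := inf_le_inf_left _ (cen_le_cen1 (mem_sup_right (mem_zpowers _)))
    have a := card_dvd le
    have b := one_lt_card (mc le_rfl h.ne (Bf_le ψ (i + 1)) ((Bf_le ψ _).trans (le_sup_right.trans (h.gen.le.trans h.nV))))
    have c := card_lt (lt_of_le_of_ne le fun e => v1 (by
      have d := mem_cen1.1 (cen_le_cen1 (mem_sup_left (mem_zpowers _)) (e.ge ⟨w1 hv, vz⟩).2)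
      refine eq_one_of_mem_inf v12 hv ?_
      rw [← mul_inv_eq_iff_eq_mul.2 d.symm, conj2 ψ (sr_mul_r i 1)]
      exact conj_mem f4 (f1 ▸ conj_mem_cj.2 hv)))
    rw [b3] at a c
    generalize #(V ⊓ C(Bf ψ (i + 1))) = m at *
    interval_cases m <;> omega

theorem Bf_card (h : Dm V S A ψ) (i : ZMod 4) : #(Bf ψ i) = 4 ∧ ∀ b ∈ Bf ψ i, b ^ 2 = 1 := by
  have o : ∀ {u : DihedralGroup 4}, u ^ 2 = 1 → u ≠ 1 → #⟪ψ u⟫ = 2 := fun h1 h2 => by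
    rw [card_zpowers', orderOf_injective ψ h.inj]; exact orderOf_eq_prime h1 h2
  have c : ψ (r 2) ∈ C(⟪ψ (sr i)⟫) := by
    rw [cen_zpowers, mem_cen1, ← map_mul, ← map_mul]; congr 1; generalize i = j; clear * -; revert j; decide
  have o1 := o (u := sr i) (by generalize i = j; clear * -; revert j; decide) (by generalize i = j; clear * -; revert j; decide)
  have o2 := o (u := r 2) (by decide) (by decide)
  refine ⟨?_, fun b hb => ((abelem_of_card_prime Nat.prime_two o1).sup_zpowers c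
    (by rw [← map_pow, show (r 2 : DihedralGroup 4) ^ 2 = 1 by decide, map_one])).pow hb⟩
  rw [card_sup_of_inf (zpowers_le.2 (cen_le_nrm _ c)), o1, o2]
  refine prime_inf_of_not_le (o1 ▸ Nat.prime_two) fun e => ?_
  rw [zpowers_le, ← MonoidHom.map_zpowers, mem_map_iff_mem h.inj] at e
  obtain ⟨k, hk⟩ := mem_zpowers_iff.1 e
  rw [r_zpow] at hk; cases hk

theorem Bf_uniq (h : Dm V S A ψ) (i : ZMod 4) (h1 : B ≤ ψ.range) (h2 : #B = 4) (h3 : ∀ b ∈ B, b ^ 2 = 1) :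
    B = Bf ψ i ∨ B = Bf ψ (i + 1) := by
  by_contra! hn
  obtain ⟨x, hx, nx⟩ := SetLike.not_le_iff_exists.1 fun e => hn.1 (eq_of_card_eq e (h2.trans (h.Bf_card i).1.symm))
  obtain ⟨y, hy, ny⟩ := SetLike.not_le_iff_exists.1 fun e => hn.2 (eq_of_card_eq e (h2.trans (h.Bf_card _).1.symm))
  obtain ⟨u, rfl⟩ := h1 hx
  obtain ⟨v, rfl⟩ := h1 hy
  have a := h3 _ hx
  have b := h3 _ hy
  have c := h3 _ (mul_mem hx hy)
  rw [← map_mul] at c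
  rw [← map_pow, map_eq_one_iff ψ h.inj] at a b c
  have m : ∀ (j : ZMod 4) (u : DihedralGroup 4), (u = 1 ∨ u = sr j ∨ u = r 2 ∨ u = sr j * r 2) → ψ u ∈ Bf ψ j := by
    rintro j u (rfl | rfl | rfl | rfl)
    exacts [map_one ψ ▸ one_mem _, mem_sup_left (mem_zpowers _), mem_sup_right (mem_zpowers _),
      map_mul ψ _ _ ▸ mul_mem_sup (mem_zpowers _) (mem_zpowers _)]
  have : ∀ (i : ZMod 4) (u v : DihedralGroup 4), u ^ 2 = 1 → v ^ 2 = 1 → (u * v) ^ 2 = 1 →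
      (u = 1 ∨ u = sr i ∨ u = r 2 ∨ u = sr i * r 2) ∨ (v = 1 ∨ v = sr (i + 1) ∨ v = r 2 ∨ v = sr (i + 1) * r 2) := by
    decide
  exact (this i u v a b c).elim (fun e => nx (m _ _ e)) fun e => ny (m _ _ e)

theorem final (h : Dm V S A ψ) :
    #V = 16 ∧ ∃! B : Subgroup G, B ≤ ψ.range ∧ #B = 4 ∧ (∀ b ∈ B, b ^ 2 = 1) ∧ #(V ⊓ C(B)) = 2 := by
  obtain ⟨a, ha, a1, hn⟩ := coprime_abelian_exists_cent1_ne h.abA.ab (fun hc => by
    have := hc.card_dvd_of_pow (n := 3) fun x hx => h.abA.pow hx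
    rw [h.cA] at this; omega) (h.nA.le.trans h.nV) (h.pV.cop_of_ne h.pA (by norm_num)) h.ne
  obtain ⟨i, hi⟩ := h.cover ha
  rw [cen1_eq_of_prime (h.card_cen i ▸ Nat.prime_three) (mem_inf.2 ⟨ha, hi⟩) a1] at hn
  obtain ⟨h1, h2, h3⟩ := h.main i hn
  exact ⟨h1, Bf ψ (i + 1), ⟨Bf_le ψ _, (h.Bf_card _).1, (h.Bf_card _).2, h3⟩, fun B ⟨k1, k2, k3, k4⟩ =>
    (h.Bf_uniq i k1 k2 k3).resolve_left fun e => h2 (e ▸ k4)⟩

end Dm

end Cfsg.Agent.H5g
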