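import Mathlib
import Cfsg.Agent.H7.Det
import Cfsg.Agent.H7.Gallagher
import Cfsg.Agent.H6.Kernel
import Cfsg.Agent.H7.GlCyc

/-! Dade's extension theorem for extraspecial `2`-groups: the character constructions. -/

set_option autoImplicit false

namespace Cfsg.Agent.H5d

open Cfsg Cfsg.Agent.H7 Subgroup SemidirectProduct
open scoped commutatorElement

/-- An extraspecial `2`-group or a group of order two, with central involution `z`. -/
structure XS {E : Type*} [Group E] (z : E) : Prop where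
  oz : orderOf z = 2
  cen : center E = zpowers z
  comm : ∀ x y : E, ⁅x, y⁆ ∈ zpowers z
  sq : ∀ x : E, x * x ∈ zpowers z

/-- A character of the right degree with `z` acting as `-1`. -/
structure Gd {G : Type*} [Group G] (z : G) (n : ℕ) (χ : G → ℂ) : Prop where
  ch : IsCharacter G χ
  neg : χ z = -χ 1
  deg : 2 * χ 1 ^ 2 = n

variable {E G H : Type*} [Group E] [Group G] [Group H] {z : E}

theorem Gd.comp {z : G} {n : ℕ} {χ : G → ℂ} (h : Gd z n χ) (f : H →* G) {w : H} (hw : f w = z) :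
    Gd w n fun x => χ (f x) :=
  ⟨char_comp f h.ch, by simpa [hw] using h.neg, by simpa using h.deg⟩

theorem Gd.mul [Finite G] {z : G} {n : ℕ} {χ : G → ℂ} (h : Gd z n χ) (g : G) :
    χ (z * g) = -χ g := by
  obtain ⟨c, -, hc⟩ := (H6.mem_charCenter_iff h.ch (g := z)).mpr (by rw [h.neg, norm_neg])
  by_cases h0 : χ 1 = 0
  · rw [char_eq_zero_of_one h.ch h0]; simp
  have := hc 1
  rw [mul_one, h.neg, ← neg_one_mul, mul_left_inj' h0] at this
  rw [hc, ← this, neg_one_mul]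

namespace XS

variable (h : XS z)
include h

theorem ne : z ≠ 1 := fun e => by simpa [e] using h.oz

theorem zz : z * z = 1 := by rw [← pow_two, ← h.oz, pow_orderOf_eq_one]

theorem zi : z⁻¹ = z := inv_eq_of_mul_eq_one_right h.zz

theorem mem {x : E} : x ∈ zpowers z ↔ x = 1 ∨ x = z := by
  constructor
  · rintro ⟨k, rfl⟩
    rcases Int.even_or_odd' k with ⟨m, rfl | rfl⟩
    · left; simp only [zpow_mul, zpow_two, h.zz, one_zpow]
    · right; simp only [zpow_add, zpow_mul, zpow_two, h.zz, one_zpow, one_mul, zpow_one]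
  · rintro (rfl | rfl)
    exacts [one_mem _, mem_zpowers _]

theorem cz {x : E} (hx : x ∈ zpowers z) (y : E) : y * x = x * y :=
  mem_center_iff.mp (h.cen ▸ hx) y

theorem mem_of {x : E} (hx : ∀ y, y * x = x * y) : x ∈ zpowers z := h.cen ▸ mem_center_iff.mpr hx

theorem aut (σ : MulAut E) {x : E} (hx : x ∈ zpowers z) : σ x = x := by
  rcases h.mem.mp hx with rfl | rfl
  · exact map_one σ
  refine (h.mem.mp (h.mem_of fun y => ?_)).resolve_left (by simpa using h.ne)
  obtain ⟨y, rfl⟩ := σ.surjective y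
  rw [← map_mul, h.cz hx, map_mul]

theorem pG : IsPGroup 2 E := fun x => ⟨2, by
  rw [show x ^ 2 ^ 2 = (x * x) * (x * x) by simp only [pow_succ, pow_zero, one_mul, mul_assoc,
    show 2 * 2 = 1 + 1 + 1 + 1 from rfl]]
  rcases h.mem.mp (h.sq x) with e | e <;> rw [e]
  exacts [mul_one 1, h.zz]⟩

theorem comm_mul (x x' y : E) : ⁅x * x', y⁆ = ⁅x, y⁆ * ⁅x', y⁆ := by
  have := h.cz (h.comm x' y) x
  rw [show ⁅x * x', y⁆ = x * ⁅x', y⁆ * (y * x⁻¹ * y⁻¹) by simp only [commutatorElement_def]; group,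
    this, h.cz (h.comm x' y), commutatorElement_def x y]
  group

theorem normal {W : Subgroup E} (hW : z ∈ W) : W.Normal := ⟨fun x hx y => by
  have := mul_mem (zpowers_le.mpr hW (h.comm y x)) hx
  simpa [commutatorElement_def] using this⟩

theorem of_prod {E₁ E₂ : Type*} [Group E₁] [Group E₂] {i : E₁ →* E} {j : E₂ →* E}
    (hi : Function.Injective i) (hc : ∀ x y, i x * j y = j y * i x)
    (hs : ∀ e, ∃ x y, e = i x * j y) {w : E₁} (hw : i w = z) : XS w := by
  have key : ∀ x, i x ∈ zpowers z → x ∈ zpowers w := fun x ⟨k, hk⟩ =>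
    ⟨k, hi (by rw [map_zpow, hw]; exact hk)⟩
  refine ⟨by rw [← orderOf_injective i hi, hw, h.oz], le_antisymm (fun x hx => key _ (h.mem_of
    fun e => ?_)) (zpowers_le.mpr (mem_center_iff.mpr fun y => hi ?_)),
    fun x y => key _ (by rw [map_commutatorElement]; exact h.comm _ _),
    fun x => key _ (by rw [map_mul]; exact h.sq _)⟩
  · obtain ⟨a, b, rfl⟩ := hs e
    rw [mul_assoc, ← hc, ← mul_assoc, ← map_mul, mem_center_iff.mp hx, map_mul, mul_assoc]
  · rw [map_mul, map_mul, hw, h.cz (mem_zpowers z)]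

variable [Finite E]

theorem vanish {n : ℕ} {χ : E → ℂ} (g : Gd z n χ) {x : E} (hx : x ∉ zpowers z) : χ x = 0 := by
  obtain ⟨y, hy⟩ : ∃ y, y * x ≠ x * y := not_forall.mp fun e => hx (h.mem_of e)
  have h1 := (h.mem.mp (h.comm y x)).resolve_left
    (mt commutatorElement_eq_one_iff_mul_comm.mp hy)
  have h2 := g.mul x
  rw [← h1, commutatorElement_def, inv_mul_cancel_right, char_cf g.ch] at h2
  exact self_eq_neg.mp h2

theorem ip_self {n : ℕ} {χ : E → ℂ} (g : Gd z n χ) : ip χ χ = (Nat.card E : ℂ)⁻¹ * n := by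
  classical
  have := Fintype.ofFinite E
  obtain ⟨d, hd⟩ := char_one_nat g.ch
  rw [ip_def, Finset.sum_eq_add 1 z h.ne.symm (fun x _ hx => by
    rw [h.vanish g (by rw [h.mem]; tauto), zero_mul]) (by simp) (by simp), g.neg, ← g.deg, hd]
  simp; ring_nf

theorem irr {χ : E → ℂ} (g : Gd z (Nat.card E) χ) : IsIrrCharacter E χ :=
  irr_of_ip_one g.ch (by rw [h.ip_self g, inv_mul_cancel₀ (card_ne_zero' E)])

theorem gd_of_irr {χ : E → ℂ} (hχ : IsIrrCharacter E χ) (h1 : χ z ≠ χ 1) :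
    Gd z (Nat.card E) χ := by
  obtain ⟨d, hd⟩ := char_one_nat (irr_char hχ)
  obtain ⟨c, -, hc⟩ := H6.center_le_charCenter hχ (h.cen ▸ mem_zpowers z)
  have h2 : χ z = -χ 1 := by
    have a := hc 1
    have b := hc z
    rw [mul_one] at a
    rw [h.zz, a, ← mul_assoc, eq_comm, mul_eq_right₀ (irr_one_ne_zero hχ),
      mul_self_eq_one_iff] at b
    rcases b with rfl | rfl
    · exact absurd (by rw [a, one_mul]) h1
    · rw [a, neg_one_mul]
  have g : Gd z (2 * d ^ 2) χ := ⟨irr_char hχ, h2, by rw [hd]; simp⟩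
  have := h.ip_self g
  rw [ip_irr_self hχ, eq_inv_mul_iff_mul_eq₀ (card_ne_zero' E), mul_one, Nat.cast_inj] at this
  rwa [this]

theorem exists_gd : ∃ χ, Gd z (Nat.card E) χ := by
  obtain ⟨χ, h1, h2⟩ := H6.exists_irr_not_mem_charKer h.ne
  exact ⟨χ, h.gd_of_irr h1 (mt (H6.mem_charKer_iff_irr h1).mpr h2)⟩

theorem uniq {n : ℕ} {χ ψ : E → ℂ} (g : Gd z n χ) (g' : Gd z n ψ) : χ = ψ := by
  have h1 : χ 1 = ψ 1 := by
    obtain ⟨c, hc⟩ := char_one_nat g.ch
    obtain ⟨d, hd⟩ := char_one_nat g'.ch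
    have := g.deg.trans g'.deg.symm
    rw [hc, hd, mul_right_inj' two_ne_zero] at this
    rw [hc, hd, Nat.cast_inj]
    exact Nat.pow_left_injective two_ne_zero (by exact_mod_cast this)
  funext x
  by_cases hx : x ∈ zpowers z
  · rcases h.mem.mp hx with rfl | rfl
    · exact h1
    · rw [g.neg, g'.neg, h1]
  · rw [h.vanish g hx, h.vanish g' hx]

theorem inv {f : E →* G} (hf : IsNE f) {n : ℕ} {χ : E → ℂ} (g : Gd z n χ) : hf.Inv χ := fun x =>
  h.uniq (g.comp (hf.cj x).toMonoidHom (h.aut _ (mem_zpowers z))) g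

end XS

theorem Gd.of_ext {f : E →* G} {n : ℕ} {θ : E → ℂ} (g : Gd z n θ) {χ : G → ℂ}
    (hχ : IsCharacter G χ) (e : ∀ x, χ (f x) = θ x) : Gd (f z) n χ := by
  have h1 : χ 1 = θ 1 := by rw [← e, map_one]
  exact ⟨hχ, by rw [e, h1, g.neg], by rw [h1, g.deg]⟩

/-- The faithful character extends to the semidirect product. -/
def Ext (φ : H →* MulAut E) (z : E) : Prop :=
  ∃ χ : E ⋊[φ] H → ℂ, Gd (inl z) (Nat.card E) χ

theorem isNE_inl (φ : H →* MulAut E) : IsNE (inl : E →* E ⋊[φ] H) :=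
  ⟨inl_injective, by rw [range_inl_eq_ker_rightHom]; infer_instance⟩

theorem finite_sd [Finite E] [Finite H] (φ : H →* MulAut E) : Finite (E ⋊[φ] H) :=
  Finite.of_equiv _ equivProd.symm

theorem Ext.comp {H' : Type*} [Group H'] {φ : H →* MulAut E} (h : Ext φ z) (f : H' →* H) :
    Ext (φ.comp f) z := by
  obtain ⟨χ, g⟩ := h
  exact ⟨_, g.comp (map (MonoidHom.id E) f fun _ => rfl) (map_inl _ _ _ _)⟩

variable [Finite E] [Finite H] {φ : H →* MulAut E}

theorem ext_of_odd (h : XS z) (T : Subgroup H) (hT : Odd T.index)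
    (e : Ext (φ.comp T.subtype) z) : Ext φ z := by
  have := finite_sd φ
  obtain ⟨χ, g⟩ := e
  have g1 := g.comp inl rfl
  obtain ⟨d, hd⟩ := char_one_nat g1.ch
  obtain ⟨ψ, h1, h2⟩ := (isNE_inl φ).exists_ext_of_local' (h.irr g1) (h.inv _ g1) hd
    fun p hp _ h2 => by
      obtain ⟨s, hs⟩ := IsPGroup.iff_card.mp h.pG
      obtain rfl : p = 2 := by
        have := h2.trans (mul_dvd_mul (detOrder_dvd_card _) (H6.degree_dvd_card (h.irr g1) hd))
        rw [hs, ← pow_add] at this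
        exact (Nat.prime_dvd_prime_iff_eq hp Nat.prime_two).mp (hp.dvd_of_dvd_pow this)
      let k : T.comap (rightHom : E ⋊[φ] H →* H) →* E ⋊[φ.comp T.subtype] T :=
        { toFun := fun g => ⟨g.1.left, ⟨g.1.right, g.2⟩⟩
          map_one' := rfl
          map_mul' := fun _ _ => rfl }
      refine ⟨T.comap rightHom, fun n => T.one_mem, fun x => χ (k x), ?_, char_comp k g.ch,
        fun n => rfl⟩
      rw [index_comap_of_surjective _ rightHom_surjective]
      exact hT.not_two_dvd_nat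
  exact ⟨ψ, g1.of_ext (irr_char h1) h2⟩

theorem ext_of_cyclic (h : XS z) (hH : IsCyclic H) : Ext φ z := by
  have := finite_sd φ
  obtain ⟨θ, g⟩ := h.exists_gd
  obtain ⟨a, ha⟩ := IsCyclic.exists_generator (α := H)
  obtain ⟨ψ, h1, h2⟩ := (isNE_inl φ).exists_ext_of_cyclic (h.irr g) (h.inv _ g) (inr a) fun x => by
    obtain ⟨k, hk⟩ := ha x.right
    refine ⟨k, φ x.right⁻¹ x.left, ?_⟩
    rw [← map_zpow, show a ^ k = x.right from hk]
    ext <;> simp
  exact ⟨ψ, g.of_ext (irr_char h1) h2⟩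

theorem ext_of_index_two (h : XS z) (T : Subgroup H) [T.Normal] (hT : T.index = 2) {t : H}
    (ht : t ∉ T) {χ : E ⋊[φ.comp T.subtype] T → ℂ} (g : Gd (inl z) (Nat.card E) χ)
    (hi : ∀ x s, χ ⟨φ t x, MulAut.conjNormal t s⟩ = χ ⟨x, s⟩) : Ext φ z := by
  have := finite_sd φ
  have := finite_sd (φ.comp T.subtype)
  let f : E ⋊[φ.comp T.subtype] T →* E ⋊[φ] H := map (MonoidHom.id E) T.subtype fun _ => rfl
  have hr : f.range = T.comap rightHom := by
    ext x
    exact ⟨fun ⟨y, e⟩ => e ▸ y.right.2, fun hx => ⟨⟨x.left, ⟨x.right, hx⟩⟩, rfl⟩⟩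
  have hf : IsNE f := ⟨fun x y e => SemidirectProduct.ext (congrArg left e :)
    (Subtype.ext (congrArg right e :)), by rw [hr]; infer_instance⟩
  have h1 : IsIrrCharacter _ χ := irr_of_irr_comp inl g.ch (h.irr (g.comp inl rfl))
  have h2 : ∀ x : E ⋊[φ] H, ∃ (k : ℤ) (n : _), x = inr t ^ k * f n := fun x => by
    by_cases hx : x.right ∈ T
    · obtain ⟨n, rfl⟩ : x ∈ f.range := hr ▸ hx
      exact ⟨0, n, by simp⟩
    · obtain ⟨n, hn⟩ : (inr t)⁻¹ * x ∈ f.range := by
        rw [hr]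
        exact (mul_mem_iff_of_index_two hT).mpr (by simpa [ht] using hx)
      exact ⟨1, n, by simp [hn]⟩
  have h3 : inr t ∈ hf.inertia χ := hf.mem_inertia'.mpr fun n => by
    rw [hf.cj_eq (m := ⟨φ t n.left, MulAut.conjNormal t n.right⟩) (by ext <;> simp [f]), hi]
  obtain ⟨ψ, h4, h5⟩ := hf.exists_ext_of_cyclic h1 (fun x => by
    obtain ⟨k, n, rfl⟩ := h2 x
    exact mul_mem (zpow_mem h3 k) (hf.apply_mem_inertia (irr_cf h1) n)) (inr t) h2
  exact ⟨ψ, g.of_ext (irr_char h4) h5⟩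

theorem exists_prod (h : XS z) {E₁ E₂ : Type*} [Group E₁] [Group E₂] [Finite E₁] [Finite E₂]
    {φ₁ : H →* MulAut E₁} {φ₂ : H →* MulAut E₂} {i : E₁ →* E} {j : E₂ →* E}
    (hi : Function.Injective i) (hj : Function.Injective j)
    (ei : ∀ s x, i (φ₁ s x) = φ s (i x)) (ej : ∀ s x, j (φ₂ s x) = φ s (j x))
    (hc : ∀ x y, i x * j y = j y * i x) (hs : ∀ e, ∃ x y, e = i x * j y) {v : E₁} {w : E₂}
    (hv : i v = z) (hw : j w = z) {χ₁ : E₁ ⋊[φ₁] H → ℂ} {χ₂ : E₂ ⋊[φ₂] H → ℂ}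
    (g₁ : Gd (inl v) (Nat.card E₁) χ₁) (g₂ : Gd (inl w) (Nat.card E₂) χ₂) :
    ∃ χ : E ⋊[φ] H → ℂ, Gd (inl z) (Nat.card E) χ ∧
      ∀ x y s, χ ⟨i x * j y, s⟩ = χ₁ ⟨x, s⟩ * χ₂ ⟨y, s⟩ := by
  let ψ : H →* MulAut (E₁ × E₂) :=
    { toFun := fun s => MulEquiv.prodCongr (φ₁ s) (φ₂ s)
      map_one' := by simp only [map_one]; rfl
      map_mul' := fun a b => by simp only [map_mul]; rfl }
  have := finite_sd ψ
  have := finite_sd φ₁
  have := finite_sd φ₂
  let p₁ : (E₁ × E₂) ⋊[ψ] H →* E₁ ⋊[φ₁] H := map (MonoidHom.fst _ _) (MonoidHom.id H) fun _ => rfl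
  let p₂ : (E₁ × E₂) ⋊[ψ] H →* E₂ ⋊[φ₂] H := map (MonoidHom.snd _ _) (MonoidHom.id H) fun _ => rfl
  let m : E₁ × E₂ →* E := i.noncommCoprod j hc
  have hm : ∀ a, m a = 1 → a = 1 ∨ a = (v, w) := fun ⟨x, y⟩ e => by
    change i x * j y = 1 at e
    have h1 : i x ∈ zpowers z := h.mem_of fun u => by
      obtain ⟨a, b, rfl⟩ := hs u
      rw [mul_assoc, ← hc, ← mul_assoc, ← mul_assoc, eq_inv_of_mul_eq_one_left e, ← map_inv, hc]
    rcases h.mem.mp h1 with h2 | h2 <;> rw [h2] at e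
    · exact Or.inl (Prod.ext (hi (h2.trans (map_one i).symm))
        (hj ((one_mul _).symm.trans (e.trans (map_one j).symm))))
    · exact Or.inr (Prod.ext (hi (h2.trans hv.symm))
        (hj ((eq_inv_of_mul_eq_one_right e).trans (h.zi.trans hw.symm))))
  have hms : Function.Surjective m := fun e => by
    obtain ⟨x, y, rfl⟩ := hs e
    exact ⟨(x, y), rfl⟩
  let π : (E₁ × E₂) ⋊[ψ] H →* E ⋊[φ] H := map m (MonoidHom.id H) fun s => by
    refine MonoidHom.ext fun a => ?_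
    change i (φ₁ s a.1) * j (φ₂ s a.2) = φ s (i a.1 * j a.2)
    rw [map_mul, ei, ej]
  have hπ : Function.Surjective π := fun x => by
    obtain ⟨a, ha⟩ := hms x.left
    exact ⟨⟨a, x.right⟩, SemidirectProduct.ext ha rfl⟩
  obtain ⟨χ, h1, -, h2⟩ := H6.exists_isCharacter_comp_eq π hπ
    (char_mul (char_comp p₁ g₁.ch) (char_comp p₂ g₂.ch)) fun a ha x => by
      obtain ⟨a, s⟩ := a
      obtain rfl : s = 1 := congrArg right ha
      rcases hm a (congrArg left ha) with rfl | rfl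
      · exact congrArg _ (one_mul x)
      · simp only [Pi.mul_apply, map_mul]
        rw [show p₁ ⟨(v, w), 1⟩ = inl v from rfl, show p₂ ⟨(v, w), 1⟩ = inl w from rfl, g₁.mul,
          g₂.mul, neg_mul_neg]
  have h3 : ∀ x y s, χ ⟨i x * j y, s⟩ = χ₁ ⟨x, s⟩ * χ₂ ⟨y, s⟩ := fun x y s =>
    (congrFun h2 ⟨(x, y), s⟩).symm
  have h4 : χ 1 = χ₁ 1 * χ₂ 1 := by
    have := h3 1 1 1
    rwa [map_one, map_one, one_mul] at this
  refine ⟨χ, ⟨h1, ?_, ?_⟩, h3⟩
  · have := h3 v 1 1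
    rw [map_one, mul_one, hv] at this
    rw [h4, ← neg_mul, ← g₁.neg]; exact this
  · have h5 : Nat.card m.ker = 2 := by
      refine Nat.card_eq_two_iff.mpr ⟨1, ⟨(v, w), ?_⟩, fun e => h.ne ?_, ?_⟩
      · change i v * j w = 1
        rw [hv, hw, h.zz]
      · rw [← hv, ← show 1 = v from congrArg (fun a : m.ker => a.1.1) e, map_one]
      · refine Set.eq_univ_of_forall fun a => ?_
        rcases hm a a.2 with e | e
        exacts [Or.inl (Subtype.ext e), Or.inr (Subtype.ext e)]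
    have h6 := card_eq_ker_mul m hms
    rw [h5, Nat.card_prod] at h6
    have h7 : (Nat.card E₁ : ℂ) * Nat.card E₂ = 2 * Nat.card E := by exact_mod_cast h6
    rw [← g₁.deg, ← g₂.deg] at h7
    rw [h4]
    linear_combination h7 / 2

theorem ind_central [Finite G] {f : H →* G} (hf : Function.Injective f) (θ : H → ℂ) {a : H}
    (ha : f a ∈ center G) : ind f θ (f a) = f.range.index * θ a := by
  have := Fintype.ofFinite G
  rw [ind_apply_of_injective hf, Finset.sum_congr rfl (g := fun _ => θ a) fun x _ => by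
    rw [mem_center_iff.mp ha, inv_mul_cancel_right, hf.extend_apply], Finset.sum_const,
    Finset.card_univ, ← Nat.card_eq_fintype_card, ← card_mul_index_range hf, nsmul_eq_mul,
    Nat.cast_mul, mul_assoc, inv_mul_cancel_left₀ (card_ne_zero' H)]

theorem ext_of_quo (h : XS z) {D Q : Type*} [Group D] [Group Q] [Finite D] [Finite Q]
    {φ₁ : H →* MulAut D} {φ₂ : H →* MulAut Q} {i : D →* E} {π : D →* Q}
    (hi : Function.Injective i) (ei : ∀ s x, i (φ₁ s x) = φ s (i x))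
    (eπ : ∀ s x, π (φ₁ s x) = φ₂ s (π x)) {w : D} (hw : i w = z) {m : ℕ}
    (h1 : Nat.card D * m = Nat.card E) (h2 : Nat.card D = Nat.card Q * m)
    (e : Ext φ₂ (π w)) : Ext φ z := by
  have := finite_sd φ
  have := finite_sd φ₁
  obtain ⟨χ, g⟩ := e
  let f : D ⋊[φ₁] H →* E ⋊[φ] H := map i (MonoidHom.id H) fun s => MonoidHom.ext (ei s)
  let p : D ⋊[φ₁] H →* Q ⋊[φ₂] H := map π (MonoidHom.id H) fun s => MonoidHom.ext (eπ s)
  have hf : Function.Injective f := fun x y e =>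
    SemidirectProduct.ext (hi (congrArg left e :)) (congrArg right e :)
  have g1 := g.comp p (w := inl w) rfl
  have h3 : f.range.index = m := by
    have := card_mul_index_range hf
    rw [SemidirectProduct.card, SemidirectProduct.card, ← h1, mul_right_comm _ m] at this
    exact Nat.eq_of_mul_eq_mul_left (mul_pos Nat.card_pos Nat.card_pos) this
  have h4 : f (inl w) = inl z := by rw [← hw]; rfl
  refine ⟨ind f fun x => χ (p x), char_ind f g1.ch, ?_, ?_⟩
  · rw [← h4, ind_central hf, ind_apply_one hf, g1.neg, mul_neg]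
    rw [h4, mem_center_iff]
    intro x
    ext <;> simp [h.aut _ (mem_zpowers z), h.cz (mem_zpowers z)]
  · rw [ind_apply_one hf, h3, ← h1, h2]
    push_cast
    linear_combination (m : ℂ) ^ 2 * g1.deg

end Cfsg.Agent.H5d
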