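import Mathlib
import Cfsg.Agent.H5.Dd1
import Cfsg.Agent.H1.Coprime
import Cfsg.Agent.H2.MinNormal
import Cfsg.Agent.FT.Main

/-! Dade's extension theorem for extraspecial `2`-groups: the reductions. -/

set_option autoImplicit false

namespace Cfsg.Agent.H5d

open Cfsg Cfsg.Agent.H7 Subgroup SemidirectProduct
open scoped commutatorElement

universe u

section Act

variable {E H : Type*} [Group E] [Group H] (φ : H →* MulAut E)

/-- `W` is invariant. -/
def Iv (W : Subgroup E) : Prop := ∀ s, ∀ x ∈ W, φ s x ∈ W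

/-- The fixed points. -/
def Fix (B : Subgroup H) : Subgroup E where
  carrier := {x | ∀ b ∈ B, φ b x = x}
  one_mem' := fun _ _ => map_one _
  mul_mem' := fun ha hb b h => by rw [map_mul, ha b h, hb b h]
  inv_mem' := fun ha b h => by rw [map_inv, ha b h]

variable {φ}

theorem aa (s : H) (x : E) : φ s (φ s⁻¹ x) = x := by simp

theorem aa' (s : H) (x : E) : φ s⁻¹ (φ s x) = x := by simp

theorem am (s t : H) (x : E) : φ (s * t) x = φ s (φ t x) := by simp

/-- The action on an invariant subgroup. -/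
def subAct {W : Subgroup E} (hW : Iv φ W) : H →* MulAut W where
  toFun s :=
    { toFun := fun x => ⟨φ s x, hW s x x.2⟩
      invFun := fun x => ⟨φ s⁻¹ x, hW _ x x.2⟩
      left_inv := fun x => Subtype.ext (aa' (φ := φ) s x)
      right_inv := fun x => Subtype.ext (aa (φ := φ) s x)
      map_mul' := fun x y => Subtype.ext (map_mul _ _ _) }
  map_one' := MulEquiv.ext fun x => Subtype.ext (by simp)
  map_mul' s t := MulEquiv.ext fun x => Subtype.ext (am (φ := φ) s t x)

theorem subAct_coe {W : Subgroup E} (hW : Iv φ W) (s : H) (x : W) :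
    (subAct hW s x : E) = φ s x := rfl

/-- The action on the quotient by an invariant subgroup. -/
def quoAct {W : Subgroup E} [W.Normal] (hW : Iv φ W) : H →* MulAut (E ⧸ W) where
  toFun s :=
    { toFun := QuotientGroup.map W W (φ s).toMonoidHom (hW s)
      invFun := QuotientGroup.map W W (φ s⁻¹).toMonoidHom (hW s⁻¹)
      left_inv := fun x => QuotientGroup.induction_on x fun x => congrArg _ (aa' s x)
      right_inv := fun x => QuotientGroup.induction_on x fun x => congrArg _ (aa s x)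
      map_mul' := map_mul _ }
  map_one' := MulEquiv.ext fun x => QuotientGroup.induction_on x fun x =>
    congrArg QuotientGroup.mk (show φ 1 x = x by simp)
  map_mul' s t := MulEquiv.ext fun x => QuotientGroup.induction_on x fun x =>
    congrArg QuotientGroup.mk (am s t x)

theorem quoAct_mk {W : Subgroup E} [W.Normal] (hW : Iv φ W) (s : H) (x : E) :
    quoAct hW s (x : E ⧸ W) = (φ s x : E) := rfl

theorem Iv.cen {W : Subgroup E} (hW : Iv φ W) : Iv φ (centralizer (W : Set E)) :=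
  fun s x hx y hy => by
    rw [← aa (φ := φ) s y, ← map_mul, hx _ (hW _ _ hy), map_mul]

theorem Iv.inf {W W' : Subgroup E} (hW : Iv φ W) (hW' : Iv φ W') : Iv φ (W ⊓ W') :=
  fun s x hx => ⟨hW s x hx.1, hW' s x hx.2⟩

theorem iv_fix (B : Subgroup H) [hB : B.Normal] : Iv φ (Fix φ B) := fun s x hx b hb => by
  have := hx _ (hB.conj_mem' b hb s)
  rw [am, am] at this
  rw [← aa (φ := φ) s (φ b _), this]

variable [Finite E] [Finite H] {z : E}

theorem fixcoset (hE : IsPGroup 2 E) {K : Subgroup H} (hK : Odd (Nat.card K)) {W : Subgroup E}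
    (hW : ∀ k ∈ K, ∀ x ∈ W, φ k x ∈ W) {x : E} (hx : ∀ k ∈ K, φ k x * x⁻¹ ∈ W) :
    ∃ w ∈ W, w * x ∈ Fix φ K := by
  have := finite_sd φ
  have hp : IsPGroup 2 (W.map (inl : E →* E ⋊[φ] H)) := (hE.to_subgroup W).map _
  obtain ⟨s, hs⟩ := IsPGroup.iff_card.mp hp
  obtain ⟨_, ⟨w, hw, rfl⟩, h⟩ := H1.exists_mul_mem_centralizer (K.map (inr : H →* E ⋊[φ] H))
    (W.map inl) (by
      rintro _ ⟨k, hk, rfl⟩
      refine mem_normalizer_fintype ?_
      rintro _ ⟨y, hy, rfl⟩
      exact ⟨φ k y, hW k hk y hy, by rw [inl_aut, map_inv]⟩)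
    (by rw [hs, card_map_of_injective inr_injective]; exact hK.coprime_two_right.pow_right s)
    (Or.inr (by have := hp.isNilpotent; infer_instance)) (inl x) (by
      rintro _ ⟨k, hk, rfl⟩
      exact ⟨_, hx k hk, by rw [map_mul, inl_aut, map_inv, map_inv]⟩)
  refine ⟨w, hw, fun k hk => ?_⟩
  have := congrArg left (h _ ⟨k, hk, rfl⟩)
  simpa using this

theorem XS.dual (h : XS z) (W : Subgroup E) : Nat.card ↥(W ⊓ zpowers z) * Nat.card E =
    Nat.card (centralizer (W : Set E)) * Nat.card W := by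
  classical
  have := Fintype.ofFinite E
  let σ : E → ℤ := fun u => if u = 1 then 1 else -1
  have hσ : ∀ u ∈ zpowers z, ∀ v ∈ zpowers z, σ (u * v) = σ u * σ v := fun u hu v hv => by
    rcases h.mem.mp hu with rfl | rfl <;> rcases h.mem.mp hv with e | e <;>
      simp [σ, e, h.ne, h.zz]
  have hi : ∀ x y : E, σ ⁅x, y⁆ = σ ⁅y, x⁆ := fun x y => by
    simp only [σ, commutatorElement_eq_one_iff_mul_comm, eq_comm (a := x * y)]
  let f : E → E →* ℤ := fun y =>
    { toFun := fun x => σ ⁅x, y⁆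
      map_one' := by simp [σ]
      map_mul' := fun a b => by rw [h.comm_mul, hσ _ (h.comm _ _) _ (h.comm _ _)] }
  have h1 : ∀ x y, f y x = 1 ↔ x * y = y * x := fun x y => by
    simp [f, σ, commutatorElement_eq_one_iff_mul_comm]
  have h2 : ∀ w : E, ∑ x, f w x = if w ∈ zpowers z then (Nat.card E : ℤ) else 0 := fun w => by
    split_ifs with hw
    · rw [Finset.sum_congr rfl fun x _ => (h1 x w).mpr (h.cz hw x)]; simp
    · exact sum_hom_units_eq_zero _ fun e => hw (h.mem_of fun y =>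
        (h1 y w).mp (DFunLike.congr_fun e y))
  have h3 : ∀ x : E, ∑ w : W, f x w =
      if x ∈ centralizer (W : Set E) then (Nat.card W : ℤ) else 0 := fun x => by
    split_ifs with hx
    · rw [Finset.sum_congr rfl fun (w : W) _ => (h1 w x).mpr (hx w w.2)]; simp
    · exact sum_hom_units_eq_zero ((f x).comp W.subtype) fun e => hx fun y hy =>
        (h1 y x).mp (DFunLike.congr_fun e ⟨y, hy⟩)
  have h4 : ∑ w : W, ∑ x, f w x = ∑ x, ∑ w : W, f x w := by
    rw [Finset.sum_comm]
    exact Finset.sum_congr rfl fun x _ => Finset.sum_congr rfl fun w _ => hi _ _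
  simp only [h2, h3, ← Finset.sum_filter, Finset.sum_const, nsmul_eq_mul] at h4
  rw [← Fintype.card_subtype, ← Fintype.card_subtype, ← Nat.card_eq_fintype_card,
    ← Nat.card_eq_fintype_card] at h4
  rw [← H2.card_subgroupOf_of_le (inf_le_left : W ⊓ zpowers z ≤ W), inf_subgroupOf_left]
  exact_mod_cast h4

omit [Finite E] [Finite H] in
theorem XS.zc (h : XS z) (S : Set E) : z ∈ centralizer S := fun y _ => h.cz (mem_zpowers z) y

theorem XS.cc (h : XS z) {W : Subgroup E} (hW : z ∈ W) :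
    centralizer (centralizer (W : Set E) : Set E) = W := by
  have h1 := h.dual W
  have h2 := h.dual (centralizer (W : Set E))
  rw [inf_eq_right.mpr (zpowers_le.mpr hW)] at h1
  rw [inf_eq_right.mpr (zpowers_le.mpr (h.zc _)), h1, mul_comm] at h2
  exact (eq_of_le_of_card_ge (le_centralizer_iff.mp le_rfl)
    (Nat.eq_of_mul_eq_mul_right Nat.card_pos h2).ge).symm

/-- The complement to the centre in an abelian invariant subgroup. -/
theorem exists_compl (h : XS z) {K : Subgroup H} [K.Normal] (hK : Odd (Nat.card K))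
    (hf : Fix φ K ≤ zpowers z) {R : Subgroup E} (hR : Iv φ R) (hz : z ∈ R)
    (hc : R ≤ centralizer (R : Set E)) (h0 : ¬ R ≤ zpowers z) :
    ∃ U : Subgroup E, Iv φ U ∧ U ≤ R ∧ z ∉ U ∧ U ≠ ⊥ := by
  have := Fintype.ofFinite K
  let _ : CommGroup R := { (inferInstance : Group R) with
    mul_comm := fun a b => Subtype.ext (hc b.2 a a.2) }
  let ψ := subAct hR
  let N : R →* R := ∏ k : K, (ψ k).toMonoidHom
  have hN : ∀ x, N x = ∏ k : K, ψ k x := fun x => MonoidHom.finsetProd_apply _ _ _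
  have h1 : ∀ s x, N (ψ s x) = ψ s (N x) := fun s x => by
    rw [hN, hN, map_prod, ← (MulAut.conjNormal s).toEquiv.prod_comp]
    refine Finset.prod_congr rfl fun k _ => ?_
    rw [← am, ← am]; simp
  have h2 : ∀ x, (N x : E) ∈ zpowers z := fun x => hf fun k hk => by
    rw [← subAct_coe hR, hN, map_prod]
    exact congrArg _ (Fintype.prod_equiv (Equiv.mulLeft (⟨k, hk⟩ : K)) _ _
      fun k => (am _ _ _).symm)
  have h3 : N ⟨z, hz⟩ = ⟨z, hz⟩ := by
    rw [hN, Finset.prod_congr rfl (g := fun _ => ⟨z, hz⟩) fun k _ =>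
      Subtype.ext (h.aut _ (mem_zpowers z)), Finset.prod_const, Finset.card_univ,
      ← Nat.card_eq_fintype_card]
    obtain ⟨m, hm⟩ := hK
    refine Subtype.ext ?_
    rw [hm, SubgroupClass.coe_pow, pow_succ, pow_mul, pow_two, h.zz, one_pow, one_mul]
  refine ⟨N.ker.map R.subtype, ?_, map_subtype_le _, ?_, fun e => h0 fun x hx => ?_⟩
  · rintro s _ ⟨x, hx, rfl⟩
    exact ⟨ψ s x, by rw [SetLike.mem_coe, MonoidHom.mem_ker, h1, hx, map_one], rfl⟩
  · rintro ⟨x, hx, e⟩
    obtain rfl : x = ⟨z, hz⟩ := Subtype.ext e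
    exact h.ne (congrArg Subtype.val (h3.symm.trans hx))
  · rcases h.mem.mp (h2 ⟨x, hx⟩) with e1 | e1
    · have : x ∈ N.ker.map R.subtype := ⟨⟨x, hx⟩, Subtype.ext e1, rfl⟩
      rw [e, mem_bot] at this
      exact this ▸ one_mem _
    · have : x * z ∈ N.ker.map R.subtype := ⟨⟨x, hx⟩ * ⟨z, hz⟩, Subtype.ext (by
        rw [map_mul, h3, coe_mul, e1]; exact h.zz), rfl⟩
      rw [e, mem_bot, mul_eq_one_iff_eq_inv] at this
      exact this ▸ inv_mem (mem_zpowers z)

end Act

/-- The statement for groups of small order. -/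
def St (n : ℕ) : Prop := ∀ (E H : Type u) [Group E] [Group H] [Finite E] [Finite H]
  (φ : H →* MulAut E) (z : E) (K : Subgroup H) [K.Normal], Nat.card E + Nat.card H < n → XS z →
    Odd (Nat.card K) → Fix φ K ≤ zpowers z → Ext φ z

variable {E H : Type u} [Group E] [Group H] [Finite E] [Finite H] {φ : H →* MulAut E} {z : E}
  {K : Subgroup H} [K.Normal]

theorem card_lt {W : Subgroup E} (h : W ≠ ⊤) : Nat.card W < Nat.card E :=
  lt_of_le_of_ne W.card_le_card_group fun e => h (W.eq_top_of_card_eq e)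

theorem fix_sub (hf : Fix φ K ≤ zpowers z) {W : Subgroup E} (hW : Iv φ W) (hz : z ∈ W) :
    Fix (subAct hW) K ≤ zpowers ⟨z, hz⟩ := fun x hx => by
  obtain ⟨k, hk⟩ := hf (x := x) fun b hb => congrArg Subtype.val (hx b hb)
  exact ⟨k, Subtype.ext hk⟩

theorem red_iso (ih : St.{u} (Nat.card E + Nat.card H)) (h : XS z) (hK : Odd (Nat.card K))
    (hf : Fix φ K ≤ zpowers z) {U : Subgroup E} (hU : Iv φ U) (hc : U ≤ centralizer (U : Set E))
    (hz : z ∉ U) (h0 : U ≠ ⊥) : Ext φ z := by
  set D := centralizer (U : Set E) with hD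
  have hUZ : U ⊓ zpowers z = ⊥ := eq_bot_iff.mpr fun x hx =>
    (h.mem.mp hx.2).resolve_right fun e => hz (e ▸ hx.1)
  have : (U.subgroupOf D).Normal := ⟨fun x hx y => by
    rw [mem_subgroupOf, coe_mul, coe_mul, ← y.2 x hx, coe_inv, mul_inv_cancel_right]; exact hx⟩
  have hI : Iv (subAct hU.cen) (U.subgroupOf D) := fun s x hx => hU s x hx
  let π := QuotientGroup.mk' (U.subgroupOf D)
  let w : D := ⟨z, h.zc _⟩
  have key : ∀ x : D, (x : E) ∈ zpowers z → π x ∈ zpowers (π w) := fun x ⟨k, hk⟩ =>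
    ⟨k, by rw [show x = w ^ k from Subtype.ext hk.symm, map_zpow]⟩
  have h1 := h.dual U
  rw [hUZ, card_bot, one_mul] at h1
  have h2 := card_eq_card_quotient_mul_card_subgroup (U.subgroupOf D)
  rw [H2.card_subgroupOf_of_le hc] at h2
  have hX : XS (π w) := by
    refine ⟨orderOf_eq_prime ?_ fun e => hz ((QuotientGroup.eq_one_iff w).mp e),
      le_antisymm (fun x hx => ?_) (zpowers_le.mpr (mem_center_iff.mpr fun y => ?_)),
      fun x y => ?_, fun x => ?_⟩
    · rw [← map_pow, show w ^ 2 = 1 from Subtype.ext (by rw [pow_two]; exact h.zz), map_one]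
    · obtain ⟨x, rfl⟩ := QuotientGroup.mk'_surjective _ x
      have : (zpowers z).Normal := h.normal (mem_zpowers z)
      have h3 : (x : E) ∈ U ⊔ zpowers z := by
        rw [← h.cc (mem_sup_right (mem_zpowers z))]
        intro y hy
        have hy' : y ∈ D := fun u hu => hy u (mem_sup_left hu)
        have h4 : ⁅(⟨y, hy'⟩ : D), x⁆ ∈ U.subgroupOf D := by
          rw [← QuotientGroup.eq_one_iff]
          change π _ = 1
          rw [map_commutatorElement, commutatorElement_eq_one_iff_mul_comm]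
          exact mem_center_iff.mp hx _
        rw [← commutatorElement_eq_one_iff_mul_comm, ← mem_bot, ← hUZ]
        exact ⟨h4, h.comm _ _⟩
      obtain ⟨a, ha, b, hb, e⟩ := mem_sup_of_normal_right.mp h3
      have hb' : b ∈ D := zpowers_le.mpr (h.zc _) hb
      rw [show x = ⟨a, hc ha⟩ * ⟨b, hb'⟩ from Subtype.ext e.symm, map_mul,
        show π ⟨a, hc ha⟩ = 1 from (QuotientGroup.eq_one_iff _).mpr ha, one_mul]
      exact key _ hb
    · obtain ⟨y, rfl⟩ := QuotientGroup.mk'_surjective _ y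
      rw [← map_mul, ← map_mul]
      exact congrArg _ (Subtype.ext (h.cz (mem_zpowers z) _))
    · obtain ⟨x, rfl⟩ := QuotientGroup.mk'_surjective _ x
      obtain ⟨y, rfl⟩ := QuotientGroup.mk'_surjective _ y
      rw [← map_commutatorElement]
      exact key _ (h.comm _ _)
    · obtain ⟨x, rfl⟩ := QuotientGroup.mk'_surjective _ x
      rw [← map_mul]
      exact key _ (h.sq _)
  refine ext_of_quo h (φ₁ := subAct hU.cen) (φ₂ := quoAct hI) (π := π) D.subtype_injective
    (fun _ _ => rfl) (fun _ _ => rfl) (w := w) rfl h1.symm h2 (ih _ _ _ _ K ?_ hX hK ?_)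
  · have h3 : 1 < Nat.card U := (one_lt_card_iff_ne_bot U).mpr h0
    have h4 : Nat.card D ≤ Nat.card E := D.card_le_card_group
    have h5 : 0 < Nat.card (D ⧸ U.subgroupOf D) := Nat.card_pos
    nlinarith
  · intro x hx
    obtain ⟨x, rfl⟩ := QuotientGroup.mk'_surjective _ x
    obtain ⟨u, hu, h3⟩ := fixcoset (φ := φ) h.pG hK (W := U) (fun k _ => hU k) (x := x)
      fun k hk => (mem_subgroupOf (H := U) (K := D)
        (h := subAct hU.cen k x * x⁻¹)).mp (by
          rw [← QuotientGroup.eq_one_iff, QuotientGroup.mk_mul, QuotientGroup.mk_inv,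
            mul_inv_eq_one]
          exact hx k hk)
    have := key (⟨u, hc hu⟩ * x) (hf h3)
    rwa [map_mul, show π ⟨u, hc hu⟩ = 1 from (QuotientGroup.eq_one_iff _).mpr hu, one_mul] at this

theorem red (ih : St.{u} (Nat.card E + Nat.card H)) (h : XS z) (hK : Odd (Nat.card K))
    (hf : Fix φ K ≤ zpowers z) {W : Subgroup E} (hW : Iv φ W) (hz : z ∈ W) (h1 : W ≠ ⊤)
    (h0 : ¬ W ≤ zpowers z) : Ext φ z := by
  by_cases hR : W ⊓ centralizer (W : Set E) ≤ zpowers z
  · set D := centralizer (W : Set E) with hD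
    have h2 : W ⊔ D = ⊤ := by
      rw [← h.cc (mem_sup_left hz), eq_top_iff]
      intro x _ y hy
      refine (h.cz (hR ⟨?_, fun u hu => hy u (mem_sup_left hu)⟩) x).symm
      rw [← h.cc hz]
      exact fun u hu => hy u (mem_sup_right hu)
    have := h.normal hz
    have hc : ∀ (x : W) (y : D), W.subtype x * D.subtype y = D.subtype y * W.subtype x :=
      fun x y => y.2 x x.2
    have hs : ∀ e, ∃ (x : W) (y : D), e = W.subtype x * D.subtype y := fun e => by
      obtain ⟨a, ha, b, hb, e⟩ := mem_sup_of_normal_left.mp (h2 ▸ mem_top e)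
      exact ⟨⟨a, ha⟩, ⟨b, hb⟩, e.symm⟩
    have h3 : D ≠ ⊤ := fun e => h0 fun x hx => h.mem_of fun y =>
      ((e ▸ mem_top y : y ∈ D) x hx).symm
    obtain ⟨χ₁, g₁⟩ := ih _ _ (subAct hW) ⟨z, hz⟩ K (Nat.add_lt_add_right (card_lt h1) _)
      (h.of_prod W.subtype_injective hc hs rfl) hK (fix_sub hf hW hz)
    obtain ⟨χ₂, g₂⟩ := ih _ _ (subAct hW.cen) ⟨z, h.zc _⟩ K (Nat.add_lt_add_right (card_lt h3) _)
      (h.of_prod D.subtype_injective (fun y x => (hc x y).symm) (fun e => by
        obtain ⟨x, y, e⟩ := hs e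
        exact ⟨y, x, e.trans (hc x y)⟩) rfl) hK (fix_sub hf hW.cen _)
    obtain ⟨χ, g, -⟩ := exists_prod (φ := φ) h W.subtype_injective D.subtype_injective
      (fun _ _ => rfl) (fun _ _ => rfl) hc hs rfl rfl g₁ g₂
    exact ⟨χ, g⟩
  · have hc : W ⊓ centralizer (W : Set E) ≤ centralizer ((W ⊓ centralizer (W : Set E) :
      Subgroup E) : Set E) := fun x hx y hy => hx.2 y hy.1
    obtain ⟨U, a, b, c, d⟩ := exists_compl h hK hf (hW.inf hW.cen) ⟨hz, h.zc _⟩ hc hR
    exact red_iso ih h hK hf a (fun x hx y hy => hc (b hx) y (b hy)) c d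

end Cfsg.Agent.H5d
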