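import Mathlib
import Cfsg.Agent.H5.Dd2
import Cfsg.Agent.H1.Product
import Cfsg.Agent.H3.Frattini
import Cfsg.Prelude.Def_Transfer

/-! Dade's extension theorem for extraspecial `2`-groups. -/

set_option autoImplicit false

namespace Cfsg.Agent.H5d

open Cfsg Cfsg.Agent.H7 Subgroup SemidirectProduct
open scoped commutatorElement

universe u

section
variable {E H : Type*} [Group E] [Group H] [Finite E] [Finite H] {φ : H →* MulAut E} {z : E}
  {A : Subgroup H}

theorem o2_eq_bot (h : XS z) (hi : Function.Injective φ)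
    (irr : ∀ W, Iv φ W → z ∈ W → W = ⊤ ∨ W ≤ zpowers z) (hne : zpowers z ≠ ⊤)
    (hA : Odd (Nat.card A)) (hf : Fix φ A ≤ zpowers z) {C : Subgroup H} [C.Normal]
    (hC : IsPGroup 2 C) (hc : C ≤ centralizer (A : Set H)) : C = ⊥ := by
  have : (zpowers z).Normal := h.normal (mem_zpowers z)
  have hZ : Iv φ (zpowers z) := fun s x hx => by rwa [h.aut _ hx]
  let ψ := quoAct hZ
  let W := (Fix ψ C).comap (QuotientGroup.mk' (zpowers z))
  have hW : Iv φ W := fun s x hx => iv_fix (φ := ψ) C s _ hx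
  have hz : z ∈ W := by
    rw [mem_comap, show QuotientGroup.mk' (zpowers z) z = 1 from
      (QuotientGroup.eq_one_iff _).mpr (mem_zpowers z)]
    exact one_mem _
  have h1 : W = ⊤ := (irr W hW hz).resolve_right fun e => by
    let _ : MulAction C (E ⧸ zpowers z) := MulAction.compHom _ (ψ.comp C.subtype)
    have := QuotientGroup.nontrivial_iff.mpr hne
    obtain ⟨n, h2, h3⟩ := (h.pG.to_quotient (zpowers z)).nontrivial_iff_card.mp this
    obtain ⟨b, hb, h4⟩ := hC.exists_fixed_point_of_prime_dvd_card_of_fixed_point (E ⧸ zpowers z)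
      (h3 ▸ dvd_pow_self 2 h2.ne') (a := 1) fun c => map_one (ψ c)
    obtain ⟨b, rfl⟩ := QuotientGroup.mk'_surjective _ b
    exact h4 ((QuotientGroup.eq_one_iff b).mpr (e (x := b) fun c hc => hb ⟨c, hc⟩)).symm
  refine eq_bot_iff.mpr fun c hcC => hi (MulEquiv.ext fun x => ?_)
  have h2 : ∀ y, φ c y * y⁻¹ ∈ zpowers z := fun y => by
    rw [← QuotientGroup.eq_one_iff, QuotientGroup.mk_mul, QuotientGroup.mk_inv, mul_inv_eq_one]
    exact (h1 ▸ mem_top y : y ∈ W) c hcC
  let V : Subgroup E := (φ c).toMonoidHom.eqLocus (MonoidHom.id E)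
  have hV : ∀ y, y ∈ V ↔ φ c y = y := fun _ => Iff.rfl
  obtain ⟨w, hw, h3⟩ := fixcoset (φ := φ) h.pG hA (W := V) (fun a ha y hy => by
    rw [hV, ← am, ← hc hcC a ha, am, (hV y).mp hy]) (x := x) fun a ha => by
      obtain ⟨u, hu, e⟩ : ∃ u ∈ zpowers z, φ c x = u * x := ⟨_, h2 x, by simp⟩
      rw [hV, map_mul, ← am, ← hc hcC a ha, am, map_inv, e, map_mul, h.aut _ hu,
        ← h.cz hu (φ a x), ← h.cz hu x]
      group
  have h4 : w * x ∈ V := (hV _).mpr (h.aut _ (hf h3))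
  rw [(hV x).mp ((mul_mem_cancel_left hw).mp h4), map_one]; rfl

theorem cyc_of_fpf (h : XS z) (hne : zpowers z ≠ ⊤) [IsMulCommutative A] (hA : Odd (Nat.card A))
    (hf : ∀ a ∈ A, a ≠ 1 → Fix φ (zpowers a) ≤ zpowers z) : IsCyclic A := by
  have := finite_sd φ
  by_contra hn
  have hN := (isNE_inl φ).normal
  obtain ⟨s, hs⟩ := IsPGroup.iff_card.mp h.pG
  have := H1.le_of_centralizer_singleton_le (A.map (inr : H →* E ⋊[φ] H)) inl.range
    ((zpowers z).map inl) (by
      rwa [← (A.equivMapOfInjective _ inr_injective).isCyclic]) le_normalizer_of_normal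
    (by rw [card_map_of_injective inr_injective, card_range_of_injective inl_injective, hs]
        exact hA.coprime_two_right.pow_right s) (by
      rintro _ ⟨a, ha, rfl⟩ h1 _ ⟨⟨x, rfl⟩, hx⟩
      refine mem_map_of_mem _ (hf a ha (fun e => h1 (by rw [e, map_one])) ?_)
      have h2 : φ a x = x := by
        simpa using (congrArg left (mem_centralizer_singleton_iff.mp hx)).symm
      have h3 : zpowers a ≤ (MulAction.stabilizer (MulAut E) x).comap φ := zpowers_le.mpr h2
      exact h3)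
  refine hne (eq_top_iff.mpr fun x _ => ?_)
  exact (mem_map_iff_mem inl_injective).mp (this ⟨x, rfl⟩)

theorem exists_index_two [A.Normal] {s : ℕ} (hA : A.index = 2 ^ s) {N : Subgroup H} (h1 : A ≤ N)
    (h2 : N ≠ ⊤) : ∃ T : Subgroup H, N ≤ T ∧ T.index = 2 := by
  let π := QuotientGroup.mk' A
  have hπ := QuotientGroup.mk'_surjective A
  have hQ : Nat.card (H ⧸ A) = 2 ^ s := hA
  have hc : (N.map π).comap π = N := comap_map_eq_self (by rwa [QuotientGroup.ker_mk'])
  obtain ⟨n, hn, h3⟩ := (Nat.dvd_prime_pow Nat.prime_two).mp (hQ ▸ (N.map π).card_subgroup_dvd_card)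
  have h4 : n ≠ s := fun e => h2 (by
    rw [← hc, (N.map π).eq_top_of_card_eq (by rw [h3, hQ, e]), comap_top])
  obtain ⟨s, rfl⟩ : ∃ t, s = t + 1 := ⟨s - 1, by omega⟩
  obtain ⟨T, h5, h6⟩ := Sylow.exists_subgroup_card_pow_prime_le 2 (m := s)
    (hQ ▸ pow_dvd_pow 2 s.le_succ) _ h3 (by omega)
  refine ⟨T.comap π, hc ▸ comap_mono h6, ?_⟩
  rw [index_comap_of_surjective _ hπ]
  have := T.card_mul_index
  rw [h5, hQ, pow_succ] at this
  exact Nat.eq_of_mul_eq_mul_left (by positivity) this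

theorem fix_comm (h : XS z) [IsMulCommutative A] (hA : Odd (Nat.card A)) {B B' : Subgroup H}
    (hB : B ≤ A) (hB' : B' ≤ A) (hf : Fix φ (B ⊔ B') ≤ zpowers z) {x y : E} (hx : x ∈ Fix φ B)
    (hy : y ∈ Fix φ B') : y * x = x * y := by
  have h1 : ∀ b ∈ B, ∀ u ∈ Fix φ B', φ b u ∈ Fix φ B' := fun b hb u hu c hc => by
    rw [← am, setLike_mul_comm (hB' hc) (hB hb), am, hu c hc]
  obtain ⟨w, hw, h2⟩ := fixcoset (φ := φ) h.pG (hA.of_dvd_nat (card_dvd_of_le hB))
    (W := Fix φ B' ⊓ Subgroup.centralizer {x}) (fun b hb u hu => ⟨h1 b hb u hu.1,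
      mem_centralizer_singleton_iff.mpr (by
        rw [← hx b hb, ← map_mul, mem_centralizer_singleton_iff.mp hu.2, map_mul])⟩) (x := y)
    fun b hb => mem_inf.mpr ⟨mul_mem (h1 b hb y hy) (inv_mem hy), mem_centralizer_singleton_iff.mpr (by
      have h2 := h.aut (φ b) (h.comm y x)
      rw [← commutatorElement_eq_one_iff_mul_comm, h.comm_mul]
      rw [show φ b ⁅y, x⁆ = ⁅φ b y, φ b x⁆ from map_commutatorElement (φ b).toMonoidHom y x,
        hx b hb] at h2
      rw [h2, ← h.comm_mul, mul_inv_cancel, commutatorElement_one_left])⟩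
  have h3 : w * y ∈ Fix φ (B ⊔ B') := fun c hc => by
    have : B ⊔ B' ≤ (MulAction.stabilizer (MulAut E) (w * y)).comap φ :=
      sup_le h2 (mul_mem (mem_inf.mp hw).1 hy)
    exact this hc
  have h4 : w * y ∈ centralizer {x} := zpowers_le.mpr (h.zc _) (hf h3)
  exact mem_centralizer_singleton_iff.mp ((mul_mem_cancel_left (mem_inf.mp hw).2).mp h4)

end

variable {E H : Type u} [Group E] [Group H] [Finite E] [Finite H] {φ : H →* MulAut E} {z : E}
  {A : Subgroup H} [A.Normal]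

theorem fix_comp {T : Subgroup H} (hAT : A ≤ T) (hf : Fix φ A ≤ zpowers z) :
    Fix (φ.comp T.subtype) (A.subgroupOf T) ≤ zpowers z :=
  fun _ hx => hf fun a ha => hx ⟨a, hAT ha⟩ ha

theorem ext_impr (ih : St.{u} (Nat.card E + Nat.card H)) (h : XS z)
    (irr : ∀ W, Iv φ W → z ∈ W → W = ⊤ ∨ W ≤ zpowers z) [IsMulCommutative A]
    (hA : Odd (Nat.card A)) (hf : Fix φ A ≤ zpowers z) {B : Subgroup H} (hB : B ≤ A)
    (h0 : ¬ Fix φ B ≤ zpowers z) (hm : ∀ B', B < B' → B' ≤ A → Fix φ B' ≤ zpowers z)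
    {T : Subgroup H} (hT : T.index = 2) (hN : normalizer (B : Set H) ≤ T) : Ext φ z := by
  have : T.Normal := normal_of_index_eq_two hT
  have hTt : T ≠ ⊤ := fun e => by simp [e] at hT
  obtain ⟨t, ht⟩ : ∃ t, t ∉ T := not_forall.mp (mt (eq_top_iff' T).mpr hTt)
  have hAT : A ≤ T := fun a ha => hN (centralizer_le_normalizer _ fun b hb =>
    setLike_mul_comm (hB hb) ha)
  let W := closure {y | ∃ s ∈ T, ∃ x ∈ Fix φ B, y = φ s x}
  have hBW : Fix φ B ≤ W := fun x hx => subset_closure ⟨1, one_mem _, x, hx, by simp⟩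
  have hz : z ∈ W := hBW fun b _ => h.aut _ (mem_zpowers z)
  have hW : ∀ s ∈ T, ∀ x ∈ W, φ s x ∈ W := fun s hs => by
    change W ≤ W.comap (φ s).toMonoidHom
    rw [closure_le]
    rintro _ ⟨s', hs', x, hx, rfl⟩
    exact subset_closure ⟨s * s', mul_mem hs hs', x, hx, (am _ _ _).symm⟩
  have hW' : Iv (φ.comp T.subtype) W := fun s => hW s s.2
  have k1 : ∀ g, g ∉ T → ∀ x ∈ Fix φ B, ∀ y ∈ Fix φ B, φ g y * x = x * φ g y :=
    fun g hg x hx y hy => by
      have h1 : B.map (MulAut.conj g).toMonoidHom ≤ A := by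
        rintro _ ⟨b, hb, rfl⟩
        exact ‹A.Normal›.conj_mem b (hB hb) g
      refine fix_comm h hA hB h1 (hm _ (left_lt_sup.mpr fun e => hg (hN
        (mem_normalizer_fintype fun b hb => e ⟨b, hb, rfl⟩))) (sup_le hB h1)) hx ?_
      rintro _ ⟨b, hb, rfl⟩
      change φ (g * b * g⁻¹) _ = _
      rw [am, aa', am, hy b hb]
  have k2 : ∀ x ∈ W, ∀ y ∈ W, x * φ t y = φ t y * x := fun x hx y hy => by
    have : W ≤ centralizer {φ t y} := by
      rw [closure_le]
      rintro _ ⟨s, hs, a, ha, rfl⟩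
      have : W ≤ (centralizer {φ s a}).comap (φ t).toMonoidHom := by
        rw [closure_le]
        rintro _ ⟨s', hs', b, hb, rfl⟩
        refine mem_centralizer_singleton_iff.mpr ?_
        have h1 := congrArg (φ s) (k1 (s⁻¹ * t * s') (by
          rwa [mul_mem_cancel_right hs', mul_mem_cancel_left (inv_mem hs)]) a ha b hb)
        rwa [am, am, map_mul, map_mul, aa] at h1
      exact mem_centralizer_singleton_iff.mpr (mem_centralizer_singleton_iff.mp (this hy)).symm
    exact mem_centralizer_singleton_iff.mp (this hx)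
  let j : W →* E := (φ t).toMonoidHom.comp W.subtype
  have hc : ∀ x y : W, W.subtype x * j y = j y * W.subtype x := fun x y => k2 x x.2 y y.2
  have hWn := h.normal hz
  have hs : ∀ e, ∃ x y : W, e = W.subtype x * j y := fun e => by
    have h1 : W ⊔ W.map (φ t).toMonoidHom = ⊤ := by
      refine (irr _ (fun s => ?_) (mem_sup_left hz)).resolve_right fun e =>
        h0 (hBW.trans (le_sup_left.trans e))
      change _ ≤ comap (φ s).toMonoidHom (W ⊔ W.map (φ t).toMonoidHom)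
      have key : ∀ g, g ∉ T → ∀ x ∈ W, φ g x ∈ W.map (φ t).toMonoidHom := fun g hg x hx =>
        ⟨φ (t⁻¹ * g) x, hW _ ((mul_mem_iff_of_index_two hT).mpr (by simp [ht, hg])) x hx, by
          change φ t _ = _
          rw [am, aa]⟩
      by_cases hs : s ∈ T
      · refine sup_le (fun x hx => mem_sup_left (hW s hs x hx)) ?_
        rintro _ ⟨x, hx, rfl⟩
        exact mem_sup_right ((am s t x) ▸ key _ (by rwa [mul_mem_cancel_left hs]) x hx)
      · refine sup_le (fun x hx => mem_sup_right (key s hs x hx)) ?_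
        rintro _ ⟨x, hx, rfl⟩
        exact mem_sup_left ((am s t x) ▸
          hW _ ((mul_mem_iff_of_index_two hT).mpr (by simp [ht, hs])) x hx)
    obtain ⟨a, ha, _, ⟨b, hb, rfl⟩, e⟩ := mem_sup_of_normal_left.mp (h1 ▸ mem_top e)
    exact ⟨⟨a, ha⟩, ⟨b, hb⟩, e.symm⟩
  obtain ⟨χ₁, g₁⟩ := ih _ _ (subAct hW') ⟨z, hz⟩ (A.subgroupOf T)
    (Nat.add_lt_add_of_le_of_lt W.card_le_card_group (card_lt hTt))
    (h.of_prod W.subtype_injective hc hs rfl) (by rwa [H2.card_subgroupOf_of_le hAT])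
    (fix_sub (fix_comp hAT hf) hW' hz)
  let c : T →* T := (MulAut.conjNormal t⁻¹ : MulAut T).toMonoidHom
  have g₂ := g₁.comp (map (φ₁ := (subAct hW').comp c) (MonoidHom.id W) c fun _ => rfl)
    (w := inl ⟨z, hz⟩) (map_inl _ _ _ _)
  obtain ⟨χ, g, hχ⟩ := exists_prod (φ := φ.comp T.subtype) h W.subtype_injective (j := j)
    ((φ t).injective.comp W.subtype_injective) (fun _ _ => rfl) (fun s x => by
      change φ t (φ (t⁻¹ * s * t⁻¹⁻¹) x) = φ s (φ t x)
      rw [am, am, aa, inv_inv]) hc hs rfl (h.aut _ (mem_zpowers z)) g₁ g₂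
  refine ext_of_index_two h T hT ht g fun e s => ?_
  obtain ⟨x, y, rfl⟩ := hs e
  have htt : t * t ∈ T := mul_self_mem_of_index_two hT t
  have h1 : φ t (W.subtype x * j y) = W.subtype (subAct hW' ⟨_, htt⟩ y) * j x := by
    rw [hc, map_mul]
    change φ t (φ t y) * φ t x = φ (t * t) y * φ t x
    rw [am]
  rw [h1, hχ, hχ, mul_comm]
  congr 1
  · congr 1
    refine SemidirectProduct.ext rfl (Subtype.ext ?_)
    change t⁻¹ * (t * s * t⁻¹) * t⁻¹⁻¹ = s
    group
  · conv_rhs => rw [← char_cf g₁.ch _ (inr ⟨_, htt⟩)]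
    congr 1
    refine SemidirectProduct.ext (by simp) (Subtype.ext ?_)
    change t * s * t⁻¹ = t * t * (t⁻¹ * s * t⁻¹⁻¹) * (t * t)⁻¹
    group

theorem st (n : ℕ) : St.{u} n := by
  induction n with
  | zero => intro E H _ _ _ _ φ z K _ hn; omega
  | succ n ih =>
  intro E H _ _ _ _ φ z K _ hn h hK hf
  rcases (Nat.lt_succ_iff.mp hn).lt_or_eq with hn | rfl
  · exact ih E H φ z K hn h hK hf
  by_cases hi : φ.ker = ⊥
  swap
  · have h1 : Nat.card (H ⧸ φ.ker) < Nat.card H := by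
      have h2 := card_eq_card_quotient_mul_card_subgroup φ.ker
      have h3 := (one_lt_card_iff_ne_bot _).mpr hi
      have h4 : 0 < Nat.card (H ⧸ φ.ker) := Nat.card_pos
      nlinarith
    have := ‹K.Normal›.map _ (QuotientGroup.mk'_surjective φ.ker)
    exact (ih E _ (QuotientGroup.kerLift φ) z (K.map (QuotientGroup.mk' _)) (by omega) h
      (hK.of_dvd_nat (card_map_dvd _ _)) fun x hx => hf fun k hk => hx _ ⟨k, hk, rfl⟩).comp
      (QuotientGroup.mk' φ.ker)
  rw [MonoidHom.ker_eq_bot_iff] at hi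
  by_cases irr : ∀ W, Iv φ W → z ∈ W → W = ⊤ ∨ W ≤ zpowers z
  swap
  · push Not at irr
    obtain ⟨W, h1, h2, h3, h4⟩ := irr
    exact red ih h hK hf h1 h2 h3 h4
  have triv : ∀ B : Subgroup H, Fix φ B = ⊤ → B = ⊥ := fun B hB => eq_bot_iff.mpr fun b hb =>
    hi (MulEquiv.ext fun x => by rw [(hB ▸ mem_top x : x ∈ Fix φ B) b hb, map_one]; rfl)
  by_cases hne : zpowers z = ⊤
  · have : (⊤ : Subgroup H) = ⊥ := triv _ (eq_top_iff.mpr fun x _ b _ => h.aut _ (hne ▸ mem_top x))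
    have : Subsingleton H := subsingleton_iff.mp (subsingleton_iff_bot_eq_top.mp this.symm)
    exact ext_of_cyclic h inferInstance
  have hK0 : K ≠ ⊥ := by
    rintro rfl
    exact hne (eq_top_iff.mpr fun x _ => hf fun b hb => by rw [mem_bot.mp hb, map_one]; rfl)
  obtain ⟨A, hA, hAK⟩ := H2.exists_isMinNormal_le K hK0
  have := hA.1
  have hAo : Odd (Nat.card A) := hK.of_dvd_nat (card_dvd_of_le hAK)
  have := FT.odd_order_solvable hAo
  have := hA.isMulCommutative
  have hfA : Fix φ A ≤ zpowers z := (irr _ (iv_fix A) fun b _ => h.aut _ (mem_zpowers z)).resolve_left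
    fun e => hA.2.1 (triv A e)
  obtain ⟨T⟩ : Nonempty (Sylow 2 H) := inferInstance
  have hTo : Odd T.index := Nat.not_even_iff_odd.mp (mt even_iff_two_dvd.mp T.not_dvd_index)
  by_cases hAT : A ⊔ T = ⊤
  swap
  · exact ext_of_odd h (A ⊔ T) (hTo.of_dvd_nat (index_dvd_of_le le_sup_right))
      (ih E _ _ z (A.subgroupOf _) (Nat.add_lt_add_left (card_lt hAT) _) h
        (by rwa [H2.card_subgroupOf_of_le le_sup_left]) (fix_comp le_sup_left hfA))
  obtain ⟨B, -, hB⟩ := exists_maximal_ge_of_wellFoundedGT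
    (fun B : Subgroup H => B ≤ A ∧ ¬ Fix φ B ≤ zpowers z) ⊥ ⟨bot_le, fun e =>
      hne (eq_top_iff.mpr fun x _ => e fun b hb => by rw [mem_bot.mp hb, map_one]; rfl)⟩
  have hm : ∀ B', B < B' → B' ≤ A → Fix φ B' ≤ zpowers z := fun B' h1 h2 => by
    by_contra h3
    exact h1.not_ge (hB.2 ⟨h2, h3⟩ h1.le)
  by_cases hN : normalizer (B : Set H) = ⊤
  · have := normalizer_eq_top_iff.mp hN
    obtain rfl : B = ⊥ := triv B ((irr _ (iv_fix B) fun b _ =>
      h.aut _ (mem_zpowers z)).resolve_right hB.1.2)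
    have hc : IsCyclic A := cyc_of_fpf h hne hAo fun a ha h1 =>
      hm _ (bot_lt_iff_ne_bot.mpr (by simpa using h1)) (zpowers_le.mpr ha)
    obtain ⟨q, hq, hqA⟩ := hA.exists_isPGroup
    have := Fact.mk hq
    obtain ⟨m, hm⟩ := IsPGroup.iff_card.mp hqA
    have hq2 : q ≠ 2 := by
      rintro rfl
      rcases m with _ | m
      · exact hA.2.1 (card_eq_one.mp hm)
      · exact hAo.not_two_dvd_nat (hm ▸ dvd_pow_self 2 m.succ_ne_zero)
    have h1 := ZMod.isCyclic_units_of_prime_pow q hq hq2 m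
    rw [← hm] at h1
    have h2 : IsCyclic (MulAut A) := (IsCyclic.mulAutMulEquiv A).isCyclic.2 h1
    have h3 : ((T : Subgroup H) ⊓ centralizer (A : Set H)).Normal := ⟨fun x hx g => by
      obtain ⟨a, ha, s, hs, rfl⟩ := mem_sup_of_normal_left.mp (hAT ▸ mem_top g)
      have h4 : s * x * s⁻¹ ∈ (T : Subgroup H) ⊓ centralizer (A : Set H) :=
        mem_inf.mpr ⟨mul_mem (mul_mem hs (mem_inf.mp hx).1) (inv_mem hs),
          Normal.conj_mem inferInstance x (mem_inf.mp hx).2 s⟩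
      have h5 : a * s * x * (a * s)⁻¹ = a * (s * x * s⁻¹) * a⁻¹ := by group
      rwa [h5, h4.2 a ha, mul_inv_cancel_right]⟩
    have h4 := o2_eq_bot h hi irr hne hAo hfA (T.2.to_inf_left) inf_le_right
    refine ext_of_odd h T hTo (ext_of_cyclic h (isCyclic_of_injective
      ((MulAut.conjNormal : H →* MulAut A).comp (T : Subgroup H).subtype) ?_))
    rw [injective_iff_map_eq_one]
    intro x hx
    refine Subtype.ext (mem_bot.mp (h4 ▸ ⟨x.2, fun a ha => ?_⟩))
    have := congrArg Subtype.val (DFunLike.congr_fun hx ⟨a, ha⟩)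
    exact (mul_inv_eq_iff_eq_mul.mp this).symm
  · obtain ⟨s, hs⟩ := IsPGroup.iff_card.mp T.2
    have h1 : A.index ∣ 2 ^ s := by
      rw [← relIndex_top_right, ← hAT, relIndex_sup_left, ← hs]
      exact relIndex_dvd_card _ _
    obtain ⟨m, -, h2⟩ := (Nat.dvd_prime_pow Nat.prime_two).mp h1
    obtain ⟨S, h3, h4⟩ := exists_index_two h2 (fun a ha => centralizer_le_normalizer _ fun b hb =>
      setLike_mul_comm (hB.1.1 hb) ha) hN
    exact ext_impr ih h irr hAo hfA hB.1.1 hB.1.2 hm h4 h3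

theorem s4759 {G : Type u} [Group G] [Finite G] (E H : Subgroup G) [E.Normal]
    (hE : IsExtraspecial 2 E) (hEH : E ⊓ H = ⊥) (hEHtop : E ⊔ H = ⊤) (K : Subgroup G)
    (hKH : K ≤ H) (hKn : ∀ h ∈ H, ∀ k ∈ K, h * k * h⁻¹ ∈ K) (hKodd : Odd (Nat.card K))
    (hEK : ⁅E, K⁆ = E) (θ : IrrCharacter E) (hθ : ∀ e : E, (θ : E → ℂ) e = (θ : E → ℂ) 1 → e = 1) :
    ∃ χ : IrrCharacter G, ∀ e : E, (χ : G → ℂ) e = (θ : E → ℂ) e := by
  obtain ⟨⟨h1, h2, h3⟩, h4⟩ := hE
  have : Nontrivial (center E) := Finite.one_lt_card_iff_nontrivial.mp (by omega)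
  obtain ⟨⟨z, hz⟩, hz1⟩ := exists_ne (1 : center E)
  have h5 : orderOf z = 2 := by
    have := orderOf_dvd_natCard (⟨z, hz⟩ : center E)
    rw [h4, orderOf_mk] at this
    exact ((Nat.dvd_prime Nat.prime_two).mp this).resolve_left fun e =>
      hz1 (Subtype.ext (orderOf_eq_one_iff.mp e))
  have h6 : center E = zpowers z := (eq_of_le_of_card_ge (zpowers_le.mpr hz)
    (by rw [h4, Nat.card_zpowers, h5])).symm
  have h : XS z := ⟨h5, h6, fun x y => by
    rw [← h6, ← h3]; exact commutator_mem_commutator (mem_top x) (mem_top y), fun x => by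
    rw [← h6, ← h2, ← pow_two]; exact H3.pow_mem_frattini h1 x⟩
  have hc : E.IsComplement' H := isComplement'_of_disjoint_and_mul_eq_univ (disjoint_iff.mpr hEH)
    (by rw [← normal_mul, hEHtop, coe_top])
  let e := mulEquivSubgroup hc
  have : (K.subgroupOf H).Normal := ⟨fun k hk g => hKn g g.2 k hk⟩
  obtain ⟨χ, g⟩ := st _ E H (E.normalizerMonoidHom.comp
    (inclusion (E.normalizer_eq_top ▸ le_top))) z (K.subgroupOf H) (Nat.lt_succ_self _) h
    (by rwa [H2.card_subgroupOf_of_le hKH]) fun x hx => h.mem_of fun y => by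
      have h7 : ⁅E, K⁆ ≤ Subgroup.centralizer {(x : G)} := commutator_le.mpr fun y hy k hk => by
        let σ : MulAut E := MulAut.conjNormal k
        have h8 : σ x = x := hx ⟨k, hKH hk⟩ hk
        have h9 := h.aut σ (h.comm (⟨y, hy⟩ : E)⁻¹ x)
        rw [show σ ⁅_, x⁆ = ⁅σ _, σ x⁆ from map_commutatorElement σ.toMonoidHom _ x, h8] at h9
        have h10 : ⁅⟨y, hy⟩ * σ ⟨y, hy⟩⁻¹, x⁆ = 1 := by
          rw [h.comm_mul, h9, ← h.comm_mul, mul_inv_cancel, commutatorElement_one_left]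
        have := congrArg Subtype.val (commutatorElement_eq_one_iff_mul_comm.mp h10)
        refine mem_centralizer_singleton_iff.mpr ?_
        simpa [σ, commutatorElement_def, mul_assoc] using this
      exact Subtype.ext (mem_centralizer_singleton_iff.mp (h7 (hEK.symm ▸ y.2)))
  have h7 := h.uniq (g.comp inl rfl) (h.gd_of_irr θ.2 fun e => h.ne (hθ z e))
  have h8 : ∀ x : E, χ (e.symm x) = θ.1 x := fun x => by
    rw [← h7, e.symm_apply_eq.mpr (by simp [e] : (x : G) = e (inl x))]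
  exact ⟨⟨fun x => χ (e.symm x), irr_of_irr_comp E.subtype (char_comp e.symm.toMonoidHom g.ch)
    (by rw [show (fun x => χ (e.symm (E.subtype x))) = θ.1 from funext h8]
        exact θ.2)⟩, h8⟩

end Cfsg.Agent.H5d
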