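import Cfsg.Agent.H5.PP5
import Cfsg.Agent.H4.Transfer2
import Cfsg.Agent.H4.Focal
import Cfsg.Agent.H3.Basic

/-! Glauberman's characterization of the Suzuki groups: the group theoretic part. -/

set_option autoImplicit false
set_option linter.unusedSectionVars false
set_option linter.unusedVariables false

namespace Cfsg.Agent.H5.PP

open Cfsg Subgroup Cfsg.Agent.H8 Cfsg.Agent.H4
open scoped Pointwise

variable {p : ℕ} [hp : Fact p.Prime] {G : Type*} [Group G] [Finite G]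

/-- `A` is central and strongly closed in `P`. -/
structure SC (P : Sylow p G) (A : Subgroup G) : Prop where
  le : A ≤ P.1
  cen : ∀ a ∈ A, ∀ y ∈ P.1, a * y = y * a
  sc : ∀ a ∈ A, ∀ g : G, g * a * g⁻¹ ∈ P.1 → g * a * g⁻¹ ∈ A

/-- Centralizers of elements of order `p` are `p`-nilpotent. -/
def NB (p : ℕ) (G : Type*) [Group G] : Prop :=
  ∀ x : G, orderOf x = p → HasNormalPComplement p (centralizer ({x} : Set G))

/-- The normalizer of `P` controls fusion of elements. -/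
def FA (P : Sylow p G) : Prop := ∀ x ∈ P.1, ∀ g : G, g * x * g⁻¹ ∈ P.1 →
  ∃ n ∈ normalizer (P.1 : Set G), n * x * n⁻¹ = g * x * g⁻¹

theorem nb_of (P : Sylow p G)
    (h : ∀ x ∈ P.1, orderOf x = p → HasNormalPComplement p (centralizer ({x} : Set G))) :
    NB p G := fun x hx => by
  obtain ⟨c, hc⟩ := exists_conj_mem P (x := x) ⟨1, by rw [hx, pow_one]⟩
  have := h _ hc (by rw [← MulAut.conj_apply, MulEquiv.orderOf_eq, hx])
  refine hasNPC_of_injective (((MulAut.conj c).toMonoidHom.comp (Subgroup.subtype _)).codRestrict _ fun y => ?_)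
    (by intro a b e; exact Subtype.ext ((MulAut.conj c).injective (congrArg Subtype.val e :))) this
  have := mem_centralizer_singleton_iff.1 y.2
  refine mem_centralizer_singleton_iff.2 ?_
  change c * y * c⁻¹ * (c * x * c⁻¹) = c * x * c⁻¹ * (c * y * c⁻¹)
  calc _ = c * (y * x) * c⁻¹ := by group
    _ = _ := by rw [this]; group

theorem exists_ord {y : G} (hy : ∃ k : ℕ, orderOf y = p ^ k) (h1 : y ≠ 1) :
    ∃ x ∈ zpowers y, orderOf x = p := by
  obtain ⟨k, hk⟩ := hy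
  have : p ∣ Nat.card (zpowers y) := by
    rw [Nat.card_zpowers, hk]
    exact dvd_pow_self p fun e => h1 (orderOf_eq_one_iff.1 (by rw [hk, e, pow_zero]))
  obtain ⟨x, hx⟩ := exists_prime_orderOf_dvd_card' p this
  exact ⟨x, x.2, by rw [Subgroup.orderOf_coe, hx]⟩

theorem NB.elt (h : NB p G) {y : G} (hy : ∃ k : ℕ, orderOf y = p ^ k) (h1 : y ≠ 1) :
    HasNormalPComplement p (centralizer ({y} : Set G)) := by
  obtain ⟨x, ⟨k, rfl⟩, hx⟩ := exists_ord hy h1
  exact hasNPC_of_le (fun c hc => mem_centralizer_singleton_iff.2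
    (Commute.zpow_right (mem_centralizer_singleton_iff.1 hc) k)) (h _ hx)

theorem NB.sub (h : NB p G) (H : Subgroup G) : NB p H := fun x hx =>
  hasNPC_of_injective ((H.subtype.comp (Subgroup.subtype _)).codRestrict _ fun y =>
    mem_centralizer_singleton_iff.2 (congrArg Subtype.val (mem_centralizer_singleton_iff.1 y.2)))
    (by intro a b e; exact Subtype.ext (Subtype.ext (congrArg Subtype.val e :)))
    (h x (by rwa [Subgroup.orderOf_coe]))

theorem npc_conj (P : Sylow p G) {K : Subgroup G} (hK : HasNormalPComplement p K) (hP : P.1 ≤ K)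
    {g : G} (hg : g ∈ K) : ∃ u ∈ P.1, ∀ x ∈ P.1, g * x * g⁻¹ ∈ P.1 → u * x * u⁻¹ = g * x * g⁻¹ := by
  obtain ⟨u, hu, e⟩ := hasNPC_exists_conj_eq hK (IsSylowIn.sylow_of_le P hP).toSylow ⟨g, hg⟩
  exact ⟨u, hu, fun x hx hx' => congrArg Subtype.val (e ⟨x, hP hx⟩ hx hx')⟩

theorem npc_cent {K Q : Subgroup G} (hK : HasNormalPComplement p K) (hQ : IsPGroup p Q)
    (hQK : Q ≤ K) {g : G} (hg : g ∈ K) (hn : ∀ x ∈ Q, g * x * g⁻¹ ∈ Q) (ho : ¬ p ∣ orderOf g) :
    ∀ x ∈ Q, x * g = g * x := fun x hx =>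
  congrArg Subtype.val (hasNPC_mem_centralizer hK (Q := Q.subgroupOf K) hQ.comap_subtype
    (g := ⟨g, hg⟩) (mem_normalizer_of_conj_le (conj_smul_le_iff.2 fun y hy => hn y hy))
    (by rw [Subgroup.orderOf_mk]; exact ((Nat.Prime.coprime_iff_not_dvd hp.out).2 ho).symm)
    ⟨x, hQK hx⟩ hx)

theorem FA.sc {P : Sylow p G} (h : FA P) {A : Subgroup G} (h1 : A ≤ P.1)
    (h2 : ∀ a ∈ A, ∀ y ∈ P.1, a * y = y * a)
    (h3 : ∀ n ∈ normalizer (P.1 : Set G), ∀ a ∈ A, n * a * n⁻¹ ∈ A) : SC P A :=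
  ⟨h1, h2, fun a ha g hg => by
    obtain ⟨n, hn, e⟩ := h a (h1 ha) g hg
    exact e ▸ h3 n hn a ha⟩

/-- The central elements of order dividing `p` of a Sylow subgroup. -/
def om (P : Sylow p G) : Subgroup G where
  carrier := {a | a ∈ P.1 ∧ (∀ y ∈ P.1, a * y = y * a) ∧ a ^ p = 1}
  one_mem' := ⟨one_mem _, by simp, one_pow _⟩
  mul_mem' := fun {a b} ha hb => ⟨mul_mem ha.1 hb.1, fun y hy => by
    rw [mul_assoc, hb.2.1 y hy, ← mul_assoc, ha.2.1 y hy, mul_assoc],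
    by rw [Commute.mul_pow (ha.2.1 b hb.1), ha.2.2, hb.2.2, one_mul]⟩
  inv_mem' := fun {a} ha => ⟨inv_mem ha.1, fun y hy => Commute.inv_left (ha.2.1 y hy),
    by rw [inv_pow, ha.2.2, inv_one]⟩

theorem FA.om {P : Sylow p G} (h : FA P) : SC P (om P) :=
  h.sc (fun a ha => ha.1) (fun a ha => ha.2.1) fun n hn a ha =>
    ⟨(mem_normalizer_iff.1 hn a).1 ha.1, fun y hy => by
      have := ha.2.1 _ ((mem_normalizer_iff.1 (inv_mem hn) y).1 hy)
      calc n * a * n⁻¹ * y = n * (a * (n⁻¹ * y * n⁻¹⁻¹)) * n⁻¹ := by group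
        _ = _ := by rw [this]; group, by rw [conj_pow, ha.2.2]; simp⟩

theorem exists_om (P : Sylow p G) (M : Subgroup G) [M.Normal] (h : p ∣ Nat.card M) :
    ∃ a ∈ om P, a ∈ M ∧ orderOf a = p := by
  have := P.isPGroup'.isNilpotent
  have h1 := (IsSylowIn.sylow_top P).inf_of_normal_le (N := M) le_top le_normalizer_of_normal
  obtain ⟨x, hx, x1, hc⟩ := H3.exists_mem_center_of_normal (M.subgroupOf P.1) fun e => by
    have h2 := h1.not_dvd
    rw [subgroupOf_eq_bot, disjoint_iff, inf_comm] at e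
    rw [e, relIndex_bot_left] at h2
    exact h2 h
  obtain ⟨a, ⟨k, rfl⟩, ha⟩ := exists_ord (pElt_of_mem P.2 x.2) fun e => x1 (Subtype.ext e)
  refine ⟨_, ⟨zpow_mem x.2 k, fun y hy => ?_, orderOf_dvd_iff_pow_eq_one.1 (by rw [ha])⟩,
    zpow_mem hx k, ha⟩
  exact Commute.zpow_left (congrArg Subtype.val (mem_center_iff.1 hc ⟨y, hy⟩)).symm k

namespace SC

variable {P : Sylow p G} {A : Subgroup G} (h : SC P A)
include h

theorem le_cen {a : G} (ha : a ∈ A) : P.1 ≤ centralizer ({a} : Set G) := fun y hy =>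
  mem_centralizer_singleton_iff.2 (h.cen a ha y hy).symm

theorem comm : ∀ a b : A, a * b = b * a := fun a b => Subtype.ext (h.cen _ a.2 _ (h.le b.2))

theorem norm {n : G} (hn : n ∈ normalizer (P.1 : Set G)) : n ∈ normalizer (A : Set G) :=
  mem_normalizer_of_conj_le (conj_smul_le_iff.2 fun a ha =>
    h.sc a ha n ((mem_normalizer_iff.1 hn a).1 (h.le ha)))

theorem fa {a : G} (ha : a ∈ A) (hC : HasNormalPComplement p (centralizer ({a} : Set G))) :
    FA P := fun x hx g hg => by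
  have hPC : P.1 ≤ centralizer (A : Set G) := fun y hy b hb => h.cen b hb y hy
  obtain ⟨n, hn, e⟩ := weakly_closed_central_controls P (W := A) ⟨h.le, fun g hg =>
    eq_of_le_of_card_ge (conj_smul_le_iff.2 fun a ha => h.sc a ha g (conj_smul_le_iff.1 hg a ha))
      (card_conj_smul g A).ge⟩ (fun a ha y hy => (h.cen a ha y hy).symm) hx hg
  obtain ⟨k, hk, m, hm, rfl⟩ := (IsSylowIn.sylow_of_le P hPC).frattini_arg (g := n)
    (conj_smul_eq_iff_mem_normalizer.1 (by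
      rw [← centralizer_conj_smul, conj_smul_eq_iff_mem_normalizer.2 hn]))
  obtain ⟨u, hu, e'⟩ := npc_conj P hC (h.le_cen ha) (g := k)
    (mem_centralizer_singleton_iff.2 (hk a ha).symm)
  have e1 : k * (m * x * m⁻¹) * k⁻¹ = g * x * g⁻¹ := by rw [← e]; group
  refine ⟨u * m, mul_mem (le_normalizer hu) hm, ?_⟩
  rw [← e1, ← e' _ ((mem_normalizer_iff.1 hm x).1 hx) (e1 ▸ hg)]
  group

theorem noniso {a : G} (ha : a ∈ A) (hC : HasNormalPComplement p (centralizer ({a} : Set G)))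
    (hG : ¬ HasNormalPComplement p G) :
    ∃ n ∈ normalizer (P.1 : Set G), n * a * n⁻¹ ≠ a := by
  by_contra! e
  refine hG (hasNPC_of_controls_fusion P fun x hx g hg => ?_)
  obtain ⟨n, hn, e'⟩ := h.fa ha hC x hx g hg
  obtain ⟨u, hu, e''⟩ := npc_conj P hC (h.le_cen ha) (g := n)
    (mem_centralizer_singleton_iff.2 (mul_inv_eq_iff_eq_mul.1 (e n hn)))
  exact ⟨u, hu, (e'' x hx (e' ▸ hg)).trans e'⟩

theorem into {T : Subgroup G} (hT : IsPGroup p T) : ∃ c : G, (∀ t ∈ T, c * t * c⁻¹ ∈ P.1) ∧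
    ∀ t ∈ T, ∀ a ∈ A, IsConj a t → c * t * c⁻¹ ∈ A := by
  obtain ⟨c, hc⟩ := ST.exists_conj_into P hT
  refine ⟨c, hc, fun t ht a ha e => ?_⟩
  obtain ⟨g, rfl⟩ := isConj_iff.1 e
  have e : c * (g * a * g⁻¹) * c⁻¹ = c * g * a * (c * g)⁻¹ := by group
  exact e ▸ h.sc a ha _ (e ▸ hc _ ht)

theorem zc {a u : G} (ha : a ∈ A) (hu : IsConj a u) {T : Subgroup G} (hT : IsPGroup p T)
    (huT : u ∈ T) {t : G} (ht : t ∈ T) : u * t = t * u := by
  obtain ⟨c, h1, h2⟩ := h.into hT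
  have := h.cen _ (h2 u huT a ha hu) _ (h1 t ht)
  calc u * t = c⁻¹ * (c * u * c⁻¹ * (c * t * c⁻¹)) * c := by group
    _ = _ := by rw [this]; group

end SC

theorem eq_one_of_cop {K : Subgroup G} (hK : (Nat.card K).Coprime p) {g : G} (hg : g ∈ K)
    (h : ∃ k : ℕ, orderOf g = p ^ k) : g = 1 := by
  obtain ⟨k, hk⟩ := h
  have h2 := hK.coprime_dvd_left (Subgroup.orderOf_dvd_natCard _ hg)
  rw [← orderOf_eq_one_iff]
  rw [hk] at h2 ⊢
  exact (Nat.coprime_self _).1 (Nat.Coprime.pow_right k h2)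

theorem conj_of_ker {Q : Type*} [Group Q] (f : G →* Q) (hk : (Nat.card f.ker).Coprime p) {a b : G}
    (ha : ∃ k : ℕ, orderOf a = p ^ k) (hb : ∃ k : ℕ, orderOf b = p ^ k) (e : f a = f b) :
    IsConj b a := by
  obtain ⟨T, hT, h1⟩ := IsSylowIn.exists_le (isPGroup_zpowers ha)
    (zpowers_le.2 (show a ∈ (zpowers (f a)).comap f from mem_zpowers _))
  obtain ⟨x, hx, h2⟩ := hT.exists_conj_le (isPGroup_zpowers hb)
    (zpowers_le.2 (show f b ∈ zpowers (f a) from e ▸ mem_zpowers _))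
  refine isConj_iff.2 ⟨x, mul_inv_eq_one.1 (eq_one_of_cop hk ?_ (pElt_of_mem hT.isPGroup
    (mul_mem (conj_smul_le_iff.1 h2 b (mem_zpowers b)) (inv_mem (h1 (mem_zpowers a))))))⟩
  obtain ⟨k, hk⟩ := mem_zpowers_iff.1 (mem_comap.1 hx)
  rw [MonoidHom.mem_ker]
  simp only [map_mul, map_inv, ← e, ← hk]
  group

theorem key2 (hs : IsPSolvable p G) {u z : G} (hu : u ^ p = 1) (hz : z ^ p = 1)
    (zu : ∀ T : Subgroup G, IsPGroup p T → u ∈ T → ∀ t ∈ T, u * t = t * u)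
    (zz : ∀ T : Subgroup G, IsPGroup p T → z ∈ T → ∀ t ∈ T, z * t = t * z) :
    (∃ (T : Subgroup G) (z' : G), IsPGroup p T ∧ u ∈ T ∧ z' ∈ T ∧ IsConj z z' ∧
      IsConj (pPart p (u * z)) (u * z')) ∧
      ∀ j : ℕ, ¬ p ∣ orderOf (u * z) → ¬ p ∣ orderOf (u * z ^ j) → z ^ j = z := by
  let f := QuotientGroup.mk' (pPrimeCore p G)
  have hf : Function.Surjective f := QuotientGroup.mk'_surjective _
  have hk : (Nat.card f.ker).Coprime p := by
    rw [QuotientGroup.ker_mk']; exact H2.pPrimeCore_coprime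
  have hs' := H1.isPSolvable_quotient hp.out hs (pPrimeCore p G)
  have m : ∀ a : G, a ^ p = 1 → (∀ T : Subgroup G, IsPGroup p T → a ∈ T → ∀ t ∈ T, a * t = t * a) →
      f a ∈ pCore p _ := fun a ha za => by
    obtain ⟨T, hT⟩ := (isPGroup_zpowers (pElt_of_pow ha)).exists_le_sylow
    refine H5b.centralizer_pCore_le hs' H2.pPrimeCore_quotient_self fun b hb => ?_
    obtain ⟨t, ht, rfl⟩ := H2.pCore_le_sylow (T.mapSurjective hf) hb
    rw [← map_mul, ← za _ T.2 (hT (mem_zpowers a)) t ht, map_mul]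
  have m1 := m u hu zu
  have m2 := m z hz zz
  obtain ⟨T, hT⟩ := (isPGroup_zpowers (pElt_of_pow hu)).exists_le_sylow
  have uT := hT (mem_zpowers u)
  obtain ⟨z', hz', e⟩ := H2.pCore_le_sylow (T.mapSurjective hf) m2
  have cm : Commute (f u) (f z) := by
    rw [← e, Commute, SemiconjBy, ← map_mul, zu _ T.2 uT z' hz', map_mul]
  have B : ∀ j : ℕ, f (u * z ^ j) ^ p = 1 := fun j => by
    rw [map_mul, map_pow, (cm.pow_right j).mul_pow, ← map_pow, hu, ← pow_mul, mul_comm j, pow_mul,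
      ← map_pow, hz]
    simp
  have C : ∀ j : ℕ, ¬ p ∣ orderOf (u * z ^ j) → f (u * z ^ j) = 1 := fun j hj => by
    rcases (Nat.dvd_prime hp.out).1 (orderOf_dvd_of_pow_eq_one (B j)) with e | e
    · exact orderOf_eq_one_iff.1 e
    · exact (hj (e ▸ orderOf_map_dvd f _)).elim
  refine ⟨⟨T, z', T.2, uT, hz', conj_of_ker f hk (pElt_of_mem T.2 hz') (pElt_of_pow hz) e,
    conj_of_ker f hk (pElt_of_mem T.2 (mul_mem uT hz')) (orderOf_pPart _) ?_⟩, fun j h1 h2 => ?_⟩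
  · rw [← pPart_map, map_mul, map_mul, e,
      pPart_of_pElt (pElt_of_mem H2.pCore_isPGroup (mul_mem m1 m2))]
  · have e1 := C 1 (by rwa [pow_one])
    have e2 := C j h2
    rw [pow_one, ← e2, map_mul, map_mul, mul_left_cancel_iff] at e1
    refine mul_inv_eq_one.1 (eq_one_of_cop hk (by
      rw [MonoidHom.mem_ker, map_mul, map_inv, ← e1, mul_inv_cancel]) (pElt_of_pow ?_))
    rw [((Commute.refl z).pow_left j).inv_right.mul_pow, ← pow_mul, mul_comm j, pow_mul, hz,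
      inv_pow, hz]
    simp

theorem SC.key {P : Sylow p G} {A : Subgroup G} (h : SC P A) (hs : PairS p G) {a u z : G}
    (ha : a ∈ A) (hu : IsConj a u) (hz : z ∈ A) (ou : orderOf u = p) (oz : orderOf z = p) :
    (∃ c : G, c * pPart p (u * z) * c⁻¹ ∈ A) ∧
      ∀ j : ℕ, ¬ p ∣ orderOf (u * z) → ¬ p ∣ orderOf (u * z ^ j) → z ^ j = z := by
  have m1 : u ∈ closure ({u, z} : Set G) := subset_closure (by simp)
  have m2 : z ∈ closure ({u, z} : Set G) := subset_closure (by simp)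
  obtain ⟨⟨T, z', h1, h2, h3, h4, h5⟩, h6⟩ := key2 (hs u z ou oz) (u := ⟨u, m1⟩) (z := ⟨z, m2⟩)
    (Subtype.ext (by simpa [ou] using pow_orderOf_eq_one u))
    (Subtype.ext (by simpa [oz] using pow_orderOf_eq_one z))
    (fun T hT e t ht => Subtype.ext (h.zc ha hu (hT.map (Subgroup.subtype _)) ⟨_, e, rfl⟩ ⟨_, ht, rfl⟩))
    (fun T hT e t ht => Subtype.ext (h.zc hz (IsConj.refl z) (hT.map (Subgroup.subtype _))
      ⟨_, e, rfl⟩ ⟨_, ht, rfl⟩))
  refine ⟨?_, fun j a b => congrArg Subtype.val (h6 j ?_ ?_)⟩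
  · obtain ⟨c, -, h7⟩ := h.into (h1.map (Subgroup.subtype _))
    have := mul_mem (h7 _ ⟨_, h2, rfl⟩ a ha hu)
      (h7 _ ⟨_, h3, rfl⟩ z hz ((Subgroup.subtype _).map_isConj h4))
    obtain ⟨d, hd⟩ := isConj_iff.1 ((Subgroup.subtype _).map_isConj h5)
    rw [← pPart_map] at hd
    refine ⟨c * d, ?_⟩
    convert this using 1
    change _ = c * u * c⁻¹ * (c * z' * c⁻¹)
    change d * pPart p (u * z) * d⁻¹ = u * z' at hd
    calc _ = c * (d * pPart p (u * z) * d⁻¹) * c⁻¹ := by group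
      _ = _ := by rw [hd]; group
  · rwa [← Subgroup.orderOf_coe]
  · rwa [← Subgroup.orderOf_coe]

theorem card_reg' {u : G} (Y : Finset G) (hY : ∀ z ∈ Y, orderOf z = p)
    (hY' : ∀ z ∈ Y, ∀ k : ℕ, ¬ p ∣ k → z ^ k ∈ Y)
    (hk' : ∀ z ∈ Y, ∀ j : ℕ, ¬ p ∣ orderOf (u * z) → ¬ p ∣ orderOf (u * z ^ j) → z ^ j = z)
    [DecidablePred fun z : G => p ∣ orderOf (u * z)] :
    (p - 1) * (Y.filter fun z => ¬ p ∣ orderOf (u * z)).card ≤ Y.card := by
  classical
  have hk : ∀ k ∈ Finset.Ico 1 p, ¬ p ∣ k := fun k hk e => by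
    have := Finset.mem_Ico.1 hk
    have := Nat.le_of_dvd this.1 e
    omega
  rw [← Nat.card_Ico 1 p |>.symm.symm, ← Finset.card_product]
  refine Finset.card_le_card_of_injOn (fun x => x.2 ^ x.1) (fun x hx => ?_) ?_
  · obtain ⟨h1, h2⟩ := Finset.mem_product.1 hx
    exact hY' _ (Finset.mem_filter.1 h2).1 _ (hk _ h1)
  · rintro ⟨k, z⟩ hx ⟨l, w⟩ hy e
    obtain ⟨h1, h2⟩ := Finset.mem_product.1 hx
    obtain ⟨h3, h4⟩ := Finset.mem_product.1 hy
    obtain ⟨z1, z2⟩ := Finset.mem_filter.1 h2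
    obtain ⟨w1, w2⟩ := Finset.mem_filter.1 h4
    dsimp only at e h1 h3 z1 z2 w1 w2
    obtain ⟨m, hm⟩ := exists_pow_eq_self_of_coprime (x := w) (n := l)
      (by rw [hY w w1]; exact ((Nat.Prime.coprime_iff_not_dvd hp.out).2 (hk l h3)).symm)
    rw [← e, ← pow_mul] at hm
    obtain rfl : w = z := hm.symm.trans (hk' z z1 _ z2 (by rwa [hm]))
    have := pow_injOn_Iio_orderOf (x := w)
      (show k ∈ Set.Iio (orderOf w) by rw [hY w w1]; exact (Finset.mem_Ico.1 h1).2)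
      (show l ∈ Set.Iio (orderOf w) by rw [hY w w1]; exact (Finset.mem_Ico.1 h3).2) e
    rw [this]

end Cfsg.Agent.H5.PP
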