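import Cfsg.Agent.H5.GS2

/-! Glauberman's characterization of the Suzuki groups: degree bounds. -/

set_option autoImplicit false
set_option linter.unusedSectionVars false
set_option linter.unusedVariables false

namespace Cfsg.Agent.H5.PP

open Cfsg Subgroup Cfsg.Agent.H8 Cfsg.Agent.H9 Cfsg.Agent.H4
open Cfsg.Agent.H7 (ip)
open scoped ComplexConjugate

variable {p : ℕ} [hp : Fact p.Prime] {G : Type*} [Group G] [Finite G]

/-- The automizer. -/
abbrev gam (A : Subgroup G) : Subgroup (MulAut A) := A.normalizerMonoidHom.range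

theorem mem_gam {A : Subgroup G} {α : MulAut A} :
    α ∈ gam A ↔ ∃ n ∈ normalizer (A : Set G), ∀ y, (α y : G) = n * y * n⁻¹ :=
  ⟨fun ⟨n, e⟩ => ⟨n, n.2, fun _ => e ▸ rfl⟩,
    fun ⟨n, hn, e⟩ => ⟨⟨n, hn⟩, MulEquiv.ext fun y => Subtype.ext (e y).symm⟩⟩

theorem gam_isConj {A : Subgroup G} (α : gam A) (y : A) : IsConj (y : G) (α.1 y) := by
  obtain ⟨n, -, e⟩ := mem_gam.1 α.2
  exact isConj_iff.2 ⟨n, (e y).symm⟩

theorem norm_sum {Q : Type*} [Group Q] [Fintype Q] (S : Finset (IrrCharacter Q))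
    (n : IrrCharacter Q → ℕ) : ∑ y : Q, ‖∑ φ ∈ S, (n φ : ℂ) * (φ : Q → ℂ) y‖ ^ 2 =
      Nat.card Q * ∑ φ ∈ S, (n φ : ℝ) ^ 2 := by
  classical
  have h1 := H7.ip_self_eq_ofReal (∑ φ ∈ S, (n φ : ℂ) • (φ : Q → ℂ))
  rw [H7.ip_sum_left] at h1
  simp only [H7.ip_smul_left, H7.ip_sum_right, H7.ip_smul_right, Finset.sum_apply, Pi.smul_apply,
    smul_eq_mul] at h1
  rw [Finset.sum_congr rfl fun φ hφ => by
    rw [Finset.sum_eq_single φ (fun ψ _ e => by
      rw [H7.ip_irr_ne φ.2 ψ.2 fun e' => e (Subtype.ext e'.symm), mul_zero, mul_zero])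
      (fun e => (e hφ).elim), H7.ip_irr_self φ.2, mul_one, Complex.conj_natCast]] at h1
  have h2 : ∑ φ ∈ S, (n φ : ℝ) * n φ = _ := Complex.ofReal_injective (by push_cast; exact h1)
  have hq : (Nat.card Q : ℝ) ≠ 0 := Nat.cast_ne_zero.2 Nat.card_pos.ne'
  simp only [sq (n _ : ℝ)]
  rw [h2, mul_inv_cancel_left₀ hq]

namespace SC

variable {P : Sylow p G} {A : Subgroup G} (h : SC P A) (nb : NB p G)
include h nb

theorem npc {a : G} (ha : a ∈ A) (a1 : a ≠ 1) :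
    HasNormalPComplement p (centralizer ({a} : Set G)) :=
  nb.elt (pElt_of_mem P.2 (h.le ha)) a1

theorem fpf : ∀ α ∈ gam A, ∀ y, y ≠ 1 → α y = y → α = 1 := fun α hα y hy e => by
  obtain ⟨n, hn, e'⟩ := mem_gam.1 hα
  obtain ⟨u, hu, e1⟩ := npc_conj P (h.npc nb y.2 fun e => hy (Subtype.ext e)) (h.le_cen y.2) (g := n)
    (mem_centralizer_singleton_iff.2 (mul_inv_eq_iff_eq_mul.1 (by rw [← e', e])))
  ext z
  rw [e', ← e1 z (h.le z.2) (e' z ▸ h.le (α z).2), ← h.cen z z.2 u hu]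
  simp

theorem ex_gam {y z : A} (y1 : (y : G) ≠ 1) (e : IsConj (y : G) z) : ∃ α : gam A, α.1 y = z := by
  obtain ⟨g, e⟩ := isConj_iff.1 e
  obtain ⟨n, hn, e'⟩ := h.fa y.2 (h.npc nb y.2 y1) y (h.le y.2) g (e ▸ h.le z.2)
  exact ⟨⟨_, ⟨n, h.norm hn⟩, rfl⟩, Subtype.ext (e'.trans e)⟩

open Classical in
theorem fus {Y : Finset G} (hY : ∀ y, y ∈ Y ↔ y ∈ A ∧ y ≠ 1) :
    ∀ y ∈ Y, (Y.filter fun z => IsConj y z).card = Nat.card (gam A) := fun y hy => by
  have := Fintype.ofFinite (gam A)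
  obtain ⟨hy, y1⟩ := (hY y).1 hy
  lift y to A using hy
  rw [Nat.card_eq_fintype_card, ← Finset.card_univ]
  refine (Finset.card_bij (fun α _ => (α.1 y : G)) (fun α _ => ?_) (fun α _ β _ e => ?_)
    fun z hz => ?_).symm
  · exact Finset.mem_filter.2 ⟨(hY _).2 ⟨(α.1 y).2, by simpa using y1⟩, gam_isConj α y⟩
  · refine inv_mul_eq_one.1 (Subtype.ext (h.fpf nb _ (α⁻¹ * β).2 y
      (fun e => y1 (congrArg Subtype.val e)) ?_))
    simp [← Subtype.ext e]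
  · obtain ⟨z1, z2⟩ := Finset.mem_filter.1 hz
    obtain ⟨α, e⟩ := h.ex_gam nb (z := ⟨z, ((hY z).1 z1).1⟩) y1 z2
    exact ⟨α, Finset.mem_univ _, congrArg Subtype.val e⟩

variable {a : G} (ha : a ∈ A) (a1 : a ≠ 1)
include ha a1

theorem cls {y : G} (hy : y ∈ P.1) (K : Finset G) (hK : ∀ z ∈ K, z ∈ P.1 ∧ IsConj y z) :
    K.card * p ^ (Nat.card (centralizer ({y} : Set G))).factorization p ≤
      Nat.card (gam A) * Nat.card P.1 := by
  have fa := h.fa ha (h.npc nb ha a1)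
  let π : normalizer (P.1 : Set G) → gam A := fun n => ⟨_, ⟨n, h.norm n.2⟩, rfl⟩
  have k : ∀ z : K, ∃ (α : gam A) (u : P.1), (z : G) =
      (Function.invFun π α).1 * (u * y * (u : G)⁻¹) * (Function.invFun π α).1⁻¹ := fun z => by
    obtain ⟨g, e⟩ := isConj_iff.1 (hK z z.2).2
    obtain ⟨n, hn, e'⟩ := fa y hy g (e ▸ (hK z z.2).1)
    have e1 : π (Function.invFun π (π ⟨n, hn⟩)) = π ⟨n, hn⟩ := Function.invFun_eq ⟨_, rfl⟩
    refine ⟨π ⟨n, hn⟩, ?_⟩
    generalize Function.invFun π (π ⟨n, hn⟩) = r at e1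
    have e2 : (r : G) * a * (r : G)⁻¹ = n * a * n⁻¹ :=
      congrArg (fun α : gam A => (α.1 ⟨a, ha⟩ : G)) e1
    obtain ⟨u, hu, e3⟩ := npc_conj P (h.npc nb ha a1) (h.le_cen ha) (g := (r : G)⁻¹ * n)
      (mem_centralizer_singleton_iff.2 (by
        calc _ = (r : G)⁻¹ * (n * a * n⁻¹) * n := by group
          _ = _ := by rw [← e2]; group))
    refine ⟨⟨u, hu⟩, ?_⟩
    rw [e3 y hy ((mem_normalizer_iff.1 (mul_mem (inv_mem r.2) hn) y).1 hy), ← e, ← e']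
    group
  choose α u k using k
  obtain ⟨T, hT, h1⟩ := IsSylowIn.exists_le (H := centralizer ({y} : Set G))
    (isPGroup_zpowers (pElt_of_mem P.2 hy)) (zpowers_le.2 (mem_centralizer_singleton_iff.2 rfl))
  obtain ⟨c, hc⟩ := ST.exists_conj_into P hT.isPGroup
  obtain ⟨n, hn, e⟩ := fa y hy c (hc y (h1 (mem_zpowers y)))
  have m : ∀ t : T, n⁻¹ * (c * t * c⁻¹) * n⁻¹⁻¹ ∈ P.1 := fun t =>
    (mem_normalizer_iff.1 (inv_mem hn) _).1 (hc t t.2)
  have m' : ∀ t : T, n⁻¹ * (c * t * c⁻¹) * n⁻¹⁻¹ * y * (n⁻¹ * (c * t * c⁻¹) * n⁻¹⁻¹)⁻¹ = y :=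
    fun t => by
      have := mem_centralizer_singleton_iff.1 (hT.le t.2)
      calc _ = n⁻¹ * c * t * c⁻¹ * (n * y * n⁻¹) * c * (t : G)⁻¹ * c⁻¹ * n := by group
        _ = n⁻¹ * (c * (t * y) * (t : G)⁻¹ * c⁻¹) * n := by rw [e]; group
        _ = n⁻¹ * (c * y * c⁻¹) * n := by rw [this]; group
        _ = y := by rw [← e]; group
  rw [← hT.card_eq, ← Nat.card_eq_finsetCard, ← Nat.card_prod, ← Nat.card_prod]
  refine Nat.card_le_card_of_injective (fun x => (α x.1, u x.1 * ⟨_, m x.2⟩)) ?_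
  rintro ⟨z, t⟩ ⟨w, s⟩ e1
  obtain ⟨e2, e3⟩ := Prod.mk.inj e1
  have e4 : (u z : G) * (n⁻¹ * (c * t * c⁻¹) * n⁻¹⁻¹) = u w * (n⁻¹ * (c * s * c⁻¹) * n⁻¹⁻¹) :=
    congrArg Subtype.val e3
  obtain rfl : z = w := Subtype.ext (by
    rw [k z, k w, e2]
    conv_lhs => rw [← m' t]
    conv_rhs => rw [← m' s]
    generalize n⁻¹ * (c * t * c⁻¹) * n⁻¹⁻¹ = b at e4 ⊢
    generalize n⁻¹ * (c * s * c⁻¹) * n⁻¹⁻¹ = d at e4 ⊢
    have e5 : (u z : G) * (b * y * b⁻¹) * (u z : G)⁻¹ = (u z * b) * y * (u z * b)⁻¹ := by group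
    rw [e5, e4]
    group)
  simpa using e4

variable {M : Ideal AlgInt} [hMm : M.IsMaximal] (hM : IsPModular p M)
include hM

theorem budget {χ : IrrCharacter G} (hχ : χ ∈ principalBlock M G) (Z : Finset G)
    (hZ : ∀ y ∈ Z, y ∈ P.1 ∧ y ≠ 1) :
    ∑ y ∈ Z, ‖(χ : G → ℂ) y‖ ^ 2 ≤ Nat.card (gam A) * Nat.card P.1 := by
  classical
  have pe : ∀ z ∈ Z, ∃ k : ℕ, orderOf z = p ^ k := fun z hz => pElt_of_mem P.2 (hZ z hz).1
  let b : IrrCharacter G → ℂ := fun ψ => ∑ y ∈ Z, (ψ : G → ℂ) y * conj ((χ : G → ℂ) y)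
  let c : G → ℕ := fun y => (Z.filter fun z => IsConj y z).card *
    p ^ (Nat.card (centralizer ({y} : Set G))).factorization p
  have h1 : ∑ ψ ∈ bs (principalBlock M G), b ψ * conj (b ψ) =
      ∑ y ∈ Z, (χ : G → ℂ) y * conj ((χ : G → ℂ) y) * c y := by
    simp only [b, map_sum, Finset.sum_mul_sum]
    rw [Finset.sum_comm]
    refine Finset.sum_congr rfl fun y hy => ?_
    have e1 : ∀ z ∈ Z, ∑ ψ ∈ bs (principalBlock M G), (ψ : G → ℂ) y * conj ((χ : G → ℂ) y) *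
        conj ((ψ : G → ℂ) z * conj ((χ : G → ℂ) z)) = if IsConj y z then conj ((χ : G → ℂ) y) *
          (χ : G → ℂ) z * lamP M (centralizer ({y} : Set G)) else 0 := fun z hz => by
      rw [← mul_zero (conj ((χ : G → ℂ) y) * (χ : G → ℂ) z), ← mul_ite,
        ← col_principal hM (pe y hy) (pe z hz), Finset.mul_sum]
      refine Finset.sum_congr rfl fun ψ _ => ?_
      simp only [map_mul, Complex.conj_conj]
      ring
    rw [Finset.sum_comm, Finset.sum_congr rfl e1,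
      ← Finset.sum_filter, Finset.sum_congr rfl fun z hz => by
        rw [← irr_isConj χ (Finset.mem_filter.1 hz).2],
      lamP_of_hasNPC hM (nb.elt (pe y hy) (hZ y hy).2), Finset.sum_const, nsmul_eq_mul]
    simp only [c]
    push_cast
    ring
  simp only [Complex.mul_conj, Complex.normSq_eq_norm_sq] at h1
  have h2 : ∑ ψ ∈ bs (principalBlock M G), ‖b ψ‖ ^ 2 = ∑ y ∈ Z, ‖(χ : G → ℂ) y‖ ^ 2 * c y := by
    exact_mod_cast h1
  have h3 : b χ = ((∑ y ∈ Z, ‖(χ : G → ℂ) y‖ ^ 2 : ℝ) : ℂ) := by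
    simp only [b, Complex.mul_conj, Complex.normSq_eq_norm_sq]
    push_cast
    rfl
  have h4 := Finset.single_le_sum (f := fun ψ => ‖b ψ‖ ^ 2) (fun _ _ => by positivity)
    (mem_bs.2 hχ)
  have h5 : ∑ y ∈ Z, ‖(χ : G → ℂ) y‖ ^ 2 * c y ≤
      (∑ y ∈ Z, ‖(χ : G → ℂ) y‖ ^ 2) * (Nat.card (gam A) * Nat.card P.1) := by
    rw [Finset.sum_mul]
    refine Finset.sum_le_sum fun y hy => mul_le_mul_of_nonneg_left ?_ (by positivity)
    exact_mod_cast h.cls nb ha a1 (hZ y hy).1 _ fun z hz =>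
      ⟨(hZ z (Finset.mem_filter.1 hz).1).1, (Finset.mem_filter.1 hz).2⟩
  rw [h2, h3, Complex.norm_real, Real.norm_eq_abs, sq_abs] at h4
  have h6 : 0 ≤ ∑ y ∈ Z, ‖(χ : G → ℂ) y‖ ^ 2 := by positivity
  rcases h6.eq_or_lt with e | e
  · rw [← e]
    positivity
  · exact le_of_mul_le_mul_left (sq (∑ y ∈ Z, ‖(χ : G → ℂ) y‖ ^ 2) ▸ h4.trans h5) e

theorem degb [IsSimpleGroup G] {χ : IrrCharacter G} (hχ : χ ∈ principalBlock M G)
    (h1 : χ ≠ irrOne G) [Fintype A] {f : ℕ} (hf : ∑ y : A, (χ : G → ℂ) y = Nat.card A * f) :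
    Nat.card A * f ^ 2 ≤ charDegree (χ : G → ℂ) ^ 2 := by
  classical
  have := Fintype.ofFinite P.1
  have := Fintype.ofFinite (IrrCharacter P.1)
  have := finite_lin (Q := A)
  have := Fintype.ofFinite (A →* ℂˣ)
  have := Fintype.ofFinite (gam A)
  obtain ⟨n, -, hn⟩ := H6.isCharacter_exists_mult (H7.char_comp P.1.subtype (irr_isChar χ))
  have k : ∀ y : P.1, (χ : G → ℂ) y = ∑ φ : IrrCharacter P.1, (n φ : ℂ) * (φ : P.1 → ℂ) y :=
    fun y => by simpa using congrFun hn y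
  have ex : ∀ φ : IrrCharacter P.1, ∃ l : A →* ℂˣ, ∀ x : A,
      (φ : P.1 → ℂ) (inclusion h.le x) = l x * (φ : P.1 → ℂ) 1 := fun φ => by
    obtain ⟨l, hl⟩ := H6.exists_linear_of_le_center φ.2 (A.subgroupOf P.1) fun x hx =>
      mem_center_iff.2 fun y => Subtype.ext (h.cen _ hx _ y.2).symm
    refine ⟨l.comp (subgroupOfEquivOfLe h.le).symm.toMonoidHom, fun x => ?_⟩
    have := hl ((subgroupOfEquivOfLe h.le).symm x) 1
    rw [mul_one] at this
    exact this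
  choose l hl using ex
  have k1 : ∀ ψ : A →* ℂˣ, ip (fun x : A => (χ : G → ℂ) x) (lf ψ) =
      ∑ φ with l φ = ψ, (n φ : ℂ) * (φ : P.1 → ℂ) 1 := fun ψ => by
    have : (fun x : A => (χ : G → ℂ) x) = ∑ φ, ((n φ : ℂ) * (φ : P.1 → ℂ) 1) • lf (l φ) := by
      ext x
      refine (k (inclusion h.le x)).trans ?_
      simp only [hl, Finset.sum_apply, Pi.smul_apply, smul_eq_mul]
      exact Finset.sum_congr rfl fun _ _ => by ring
    rw [this, H7.ip_sum_left, Finset.sum_filter]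
    simp only [H7.ip_smul_left, ip_lf, mul_ite, mul_one, mul_zero]
  have k2 : (f : ℂ) = ∑ φ with l φ = 1, (n φ : ℂ) * (φ : P.1 → ℂ) 1 := by
    rw [← k1, H7.ip_def]
    simp only [lf, MonoidHom.one_apply, Units.val_one, map_one, mul_one]
    rw [hf, inv_mul_cancel_left₀ (H7.card_ne_zero' _)]
  obtain ⟨ψ, p1, p2⟩ : ∃ ψ : A →* ℂˣ, ψ ≠ 1 ∧ ip (fun x : A => (χ : G → ℂ) x) (lf ψ) ≠ 0 := by
    by_contra! e
    have e1 : ∀ x : A, (χ : G → ℂ) x = ip (fun x : A => (χ : G → ℂ) x) (lf 1) := fun x => by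
      refine (apply_eq_sum_lin h.comm (fun x : A => (χ : G → ℂ) x) x).trans ?_
      rw [Finset.sum_eq_single 1 (fun ψ _ e' => by rw [e ψ e', zero_mul]) (by simp)]
      simp
    exact ne_deg h1 a1 ((e1 ⟨a, ha⟩).trans ((e1 1).symm.trans (irr_one_eq χ)))
  have k3 : ∀ α : gam A, ∃ φ, l φ = cmp ψ α ∧ n φ ≠ 0 := fun α => by
    by_contra! e
    refine p2 ?_
    rw [← H7.ip_comp_equiv α.1.toEquiv, show (fun x => (χ : G → ℂ) (α.1.toEquiv x : A)) =
      fun x : A => (χ : G → ℂ) x from funext fun x => (irr_isConj χ (gam_isConj α x)).symm]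
    refine (k1 (cmp ψ α)).trans (Finset.sum_eq_zero fun φ hφ => ?_)
    rw [e φ (Finset.mem_filter.1 hφ).2]
    simp
  choose g g1 g2 using k3
  have gi : Function.Injective g := fun α β e =>
    cmp_injective h.comm (h.fpf nb) p1 ((g1 α).symm.trans (e ▸ g1 β))
  have k4 : (Nat.card (gam A) : ℝ) ≤ ∑ φ with ¬ l φ = 1, (n φ : ℝ) ^ 2 := by
    refine le_trans ?_ (Finset.sum_le_sum_of_subset_of_nonneg (s := Finset.univ.image g)
      (fun φ hφ => ?_) fun _ _ _ => by positivity)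
    · rw [Finset.sum_image gi.injOn, Nat.card_eq_fintype_card, ← Finset.card_univ, ← mul_one
        (Finset.card _ : ℝ), ← nsmul_eq_mul]
      refine Finset.card_nsmul_le_sum _ _ _ fun α _ => one_le_pow₀ ?_
      exact_mod_cast Nat.pos_of_ne_zero (g2 α)
    · obtain ⟨α, -, rfl⟩ := Finset.mem_image.1 hφ
      exact Finset.mem_filter.2 ⟨Finset.mem_univ _, g1 α ▸ cmp_ne_one p1 _⟩
  have k5 := norm_sum Finset.univ n
  have k6 := norm_sum (Finset.univ.filter fun φ => l φ = 1) n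
  have k7 : (Nat.card A : ℝ) * f ^ 2 ≤
      ∑ y : P.1, ‖∑ φ with l φ = 1, (n φ : ℂ) * (φ : P.1 → ℂ) y‖ ^ 2 := by
    refine le_trans (le_of_eq ?_) (Finset.sum_le_sum_of_subset_of_nonneg
      (Finset.subset_univ (Finset.univ.image (inclusion h.le))) fun _ _ _ => by positivity)
    rw [Finset.sum_image (inclusion_injective h.le).injOn, Finset.sum_congr rfl fun x _ => by
      rw [Finset.sum_congr rfl fun φ hφ => by
        rw [hl, (Finset.mem_filter.1 hφ).2, MonoidHom.one_apply, Units.val_one, one_mul], ← k2]]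
    simp [Nat.card_eq_fintype_card]
  have k8 := h.budget nb ha a1 hM hχ ((Finset.univ.erase 1).image P.1.subtype) fun y hy => by
    obtain ⟨z, hz, rfl⟩ := Finset.mem_image.1 hy
    exact ⟨z.2, fun e => Finset.ne_of_mem_erase hz (Subtype.ext e)⟩
  rw [Finset.sum_image P.1.subtype_injective.injOn] at k8
  simp only [← k] at k5
  rw [← Finset.add_sum_erase _ _ (Finset.mem_univ 1), coe_one, irr_one_eq, Complex.norm_natCast,
    ← Finset.sum_filter_add_sum_filter_not _ fun φ => l φ = 1] at k5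
  have hq : (0 : ℝ) ≤ Nat.card P.1 := by positivity
  have k9 := mul_le_mul_of_nonneg_left k4 hq
  have : (Nat.card A : ℝ) * f ^ 2 ≤ charDegree (χ : G → ℂ) ^ 2 := by
    simp only [coe_subtype] at k8
    nlinarith
  exact_mod_cast this

end SC

end Cfsg.Agent.H5.PP
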