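import Cfsg.Agent.H5.GS3

/-! Glauberman's characterization of the Suzuki groups: odd primes. -/

set_option autoImplicit false
set_option linter.unusedSectionVars false
set_option linter.unusedVariables false

namespace Cfsg.Agent.H5.PP

open Cfsg Subgroup Cfsg.Agent.H8 Cfsg.Agent.H9 Cfsg.Agent.H4
open Cfsg.Agent.H7 (ip)
open scoped ComplexConjugate

variable {p : ℕ} [hp : Fact p.Prime] {G : Type*} [Group G] [Finite G]

theorem num3 {ι : Type*} (B : Finset ι) {o : ι} (ho : o ∈ B) (a : ι → ℤ) (d : ι → ℕ) (q : ℕ)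
    (hd : ∀ i, d i ≠ 0) (a1 : a o = 1) (d1 : d o = 1) (h1 : ∑ i ∈ B, a i ^ 2 = q)
    (h2 : ∑ i ∈ B, a i * d i = 0) (h3 : ∀ i ∈ B, i ≠ o → 2 * a i ≤ d i) :
    ∑ i ∈ B, (a i : ℝ) ^ 3 / d i < q / 2 := by
  classical
  obtain ⟨j, hj, aj⟩ : ∃ j ∈ B, a j < 0 := by
    by_contra! h
    have := Finset.single_le_sum (f := fun i => a i * d i)
      (fun i hi => mul_nonneg (h i hi) (Nat.cast_nonneg _)) ho
    rw [h2, a1, d1] at this
    simp at this
  have jo : j ≠ o := by rintro rfl; omega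
  have dp : ∀ i, (0 : ℝ) < d i := fun i => by exact_mod_cast Nat.pos_of_ne_zero (hd i)
  have k1 : (a j : ℝ) ^ 3 / d j < (a j : ℝ) ^ 2 / 2 - 1 / 2 := by
    have e1 : (a j : ℝ) ≤ -1 := by exact_mod_cast (show a j ≤ -1 by omega)
    have e2 : (a j : ℝ) ^ 3 / d j < 0 := div_neg_of_neg_of_pos
      (Odd.pow_neg (by decide) (by linarith)) (dp j)
    nlinarith
  have := Finset.sum_lt_sum (s := B) (f := fun i => (a i : ℝ) ^ 3 / d i)
    (g := fun i => (a i : ℝ) ^ 2 / 2 + (if i = o then 1 / 2 else 0) - if i = j then 1 / 2 else 0)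
    (fun i hi => by
      by_cases e : i = o
      · subst e
        simp [a1, d1, jo.symm]
        norm_num
      by_cases e' : i = j
      · subst e'
        simpa [e] using k1.le
      have e3 : 2 * (a i : ℝ) ≤ d i := by exact_mod_cast h3 i hi e
      simp only [e, e', if_false, add_zero, sub_zero]
      rw [div_le_iff₀ (dp i)]
      nlinarith [sq_nonneg (a i : ℝ)])
    ⟨j, hj, by simpa [jo] using k1⟩
  refine this.trans_eq ?_
  have h4 : ∑ i ∈ B, (a i : ℝ) ^ 2 = q := by exact_mod_cast h1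
  simp [Finset.sum_sub_distrib, Finset.sum_add_distrib, ← Finset.sum_div, h4, ho, hj]

theorem SC.odd [IsSimpleGroup G] {P : Sylow p G} {A : Subgroup G} (h : SC P A)
    (exp : ∀ a ∈ A, a ^ p = 1) (nb : NB p G) (hc : PairS p G) (hG : ¬ HasNormalPComplement p G)
    {a : G} (ha : a ∈ A) (a1 : a ≠ 1) (p2 : p ≠ 2) :
    Nat.card A ≠ 3 ∧ p = 3 ∧ Nat.card (gam A) = 2 := by
  classical
  have := Fintype.ofFinite A
  obtain ⟨M, hM⟩ := exists_pmod p
  have := hM.2.1
  obtain ⟨Y, hY⟩ : ∃ Y : Finset G, ∀ y, y ∈ Y ↔ y ∈ A ∧ y ≠ 1 :=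
    ⟨(Set.toFinite {y | y ∈ A ∧ y ≠ 1}).toFinset, fun y => by simp⟩
  have C : Core2 P A Y (Nat.card (gam A)) := ⟨h, exp, hY, nb, h.fus nb hY, hc⟩
  have e2 : 2 ≤ Nat.card (gam A) := by
    obtain ⟨n, hn, e⟩ := h.noniso ha (h.npc nb ha a1) hG
    exact Finite.one_lt_card_iff_nontrivial.2 ⟨⟨_, ⟨n, h.norm hn⟩, rfl⟩, 1, fun e' =>
      e (congrArg (fun α : gam A => (α.1 ⟨a, ha⟩ : G)) e')⟩
  have hr := card_orb h.comm (h.fpf nb)
  have pw : p ∣ Nat.card A := orderOf_eq_prime (exp a ha) a1 ▸ Subgroup.orderOf_dvd_natCard _ ha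
  have wq : Nat.card A ≤ Nat.card P.1 := card_le_of_le h.le
  have p3 : 3 ≤ p := by have := hp.out.two_le; omega
  have w3 : 3 ≤ Nat.card A := p3.trans (Nat.le_of_dvd Nat.card_pos pw)
  have hn1 : Y.card + 1 = Nat.card A := by
    have := sumY _ hY fun _ => 1
    simp only [Finset.sum_const, Finset.card_univ, ← Nat.card_eq_fintype_card, nsmul_eq_mul,
      mul_one] at this
    rw [add_comm]
    exact_mod_cast this
  have hn2 : (Nat.card A : ℤ) = Y.card + 1 := by exact_mod_cast hn1.symm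
  choose f hf using fun χ : IrrCharacter G => res_one χ A
  have ex : ∀ χ : IrrCharacter G, ∑ z ∈ Y, (χ : G → ℂ) z =
      ((Nat.card A * f χ - charDegree (χ : G → ℂ) : ℤ) : ℂ) := fun χ => by
    have hm := hf χ
    rw [← sumY _ hY, irr_one_eq] at hm
    push_cast
    linear_combination hm
  have db : ∀ χ ∈ bs (principalBlock M G), χ ≠ irrOne G →
      (Nat.card A : ℤ) * f χ ^ 2 ≤ charDegree (χ : G → ℂ) ^ 2 := fun χ hχ h1 => by
    exact_mod_cast h.degb nb ha a1 hM (mem_bs.1 hχ) h1 (hf χ)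
  have d1 : charDegree (irrOne G : G → ℂ) = 1 :=
    Nat.cast_injective (R := ℂ) (by rw [← irr_one_eq]; simp)
  by_cases w : Nat.card A = 3
  · exfalso
    obtain rfl : p = 3 := (Nat.prime_dvd_prime_iff_eq hp.out Nat.prime_three).1 (w ▸ pw)
    have n2 : Y.card = 2 := by omega
    have aY := (hY a).2 ⟨ha, a1⟩
    have e3 : Nat.card (gam A) = 2 := le_antisymm
      (by rw [← C.fus a aY, ← n2]; exact Finset.card_filter_le _ _) e2
    have cst : ∀ χ : IrrCharacter G, ∀ y ∈ A, y ≠ 1 → (χ : G → ℂ) y = (χ : G → ℂ) a :=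
      fun χ y hy y1 => by
        have := Finset.eq_of_subset_of_card_le (Finset.filter_subset _ Y)
          (by rw [C.fus a aY]; omega)
        exact (irr_isConj χ (Finset.mem_filter.1 (this.symm ▸ (hY y).2 ⟨hy, y1⟩)).2).symm
    have ex' : ∀ χ : IrrCharacter G, ∃ b : ℤ, (χ : G → ℂ) a = b := fun χ => by
      by_cases e : χ = irrOne G
      · exact ⟨1, by simp [e]⟩
      · obtain ⟨b, h1, -⟩ := const_int e (fun x hx y hy => h.cen x hx y (h.le hy)) ha a1 (cst χ)
        exact ⟨b, h1⟩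
    choose b hb using ex'
    have hs : ∀ χ : IrrCharacter G, ∑ z ∈ Y, (χ : G → ℂ) z = ((2 * b χ : ℤ) : ℂ) := fun χ => by
      rw [Finset.sum_congr rfl fun z hz => (cst χ z ((hY z).1 hz).1 ((hY z).1 hz).2).trans (hb χ)]
      simp [n2]
    have c1 := C.c1 hM hs
    have c2 := C.c2 hM hs
    have c3 := C.c3 hM hs
    simp only [mul_pow, mul_assoc, ← Finset.mul_sum, Int.cast_mul, Int.cast_ofNat, n2, e3,
      mul_div_assoc, Nat.cast_ofNat] at c1 c2 c3
    have k := num3 (bs (principalBlock M G)) (mem_bs.2 irrOne_mem_principalBlock) b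
      (fun χ => charDegree (χ : G → ℂ)) (Nat.card P.1) charDegree_irr_ne_zero
      (Int.cast_injective (α := ℂ) (by rw [← hb]; simp)) d1 (by linarith) (by linarith)
      fun χ hχ h1 => by
        have b1 := db χ hχ h1
        have b2 : 2 * b χ = _ := Int.cast_injective (α := ℂ) ((hs χ).symm.trans (ex χ))
        rw [w] at b1 b2
        push_cast at b1 b2
        by_contra! b3
        nlinarith [Nat.cast_nonneg (α := ℤ) (charDegree (χ : G → ℂ))]
    linarith
  have c1 := C.c1 hM ex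
  have c3 := C.c3 hM ex
  have k := num2 (bs (principalBlock M G)) (mem_bs.2 irrOne_mem_principalBlock)
    (fun χ => Nat.card A * f χ - charDegree (χ : G → ℂ)) (fun χ => charDegree (χ : G → ℂ)) Y.card (Nat.card P.1 * Nat.card (gam A))
    charDegree_irr_ne_zero (Int.cast_injective (α := ℂ) (by rw [← ex]; simp)) d1
    (by exact_mod_cast c1) fun χ hχ h1 => by
      have b1 := db χ hχ h1
      have b2 : (3 : ℤ) ≤ Y.card := by omega
      rw [hn2] at b1 ⊢
      have b3 : (3 * ((Y.card + 1 : ℤ) * f χ)) ^ 2 ≤ ((Y.card + 3) * charDegree (χ : G → ℂ)) ^ 2 := by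
        have b4 := mul_le_mul_of_nonneg_left b1 (show (0 : ℤ) ≤ 9 * (Y.card + 1) by positivity)
        have b5 : (9 : ℤ) * (Y.card + 1) ≤ (Y.card + 3) ^ 2 := by nlinarith
        have b6 := mul_le_mul_of_nonneg_right b5 (sq_nonneg (charDegree (χ : G → ℂ) : ℤ))
        nlinarith
      have := (abs_le_of_sq_le_sq' b3 (by positivity)).2
      linarith
  have n2 : (0 : ℝ) < Y.card := by exact_mod_cast (show 0 < Y.card by omega)
  have p1 : (0 : ℝ) ≤ p - 1 := by rw [sub_nonneg]; exact_mod_cast hp.out.one_le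
  have e3 : ((Nat.card P.1 * Nat.card (gam A) : ℝ)) * (2 * p - 5) ≤ 2 * Y.card * (p - 1) := by
    refine le_of_mul_le_mul_left ?_ (pow_pos n2 2)
    have := c3.trans (mul_le_mul_of_nonneg_left k p1)
    nlinarith
  have e4 : ((Nat.card P.1 * Nat.card (gam A) : ℤ)) * (2 * p - 5) ≤ 2 * Y.card * (p - 1) := by
    exact_mod_cast e3
  have e5 : (Y.card : ℤ) + 1 ≤ Nat.card P.1 := by omega
  have e6 : (2 : ℤ) ≤ Nat.card (gam A) := by omega
  have e7 : ((Y.card : ℤ) + 1) * Nat.card (gam A) ≤ Nat.card P.1 * Nat.card (gam A) :=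
    mul_le_mul_of_nonneg_right e5 (by omega)
  have e8 : p = 3 := by
    by_contra e
    have e9 : (4 : ℤ) ≤ p := by omega
    have := mul_le_mul_of_nonneg_right (le_trans (mul_le_mul_of_nonneg_left e6 (by omega)) e7)
      (show (0 : ℤ) ≤ 2 * p - 5 by omega)
    nlinarith [Nat.cast_nonneg (α := ℤ) Y.card]
  subst e8
  refine ⟨w, rfl, ?_⟩
  have e9 : Nat.card (gam A) < 4 := by
    by_contra! e
    have : (4 : ℤ) ≤ Nat.card (gam A) := by omega
    push_cast at e4
    nlinarith [Nat.cast_nonneg (α := ℤ) Y.card]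
  have e10 : Nat.card (gam A) ≠ 3 := fun e => by
    rw [e] at hr
    omega
  omega

theorem odd_simple [IsSimpleGroup G] (P : Sylow p G) (nab : ¬ IsMulCommutative G)
    (hd : p ∣ Nat.card G) (fa : FA P) (nb : NB p G) (hc : PairS p G) : p = 2 := by
  by_contra p2
  obtain ⟨a, ha, -, oa⟩ := exists_om P ⊤ (by rwa [card_top])
  have a1 : a ≠ 1 := fun e => hp.out.ne_one (by rw [← oa, e, orderOf_one])
  have hG : ¬ HasNormalPComplement p G := by
    rintro ⟨Q, N, hN, hQ⟩
    rcases hN.eq_bot_or_eq_top with rfl | rfl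
    · have e : P.1 = ⊤ := top_le_iff.1 (P.3 (isComplement'_bot_left.1 hQ ▸ Q.2) le_top).le
      rcases (inferInstance : (center G).Normal).eq_bot_or_eq_top with e' | e'
      · exact a1 (mem_bot.1 (e' ▸ mem_center_iff.2 fun y => (ha.2.1 y (e ▸ mem_top y)).symm))
      · exact nab ⟨⟨fun x y => mem_center_iff.1 (e' ▸ mem_top y) x⟩⟩
    · have := Q.dvd_card_of_dvd_card hd
      rw [isComplement'_top_left.1 hQ, card_bot] at this
      exact hp.out.ne_one (Nat.dvd_one.1 this)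
  have h := fa.om
  obtain ⟨-, rfl, e⟩ := h.odd (fun a ha => ha.2.2) nb hc hG ha a1 p2
  have inv : ∀ α : gam (om P), α ≠ 1 → ∀ x, α.1 x = x⁻¹ := fun α hα x => by
    by_contra e'
    refine hα (Subtype.ext (h.fpf nb _ α.2 (α.1 x * x) (fun e => e' (eq_inv_of_mul_eq_one_left e)) ?_))
    have : α * α = 1 := by rw [← sq, ← e, pow_card_eq_one']
    rw [map_mul, ← MulAut.mul_apply, ← coe_mul, this, h.comm]
    rfl
  have hle := zpowers_le.2 ha
  have h' : SC P (zpowers a) := ⟨hle.trans h.le, fun x hx => h.cen x (hle hx), fun x hx g hg => by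
    by_cases x1 : x = 1
    · simp [x1]
    obtain ⟨α, e'⟩ := h.ex_gam nb (y := ⟨x, hle hx⟩) (z := ⟨_, h.sc x (hle hx) g hg⟩) x1
      (isConj_iff.2 ⟨g, rfl⟩)
    by_cases e1 : α = 1
    · rw [e1] at e'
      exact (show x = g * x * g⁻¹ from congrArg Subtype.val e') ▸ hx
    · rw [inv α e1] at e'
      exact (show x⁻¹ = g * x * g⁻¹ from congrArg Subtype.val e') ▸ inv_mem hx⟩
  exact (h'.odd (fun x hx => (hle hx).2.2) nb hc hG (mem_zpowers a) a1 p2).1
    (by rw [Nat.card_zpowers, oa])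

end Cfsg.Agent.H5.PP
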