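import Cfsg.Agent.H5.HH
import Cfsg.Agent.H8.Abel
import Cfsg.Agent.H2.Cores
import Cfsg.Agent.H2.Fitting

/-! Pairs of elements of order `p` generating `p`-solvable groups: the group theoretic part. -/

set_option autoImplicit false
set_option linter.unusedSectionVars false
set_option linter.unusedVariables false

namespace Cfsg.Agent.H5.PP

open Cfsg Subgroup Cfsg.Agent.H8

variable {p : ℕ} [hp : Fact p.Prime] {G : Type*} [Group G] [Finite G]

/-- All `p`-subgroups are abelian. -/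
def AB (p : ℕ) (G : Type*) [Group G] : Prop :=
  ∀ T : Subgroup G, IsPGroup p T → ∀ a ∈ T, ∀ b ∈ T, a * b = b * a

theorem ab_of_sylow (P : Sylow p G) (h : ∀ a ∈ P.1, ∀ b ∈ P.1, a * b = b * a) : AB p G :=
    fun T hT a ha b hb => by
  obtain ⟨S, hS⟩ := hT.exists_le_sylow
  obtain ⟨g, rfl⟩ := MulAction.exists_smul_eq G P S
  have h1 := hS ha
  have h2 := hS hb
  rw [Sylow.coe_subgroup_smul, mem_pointwise_smul_iff_inv_smul_mem] at h1 h2
  have := h _ h1 _ h2
  rw [← smul_mul', ← smul_mul'] at this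
  exact MulAction.injective _ this

theorem AB.sub (h : AB p G) (H : Subgroup G) : AB p H := fun T hT a ha b hb =>
  Subtype.ext (h (T.map H.subtype) (hT.map _) a ⟨a, ha, rfl⟩ b ⟨b, hb, rfl⟩)

theorem AB.surj {Q : Type*} [Group Q] [Finite Q] (h : AB p G) {f : G →* Q}
    (hf : Function.Surjective f) : AB p Q := by
  obtain ⟨S⟩ : Nonempty (Sylow p G) := inferInstance
  refine ab_of_sylow (S.mapSurjective hf) ?_
  rintro _ ⟨a, ha, rfl⟩ _ ⟨b, hb, rfl⟩
  rw [← map_mul, h _ S.2 a ha b hb, map_mul]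

theorem pElt_of_pow {a : G} (ha : a ^ p = 1) : ∃ k : ℕ, orderOf a = p ^ k := by
  rcases (Nat.dvd_prime hp.out).1 (orderOf_dvd_of_pow_eq_one ha) with e | e
  · exact ⟨0, by rw [e, pow_zero]⟩
  · exact ⟨1, by rw [e, pow_one]⟩

theorem mem_pCore (hs : IsPSolvable p G) (hO : pPrimeCore p G = ⊥) (h : AB p G) {a : G}
    (ha : a ^ p = 1) : a ∈ pCore p G := by
  obtain ⟨T, hT⟩ := (isPGroup_zpowers (pElt_of_pow ha)).exists_le_sylow
  refine H5b.centralizer_pCore_le hs hO fun b hb => ?_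
  exact h _ T.2 b (H2.pCore_le_sylow T hb) a (hT (mem_zpowers a))

theorem key (hs : IsPSolvable p G) (h : AB p G) {u z : G} (hu : u ^ p = 1) (hz : z ^ p = 1) :
    pPart p (u * z) ^ p = 1 ∧
      ∀ j : ℕ, ¬ p ∣ orderOf (u * z) → ¬ p ∣ orderOf (u * z ^ j) → z ^ j = z := by
  let f := QuotientGroup.mk' (pPrimeCore p G)
  have hf : Function.Surjective f := QuotientGroup.mk'_surjective _
  have hs' := H1.isPSolvable_quotient hp.out hs (pPrimeCore p G)
  have h' := h.surj hf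
  have m1 : f u ∈ pCore p _ := mem_pCore hs' H2.pPrimeCore_quotient_self h'
    (by rw [← map_pow, hu, map_one])
  have m2 : f z ∈ pCore p _ := mem_pCore hs' H2.pPrimeCore_quotient_self h'
    (by rw [← map_pow, hz, map_one])
  have cm : Commute (f u) (f z) := h' _ H2.pCore_isPGroup _ m1 _ m2
  have A : ∀ g : G, (∃ k : ℕ, orderOf g = p ^ k) → f g = 1 → g = 1 := fun g ⟨k, hk⟩ e => by
    have h1 : g ∈ pPrimeCore p G := (QuotientGroup.eq_one_iff g).1 e
    have h2 := (H2.pPrimeCore_coprime (p := p) (G := G)).coprime_dvd_left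
      (Subgroup.orderOf_dvd_natCard _ h1)
    rw [← orderOf_eq_one_iff]
    rw [hk] at h2 ⊢
    exact (Nat.coprime_self _).1 (Nat.Coprime.pow_right k h2)
  have B : ∀ j : ℕ, f (u * z ^ j) ^ p = 1 := fun j => by
    rw [map_mul, map_pow, (cm.pow_right j).mul_pow, ← map_pow, hu, ← pow_mul, mul_comm j, pow_mul,
      ← map_pow, hz]
    simp
  have C : ∀ j : ℕ, ¬ p ∣ orderOf (u * z ^ j) → f (u * z ^ j) = 1 := fun j hj => by
    rcases (Nat.dvd_prime hp.out).1 (orderOf_dvd_of_pow_eq_one (B j)) with e | e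
    · exact orderOf_eq_one_iff.1 e
    · exact (hj (e ▸ orderOf_map_dvd f _)).elim
  refine ⟨A _ ?_ ?_, fun j h1 h2 => ?_⟩
  · exact pElt_of_mem (isPGroup_zpowers (orderOf_pPart (u * z))) (pow_mem (mem_zpowers _) p)
  · rw [map_pow, ← pPart_map]
    obtain ⟨n, hn⟩ := mem_zpowers_iff.1 (pPart_mem_zpowers (p := p) (f (u * z)))
    have := B 1
    rw [pow_one] at this
    rw [← hn, ← zpow_natCast, ← zpow_mul, mul_comm, zpow_mul, zpow_natCast, this, one_zpow]
  · have e1 := C 1 (by rwa [pow_one])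
    have e2 := C j h2
    rw [pow_one, ← e2, map_mul, map_mul, mul_left_cancel_iff] at e1
    refine mul_inv_eq_one.1 (A _ (pElt_of_pow ?_) (by rw [map_mul, map_inv, ← e1, mul_inv_cancel]))
    rw [((Commute.refl z).pow_left j).inv_right.mul_pow, ← pow_mul, mul_comm j, pow_mul, hz,
      inv_pow, hz]
    simp

/-- The hypothesis on pairs. -/
def PairS (p : ℕ) (G : Type*) [Group G] : Prop :=
  ∀ x y : G, orderOf x = p → orderOf y = p → IsPSolvable p (closure ({x, y} : Set G))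

theorem key' (hs : PairS p G) (h : AB p G) {u z : G} (hu : orderOf u = p) (hz : orderOf z = p) :
    pPart p (u * z) ^ p = 1 ∧
      ∀ j : ℕ, ¬ p ∣ orderOf (u * z) → ¬ p ∣ orderOf (u * z ^ j) → z ^ j = z := by
  have m1 : u ∈ closure ({u, z} : Set G) := subset_closure (by simp)
  have m2 : z ∈ closure ({u, z} : Set G) := subset_closure (by simp)
  obtain ⟨h1, h2⟩ := key (hs u z hu hz) (h.sub _) (u := ⟨u, m1⟩) (z := ⟨z, m2⟩)
    (Subtype.ext (by simpa [hu] using pow_orderOf_eq_one u))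
    (Subtype.ext (by simpa [hz] using pow_orderOf_eq_one z))
  refine ⟨?_, fun j a b => congrArg Subtype.val (h2 j ?_ ?_)⟩
  · have := congrArg Subtype.val h1
    rwa [SubgroupClass.coe_pow, ← pPart_coe] at this
  · rwa [← Subgroup.orderOf_coe]
  · rwa [← Subgroup.orderOf_coe]

/-- At most a fraction `1 / (p - 1)` of the products is `p`-regular. -/
theorem card_reg (hs : PairS p G) (h : AB p G) {u : G} (hu : orderOf u = p) (Y : Finset G)
    (hY : ∀ z ∈ Y, orderOf z = p) (hY' : ∀ z ∈ Y, ∀ k : ℕ, ¬ p ∣ k → z ^ k ∈ Y)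
    [DecidablePred fun z : G => p ∣ orderOf (u * z)] :
    (p - 1) * (Y.filter fun z => ¬ p ∣ orderOf (u * z)).card ≤ Y.card := by
  classical
  have hk : ∀ k ∈ Finset.Ico 1 p, ¬ p ∣ k := fun k hk e => by
    have := Finset.mem_Ico.1 hk
    have := Nat.le_of_dvd this.1 e
    omega
  rw [← Nat.card_Ico 1 p |>.symm.symm, ← Finset.card_product]
  refine Finset.card_le_card_of_injOn (fun x => x.2 ^ x.1) (fun x hx => ?_) ?_
  · obtain ⟨h1, h2⟩ := Finset.mem_product.1 hx
    exact hY' _ (Finset.mem_filter.1 h2).1 _ (hk _ h1)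
  · rintro ⟨k, z⟩ hx ⟨l, w⟩ hy e
    obtain ⟨h1, h2⟩ := Finset.mem_product.1 hx
    obtain ⟨h3, h4⟩ := Finset.mem_product.1 hy
    obtain ⟨z1, z2⟩ := Finset.mem_filter.1 h2
    obtain ⟨w1, w2⟩ := Finset.mem_filter.1 h4
    dsimp only at e h1 h3 z1 z2 w1 w2
    obtain ⟨m, hm⟩ := exists_pow_eq_self_of_coprime (x := w) (n := l)
      (by rw [hY w w1]; exact ((Nat.Prime.coprime_iff_not_dvd hp.out).2 (hk l h3)).symm)
    rw [← e, ← pow_mul] at hm
    obtain rfl : w = z := hm.symm.trans ((key' hs h hu (hY z z1)).2 _ z2 (by rwa [hm]))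
    have := pow_injOn_Iio_orderOf (x := w)
      (show k ∈ Set.Iio (orderOf w) by rw [hY w w1]; exact (Finset.mem_Ico.1 h1).2)
      (show l ∈ Set.Iio (orderOf w) by rw [hY w w1]; exact (Finset.mem_Ico.1 h3).2) e
    rw [this]

end Cfsg.Agent.H5.PP
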