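import Cfsg.Agent.H5.PP1

/-! Pairs of elements of order `p` generating `p`-solvable groups: the principal block count. -/

set_option autoImplicit false
set_option linter.unusedSectionVars false
set_option linter.unusedVariables false

namespace Cfsg.Agent.H5.PP

open Cfsg Subgroup Cfsg.Agent.H8 Cfsg.Agent.H9
open scoped ComplexConjugate

variable {p : ℕ} [hp : Fact p.Prime] {G : Type*} [Group G] [Finite G]

theorem exists_conj_mem (P : Sylow p G) {x : G} (hx : ∃ k : ℕ, orderOf x = p ^ k) :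
    ∃ c : G, c * x * c⁻¹ ∈ P.1 := by
  obtain ⟨S, hS⟩ := (isPGroup_zpowers hx).exists_le_sylow
  obtain ⟨g, rfl⟩ := MulAction.exists_smul_eq G P S
  have h1 := hS (mem_zpowers x)
  rw [Sylow.coe_subgroup_smul, mem_pointwise_smul_iff_inv_smul_mem] at h1
  exact ⟨g⁻¹, by simpa using h1⟩

open Classical in
/-- The common setting. -/
structure Core (P : Sylow p G) (Y : Finset G) (e : ℕ) : Prop where
  comm : ∀ a ∈ P.1, ∀ b ∈ P.1, a * b = b * a
  mem : ∀ y, y ∈ Y ↔ y ∈ P.1 ∧ orderOf y = p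
  npc : ∀ y ∈ Y, HasNormalPComplement p (centralizer ({y} : Set G))
  fus : ∀ y ∈ Y, (Y.filter fun z => IsConj y z).card = e
  pair : PairS p G

namespace Core

variable {P : Sylow p G} {Y : Finset G} {e : ℕ} (h : Core P Y e)
variable {M : Ideal AlgInt} [hMm : M.IsMaximal] (hM : IsPModular p M)
include h hM

theorem val {g : G} (hg : pPart p g ^ p = 1) [Decidable (p ∣ orderOf g)] :
    ∑ χ ∈ bs (principalBlock M G), (χ : G → ℂ) g * conj (∑ z ∈ Y, (χ : G → ℂ) z) =
      if p ∣ orderOf g then (Nat.card P.1 : ℂ) * e else 0 := by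
  classical
  have pe : ∀ z ∈ Y, ∃ k : ℕ, orderOf z = p ^ k := fun z hz => ⟨1, by rw [pow_one, ((h.mem z).1 hz).2]⟩
  simp only [map_sum, Finset.mul_sum]
  rw [Finset.sum_comm]
  split_ifs with hd
  · obtain ⟨c, hc⟩ := exists_conj_mem P (orderOf_pPart (p := p) g)
    have h1 : pPart p g ≠ 1 := fun e => pPart_eq_one_iff.1 e hd
    have hy : c * pPart p g * c⁻¹ ∈ Y := (h.mem _).2 ⟨hc, by
      rw [← MulAut.conj_apply, MulEquiv.orderOf_eq]
      exact orderOf_eq_prime hg h1⟩
    have h2 : ∀ χ ∈ bs (principalBlock M G), (χ : G → ℂ) g = (χ : G → ℂ) (c * pPart p g * c⁻¹) :=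
      fun χ hχ => by
        rw [← irr_conj χ c g, principal_eq_pPart hM (mem_bs.1 hχ) (by
          rw [pPart_conj]; exact h.npc _ hy), pPart_conj]
    generalize c * pPart p g * c⁻¹ = y at hy h2
    have h3 : lamP M (centralizer ({y} : Set G)) = Nat.card P.1 := by
      rw [lamP_of_hasNPC hM (h.npc y hy), pow_factorization_card_of_le P fun a ha =>
        mem_centralizer_singleton_iff.2 (h.comm a ha y ((h.mem y).1 hy).1)]
    rw [Finset.sum_congr rfl fun z hz => (Finset.sum_congr rfl fun χ hχ => by rw [h2 χ hχ]).trans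
      (col_principal hM (pe y hy) (pe z hz)), ← Finset.sum_filter, Finset.sum_const, h3, h.fus y hy,
      nsmul_eq_mul, mul_comm]
  · refine Finset.sum_eq_zero fun z hz => ?_
    have := Fintype.ofFinite G
    rw [bs_eq_filter]
    refine block_orthogonality hM ub_principal fun e => ?_
    rw [pPart_eq_one_iff.2 hd, pPart_of_pElt (pe z hz), isConj_one_right] at e
    have := ((h.mem z).1 hz).2
    rw [e, orderOf_one] at this
    exact hp.out.ne_one this.symm

variable {s : IrrCharacter G → ℤ} (hs : ∀ χ : IrrCharacter G, ∑ z ∈ Y, (χ : G → ℂ) z = s χ)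
include hs

theorem c1 : ∑ χ ∈ bs (principalBlock M G), s χ ^ 2 = Nat.card P.1 * e * Y.card := by
  classical
  have h1 : ∀ y ∈ Y, ∑ χ ∈ bs (principalBlock M G), (χ : G → ℂ) y * s χ = (Nat.card P.1 : ℂ) * e :=
    fun y hy => by
      have o := ((h.mem y).1 hy).2
      have := h.val hM (g := y) (by
        rw [pPart_of_pElt ⟨1, by rw [pow_one, o]⟩, ← o, pow_orderOf_eq_one])
      simpa only [hs, map_intCast, o, dvd_refl, if_true] using this
  have h2 := Finset.sum_congr rfl h1
  rw [Finset.sum_comm] at h2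
  simp only [← Finset.sum_mul, hs, Finset.sum_const, nsmul_eq_mul] at h2
  apply Int.cast_injective (α := ℂ)
  push_cast
  simp only [sq]
  rw [h2]
  ring

theorem c2 : ∑ χ ∈ bs (principalBlock M G), s χ * charDegree (χ : G → ℂ) = 0 := by
  classical
  have := h.val hM (g := 1) (by rw [pPart_eq_one_iff.2 (by simpa using hp.out.ne_one), one_pow])
  simp only [hs, map_intCast, orderOf_one, Nat.dvd_one, hp.out.ne_one, if_false, irr_one_eq] at this
  apply Int.cast_injective (α := ℂ)
  push_cast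
  simpa only [mul_comm] using this

theorem c3 : (Nat.card P.1 : ℝ) * e * ((p - 2) * Y.card ^ 2) ≤
    (p - 1) * ∑ χ ∈ bs (principalBlock M G), (s χ : ℝ) ^ 3 / charDegree (χ : G → ℂ) := by
  classical
  have := Fintype.ofFinite G
  have hab := ab_of_sylow P h.comm
  have ou : ∀ g : G, ∀ y ∈ Y, orderOf (g * y * g⁻¹) = p := fun g y hy => by
    rw [← MulAut.conj_apply, MulEquiv.orderOf_eq, ((h.mem y).1 hy).2]
  let n : G → G → ℕ := fun g y => (Y.filter fun z => p ∣ orderOf (g * y * g⁻¹ * z)).card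
  have h1 : ∀ g : G, ∀ y ∈ Y, ((p : ℝ) - 2) * Y.card ≤ (p - 1) * n g y := fun g y hy => by
    have a := card_reg h.pair hab (ou g y hy) Y (fun z hz => ((h.mem z).1 hz).2) fun z hz k hk =>
      (h.mem _).2 ⟨P.1.pow_mem ((h.mem z).1 hz).1 k, by
        rw [Nat.Coprime.orderOf_pow, ((h.mem z).1 hz).2]
        rw [((h.mem z).1 hz).2]
        exact (Nat.Prime.coprime_iff_not_dvd hp.out).2 hk⟩
    have b := Finset.card_filter_add_card_filter_not (s := Y)
      fun z => p ∣ orderOf (g * y * g⁻¹ * z)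
    have c := hp.out.one_le
    zify [c] at a b
    have a' : ((p : ℝ) - 1) * (Y.filter fun z => ¬ p ∣ orderOf (g * y * g⁻¹ * z)).card ≤ Y.card := by
      exact_mod_cast a
    have b' : (n g y : ℝ) + (Y.filter fun z => ¬ p ∣ orderOf (g * y * g⁻¹ * z)).card = Y.card := by
      exact_mod_cast b
    nlinarith
  have h2 : ∀ g : G, ∀ y ∈ Y, ∑ z ∈ Y, ∑ χ ∈ bs (principalBlock M G),
      (χ : G → ℂ) (g * y * g⁻¹ * z) * s χ = (Nat.card P.1 : ℂ) * e * n g y := fun g y hy => by
    rw [Finset.sum_congr rfl fun z hz => by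
      simpa only [hs, map_intCast] using h.val hM (g := g * y * g⁻¹ * z)
        (key' h.pair hab (ou g y hy) ((h.mem z).1 hz).2).1, ← Finset.sum_filter, Finset.sum_const,
      nsmul_eq_mul, mul_comm]
  have h3 : ∑ g : G, ∑ y ∈ Y, (Nat.card P.1 : ℂ) * e * n g y =
      Nat.card G * ∑ χ ∈ bs (principalBlock M G), (s χ : ℂ) ^ 3 / charDegree (χ : G → ℂ) := by
    rw [← Finset.sum_congr rfl fun g _ => Finset.sum_congr rfl (h2 g), Finset.sum_comm,
      Finset.sum_congr rfl fun y _ => Finset.sum_comm,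
      Finset.sum_congr rfl fun y _ => Finset.sum_congr rfl fun z _ => Finset.sum_comm,
      Finset.sum_congr rfl fun y _ => Finset.sum_comm, Finset.sum_comm, Finset.mul_sum]
    refine Finset.sum_congr rfl fun χ _ => ?_
    simp only [← Finset.sum_mul, H6.sum_irr_conj_mul χ.2, div_eq_mul_inv, ← Finset.mul_sum, hs,
      irr_one_eq]
    ring
  have h4 : ∑ g : G, ∑ y ∈ Y, (Nat.card P.1 : ℝ) * e * n g y =
      Nat.card G * ∑ χ ∈ bs (principalBlock M G), (s χ : ℝ) ^ 3 / charDegree (χ : G → ℂ) := by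
    apply Complex.ofReal_injective
    push_cast
    exact h3
  have h5 : ∑ g : G, ∑ y ∈ Y, (Nat.card P.1 : ℝ) * e * (((p : ℝ) - 2) * Y.card) ≤
      ∑ g : G, ∑ y ∈ Y, (p - 1) * ((Nat.card P.1 : ℝ) * e * n g y) :=
    Finset.sum_le_sum fun g _ => Finset.sum_le_sum fun y hy =>
      (mul_le_mul_of_nonneg_left (h1 g y hy)
        (show (0 : ℝ) ≤ (Nat.card P.1 : ℝ) * e by positivity)).trans_eq (by ring)
  simp only [← Finset.mul_sum (a := (p : ℝ) - 1)] at h5
  rw [h4] at h5
  simp only [Finset.sum_const, nsmul_eq_mul, Finset.card_univ, ← Nat.card_eq_fintype_card] at h5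
  have hG : (0 : ℝ) < Nat.card G := by exact_mod_cast Nat.card_pos
  refine le_of_mul_le_mul_left ?_ hG
  calc _ = _ := by ring
    _ ≤ _ := h5
    _ = _ := by ring

end Core

end Cfsg.Agent.H5.PP
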