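import Cfsg.Agent.H5.PP2
import Cfsg.Agent.H5.ST4

/-! Pairs of elements of order `p` generating `p`-solvable groups: one class of `p`-elements. -/

set_option autoImplicit false
set_option linter.unusedSectionVars false
set_option linter.unusedVariables false

namespace Cfsg.Agent.H5.PP

open Cfsg Subgroup Cfsg.Agent.H8 Cfsg.Agent.H9
open Cfsg.Agent.H7 (ip)
open scoped ComplexConjugate

variable {p : ℕ} [hp : Fact p.Prime] {G : Type*} [Group G] [Finite G]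

theorem ne_deg [IsSimpleGroup G] {χ : IrrCharacter G} (hχ : χ ≠ irrOne G) {x : G} (hx : x ≠ 1) :
    (χ : G → ℂ) x ≠ charDegree (χ : G → ℂ) := fun e => by
  have h1 : x ∈ H6.charKer (χ : G → ℂ) := (H6.mem_charKer_iff_irr χ.2).2 (by rw [e, irr_one_eq])
  rcases (H6.charKer_normal (irr_isClassFunction χ)).eq_bot_or_eq_top with h | h
  · exact hx (mem_bot.1 (h ▸ h1))
  · exact hχ (Subtype.ext (H6.irr_eq_one_of_charKer_eq_top χ.2 h))

theorem res_nat (χ : IrrCharacter G) (Q : Subgroup G) [Fintype Q] (l : Q →* ℂˣ) :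
    ∃ n : ℕ, ∑ y : Q, (χ : G → ℂ) y * conj (l y : ℂ) = Nat.card Q * n := by
  obtain ⟨n, hn⟩ := H7.ip_char_nat (H7.char_comp Q.subtype (irr_isChar χ)) (H7.char_of_hom l)
  refine ⟨n, ?_⟩
  rw [← hn, H7.ip_def, mul_inv_cancel_left₀ (H7.card_ne_zero' _)]
  rfl

theorem const_int [IsSimpleGroup G] {χ : IrrCharacter G} (hχ : χ ≠ irrOne G) {Q : Subgroup G}
    (hQ : ∀ a ∈ Q, ∀ b ∈ Q, a * b = b * a) {x : G} (hx : x ∈ Q) (x1 : x ≠ 1) {c : ℂ}
    (hc : ∀ y ∈ Q, y ≠ 1 → (χ : G → ℂ) y = c) :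
    ∃ a : ℤ, c = a ∧ a + Nat.card Q ≤ charDegree (χ : G → ℂ) := by
  classical
  have := Fintype.ofFinite Q
  obtain ⟨l, hl⟩ := ST.exists_lin (fun a b : Q => Subtype.ext (hQ _ a.2 _ b.2))
    (x := ⟨x, hx⟩) fun e => x1 (congrArg Subtype.val e)
  have l1 : l ≠ 1 := fun e => hl (by rw [e]; rfl)
  have k : ∀ f : Q → ℂ, ∑ y : Q, (χ : G → ℂ) y * f y =
      (charDegree (χ : G → ℂ) - c) * f 1 + c * ∑ y, f y := fun f => by
    rw [Fintype.sum_eq_add_sum_subtype_ne _ 1, Fintype.sum_eq_add_sum_subtype_ne f 1,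
      Finset.sum_congr rfl fun (y : {y : Q // y ≠ 1}) _ => by
        rw [hc y y.1.2 fun e => y.2 (Subtype.ext e)], ← Finset.mul_sum, coe_one, irr_one_eq]
    ring
  obtain ⟨n, hn⟩ := res_nat χ Q l
  obtain ⟨m, hm⟩ := res_nat χ Q 1
  rw [k, ← map_sum, ST.sum_lin l1] at hn
  rw [k] at hm
  simp only [map_one, Units.val_one, mul_one, map_zero, mul_zero, add_zero, MonoidHom.one_apply,
    Finset.sum_const, Finset.card_univ, nsmul_eq_mul, ← Nat.card_eq_fintype_card] at hn hm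
  have h1 : c = ((m - n : ℤ) : ℂ) := by
    apply mul_left_cancel₀ (H7.card_ne_zero' Q)
    push_cast
    linear_combination hm - hn
  refine ⟨m - n, h1, ?_⟩
  have h2 : n ≠ 0 := by
    rintro rfl
    exact ne_deg hχ x1 (by rw [hc x hx x1]; linear_combination -hn)
  rw [h1] at hn
  have h3 : (charDegree (χ : G → ℂ) : ℤ) - (m - n) = Nat.card Q * n := by exact_mod_cast hn
  have h4 : (1 : ℤ) ≤ n := by omega
  nlinarith [Nat.cast_nonneg (α := ℤ) (Nat.card Q)]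

theorem num1 {ι : Type*} (B : Finset ι) {o : ι} (ho : o ∈ B) (a : ι → ℤ) (d : ι → ℕ) (q : ℕ)
    (hd : ∀ i, d i ≠ 0) (a1 : a o = 1) (d1 : d o = 1) (h1 : ∑ i ∈ B, a i ^ 2 = q)
    (h2 : ∑ i ∈ B, a i * d i = 0) (h3 : ∀ i ∈ B, i ≠ o → a i + q ≤ d i) :
    ∑ i ∈ B, (a i : ℝ) ^ 3 / d i < q / 2 := by
  classical
  obtain ⟨j, hj, aj⟩ : ∃ j ∈ B, a j < 0 := by
    by_contra! h
    have := Finset.single_le_sum (f := fun i => a i * d i)
      (fun i hi => mul_nonneg (h i hi) (Nat.cast_nonneg _)) ho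
    rw [h2, a1, d1] at this
    simp at this
  have jo : j ≠ o := by rintro rfl; omega
  have dp : ∀ i, (0 : ℝ) < d i := fun i => by exact_mod_cast Nat.pos_of_ne_zero (hd i)
  have k1 : (a j : ℝ) ^ 3 / d j < (a j : ℝ) ^ 2 / 2 - 1 / 2 := by
    have e1 : (a j : ℝ) ≤ -1 := by exact_mod_cast (show a j ≤ -1 by omega)
    have e2 : (a j : ℝ) ^ 3 / d j < 0 := div_neg_of_neg_of_pos
      (Odd.pow_neg (by decide) (by linarith)) (dp j)
    nlinarith
  have := Finset.sum_lt_sum (s := B) (f := fun i => (a i : ℝ) ^ 3 / d i)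
    (g := fun i => (a i : ℝ) ^ 2 / 2 + (if i = o then 1 / 2 else 0) - if i = j then 1 / 2 else 0)
    (fun i hi => by
      by_cases e : i = o
      · subst e
        simp [a1, d1, jo.symm]
        norm_num
      by_cases e' : i = j
      · subst e'
        simpa [e] using k1.le
      have e1 := Finset.single_le_sum (f := fun i => a i ^ 2) (fun i _ => sq_nonneg _) hi
      have e2 : 2 * a i ≤ d i := by
        have := h3 i hi e
        nlinarith [sq_nonneg (a i - 1), sq_nonneg (a i), Int.le_self_sq (a i)]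
      have e3 : 2 * (a i : ℝ) ≤ d i := by exact_mod_cast e2
      simp only [e, e', if_false, add_zero, sub_zero]
      rw [div_le_iff₀ (dp i)]
      nlinarith [sq_nonneg (a i : ℝ)])
    ⟨j, hj, by simpa [jo] using k1⟩
  refine this.trans_eq ?_
  have h4 : ∑ i ∈ B, (a i : ℝ) ^ 2 = q := by exact_mod_cast h1
  simp [Finset.sum_sub_distrib, Finset.sum_add_distrib, ← Finset.sum_div, h4, ho, hj]

theorem one_class [IsSimpleGroup G] (P : Sylow p G) (hP1 : P.1 ≠ ⊥)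
    (hab : ∀ a ∈ P.1, ∀ b ∈ P.1, a * b = b * a) (hexp : ∀ a ∈ P.1, a ^ p = 1)
    (hconj : ∀ x ∈ P.1, ∀ y ∈ P.1, x ≠ 1 → y ≠ 1 → IsConj x y)
    (hb : ∀ x ∈ P.1, orderOf x = p → HasNormalPComplement p (centralizer ({x} : Set G)))
    (hc : PairS p G) : p = 2 := by
  classical
  have := Fintype.ofFinite G
  obtain ⟨M, hM⟩ := exists_pmod p
  have := hM.2.1
  let Y : Finset G := Finset.univ.filter fun y => y ∈ P.1 ∧ y ≠ 1
  have hY : ∀ y, y ∈ Y ↔ y ∈ P.1 ∧ y ≠ 1 := fun y => by simp [Y]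
  have hY' : ∀ y, y ∈ Y ↔ y ∈ P.1 ∧ orderOf y = p := fun y => (hY y).trans (and_congr_right fun hy =>
    ⟨orderOf_eq_prime (hexp y hy), fun e e' => hp.out.ne_one (by rw [← e, e', orderOf_one])⟩)
  have h : Core P Y Y.card := ⟨hab, hY', fun y hy => hb y ((hY' y).1 hy).1 ((hY' y).1 hy).2,
    fun y hy => congrArg Finset.card (by
      convert Finset.filter_true_of_mem fun z hz =>
        hconj y ((hY y).1 hy).1 z ((hY z).1 hz).1 ((hY y).1 hy).2 ((hY z).1 hz).2), hc⟩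
  obtain ⟨⟨x, hx⟩, x1⟩ := ne_bot_iff_exists_ne_one.1 hP1
  replace x1 : x ≠ 1 := fun e => x1 (Subtype.ext e)
  have cst : ∀ χ : IrrCharacter G, ∀ y ∈ P.1, y ≠ 1 → (χ : G → ℂ) y = (χ : G → ℂ) x :=
    fun χ y hy y1 => irr_isConj χ (hconj y hy x hx y1 x1)
  have ex : ∀ χ : IrrCharacter G, ∃ a : ℤ, (χ : G → ℂ) x = a ∧
      (χ ≠ irrOne G → a + Nat.card P.1 ≤ charDegree (χ : G → ℂ)) := fun χ => by
    by_cases e : χ = irrOne G
    · exact ⟨1, by simp [e], fun e' => (e' e).elim⟩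
    · obtain ⟨a, h1, h2⟩ := const_int e hab hx x1 (cst χ)
      exact ⟨a, h1, fun _ => h2⟩
  choose a ha ha' using ex
  have hs : ∀ χ : IrrCharacter G, ∑ z ∈ Y, (χ : G → ℂ) z = ((Y.card * a χ : ℤ) : ℂ) := fun χ => by
    rw [Finset.sum_congr rfl fun z hz => (cst χ z ((hY z).1 hz).1 ((hY z).1 hz).2).trans (ha χ)]
    simp
  have n0 : 0 < Y.card := Finset.card_pos.2 ⟨x, (hY x).2 ⟨hx, x1⟩⟩
  have c1 := h.c1 hM hs
  have c2 := h.c2 hM hs
  have c3 := h.c3 hM hs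
  simp only [mul_pow, mul_assoc, ← Finset.mul_sum, Int.cast_mul, Int.cast_natCast,
    mul_div_assoc] at c1 c2 c3
  have n1 : (0 : ℤ) < Y.card := by exact_mod_cast n0
  have n2 : (0 : ℝ) < Y.card := by exact_mod_cast n0
  have k := num1 (bs (principalBlock M G)) (mem_bs.2 irrOne_mem_principalBlock) a
    (fun χ => charDegree (χ : G → ℂ)) (Nat.card P.1) charDegree_irr_ne_zero
    (Int.cast_injective (α := ℂ) (by rw [← ha]; simp))
    (Nat.cast_injective (R := ℂ) (by rw [← irr_one_eq]; simp))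
    (mul_left_cancel₀ (pow_ne_zero 2 n1.ne') (by rw [c1]; ring))
    ((mul_eq_zero.1 c2).resolve_left n1.ne') fun χ _ => ha' χ
  by_contra h2
  have h3 : (3 : ℝ) ≤ p := by
    have := hp.out.two_le
    exact_mod_cast (show 3 ≤ p by omega)
  have hq : (0 : ℝ) < Nat.card P.1 := by exact_mod_cast Nat.card_pos
  have h4 : (Nat.card P.1 : ℝ) * (p - 2) ≤ (p - 1) *
      ∑ χ ∈ bs (principalBlock M G), (a χ : ℝ) ^ 3 / charDegree (χ : G → ℂ) := by
    refine le_of_mul_le_mul_left ?_ (pow_pos n2 3)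
    calc _ = _ := by ring
      _ ≤ _ := c3
      _ = _ := by ring
  nlinarith

end Cfsg.Agent.H5.PP
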