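import Cfsg.Agent.H5.PP3
import Cfsg.Agent.H8.Three

/-! Pairs of elements of order `p` generating `p`-solvable groups: degree bounds. -/

set_option autoImplicit false
set_option linter.unusedSectionVars false
set_option linter.unusedVariables false

namespace Cfsg.Agent.H5.PP

open Cfsg Subgroup Cfsg.Agent.H8 Cfsg.Agent.H9
open Cfsg.Agent.H7 (ip)
open scoped ComplexConjugate

variable {p : ℕ} [hp : Fact p.Prime] {G : Type*} [Group G] [Finite G]

theorem num2 {ι : Type*} (B : Finset ι) {o : ι} (ho : o ∈ B) (s : ι → ℤ) (d : ι → ℕ) (n : ℕ)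
    (Q : ℝ) (hd : ∀ i, d i ≠ 0) (a1 : s o = n) (d1 : d o = 1) (h1 : ∑ i ∈ B, (s i : ℝ) ^ 2 = Q * n)
    (h3 : ∀ i ∈ B, i ≠ o → 3 * s i ≤ n * d i) :
    ∑ i ∈ B, (s i : ℝ) ^ 3 / d i ≤ n ^ 2 * (2 * n + Q) / 3 := by
  classical
  have dp : ∀ i, (0 : ℝ) < d i := fun i => by exact_mod_cast Nat.pos_of_ne_zero (hd i)
  have := Finset.sum_le_sum (s := B) (f := fun i => (s i : ℝ) ^ 3 / d i)
    (g := fun i => n * (s i : ℝ) ^ 2 / 3 + if i = o then 2 * (n : ℝ) ^ 3 / 3 else 0)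
    fun i hi => by
      by_cases e : i = o
      · subst e
        simp only [a1, d1, if_true]
        push_cast
        linarith
      have e3 : 3 * (s i : ℝ) ≤ n * d i := by exact_mod_cast h3 i hi e
      simp only [e, if_false, add_zero]
      rw [div_le_iff₀ (dp i)]
      nlinarith [sq_nonneg (s i : ℝ)]
  refine this.trans_eq ?_
  simp only [Finset.sum_add_distrib, ← Finset.sum_div, ← Finset.mul_sum, h1, Finset.sum_ite_eq', ho,
    if_true]
  ring

theorem res_one (χ : IrrCharacter G) (Q : Subgroup G) [Fintype Q] :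
    ∃ n : ℕ, ∑ y : Q, (χ : G → ℂ) y = Nat.card Q * n := by
  simpa using res_nat χ Q 1

section Frob

variable {P : Sylow p G} (hab : IsMulCommutative P.1)
  (hfrob : ∀ y ∈ P.1, y ≠ 1 → centralizer ({y} : Set G) ⊓ normalizer (P.1 : Set G) =
    centralizer (P.1 : Set G))
include hab hfrob

theorem deg_ge [IsSimpleGroup G] [Fintype P.1] {χ : IrrCharacter G} (hχ : χ ≠ irrOne G) {x : G}
    (hx : x ∈ P.1) (x1 : x ≠ 1) : ∃ m : ℕ, ∑ y : P.1, (χ : G → ℂ) y = Nat.card P.1 * m ∧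
      m + Nat.card (autP P) ≤ charDegree (χ : G → ℂ) := by
  classical
  have := finite_lin (Q := P.1)
  have := Fintype.ofFinite (P.1 →* ℂˣ)
  have := Fintype.ofFinite (autP P)
  choose n hn using fun l : P.1 →* ℂˣ =>
    H7.ip_char_nat (H7.char_comp P.1.subtype (irr_isChar χ)) (H7.char_of_hom l)
  have k : ∀ y : P.1, (χ : G → ℂ) y =
      n 1 + ∑ ψ : {ψ : P.1 →* ℂˣ // ψ ≠ 1}, (n ψ.1 : ℂ) * ψ.1 y := fun y => by
    have := apply_eq_sum_lin hab.1.1 (fun y : P.1 => (χ : G → ℂ) (P.1.subtype y)) y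
    rw [Fintype.sum_eq_add_sum_subtype_ne _ 1] at this
    simp only [lf, hn] at this
    simpa using this
  have k1 : charDegree (χ : G → ℂ) = n 1 + ∑ ψ : {ψ : P.1 →* ℂˣ // ψ ≠ 1}, n ψ.1 := by
    apply Nat.cast_injective (R := ℂ)
    rw [← irr_one_eq]
    simpa using k 1
  obtain ⟨ψ, hψ⟩ : ∃ ψ : {ψ : P.1 →* ℂˣ // ψ ≠ 1}, n ψ.1 ≠ 0 := by
    by_contra! e
    refine ne_deg hχ x1 ((k ⟨x, hx⟩).trans ?_)
    rw [k1]
    simp [e]
  have k2 : ∀ α : autP P, n (cmp ψ.1 α) = n ψ.1 := fun α => by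
    apply Nat.cast_injective (R := ℂ)
    rw [← hn, ← hn, ← H7.ip_comp_equiv α.1.toEquiv _ fun y => (ψ.1 y : ℂ)]
    congr 1
    ext z
    exact (irr_isConj χ (autP_isConj _ α.2 z)).symm
  refine ⟨n 1, ?_, ?_⟩
  · rw [← hn, H7.ip_def, mul_inv_cancel_left₀ (H7.card_ne_zero' _)]
    simp
  · rw [k1]
    refine Nat.add_le_add_left (le_trans ?_ (Finset.sum_le_sum_of_subset (Finset.filter_subset
      (fun φ => Quotient.mk (orbS (autP P)) ψ = Quotient.mk (orbS (autP P)) φ) _))) _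
    rw [sum_fiber_orb hab.1.1 (autP_fpf hfrob) ψ n]
    simp only [k2, Finset.sum_const, Finset.card_univ, smul_eq_mul, Nat.card_eq_fintype_card]
    exact Nat.le_mul_of_pos_right _ (Nat.pos_of_ne_zero hψ)

omit hfrob in
theorem sum_orbT [Fintype P.1] {ψ : P.1 →* ℂˣ} (hψ : ψ ≠ 1) :
    ∑ y, orbT (autP P) (lf ψ) y = 0 := by
  have := Fintype.ofFinite (autP P)
  simp only [orbT, finsum_eq_sum_of_fintype]
  rw [Finset.sum_comm]
  exact Finset.sum_eq_zero fun α _ => ST.sum_lin (cmp_ne_one hψ α.1)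

omit hab hfrob in
theorem orbT_const {ψ : P.1 →* ℂˣ} {y : P.1} (h : ∀ α : autP P, ψ (α.1 y) = 1) :
    orbT (autP P) (lf ψ) y = Nat.card (autP P) := by
  have := Fintype.ofFinite (autP P)
  rw [Nat.card_eq_fintype_card]
  simp [orbT, finsum_eq_sum_of_fintype, lf, h]

omit hab hfrob in
theorem norm_orbT (ψ : P.1 →* ℂˣ) (y : P.1) :
    ‖orbT (autP P) (lf ψ) y‖ ≤ Nat.card (autP P) := by
  have := Fintype.ofFinite (autP P)
  rw [orbT, finsum_eq_sum_of_fintype]
  refine (norm_sum_le _ _).trans_eq ?_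
  rw [Finset.sum_congr rfl fun (α : autP P) _ => Complex.norm_eq_one_of_pow_eq_one
    (n := Nat.card P.1) (by rw [lf, ← Units.val_pow_eq_pow_val, ← map_pow, pow_card_eq_one']; simp)
    Nat.card_pos.ne', Nat.card_eq_fintype_card]
  simp

theorem big [IsSimpleGroup G] {M : Ideal AlgInt} [hMm : M.IsMaximal] (hM : IsPModular p M)
    (hq : p ^ 2 ≤ Nat.card P.1) (he : Nat.card (autP P) + 1 ≤ p) {x : P.1} (x1 : x ≠ 1)
    {ψ₀ : P.1 →* ℂˣ} (h0 : ψ₀ ≠ 1) (h0' : ∀ α : autP P, ψ₀ (α.1 x) = 1) (Y : Finset G)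
    (hY : ∀ y ∈ Y, y ∈ P.1 ∧ y ≠ 1) {χ : IrrCharacter G} (hχ : χ ∈ principalBlock M G)
    (h1 : χ ≠ irrOne G) {s : ℤ} (hs : ∑ z ∈ Y, (χ : G → ℂ) z = s) :
    3 * s ≤ Y.card * charDegree (χ : G → ℂ) := by
  classical
  have := Fintype.ofFinite G
  have := finite_lin (Q := P.1)
  have := Fintype.ofFinite (Quotient (orbS (autP P)))
  have hr := card_orb hab.1.1 (autP_fpf hfrob)
  have p2 := hp.out.two_le
  have ht : p + 1 ≤ Nat.card (Quotient (orbS (autP P))) := by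
    by_contra! e
    have : Nat.card (Quotient (orbS (autP P))) * Nat.card (autP P) ≤ p * Nat.card (autP P) :=
      Nat.mul_le_mul_right _ (by omega)
    nlinarith
  have := Finite.one_lt_card_iff_nontrivial.1 (show 1 < Nat.card (Quotient (orbS (autP P))) by omega)
  obtain ⟨ε, d, μ, a, a1, a2, a3, a4, a5, a6, a7, a8, a9, -, a11, a12⟩ := syl_struct hab hfrob hM
  have pp : ∀ y ∈ P.1, IsPPart p y y := fun y hy =>
    isPPart_iff.2 (pPart_of_pElt (pElt_of_mem P.2 hy)).symm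
  obtain rfl : d = 0 := by
    have b1 : ∑ i ∈ insert (irrOne G) (Finset.univ.image μ), a i * a i ≤ a ⬝ᵥ a :=
      Finset.sum_le_sum_of_subset_of_nonneg (Finset.subset_univ _) fun i _ _ => mul_self_nonneg _
    rw [Finset.sum_insert (by simpa using a5), Finset.sum_image a2.injOn, a6] at b1
    simp only [a4, Finset.sum_const, Finset.card_univ, nsmul_eq_mul,
      ← Nat.card_eq_fintype_card] at b1
    by_contra hd
    have b2 : 1 ≤ d * d := by nlinarith [Int.one_le_abs hd, abs_mul_abs_self d]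
    have b3 : (p : ℤ) + 1 ≤ Nat.card (Quotient (orbS (autP P))) := by exact_mod_cast ht
    have b4 : (Nat.card (autP P) : ℤ) + 1 ≤ p := by exact_mod_cast he
    have b5 := mul_le_mul_of_nonneg_right b3 (mul_self_nonneg d)
    have b6 := mul_le_mul_of_nonneg_left b2 (Nat.cast_nonneg (α := ℤ) p)
    rcases a1 with rfl | rfl <;> nlinarith [sq_nonneg (d - 1), sq_nonneg (d + 1)]
  have hq' : (p : ℤ) ^ 2 ≤ Nat.card P.1 := by exact_mod_cast hq
  have he' : (Nat.card (autP P) : ℤ) + 1 ≤ p := by exact_mod_cast he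
  have hx : (x : G) ≠ 1 := fun e => x1 (Subtype.ext e)
  by_cases hμ : ∃ i, μ i = χ
  · obtain ⟨i, rfl⟩ := hμ
    obtain ⟨ψ, rfl⟩ := Quotient.exists_rep i
    have := Fintype.ofFinite P.1
    have v : ∀ (φ : {ψ : P.1 →* ℂˣ // ψ ≠ 1}) (y : P.1), y ≠ 1 →
        (μ (Quotient.mk _ φ) : G → ℂ) y = ε * orbT (autP P) (lf φ.1) y := fun φ y hy => by
      simpa using a9 φ y y (pp y y.2) fun e => hy (Subtype.ext e)
    obtain ⟨m, hm⟩ := res_one (μ (Quotient.mk _ ψ)) P.1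
    have b1 := sum_orbT hab ψ.2
    rw [Fintype.sum_eq_add_sum_subtype_ne _ 1] at hm b1
    rw [Finset.sum_congr rfl fun (y : {y : P.1 // y ≠ 1}) _ => v ψ y y.2, ← Finset.mul_sum, coe_one,
      irr_one_eq] at hm
    rw [orbT_const (by simp)] at b1
    have b2 : (charDegree (μ (Quotient.mk _ ψ) : G → ℂ) : ℂ) =
        ε * Nat.card (autP P) + Nat.card P.1 * m := by linear_combination hm - ε * b1
    have e0 : (ε : ℂ) ≠ 0 := by rcases a1 with rfl | rfl <;> simp
    have b3 : m ≠ 0 := by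
      rintro rfl
      refine ne_deg (a5 (Quotient.mk _ ⟨ψ₀, h0⟩)) hx ?_
      have o1 : ¬ p ∣ orderOf (1 : G) := by simpa using hp.out.ne_one
      have := mul_left_cancel₀ e0 ((a11 (Quotient.mk _ ⟨ψ₀, h0⟩) 1 o1).symm.trans
        (a11 (Quotient.mk _ ψ) 1 o1))
      rw [v _ x x1, orbT_const h0', ← irr_one_eq, this, irr_one_eq, b2]
      simp
    have b4 : (charDegree (μ (Quotient.mk _ ψ) : G → ℂ) : ℤ) =
        ε * Nat.card (autP P) + Nat.card P.1 * m := by exact_mod_cast b2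
    have b5 : ‖(s : ℂ)‖ ≤ Y.card * Nat.card (autP P) := by
      rw [← hs]
      refine (norm_sum_le _ _).trans ((Finset.sum_le_sum (g := fun _ => (Nat.card (autP P) : ℝ))
        fun z hz => ?_).trans_eq (by simp))
      rw [v ψ ⟨z, (hY z hz).1⟩ fun e => (hY z hz).2 (congrArg Subtype.val e), norm_mul]
      rcases a1 with rfl | rfl <;> simpa using norm_orbT ψ.1 _
    rw [Complex.norm_intCast] at b5
    have b6 : s ≤ Y.card * Nat.card (autP P) := (le_abs_self s).trans (by exact_mod_cast b5)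
    have b7 : (1 : ℤ) ≤ m := by omega
    have b8 : 3 * (Nat.card (autP P) : ℤ) ≤ charDegree (μ (Quotient.mk _ ψ) : G → ℂ) := by
      have : (Nat.card P.1 : ℤ) ≤ Nat.card P.1 * m :=
        le_mul_of_one_le_right (Nat.cast_nonneg _) b7
      rcases a1 with rfl | rfl <;> nlinarith [sq_nonneg ((p : ℤ) - 2)]
    nlinarith [Nat.cast_nonneg (α := ℤ) Y.card]
  · have v : ∀ y ∈ P.1, y ≠ 1 → (χ : G → ℂ) y = a χ := fun y hy y1 =>
      (a8 χ hχ (not_exists.1 hμ)).2 y y (pp y hy) hy y1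
    obtain ⟨b, b1, b2⟩ := const_int h1
      (fun u hu w hw => congrArg Subtype.val (hab.1.1 ⟨u, hu⟩ ⟨w, hw⟩)) x.2 hx v
    obtain rfl : a χ = b := by exact_mod_cast b1
    rw [Finset.sum_congr rfl fun z hz => v z (hY z hz).1 (hY z hz).2, Finset.sum_const,
      nsmul_eq_mul] at hs
    obtain rfl : Y.card * a χ = s := by exact_mod_cast hs
    have b3 : a χ * a χ ≤ a ⬝ᵥ a :=
      Finset.single_le_sum (f := fun i => a i * a i) (fun i _ => mul_self_nonneg _)
        (Finset.mem_univ χ)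
    have b4 : 3 * a χ ≤ charDegree (χ : G → ℂ) := by
      nlinarith [Int.le_self_sq (a χ), sq_nonneg ((p : ℤ) - 1)]
    nlinarith [Nat.cast_nonneg (α := ℤ) Y.card]

end Frob

end Cfsg.Agent.H5.PP
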