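import Cfsg.Agent.H5.PP4
import Cfsg.Agent.H16.SemiReg
import Cfsg.Agent.H4.Small

/-! Pairs of elements of order `p` generating `p`-solvable groups: cyclic Sylow subgroups. -/

set_option autoImplicit false
set_option linter.unusedSectionVars false
set_option linter.unusedVariables false

namespace Cfsg.Agent.H5.PP

open Cfsg Subgroup Cfsg.Agent.H8 Cfsg.Agent.H9
open scoped ComplexConjugate

universe u

variable {p : ℕ} [hp : Fact p.Prime] {G : Type*} [Group G] [Finite G]

theorem sumY {Y : Finset G} (K : Subgroup G) [Fintype K] (h : ∀ y, y ∈ Y ↔ y ∈ K ∧ y ≠ 1)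
    (F : G → ℂ) : F 1 + ∑ z ∈ Y, F z = ∑ y : K, F y := by
  classical
  rw [← Finset.sum_insert (fun e => ((h 1).1 e).2 rfl)]
  refine Finset.sum_subtype _ (fun z => ?_) F
  by_cases e : z = 1
  · simp [e]
  · simp [e, h]

theorem cyc_simple [IsSimpleGroup G] (P : Sylow p G) (hP : IsCyclic P.1) (hc : PairS p G) :
    IsPSolvable p G := by
  classical
  by_contra hn
  have := Fintype.ofFinite P.1
  have := Fintype.ofFinite (autP P)
  obtain ⟨M, hM⟩ := exists_pmod p
  have := hM.2.1
  have hab : IsMulCommutative P.1 := hP.isMulCommutative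
  have comm : ∀ a ∈ P.1, ∀ b ∈ P.1, a * b = b * a := fun a ha b hb =>
    congrArg Subtype.val (hab.1.1 ⟨a, ha⟩ ⟨b, hb⟩)
  have hfrob : ∀ y ∈ P.1, y ≠ 1 → centralizer ({y} : Set G) ⊓ normalizer (P.1 : Set G) =
      centralizer (P.1 : Set G) := fun y hy y1 =>
    le_antisymm (fun g hg => H16.mem_centralizer_of_cyclic_sylow P hg.2 hy y1
      (mem_centralizer_singleton_iff.1 hg.1))
      (le_inf (centralizer_le (Set.singleton_subset_iff.2 hy)) (centralizer_le_normalizer _))
  have e2 : 2 ≤ Nat.card (autP P) := by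
    by_contra! e
    have e0 : 0 < Nat.card (autP P) := Nat.card_pos
    refine hn (H4.isPSolvable_of_hasNPC (H4.hasNPC_of_normalizer_le_centralizer P ?_))
    rw [← relIndex_eq_one, ← card_autP]
    omega
  have hd : p ∣ Nat.card P.1 := P.dvd_card_of_dvd_card (by_contra fun e =>
    hn (H4.isPSolvable_of_coprime ((Nat.Prime.coprime_iff_not_dvd hp.out).2 e).symm))
  obtain ⟨x, hx⟩ := exists_prime_orderOf_dvd_card' p hd
  have x1 : x ≠ 1 := fun e => hp.out.ne_one (by rw [← hx, e, orderOf_one])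
  have x1' : (x : G) ≠ 1 := fun e => x1 (Subtype.ext e)
  have ox : orderOf (x : G) = p := by rw [Subgroup.orderOf_coe, hx]
  obtain ⟨g, hg⟩ := hP.exists_generator
  obtain ⟨Y, hY⟩ : ∃ Y : Finset G, ∀ y, y ∈ Y ↔ y ∈ P.1 ∧ orderOf y = p :=
    ⟨(Set.toFinite {y | y ∈ P.1 ∧ orderOf y = p}).toFinset, fun y => by simp⟩
  have hΩ : ∀ y, y ∈ Y ↔ y ∈ zpowers (x : G) ∧ y ≠ 1 := fun y => by
    refine (hY y).trans ⟨fun ⟨h1, h2⟩ => ⟨?_, fun e => hp.out.ne_one (by
      rw [← h2, e, orderOf_one])⟩, fun ⟨h1, h2⟩ => ⟨zpowers_le.2 x.2 h1, ?_⟩⟩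
    · obtain ⟨k, hk⟩ := mem_zpowers_iff.1 (H6.mem_zpowers_of_orderOf_dvd (hg ⟨y, h1⟩) (hg x)
        (by rw [Subgroup.orderOf_mk, h2, hx]))
      exact mem_zpowers_iff.2 ⟨k, congrArg Subtype.val hk⟩
    · exact ((Nat.dvd_prime hp.out).1 (ox ▸ orderOf_dvd_of_mem_zpowers h1)).resolve_left
        fun e => h2 (orderOf_eq_one_iff.1 e)
  have hY1 : ∀ y ∈ Y, y ∈ P.1 ∧ y ≠ 1 := fun y hy => ⟨((hY y).1 hy).1, ((hΩ y).1 hy).2⟩
  have aY : ∀ y : P.1, (y : G) ∈ Y → ∀ α : autP P, (α.1 y : G) ∈ Y := fun y hy α =>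
    (hY _).2 ⟨(α.1 y).2, by
      rw [Subgroup.orderOf_coe, MulEquiv.orderOf_eq, ← Subgroup.orderOf_coe, ((hY _).1 hy).2]⟩
  have h : Core P Y (Nat.card (autP P)) := ⟨comm, hY,
    fun y hy => by
      have := Fintype.ofFinite G
      exact hasNPC_of_frob hab hfrob (hY1 y hy).1 (hY1 y hy).2, fun y hy => by
      lift y to P.1 using (hY1 y hy).1
      rw [Nat.card_eq_fintype_card, ← Finset.card_univ]
      refine (Finset.card_bij (fun α _ => (α.1 y : G)) (fun α _ => ?_) (fun α _ β _ e => ?_)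
        fun z hz => ?_).symm
      · exact Finset.mem_filter.2 ⟨aY y hy α, (autP_isConj _ α.2 y).symm⟩
      · refine inv_mul_eq_one.1 (Subtype.ext (autP_fpf hfrob _ (α⁻¹ * β).2 y
          (fun e => (hY1 _ hy).2 (congrArg Subtype.val e)) ?_))
        simp [← Subtype.ext e]
      · obtain ⟨z1, z2⟩ := Finset.mem_filter.1 hz
        have := Fintype.ofFinite G
        obtain ⟨α, e⟩ := exists_autP_of_isConj hab (y := y) (z := ⟨z, (hY1 z z1).1⟩) z2
        exact ⟨α, Finset.mem_univ _, congrArg Subtype.val e⟩, hc⟩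
  have xY : (x : G) ∈ Y := (hY _).2 ⟨x.2, ox⟩
  have cΩ : Nat.card (zpowers (x : G)) = p := by rw [Nat.card_zpowers, ox]
  have := Fintype.ofFinite (zpowers (x : G))
  have hn1 : Y.card + 1 = p := by
    have := sumY _ hΩ fun _ => 1
    simp only [Finset.sum_const, Finset.card_univ, ← Nat.card_eq_fintype_card, cΩ, nsmul_eq_mul,
      mul_one] at this
    rw [add_comm]
    exact_mod_cast this
  have he : Nat.card (autP P) ≤ Y.card := h.fus _ xY ▸ Finset.card_filter_le _ _
  have ex : ∀ χ : IrrCharacter G, ∃ s : ℤ, ∑ z ∈ Y, (χ : G → ℂ) z = s := fun χ => by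
    obtain ⟨m, hm⟩ := res_one χ (zpowers (x : G))
    refine ⟨p * m - charDegree (χ : G → ℂ), ?_⟩
    rw [← sumY _ hΩ, cΩ, irr_one_eq] at hm
    push_cast
    linear_combination hm
  choose s hs using ex
  have s1 : s (irrOne G) = Y.card := Int.cast_injective (α := ℂ) (by rw [← hs]; simp)
  have c1 := h.c1 hM hs
  have c3 := h.c3 hM hs
  have fin : (∀ χ ∈ bs (principalBlock M G), χ ≠ irrOne G →
      3 * s χ ≤ Y.card * charDegree (χ : G → ℂ)) →
      (Nat.card P.1 * Nat.card (autP P) : ℤ) * (2 * Y.card - 3) ≤ 2 * Y.card ^ 2 := fun hb => by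
    have k := num2 (bs (principalBlock M G)) (mem_bs.2 irrOne_mem_principalBlock) s
      (fun χ => charDegree (χ : G → ℂ)) Y.card (Nat.card P.1 * Nat.card (autP P))
      charDegree_irr_ne_zero s1 (Nat.cast_injective (R := ℂ) (by rw [← irr_one_eq]; simp))
      (by exact_mod_cast c1) hb
    have e1 : (p : ℝ) = Y.card + 1 := by exact_mod_cast hn1.symm
    have n2 : (0 : ℝ) < Y.card := by exact_mod_cast (show 0 < Y.card by omega)
    rw [e1, add_sub_cancel_right] at c3
    have e3 : ((Nat.card P.1 * Nat.card (autP P) : ℝ)) * (2 * Y.card - 3) ≤ 2 * Y.card ^ 2 := by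
      refine le_of_mul_le_mul_left ?_ (pow_pos n2 2)
      have := c3.trans (mul_le_mul_of_nonneg_left k n2.le)
      nlinarith
    exact_mod_cast e3
  have hn2 : (Y.card : ℤ) + 1 = p := by exact_mod_cast hn1
  have e2' : (2 : ℤ) ≤ Nat.card (autP P) := by exact_mod_cast e2
  have he' : (Nat.card (autP P) : ℤ) ≤ Y.card := by exact_mod_cast he
  by_cases hq : Nat.card P.1 = p
  · have hΩP : zpowers (x : G) = P.1 :=
      eq_of_le_of_card_ge (zpowers_le.2 x.2) (by rw [cΩ, hq])
    rw [hΩP] at hΩ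
    by_cases h3 : Y.card = 2
    · have := one_class P (fun e => x1' (mem_bot.1 (e ▸ x.2))) comm
        (fun a ha => congrArg Subtype.val (hq ▸ pow_card_eq_one' (x := (⟨a, ha⟩ : P.1))))
        (fun a ha b hb a1 b1 => by
          have := Finset.eq_of_subset_of_card_le (Finset.filter_subset _ Y)
            (by rw [h.fus a ((hΩ a).2 ⟨ha, a1⟩)]; omega)
          exact (Finset.mem_filter.1 (this.symm ▸ (hΩ b).2 ⟨hb, b1⟩)).2)
        (fun a ha o => h.npc a ((hY a).2 ⟨ha, o⟩)) hc
      omega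
    have k := fin fun χ hχ h1 => by
      obtain ⟨m, m1, m2⟩ := deg_ge hab hfrob h1 x.2 x1'
      rw [← sumY _ hΩ, hs, irr_one_eq, hq] at m1
      have m3 : (charDegree (χ : G → ℂ) : ℤ) + s χ = p * m := by exact_mod_cast m1
      have m4 : (m : ℤ) + Nat.card (autP P) ≤ charDegree (χ : G → ℂ) := by exact_mod_cast m2
      have m5 := Finset.add_le_sum (f := fun χ => s χ ^ 2) (fun _ _ => sq_nonneg _) hχ
        (mem_bs.2 irrOne_mem_principalBlock) h1
      rw [c1, s1, hq] at m5
      have m6 : 2 * s χ ≤ p * Nat.card (autP P) := by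
        refine (abs_le_of_sq_le_sq' ?_ (by positivity)).2
        nlinarith [sq_nonneg ((p : ℤ) * Nat.card (autP P) - 2 * Y.card)]
      rw [← hn2] at m3 m6
      nlinarith
    rw [hq, ← hn2] at k
    have n3 : (3 : ℤ) ≤ Y.card := by omega
    have := mul_le_mul_of_nonneg_right (mul_le_mul_of_nonneg_left e2'
      (show (0 : ℤ) ≤ Y.card + 1 by omega)) (show (0 : ℤ) ≤ 2 * Y.card - 3 by omega)
    nlinarith
  · obtain ⟨k, hk⟩ := P.isPGroup'.exists_card_eq
    have hq2 : p ^ 2 ≤ Nat.card P.1 := by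
      rw [hk] at hd hq ⊢
      refine Nat.pow_le_pow_right hp.out.pos ?_
      rcases k with _ | _ | k
      · exact (hp.out.ne_one (by simpa using hd)).elim
      · exact (hq (by simp)).elim
      · omega
    obtain ⟨u, hu⟩ : ∃ u : P.1, u ∉ (zpowers (x : G)).subgroupOf P.1 := by
      by_contra! e
      have : zpowers (x : G) = P.1 := le_antisymm (zpowers_le.2 x.2) fun u hu => e ⟨u, hu⟩
      exact hq (this ▸ cΩ)
    obtain ⟨ψ, h1, h2⟩ := exists_lin_of_not_mem hab.1.1 _ hu
    have k := fin fun χ hχ h3 => big hab hfrob hM hq2 (by omega) x1 (ψ₀ := ψ)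
      (fun e => h2 (by rw [e]; rfl)) (fun α => h1 ((hΩ _).1 (aY x xY α)).1) Y hY1 (mem_bs.1 hχ) h3
      (hs χ)
    have hq3 : ((Y.card : ℤ) + 1) ^ 2 ≤ Nat.card P.1 := by rw [hn2]; exact_mod_cast hq2
    have : 2 * ((Y.card : ℤ) + 1) ^ 2 ≤ Nat.card P.1 * Nat.card (autP P) := by nlinarith
    nlinarith

/-- All `p`-subgroups are cyclic. -/
def CY (p : ℕ) (G : Type*) [Group G] : Prop := ∀ T : Subgroup G, IsPGroup p T → IsCyclic T

theorem cy_of_sylow (P : Sylow p G) (h : IsCyclic P.1) : CY p G := fun T hT => by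
  obtain ⟨S, hS⟩ := hT.exists_le_sylow
  have : IsCyclic S.1 := isCyclic_of_surjective _ (P.equiv S).surjective
  exact isCyclic_of_injective (inclusion hS) (inclusion_injective hS)

theorem CY.sub (h : CY p G) (H : Subgroup G) : CY p H := fun T hT => by
  have := h (T.map H.subtype) (hT.map _)
  exact isCyclic_of_surjective _ (equivMapOfInjective T _ H.subtype_injective).symm.surjective

theorem CY.surj {Q : Type*} [Group Q] [Finite Q] (h : CY p G) {f : G →* Q}
    (hf : Function.Surjective f) : CY p Q := by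
  obtain ⟨S⟩ : Nonempty (Sylow p G) := inferInstance
  have := h _ S.2
  exact cy_of_sylow (S.mapSurjective hf) (isCyclic_of_surjective _ (f.subgroupMap_surjective S.1))

theorem PairS.sub (h : PairS p G) (H : Subgroup G) : PairS p H := fun x y hx hy => by
  have := h x y (by rwa [Subgroup.orderOf_coe]) (by rwa [Subgroup.orderOf_coe])
  rw [show closure ({(x : G), (y : G)} : Set G) = (closure ({x, y} : Set H)).map H.subtype by
    rw [MonoidHom.map_closure, Set.image_pair]; rfl] at this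
  exact H1.isPSolvable_of_injective hp.out
    (equivMapOfInjective _ _ H.subtype_injective).toMonoidHom (MulEquiv.injective _) this

theorem PairS.surj {Q : Type*} [Group Q] [Finite Q] (h : PairS p G) {f : G →* Q}
    (hf : Function.Surjective f) (hk : (Nat.card f.ker).Coprime p) : PairS p Q := by
  have k : ∀ x : Q, orderOf x = p → ∃ a, f a = x ∧ orderOf a = p := fun x hx => by
    obtain ⟨a, rfl⟩ := hf x
    have e : f (pPart p a) = f a := by rw [← pPart_map, pPart_of_pElt ⟨1, by rw [hx, pow_one]⟩]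
    refine ⟨pPart p a, e, orderOf_eq_prime ?_ fun e' => hp.out.ne_one (by
      rw [← hx, ← e, e', map_one, orderOf_one])⟩
    have h1 : pPart p a ^ p ∈ f.ker := by
      rw [MonoidHom.mem_ker, map_pow, e, ← hx, pow_orderOf_eq_one]
    obtain ⟨k, hk'⟩ := pElt_of_mem (isPGroup_zpowers (orderOf_pPart (p := p) a))
      (pow_mem (mem_zpowers _) p)
    have h2 := hk.coprime_dvd_left (Subgroup.orderOf_dvd_natCard _ h1)
    rw [← orderOf_eq_one_iff]
    rw [hk'] at h2 ⊢
    exact (Nat.coprime_self _).1 (Nat.Coprime.pow_right k h2)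
  intro x y hx hy
  obtain ⟨a, rfl, ha⟩ := k x hx
  obtain ⟨b, rfl, hb⟩ := k y hy
  have := H1.isPSolvable_of_surjective hp.out _ (f.subgroupMap_surjective _) (h a b ha hb)
  rwa [MonoidHom.map_closure, Set.image_pair] at this

theorem cyc_all (n : ℕ) : ∀ (G : Type u) [Group G] [Finite G], Nat.card G = n → CY p G →
    PairS p G → IsPSolvable p G := by
  induction n using Nat.strong_induction_on with
  | _ n ih =>
  intro G _ _ hn h1 h2
  obtain ⟨P⟩ : Nonempty (Sylow p G) := inferInstance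
  by_cases hO : pPrimeCore p G = ⊥
  · rcases subsingleton_or_nontrivial G with hG | hG
    · exact H4.isPSolvable_of_coprime (by rw [Nat.card_of_subsingleton (1 : G)]; simp)
    by_cases hs : IsSimpleGroup G
    · exact cyc_simple P (h1 _ P.2) h2
    obtain ⟨N, hN, n1, n2⟩ : ∃ N : Subgroup G, N.Normal ∧ N ≠ ⊥ ∧ N ≠ ⊤ := by
      by_contra! e
      exact hs ⟨fun N hN => or_iff_not_imp_left.2 (e N hN)⟩
    have hN' := ih _ (hn ▸ (Nat.lt_of_le_of_ne (card_le_card_group N) fun e =>
      n2 (eq_top_of_card_eq N e))) N rfl (h1.sub N) (h2.sub N)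
    have o1 : pPrimeCore p N = ⊥ := by
      rw [← map_eq_bot_iff_of_injective _ N.subtype_injective, eq_bot_iff, ← hO]
      exact H2.pPrimeCore_map_subtype_le_of_normal N
    refine H4.isPSolvable_of_cyclic_sylow P (h1 _ P.2) (pCore p G) H2.pCore_isPGroup fun e => n1 ?_
    have o2 : pCore p N = ⊥ := by
      rw [← map_eq_bot_iff_of_injective _ N.subtype_injective, eq_bot_iff, ← e]
      exact H2.pCore_map_subtype_le_of_normal N
    have o3 := H5b.centralizer_pCore_le hN' o1
    rw [o2] at o3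
    refine eq_bot_iff.2 fun a ha => ?_
    have := o3 (x := ⟨a, ha⟩) fun b hb => by rw [mem_bot.1 hb, one_mul, mul_one]
    exact congrArg Subtype.val (mem_bot.1 this)
  · refine H1.isPSolvable_of_normal_of_quotient hp.out (pPrimeCore p G)
      (H4.isPSolvable_of_coprime H2.pPrimeCore_coprime) (ih _ ?_ _ rfl
        (h1.surj (QuotientGroup.mk'_surjective _)) (h2.surj (QuotientGroup.mk'_surjective _) ?_))
    · rw [← hn, card_eq_card_quotient_mul_card_subgroup (pPrimeCore p G)]
      exact lt_mul_of_one_lt_right Nat.card_pos ((one_lt_card_iff_ne_bot _).2 hO)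
    · rw [QuotientGroup.ker_mk']
      exact H2.pPrimeCore_coprime

end Cfsg.Agent.H5.PP
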