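import Cfsg.Agent.H5.Nca2
import Cfsg.Agent.H2.Rel

/-! `2`-groups whose fourth centre has order sixteen. -/

set_option autoImplicit false
set_option linter.unusedSectionVars false

namespace Cfsg.Agent.H5g

open Cfsg Subgroup Cfsg.Agent.FT Cfsg.Agent.P22 Cfsg.Agent.H5f
open scoped commutatorElement

variable {G : Type*} [Group G] [Finite G] {A B D E H K M N R T U V W X Y Z : Subgroup G} {a s t u v w x y z : G} {i j : ℕ}

theorem cen1_idx_le (h : ∀ a ∈ A, ⁅a, x⁆ ∈ K) : C[x].relIndex A ≤ #K := by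
  refine Nat.card_le_card_of_injective (fun q : A ⧸ C[x].subgroupOf A => (⟨⁅(q.out : G), x⁆, h _ q.out.2⟩ : K))
    fun q r e => ?_
  have e1 : ⁅(q.out : G), x⁆ = ⁅(r.out : G), x⁆ := congrArg Subtype.val e
  rw [← q.out_eq, ← r.out_eq]
  refine QuotientGroup.eq.2 (mem_subgroupOf.2 (mem_cen1.2 ?_))
  rw [commutatorElement_def, commutatorElement_def, mul_left_inj] at e1
  change (q.out : G)⁻¹ * r.out * x = x * ((q.out : G)⁻¹ * r.out)
  calc _ = (q.out : G)⁻¹ * (r.out * x * (r.out : G)⁻¹) * r.out := by group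
    _ = _ := by rw [← e1]; group

theorem exists_core (hK : T ≤ N(K)) (hM : M ≤ N(U)) :
    ∃ N, N ≤ U ∧ T ≤ N(N) ∧ N.relIndex K ≤ U.relIndex K ^ M.relIndex T := by
  classical
  have := Fintype.ofFinite (T ⧸ M.subgroupOf T)
  refine ⟨⨅ t : T, cj t U, (iInf_le _ 1).trans (cj_of_mem_nrm (one_mem _)).le, fun g hg => cj_eq_self.1
    (eq_of_card_eq (le_iInf fun t => cj_le_iff.2 ((iInf_le _ (⟨g, hg⟩⁻¹ * t)).trans (by rw [cj_cj]; rfl))) (card_cj _ _)), ?_⟩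
  have e : (⨅ t : T, cj (t : G) U) = ⨅ q : T ⧸ M.subgroupOf T, cj (q.out : G) U := le_antisymm (le_iInf fun q => iInf_le _ _)
    (le_iInf fun t => (iInf_le _ (t : T ⧸ M.subgroupOf T)).trans (by
      obtain ⟨m, hm⟩ := QuotientGroup.mk_out_eq_mul (M.subgroupOf T) t
      rw [hm, coe_mul, ← cj_cj]; exact cj_mono _ (cj_of_mem_nrm (hM m.2)).le))
  rw [e]
  refine (relIndex_iInf_le _).trans (le_of_eq ?_)
  rw [Finset.prod_congr rfl fun (q : T ⧸ M.subgroupOf T) _ => (by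
    rw [← relIndex_cj (q.out : G) U K, cj_of_mem_nrm (hK q.out.2)] : (cj (q.out : G) U).relIndex K = U.relIndex K),
    Finset.prod_const, Finset.card_univ, ← Nat.card_eq_fintype_card]
  rfl

theorem mem_comm_zp (hV : Ab V) (ha : a ∈ N(V)) (hx : x ∈ ⁅V, ⟪a⟫⁆) : ∃ v ∈ V, x = ⁅v, a⁆ := by
  let S : Subgroup G :=
    { carrier := {x | ∃ v ∈ V, x = ⁅v, a⁆}
      one_mem' := ⟨1, one_mem _, by simp⟩
      mul_mem' := by
        rintro _ _ ⟨v, hv, rfl⟩ ⟨w, hw, rfl⟩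
        refine ⟨v * w, mul_mem hv hw, ?_⟩
        have h1 := hV.comm hw (conj_mem ha (inv_mem hv))
        have h2 := hV.comm (conj_mem ha (inv_mem hw)) (conj_mem ha (inv_mem hv))
        simp only [commutatorElement_def, mul_inv_rev]
        calc _ = v * ((a * v⁻¹ * a⁻¹) * w * (a * w⁻¹ * a⁻¹)) := by group
          _ = v * (w * ((a * v⁻¹ * a⁻¹) * (a * w⁻¹ * a⁻¹))) := by rw [← h1]; group
          _ = _ := by rw [← h2]; group
      inv_mem' := by
        rintro _ ⟨v, hv, rfl⟩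
        refine ⟨v⁻¹, inv_mem hv, ?_⟩
        have h1 := hV.comm (inv_mem hv) (conj_mem ha hv)
        simp only [commutatorElement_def, mul_inv_rev, inv_inv]
        calc _ = (a * v * a⁻¹) * v⁻¹ := by group
          _ = _ := by rw [← h1]; group }
  have hle : S ≤ V := by
    rintro _ ⟨v, hv, rfl⟩; exact comm_le_left (zpowers_le.2 ha) (comm_mem hv (mem_zpowers a))
  exact comm_zp_le hle (hV.norms hle) (fun v hv => ⟨v, hv, rfl⟩) hx

theorem d8_equiv (h : #Y = 8) (hu : u ∈ Y) (u2 : u * u = 1) (hv : v ∈ Y) (e : u * v ≠ v * u) :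
    Nonempty (Y ≃* DihedralGroup 4) := by
  have hn : ¬ Ab Y := fun a => e (a.comm hu hv)
  obtain ⟨z2, d, -⟩ := ex8 h hn
  obtain ⟨c, hc, c2, e⟩ : ∃ c ∈ Y, c * c ≠ 1 ∧ u * c ≠ c * u := by
    by_cases v2 : v * v = 1
    · refine ⟨u * v, mul_mem hu hv, fun k => e ?_, fun k => e (mul_left_cancel (k.trans (mul_assoc _ _ _)))⟩
      rw [← inv_eq_of_mul_eq_one_right k, mul_inv_rev, inv_eq_of_mul_eq_one_right u2, inv_eq_of_mul_eq_one_right v2]
    · exact ⟨v, hv, v2, e⟩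
  have : Fact (Nat.Prime 2) := ⟨Nat.prime_two⟩
  have o : orderOf c = 4 := orderOf_eq_prime_pow (p := 2) (n := 1) (by rwa [pow_one, pow_two]) (by
    have := pow_card (sq_mem h hn hc)
    rwa [z2, ← pow_two, ← pow_mul] at this)
  have a2 : ⁅u, c⁆ = c * c := two_eq z2 (d ▸ comm_mem hu hc) (sq_mem h hn hc)
    (fun a => e (commutatorElement_eq_one_iff_mul_comm.1 a)) c2
  have o' : orderOf (⟨c, hc⟩ : Y) = 4 := by rw [← orderOf_coe]; exact o
  rw [← o']
  refine H10.nonempty_equiv_dihedral (s := ⟨u, hu⟩) (Subtype.ext u2) (Subtype.ext ?_) (fun a => ?_) (by rw [o', h])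
  · change u * c * u⁻¹ = c⁻¹
    rw [← mul_inv_cancel_right (u * c * u⁻¹) c⁻¹, ← commutatorElement_def, a2, inv_inv, eq_inv_iff_mul_eq_one,
      ← pow_orderOf_eq_one c, o]
    simp only [pow_succ, pow_zero, one_mul]
  · obtain ⟨k, hk⟩ := mem_zpowers_iff.1 a
    have : c ^ k = u := congrArg Subtype.val hk
    exact e (this ▸ ((Commute.refl c).zpow_left k).eq)

/-- the hypothesis on the group of order `2 ^ 14` -/
structure Ru (T W : Subgroup G) : Prop where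
  p2 : PGrp 2 T
  big : 2 ^ 14 ≤ #T
  z4 : #(ucn 4 T) = 16
  eW : W = T ⊓ C(ucn 3 T)
  phi : #(Phi W) ≤ 8
  sub : ∀ U, U ≤ W → U.relIndex W ≤ 16 → Phi W ≤ U

namespace Ru

theorem le (h : Ru T W) : W ≤ T := h.eW.le.trans inf_le_left
theorem cen (h : Ru T W) : W ≤ C(ucn 3 T) := h.eW.le.trans inf_le_right
theorem nml (h : Ru T W) : W ⊴ T := h.eW ▸ subcent_nml (ucn_nml 3 T).nrm

theorem step (h : Ru T W) (hi : i ≤ 3) : 2 * #(ucn i T) ≤ #(ucn (i + 1) T) :=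
  (h.p2.mono (ucn_le _ T)).mul_card_le (lt_of_le_of_ne (ucn_mono_left (Nat.le_succ i) T) fun e =>
    (h.p2.quo (ucn i T)).center_ne_bot (quo_ne_bot (ucn_nml i T).nrm fun k => by
      have := card_le (k.trans (ucn_mono_left (by omega : i ≤ 4) T))
      have := h.big
      rw [h.z4] at *; omega) (by rw [← quo_ucn, ← e, quo_self]))

theorem cards (h : Ru T W) : #(ucn 1 T) = 2 ∧ #(ucn 2 T) = 4 ∧ #(ucn 3 T) = 8 := by
  have a := h.step (i := 0) (by omega)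
  have b := h.step (i := 1) (by omega)
  have c := h.step (i := 2) (by omega)
  have d := h.step (i := 3) (by omega)
  rw [ucn_zero, card_bot] at a
  rw [h.z4] at d
  simp only [Nat.reduceAdd] at *
  omega

theorem card_z (h : Ru T W) (hi : i ≤ 4) : #(ucn i T) = 2 ^ i := by
  interval_cases i
  exacts [by rw [ucn_zero, card_bot]; rfl, h.cards.1, h.cards.2.1, h.cards.2.2, h.z4]

theorem idx (h : Ru T W) (hi : i ≤ 3) : (ucn i T).relIndex (ucn (i + 1) T) = 2 :=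
  idx_two (ucn_mono_left (Nat.le_succ i) T) (by rw [h.card_z (by omega), h.card_z (by omega), pow_succ'])

theorem not_le (h : Ru T W) (hi : i ≤ 3) : ¬ ucn (i + 1) T ≤ ucn i T := fun e => by
  have := h.idx hi; rw [relIndex_eq_one.2 e] at this; omega

theorem sup_zp (h : Ru T W) (hi : i ≤ 3) (hx : x ∈ ucn (i + 1) T) (hn : x ∉ ucn i T) : ucn i T ⊔ ⟪x⟫ = ucn (i + 1) T :=
  (eq_or_eq_of_prime_relIndex (h.idx hi ▸ Nat.prime_two) le_sup_left (sup_le (ucn_mono_left (Nat.le_succ i) T)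
    (zpowers_le.2 hx))).resolve_left fun e => hn (e.le (mem_sup_right (mem_zpowers x)))

theorem ge (h : Ru T W) (hi : i ≤ 3) (hN : N ⊴ T) (h1 : ucn i T ≤ N) (h2 : ¬ N ≤ ucn i T) : ucn (i + 1) T ≤ N :=
  inf_eq_right.1 ((eq_or_eq_of_prime_relIndex (h.idx hi ▸ Nat.prime_two) (le_inf h1 (ucn_mono_left (Nat.le_succ i) T))
    inf_le_right).resolve_left fun e => (h.p2.quo (ucn i T)).nil.meet_center (hN.quo _)
      (quo_ne_bot (hN.le.trans (ucn_nml i T).nrm) h2) (by rw [← quo_ucn, ← quo_inf_of_le' h1, e, quo_self]))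

theorem nml_le (h : Ru T W) (hj : j ≤ 3) (hN : N ⊴ T) (h1 : ¬ ucn (j + 1) T ≤ N) : N ≤ ucn j T := by
  induction j with
  | zero => exact by_contra fun e => h1 (h.ge hj hN (ucn_zero T ▸ bot_le) e)
  | succ j ih =>
    by_cases e : ucn (j + 1) T ≤ N
    · exact by_contra fun k => h1 (h.ge hj hN e k)
    · exact (ih (by omega) e).trans (ucn_mono_left (Nat.le_succ j) T)

theorem bound (h : Ru T W) (hj : j ≤ 3) (hK : K ⊴ T) (hU : U ≤ K) (h2 : U.relIndex K = 2) (hM : M ≤ N(U))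
    (h1 : ¬ ucn (j + 1) T ≤ U) : #K ≤ 2 ^ j * 2 ^ M.relIndex T := by
  obtain ⟨N, n1, n2, n3⟩ := exists_core hK.nrm hM
  rw [← card_mul_relIndex (n1.trans hU), ← h.card_z (by omega : j ≤ 4)]
  exact Nat.mul_le_mul (card_le (h.nml_le hj ⟨n1.trans (hU.trans hK.le), n2⟩ fun e => h1 (e.trans n1))) (h2 ▸ n3)

theorem phi_le (h : Ru T W) : Phi W ≤ ucn 3 T := h.nml_le le_rfl h.nml.Phi fun e => by
  have := (card_le e).trans h.phi; rw [h.z4] at this; omega

theorem bound' (h : Ru T W) (hK : K ⊴ T) (h3 : ucn 3 T ≤ K) (hW : K ≤ W) (hM : ⁅K, M⁆ ≤ ucn 3 T) :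
    #K ≤ 8 * 2 ^ M.relIndex T := by
  by_cases e : ucn 4 T ≤ K
  swap
  · exact (card_le (h.nml_le le_rfl hK e)).trans (h.cards.2.2.le.trans (Nat.le_mul_of_pos_right _ (by positivity)))
  have pK := h.p2.mono hK.le
  have n3 := hK.le.trans (ucn_nml 3 T).nrm
  obtain ⟨U, u1, u2⟩ : ∃ U, MaxIn U (K /ₛ ucn 3 T) ∧ ¬ ucn 4 T /ₛ ucn 3 T ≤ U := by
    by_contra! k
    have := le_Phi (quo_mono _ e) k
    rw [← pK.quo_Phi n3, quo_eq_bot_of_le (((h.p2.mono h.le).Phi_mono hW).trans h.phi_le), le_bot_iff,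
      quo_eq_bot (e.trans n3)] at this
    exact h.not_le le_rfl this
  have l := qpre_le_of_le_quo h3 u1.lt.le
  exact h.bound le_rfl hK l (by rw [relIndex_qpre _ n3, (pK.quo _).maxIn_relIndex u1])
    (norms_of_comm_le ((commSS l le_rfl).trans (hM.trans (le_qpre U)))) fun k => u2 ((quo_le_iff (e.trans n3)).2 k)

theorem idx1 (h : Ru T W) : (T ⊓ C(ucn 2 T)).relIndex T ≤ 2 := by
  obtain ⟨y, hy, y1⟩ := SetLike.not_le_iff_exists.1 (h.not_le (i := 1) (by omega))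
  refine (Nat.le_of_dvd (relIndex_pos _ _) (relIndex_dvd_of_le_left T (show T ⊓ C[y] ≤ _ from le_inf inf_le_left (by
    rw [← h.sup_zp (by omega) hy y1, cen_sup, cen_zpowers, ucn_one]
    exact inf_le_inf_right _ (le_cen_center le_rfl))))).trans ?_
  rw [inf_comm, inf_relIndex_right, ← h.cards.1]
  exact cen1_idx_le fun a ha => by
    rw [← commutatorElement_inv]; exact inv_mem ((mem_ucn_succ.1 hy).2 a ha)

theorem eW' (h : Ru T W) (hx : x ∈ ucn 3 T) (x1 : x ∉ ucn 2 T) : W = C[x] ⊓ (T ⊓ C(ucn 2 T)) := by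
  rw [h.eW, ← h.sup_zp (by omega) hx x1, cen_sup, cen_zpowers, ← inf_assoc, inf_comm]

theorem leA (h : Ru T W) : W ≤ T ⊓ C(ucn 2 T) := h.eW.le.trans (inf_le_inf_left _ (cen_anti (ucn_mono_left (by omega) T)))

theorem idx2 (h : Ru T W) (hK : ⁅T ⊓ C(ucn 2 T), ucn 3 T⁆ ≤ K) : W.relIndex (T ⊓ C(ucn 2 T)) ≤ #K := by
  obtain ⟨x, hx, x1⟩ := SetLike.not_le_iff_exists.1 (h.not_le (i := 2) (by omega))
  rw [h.eW' hx x1, inf_relIndex_right]
  exact cen1_idx_le fun a ha => hK (comm_mem ha hx)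

theorem c3 (T : Subgroup G) (n : ℕ) : ⁅T, ucn (n + 1) T⁆ ≤ ucn n T := by rw [commutator_comm]; exact ucn_comm n T

theorem sizes (h : Ru T W) : ucn 4 T ≤ W ∧ #W = 2 ^ 11 ∧ #T = 2 ^ 14 ∧ (T ⊓ C(ucn 2 T)).relIndex T = 2 ∧
    W.relIndex (T ⊓ C(ucn 2 T)) = 4 ∧ W.relIndex T = 8 := by
  have a := h.idx1
  have b := h.idx2 ((commSS inf_le_left le_rfl).trans (c3 T 2))
  rw [h.cards.2.1] at b
  have c := relIndex_mul_relIndex _ _ _ h.leA (inf_le_left : T ⊓ C(ucn 2 T) ≤ T)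
  have d := card_mul_relIndex h.le
  have e := h.big
  have m8 : W.relIndex T ≤ 8 := c ▸ Nat.mul_le_mul b a
  have l : ucn 4 T ≤ W := by_contra fun k => by
    have := card_le (h.nml_le le_rfl h.nml k)
    rw [h.cards.2.2] at this
    have := Nat.mul_le_mul this m8
    omega
  have f := h.bound' h.nml ((ucn_mono_left (by omega) T).trans l) le_rfl ((h.p2.mono h.le).der_le_Phi.trans h.phi_le)
  have g : W.relIndex T = 8 := by
    by_contra k
    have := Nat.mul_le_mul (f.trans (Nat.mul_le_mul_left 8 (Nat.pow_le_pow_right two_pos (by omega : _ ≤ 7))))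
      (by omega : W.relIndex T ≤ 7)
    omega
  rw [g] at c d f
  refine ⟨l, by omega, by omega, ?_, ?_, g⟩
  all_goals
    generalize W.relIndex (T ⊓ C(ucn 2 T)) = m at *
    generalize (T ⊓ C(ucn 2 T)).relIndex T = n at *
    interval_cases m <;> omega

theorem z3_le (h : Ru T W) : ucn 3 T ≤ W := (ucn_mono_left (by omega) T).trans h.sizes.1

theorem phi_eq (h : Ru T W) : Phi W = ucn 3 T := le_antisymm h.phi_le (le_Phi h.z3_le fun U hU => by_contra fun e => by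
  have := h.bound (j := 2) (by omega) h.nml hU.lt.le ((h.p2.mono h.le).maxIn_relIndex hU)
    ((h.p2.mono h.le).maxIn_nml hU).nrm e
  rw [h.sizes.2.1, h.sizes.2.2.2.2.2] at this
  omega)

theorem le_phi (h : Ru T W) (hH : H ≤ W) (h3 : ucn 3 T ≤ H) (h8 : H.relIndex W ≤ 8) : ucn 3 T ≤ Phi H :=
  le_Phi h3 fun U hU => h.phi_eq.ge.trans (h.sub U (hU.lt.le.trans hH) (by
    rw [← relIndex_mul_relIndex _ _ _ hU.lt.le hH, (h.p2.mono (hH.trans h.le)).maxIn_relIndex hU]; omega))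

theorem no_big (h : Ru T W) (hK : K ≤ W) (h3 : ucn 3 T ≤ K) (hc : Ab (K /ₛ ucn 2 T))
    (h3' : ucn 3 T /ₛ ucn 2 T ≤ Ω[2](K /ₛ ucn 2 T)) (hb : 2 ^ 6 ≤ #Ω[2](K /ₛ ucn 2 T)) : False := by
  have l2 := (ucn_mono_left (by omega : 2 ≤ 3) T).trans h3
  have l := (qpre_le_of_le_quo l2 (Ohm_le 2 _)).trans hK
  have c := card_mul_relIndex l
  rw [card_qpre, h.cards.2.1, h.sizes.2.1] at c
  refine h.not_le (i := 2) (by omega) ((h.le_phi l ((quo_le_iff ((ucn_le 3 T).trans (ucn_nml 2 T).nrm)).1 h3')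
    (by nlinarith)).trans ((quo_eq_bot ((Phi_le _).trans (qpre_le _))).1 ?_))
  rw [(h.p2.mono (l.trans h.le)).quo_Phi (qpre_le _), quo_qpre]
  exact (hc.abelem_Ohm 2).Phi_eq_bot Nat.prime_two

theorem sq3 (h : Ru T W) (hz : z ∈ ucn 3 T) : z ^ 2 ∈ ucn 2 T := by
  exact sq_mem_of_index_two (h.idx (i := 2) (by omega)) ⟨z, hz⟩

end Ru

end Cfsg.Agent.H5g
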