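import Cfsg.Agent.H5.Ru1

/-! `2`-groups whose fourth centre has order sixteen, II. -/

set_option autoImplicit false
set_option linter.unusedSectionVars false

namespace Cfsg.Agent.H5g

open Cfsg Subgroup Cfsg.Agent.FT Cfsg.Agent.P22 Cfsg.Agent.H5f
open scoped commutatorElement

variable {G : Type*} [Group G] [Finite G] {A B D E H K M N R T U V W X Y Z : Subgroup G} {a s t u v w x y z : G} {i j : ℕ}

namespace Ru

theorem nz (h : Ru T W) (i : ℕ) (hK : K ≤ W) : K ≤ N(ucn i T) := hK.trans (h.le.trans (ucn_nml i T).nrm)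

theorem der (h : Ru T W) : ⁅W, W⁆ = ucn 3 T := le_antisymm ((h.p2.mono h.le).der_le_Phi.trans h.phi_le) (by_contra fun e => by
  have a := (ab_quo_iff (h.nz 2 le_rfl)).2 (h.nml_le (by omega) h.nml.der e)
  have q : #(ucn 3 T /ₛ ucn 2 T) = 2 := by rw [card_quo (h.nz 2 h.z3_le), h.idx (i := 2) (by omega)]
  refine h.no_big le_rfl h.z3_le a (fun u hu => mem_Ohm (quo_mono _ h.z3_le hu) (by have := pow_card hu; rwa [q] at this)) ?_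
  have b := a.card_Ohm_mul_card_Mho 2
  have c := card_quo_mul (⟨(ucn_mono_left (by omega) T).trans h.z3_le, h.nz 2 le_rfl⟩ : ucn 2 T ⊴ W)
  have d := card_le (((h.p2.mono h.le).quo (ucn 2 T)).Mho_le_Phi.trans (by
    rw [← (h.p2.mono h.le).quo_Phi (h.nz 2 le_rfl), h.phi_eq] : _ ≤ ucn 3 T /ₛ ucn 2 T))
  rw [h.cards.2.1, h.sizes.2.1] at c
  rw [q] at d
  nlinarith)

theorem sq (h : Ru T W) (hu : u ∈ W) : u ^ 2 ∈ ucn 3 T := h.phi_le ((h.p2.mono h.le).pow_mem_Phi hu)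

theorem cm (h : Ru T W) (hu : u ∈ W) (hv : v ∈ W) : ⁅u, v⁆ ∈ ucn 3 T := h.der.le (comm_mem hu hv)

theorem com (h : Ru T W) (hu : u ∈ W) (hz : z ∈ ucn 3 T) : z * u = u * z := mem_cen.1 (h.cen hu) z hz

theorem elem (h : Ru T W) (hz : z ∈ ucn 3 T) : z ^ 2 = 1 :=
  ((ab_iff.2 (h.z3_le.trans h.cen)).mem_Ohm_iff.1 (h.der.ge.trans (comm_le_iff.2 fun u hu v hv => mem_Ohm (h.cm hu hv) (by
    rw [← H3.comm_pow_left (h.com hu (h.cm hu hv)).symm, commutatorElement_eq_one_iff_mul_comm]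
    exact h.com hv (h.sq hu))) hz)).2

theorem sqA (h : Ru T W) (ha : a ∈ T ⊓ C(ucn 2 T)) : a ^ 2 ∈ W := by
  obtain ⟨x, hx, x1⟩ := SetLike.not_le_iff_exists.1 (h.not_le (i := 2) (by omega))
  have c := c3 T 2 (comm_mem ha.1 hx)
  rw [h.eW' hx x1]
  refine ⟨mem_cen1.2 (commutatorElement_eq_one_iff_mul_comm.1 ?_), pow_mem ha 2⟩
  rw [H3.comm_pow_left (mem_cen.1 ha.2 _ c).symm]
  exact h.elem (ucn_mono_left (by omega) T c)

theorem not_comm (h : Ru T W) : ¬ ⁅T ⊓ C(ucn 2 T), T⁆ ≤ W := fun e => by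
  have := h.idx2 (K := ucn 1 T) (by
    rw [ucn_one, commutator_comm]
    exact le_inf (comm_le_of_le (ucn_le 3 T) inf_le_left) (comm_eq_bot.1 (three_subgroup (comm_eq_bot.2 (e.trans h.cen))
      (comm_eq_bot.2 ((c3 T 2).trans (centsC inf_le_right))))))
  rw [h.sizes.2.2.2.2.1, h.cards.1] at this
  omega

theorem sq_comm (h : Ru T W) (ha : a ∈ T ⊓ C(ucn 2 T)) (hu : u ∈ W) : ⁅u, a⁆ ^ 2 ∈ ucn 2 T := by
  have hv := conj_mem (h.nml.nrm ha.1) hu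
  have e0 : ∀ b ∈ W, b * u * b⁻¹ = ⁅b, u⁆ * u := fun b _ => by rw [commutatorElement_def]; group
  have e1 : ∀ b ∈ W, ∀ w ∈ W, ⁅w, b * u * b⁻¹⁆ = ⁅w, u⁆ := fun b hb w hw => by
    rw [e0 b hb, commutatorElement_def w, commutatorElement_def w, ← mul_assoc, ← h.com hw (h.cm hb hu), mul_inv_rev,
      ← mul_assoc, mul_assoc _ w, mul_assoc _ (w * u), mul_assoc _ (w * u * w⁻¹),
      h.com (mul_mem (conj_mem (le_nrm W hw) hu) (inv_mem hu)) (h.cm hb hu), mul_inv_cancel_right]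
  have c : ⁅u, a * u * a⁻¹⁆ ∈ ucn 2 T := by_contra fun k => k (by
    have e2 : a * ⁅u, a * u * a⁻¹⁆ * a⁻¹ = ⁅u, a * u * a⁻¹⁆ := by
      rw [conjugate_commutatorElement, show a * (a * u * a⁻¹) * a⁻¹ = a ^ 2 * u * (a ^ 2)⁻¹ by rw [pow_two]; group,
        e1 _ (h.sqA ha) _ hv, ← commutatorElement_inv, inv_eq_iff_mul_eq_one, ← pow_two, h.elem (h.cm hu hv)]
    have aW : a ∈ W := h.eW' (h.cm hu hv) k ▸ ⟨mem_cen1.2 (mul_inv_eq_iff_eq_mul.1 e2), ha⟩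
    rw [e1 a aW u hu, commutatorElement_self]; exact one_mem _)
  have e3 : ⁅u, a⁆ ^ 2 = (u * (a * u * a⁻¹)⁻¹) * ⁅u, a * u * a⁻¹⁆ * (u * (a * u * a⁻¹)⁻¹)⁻¹ *
      ((u * (a * u * a⁻¹)⁻¹) * (a * u * a⁻¹) * u⁻¹ * ⁅u ^ 2, a⁆) := by
    simp only [commutatorElement_def, pow_two]; group
  rw [e3, show u * (a * u * a⁻¹)⁻¹ * (a * u * a⁻¹) * u⁻¹ = 1 by group, one_mul]
  exact mul_mem (conj_mem (h.nz 2 le_rfl (mul_mem hu (inv_mem hv))) c) (ucn_comm 2 T (comm_mem (h.sq hu) ha.1))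

theorem cenq (h : Ru T W) (i : ℕ) (hM : M ⊴ T) : W ⊓ qpre(ucn i T, C(M /ₛ ucn i T)) ⊴ T :=
  ⟨inf_le_left.trans h.le, normsI h.nml.nrm (norms_qpre (ucn_nml i T).nrm (norms_cent (quo_norms _ hM.nrm)))⟩

theorem le_cenq (h : Ru T W) (hM : M ⊴ T) : K ≤ W ⊓ qpre(ucn i T, C(M /ₛ ucn i T)) ↔ K ≤ W ∧ ⁅K, M⁆ ≤ ucn i T := by
  rw [le_inf_iff, le_qpre_cen (hM.le.trans (ucn_nml i T).nrm)]
  exact and_congr_right fun a => ⟨fun b => b.2, fun b => ⟨h.nz i a, b⟩⟩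

theorem cenq_le (h : Ru T W) (hM : M ⊴ T) : #(W ⊓ qpre(ucn 3 T, C(M /ₛ ucn 3 T))) ≤ 8 * 2 ^ M.relIndex T :=
  h.bound' (h.cenq 3 hM) (le_inf h.z3_le (le_qpre _)) inf_le_left ((h.le_cenq hM).1 le_rfl).2

theorem center (h : Ru T W) : Z(W) = ucn 3 T := by
  refine le_antisymm (h.nml_le le_rfl h.nml.center fun z4 => ?_) (le_inf h.z3_le (centsC h.cen))
  obtain ⟨-, cW, cT, iA, iW, -⟩ := h.sizes
  have nA : T ⊓ C(ucn 2 T) ⊴ T := subcent_nml (ucn_nml 2 T).nrm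
  have lA := h.leA
  have sA := fun a => h.sqA (a := a)
  have sc := fun a u => h.sq_comm (a := a) (u := u)
  generalize T ⊓ C(ucn 2 T) = A at *
  have cA := card_mul_relIndex lA
  rw [cW, iW] at cA
  obtain ⟨Z, nZ, z1, z2, cZ⟩ := h.p2.exists_nml_between (n := 12) Nat.prime_two h.nml nA lA (by omega) (by omega)
  have iZ : W.relIndex Z = 2 := idx_two z1 (by omega)
  have iZ' : Z.relIndex A = 2 := idx_two z2 (by omega)
  have iZT : Z.relIndex T = 4 := by rw [← relIndex_mul_relIndex _ _ _ z2 nA.le, iZ', iA]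
  obtain ⟨z, hz, z3⟩ := SetLike.not_le_iff_exists.1 fun e : Z ≤ W => by have := card_le e; omega
  obtain ⟨s, hs, s1⟩ := SetLike.not_le_iff_exists.1 fun e : A ≤ Z => by have := card_le e; omega
  have eZ : W ⊔ ⟪z⟫ = Z := (maxIn_of_prime_relIndex (iZ ▸ Nat.prime_two) z1).sup_eq (zpowers_le.2 hz) (mt zpowers_le.1 z3)
  have eA : Z ⊔ ⟪s⟫ = A := (maxIn_of_prime_relIndex (iZ' ▸ Nat.prime_two) z2).sup_eq (zpowers_le.2 hs) (mt zpowers_le.1 s1)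
  have n3 := (ucn_nml 3 T).nrm
  have n2 := (ucn_nml 2 T).nrm
  have aV : Abelem 2 (W /ₛ ucn 3 T) := (abelem_quo_iff (h.nz 3 le_rfl)).2 ⟨h.der.le, fun _ => h.sq⟩
  have cV : #(W /ₛ ucn 3 T) = 2 ^ 8 := by
    have := card_quo_mul (⟨h.z3_le, h.nz 3 le_rfl⟩ : ucn 3 T ⊴ W); rw [h.cards.2.2] at this; omega
  have nV : ∀ t ∈ T, coset(ucn 3 T, t) ∈ N((W /ₛ ucn 3 T : Subgroup (Quo (ucn 3 T)))) := fun t ht =>
    quo_norms _ h.nml.nrm (mem_quo_of_mem (n3 ht) ht)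
  have qZ : Z /ₛ ucn 3 T = (W /ₛ ucn 3 T) ⊔ ⟪coset(ucn 3 T, z)⟫ := by
    rw [← eZ, quo_sup (h.nz 3 le_rfl) (zpowers_le.2 (n3 (nZ.le hz))), quo_zpowers (n3 (nZ.le hz))]
  have cg : ∀ t ∈ T, ∀ U : Subgroup (Quo (ucn 3 T)), U ≤ W /ₛ ucn 3 T → ⁅U, (W /ₛ ucn 3 T) ⊔ ⟪coset(ucn 3 T, t)⟫⁆ ≤ ⁅U, ⟪coset(ucn 3 T, t)⟫⁆ :=
    fun t ht U hU => comm_sup_le' (sup_le (aV.ab.norms ((commSS hU le_rfl).trans (comm_le_left (zpowers_le.2 (nV t ht)))))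
      (norm_comm_right _ _)) ((comm_eq_bot.2 (aV.ab.cents le_rfl hU)).le.trans bot_le) le_rfl
  have cz : ∀ U : Subgroup (Quo (ucn 3 T)), U ≤ W /ₛ ucn 3 T → ⁅U, Z /ₛ ucn 3 T⁆ ≤ ⁅U, ⟪coset(ucn 3 T, z)⟫⁆ := qZ ▸ cg z (nZ.le hz)
  have cAZ : ⁅A, Z⁆ ≤ W := by
    rw [commutator_comm]; exact comm_le_two iZ (nA.le.trans nZ.nrm) (nA.le.trans h.nml.nrm)
  have lWZ : ⁅W, Z⁆ ≤ W := comm_le_left (nZ.le.trans h.nml.nrm)
  have qq : ⁅⁅W, Z⁆, Z⁆ ≤ ucn 3 T := (quo_cents_iff (h.nz 3 lWZ) (nZ.le.trans n3)).1 (by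
    rw [quo_comm (h.nz 3 le_rfl) (nZ.le.trans n3)]
    refine (cz _ le_rfl).trans fun x hx => ?_
    obtain ⟨v, hv, rfl⟩ := mem_comm_zp aV.ab (nV z (nZ.le hz)) hx
    rw [qZ, cen_sup, cen_zpowers]
    refine ⟨aV.ab.le_cen (comm_le_left (zpowers_le.2 (nV z (nZ.le hz))) hx), mem_cen1.2 ?_⟩
    have z2' : coset(ucn 3 T, z) ^ 2 ∈ W /ₛ ucn 3 T := by
      rw [← coset_pow (n3 (nZ.le hz))]; exact mem_quo_of_mem (n3 (pow_mem (nZ.le hz) 2)) (sA z (z2 hz))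
    have hv' := conj_mem (nV z (nZ.le hz)) hv
    generalize coset(ucn 3 T, z) = c at *
    have i1 : v⁻¹ = v := inv_eq_of_mul_eq_one_right (by rw [← pow_two, aV.pow hv])
    rw [commutatorElement_def, i1, mul_assoc v, mul_assoc v, aV.ab.comm hv hv', eq_comm, ← mul_inv_eq_iff_eq_mul]
    calc _ = c ^ 2 * v * (c ^ 2)⁻¹ * (c * v * c⁻¹) := by rw [pow_two]; group
      _ = _ := by rw [aV.ab.comm z2' hv, mul_inv_cancel_right, aV.ab.comm hv hv'])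
  have l1 : ⁅W, Z⁆ ⊔ ucn 3 T ≤ W := sup_le lWZ h.z3_le
  have l2 : ⁅W, Z⁆ ⊔ ucn 3 T ≤ W ⊓ qpre(ucn 3 T, C(Z /ₛ ucn 3 T)) := (h.le_cenq nZ).2 ⟨l1, comm_sup_le (h.nz 3 l1) qq
    (comm_le_left (nZ.le.trans n3))⟩
  have k1 := h.cenq_le nZ
  have c1 : 2 ^ 7 ≤ #(⁅W, Z⁆ ⊔ ucn 3 T : Subgroup G) := by
    have a1 := card_comm_zp aV.ab (nV z (nZ.le hz))
    have a2 : #((W /ₛ ucn 3 T) ⊓ C[coset(ucn 3 T, z)]) ≤ 16 := by
      have := card_quo_mul (⟨le_inf h.z3_le (le_qpre _), h.nz 3 inf_le_left⟩ :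
        ucn 3 T ⊴ W ⊓ qpre(ucn 3 T, C(Z /ₛ ucn 3 T)))
      rw [iZT] at k1
      rw [← this, quo_inf_qpre, qZ, cen_sup, cen_zpowers, ← inf_assoc, inf_eq_left.2 aV.ab.le_cen, h.cards.2.2] at k1
      omega
    have a3 := card_quo_mul (⟨le_sup_right, h.nz 3 l1⟩ : ucn 3 T ⊴ ⁅W, Z⁆ ⊔ ucn 3 T)
    rw [quo_sup_right (h.nz 3 lWZ), quo_comm (h.nz 3 le_rfl) (nZ.le.trans n3), h.cards.2.2] at a3
    have a4 := card_le (commSS (le_refl (W /ₛ ucn 3 T)) (le_sup_right.trans qZ.ge))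
    nlinarith
  have lWA : ⁅W, A⁆ ≤ W := comm_le_left (nA.le.trans h.nml.nrm)
  have z4' : ucn 4 T ≤ ucn 3 T ⊔ ⁅⁅W, A⁆, Z⁆ := h.ge le_rfl ((ucn_nml 3 T).sup ((h.nml.comm nA).comm nZ)) le_sup_left
    fun e => by
      have a := three_subgroup_mod (h.nz 3 le_rfl) (nA.le.trans n3) (nZ.le.trans n3) (le_sup_right.trans e)
        ((commSS cAZ le_rfl).trans h.der.le)
      rw [commutator_comm Z] at a
      have b := (card_le ((h.le_cenq nA).2 ⟨l1, comm_sup_le (h.nz 3 l1) a (comm_le_left (nA.le.trans n3))⟩)).trans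
        (h.cenq_le nA)
      rw [iA] at b
      omega
  obtain ⟨σ, hσ, σ1⟩ := SetLike.not_le_iff_exists.1 (h.not_le (i := 3) le_rfl)
  have m := mem_quo_of_mem (n3 (ucn_le 4 T hσ)) (z4' hσ)
  have sT := nA.le hs
  have zT := nZ.le hz
  have lS : (W /ₛ ucn 3 T) ⊔ ⟪coset(ucn 3 T, s)⟫ ≤ A /ₛ ucn 3 T :=
    sup_le (quo_mono _ lA) (zpowers_le.2 (mem_quo_of_mem (n3 sT) hs))
  have nVA : A /ₛ ucn 3 T ≤ N(W /ₛ ucn 3 T) := quo_norms _ (nA.le.trans h.nml.nrm)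
  have nVZ : Z /ₛ ucn 3 T ≤ N(W /ₛ ucn 3 T) := quo_norms _ (nZ.le.trans h.nml.nrm)
  have nS : Z /ₛ ucn 3 T ≤ N((W /ₛ ucn 3 T) ⊔ ⟪coset(ucn 3 T, s)⟫) := norms_of_comm_le ((commSS lS le_rfl).trans (by
    rw [← quo_comm (nA.le.trans n3) (nZ.le.trans n3)]; exact (quo_mono _ cAZ).trans le_sup_left))
  have lE := comm_le_left (lS.trans nVA)
  rw [quo_sup_left (comm_le_of_le (h.nz 3 lWA) (nZ.le.trans n3)), quo_comm (h.nz 3 lWA) (nZ.le.trans n3),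
    quo_comm (h.nz 3 le_rfl) (nA.le.trans n3), show A /ₛ ucn 3 T = (Z /ₛ ucn 3 T) ⊔ ((W /ₛ ucn 3 T) ⊔ ⟪coset(ucn 3 T, s)⟫) by
      rw [← sup_assoc, sup_eq_left.2 (quo_mono _ z1), ← eA, quo_sup (nZ.le.trans n3) (zpowers_le.2 (n3 sT)),
        quo_zpowers (n3 sT)], comm_sup_ab' nVZ (lS.trans nVA), comm_sup_ab aV.ab nVZ (comm_le_left nVZ) lE,
    ← quo_comm (h.nz 3 le_rfl) (nZ.le.trans n3), ← quo_comm (h.nz 3 lWZ) (nZ.le.trans n3), quo_eq_bot_of_le qq,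
    bot_sup_eq] at m
  obtain ⟨e, he, e1⟩ := mem_comm_zp (aV.ab.mono lE) (normsR nVZ nS (mem_quo_of_mem (n3 zT) hz)) (cz _ lE m)
  obtain ⟨v', hv', rfl⟩ := mem_comm_zp aV.ab (nV s sT) (cg s sT _ le_rfl he)
  obtain ⟨v, hv, v1, rfl⟩ := mem_quo.1 hv'
  clear hv' he
  have eW : ⁅v, s⁆ ∈ W := lWA (comm_mem hv hs)
  have e2 := sc s v hs hv
  rw [← coset_comm v1 (n3 sT), ← coset_comm (h.nz 3 le_rfl eW) (n3 zT)] at e1
  generalize ⁅v, s⁆ = e at *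
  have eT := h.le eW
  have ezT : ⁅e, z⁆ ∈ T := comm_le_of_le le_rfl le_rfl (comm_mem eT zT)
  have n4 := (ucn_nml 4 T).nrm
  have eD : ⟪e⟫ ≤ W ⊓ qpre(ucn 4 T, C(Z /ₛ ucn 4 T)) := (h.le_cenq nZ).2 ⟨zpowers_le.2 eW, by
    rw [← eZ]
    exact comm_sup_le' (eZ.le.trans (nZ.le.trans n4)) ((commSS (zpowers_le.2 eW) le_rfl).trans (h.der.le.trans
      (ucn_mono_left (by omega) T))) (comm_zp_zp_le (n4 eT) (n4 zT) (mem_of_coset_mem (n3 ezT) (ucn_mono_left (by omega) T)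
        (e1 ▸ mem_quo_of_mem (n3 (ucn_le 4 T hσ)) hσ)))⟩
  have e3 : ⁅W, Z⁆ ⊔ ucn 3 T < ⁅W, Z⁆ ⊔ ucn 3 T ⊔ ⟪e⟫ := lt_of_le_of_ne le_sup_left fun k =>
    σ1 ((coset_eq_one_iff (n3 (ucn_le 4 T hσ))).1 (e1.trans (coset_of_mem (((h.le_cenq nZ).1 l2).2
      (comm_mem (k.ge (mem_sup_right (mem_zpowers e))) hz)))))
  have lD : ⁅W, Z⁆ ⊔ ucn 3 T ≤ W ⊓ qpre(ucn 4 T, C(Z /ₛ ucn 4 T)) :=
    (h.le_cenq nZ).2 ⟨l1, ((h.le_cenq nZ).1 l2).2.trans (ucn_mono_left (by omega) T)⟩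
  have dd := (h.le_cenq (i := 4) nZ).1 le_rfl
  generalize W ⊓ qpre(ucn 4 T, C(Z /ₛ ucn 4 T)) = D at *
  have cD : ⁅⁅W, Z⁆ ⊔ ucn 3 T, D⁆ ≤ ucn 2 T := comm_sup_le (h.nz 2 l1) (three_subgroup_mod (nZ.le.trans n2)
    (h.nz 2 dd.1) (h.nz 2 le_rfl) ((comm_eq_bot.2 (by rw [commutator_comm]; exact dd.2.trans (z4.trans inf_le_right))).le.trans
      bot_le) ((commSS ((commSS dd.1 le_rfl).trans h.der.le) nZ.le).trans (ucn_comm 2 T)))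
    ((commSS le_rfl (dd.1.trans h.le)).trans (ucn_comm 2 T))
  have lH : ⁅W, Z⁆ ⊔ ucn 3 T ⊔ ⟪e⟫ ≤ W := sup_le l1 (zpowers_le.2 eW)
  have aH : Ab ((⁅W, Z⁆ ⊔ ucn 3 T ⊔ ⟪e⟫) /ₛ ucn 2 T) := by
    rw [quo_sup (h.nz 2 l1) (zpowers_le.2 (n2 eT)), quo_zpowers (n2 eT)]
    exact ab_sup_zp (quo_cents_of_comm_le cD) (quo_mono _ lD) (mem_quo_of_mem (n2 eT) (eD (mem_zpowers e)))
  have c2 := ((h.p2.mono (lH.trans h.le)).mul_card_le e3)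
  have l3 : ucn 3 T ≤ ⁅W, Z⁆ ⊔ ucn 3 T ⊔ ⟪e⟫ := le_sup_right.trans le_sup_left
  have om : ∀ x ∈ ⁅W, Z⁆ ⊔ ucn 3 T ⊔ ⟪e⟫, x ^ 2 ∈ ucn 2 T →
      x ∈ qpre(ucn 2 T, Ω[2]((⁅W, Z⁆ ⊔ ucn 3 T ⊔ ⟪e⟫) /ₛ ucn 2 T)) := fun x hx x2 =>
    mem_qpre.2 ⟨h.nz 2 lH hx, mem_Ohm (mem_quo_of_mem (h.nz 2 lH hx) hx) (by
      rw [← coset_pow (h.nz 2 lH hx), coset_of_mem x2])⟩
  have lO := (quo_le_iff (h.nz 2 lH)).2 (sup_le (sup_le (comm_le_iff.2 fun u hu a ha => om _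
    (mem_sup_left (mem_sup_left (comm_mem hu ha))) (sc a u (z2 ha) hu)) fun x hx => om x (l3 hx) (h.sq3 hx))
    (zpowers_le.2 (om e (mem_sup_right (mem_zpowers e)) e2)))
  have c3 := card_quo_mul (⟨(ucn_mono_left (by omega) T).trans l3, h.nz 2 lH⟩ : ucn 2 T ⊴ _)
  have c4 := card_le lO
  rw [h.cards.2.1] at c3
  exact h.no_big lH l3 aH ((quo_mono _ l3).trans lO) (by omega)

theorem weak (h : Ru T W) (g : G) (hg : cj g W ≤ T) : cj g W = W := by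
  have i : W.relIndex (cj g W) ≤ 8 := h.sizes.2.2.2.2.2 ▸ relIndex_le_of_le_right hg (relIndex_pos _ _).ne'
  have l : cj g⁻¹ (W ⊓ cj g W) ≤ W := cj_le_iff.2 (by rw [inv_inv]; exact inf_le_right)
  have e : cj g (ucn 3 T) ≤ ucn 3 T := by
    have key : ∀ U, MaxIn U (W ⊓ cj g W) → cj g (ucn 3 T) ≤ U := fun U hU => by
      have a := h.sub (cj g⁻¹ U) ((cj_mono _ hU.lt.le).trans l) (by
        rw [← relIndex_cj g, cj_cj, mul_inv_cancel, cj_one, ← relIndex_mul_relIndex _ _ _ hU.lt.le inf_le_right,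
          ((h.p2.mono h.le).inf_left _).maxIn_relIndex hU, inf_relIndex_right]; omega)
      rw [h.phi_eq] at a
      exact cj_le_iff.2 a
    have b : cj g (ucn 3 T) ≤ W ⊓ cj g W := cj_le_iff.2 (h.phi_eq.ge.trans (h.sub _ l (by
      rw [← relIndex_cj g, cj_cj, mul_inv_cancel, cj_one, inf_relIndex_right]; omega)))
    exact (le_Phi b key).trans (((h.p2.mono h.le).Phi_mono inf_le_left).trans h.phi_le)
  refine eq_of_card_eq (h.eW.ge.trans' (le_inf hg ?_)) (card_cj _ _)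
  rw [← eq_of_card_eq e (card_cj _ _)]
  exact cj_cents.2 h.cen

theorem odd_cents (h : Ru T W) (hR : PiGrp {2}ᶜ R) (hn : R ≤ N(T)) : R ≤ C(T) := by
  have nz := fun i => norms_ucn i hn
  have c1 : R ≤ C(ucn 1 T) := cents_two h.cards.1 (nz 1)
  have c2 : R ≤ C(ucn 2 T) := stab_two (h.p2.mono (ucn_le 2 T)) hR (nz 2) (ucn_mono_left (by omega) T)
    (by rw [h.cards.1, h.cards.2.1]) c1
  have c3 : R ≤ C(ucn 3 T) := stab_two (h.p2.mono (ucn_le 3 T)) hR (nz 3) (ucn_mono_left (by omega) T)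
    (by rw [h.cards.2.2, h.cards.2.1]) c2
  have nW : R ≤ N(W) := h.eW ▸ norms_subcent hn (nz 3)
  have pW := h.p2.mono h.le
  have a : ⁅T, R⁆ ≤ W := h.eW.ge.trans' (le_inf (comm_le_left hn) (comm_eq_bot.1 (three_subgroup
    (by rw [comm_eq_bot.2 c3, commutator_bot_left]) (comm_eq_bot'.2 (centsS (comm_le_left (ucn_nml 3 T).nrm) c3)))))
  have l : ucn 3 T ⊔ ⁅W, R⁆ ≤ W := sup_le h.z3_le (comm_le_left nW)
  have n : ucn 3 T ⊔ ⁅W, R⁆ ⊴ T := ⟨l.trans h.le, (coprime_cent_prod_of_le h.le nW (pW.cop hR) (.inl pW.sol) a).sup.ge.trans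
    (sup_le (norms_of_comm_le ((commSS l le_rfl).trans (h.der.le.trans le_sup_left)))
      (normsY (inf_le_left.trans (ucn_nml 3 T).nrm) (normsR (inf_le_left.trans h.nml.nrm) (cents_norm inf_le_right))))⟩
  refine stable_factor_cent hn (h.p2.cop hR) a (stable_factor_cent nW (pW.cop hR) (le_sup_right.trans
    (h.nml_le le_rfl n fun e => h.not_le (i := 3) le_rfl ?_)) c3)
  have aV := (ab_quo_iff (h.nz 3 le_rfl)).2 h.der.le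
  have b := coprime_abel_cent_TI (quo_norms (ucn 3 T) nW) ((pW.quo _).cop (hR.quo _)) aV
  refine (quo_eq_bot (h.nz 3 h.sizes.1)).1 (eq_bot_of_le (le_inf ?_ (quo_cents_of_comm_le
    (comm_le_two (h.idx (i := 3) le_rfl) (nz 4) (nz 3)))) b)
  rw [← quo_comm (h.nz 3 le_rfl) (nz 3), ← quo_sup_left (le_sup_right.trans (h.nz 3 l))]
  exact quo_mono _ e

end Ru

theorem ucn_top (n : ℕ) : ucn n (⊤ : Subgroup G) = Subgroup.upperCentralSeries G n := by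
  induction n with
  | zero => rw [ucn_zero, Subgroup.upperCentralSeries_zero]
  | succ n ih =>
    ext x; rw [mem_ucn_succ, ih, Subgroup.mem_upperCentralSeries_succ_iff]
    exact ⟨fun h y => h.2 y trivial, fun h => ⟨trivial, fun y _ => h y⟩⟩

theorem map_frattini_equiv {G' : Type*} [Group G'] (e : G ≃* G') : (frattini G).map e.toMonoidHom = frattini G' :=
  le_antisymm (map_le_iff_le_comap.2 (frattini_le_comap_frattini_of_surjective e.surjective)) fun x hx =>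
    ⟨e.symm x, frattini_le_comap_frattini_of_surjective (φ := e.symm.toMonoidHom) e.symm.surjective hx, e.apply_symm_apply x⟩

end Cfsg.Agent.H5g
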