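import Mathlib

/-! A central extension by a group of order `p` built by corestriction of a bilinear cocycle. -/

set_option autoImplicit false
set_option linter.unusedSectionVars false
set_option linter.unusedVariables false

namespace Cfsg.Agent.H5.ST

open Subgroup

universe u

section Ext
variable {G : Type u} [Group G] {M : Type} [CommRing M]

/-- A normalized two-cocycle. -/
structure Coc (G : Type u) (M : Type) [Group G] [CommRing M] where
  c : G → G → M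
  one_l : ∀ g, c 1 g = 0
  one_r : ∀ g, c g 1 = 0
  coc : ∀ g h k, c g h + c (g * h) k = c g (h * k) + c h k

/-- The extension defined by a cocycle. -/
structure CExt (c : Coc G M) where
  m : M
  g : G

theorem CExt.ext' {c : Coc G M} {a b : CExt c} (h1 : a.m = b.m) (h2 : a.g = b.g) : a = b := by
  cases a; cases b; simp_all

instance cextMul (c : Coc G M) : Mul (CExt c) :=
  ⟨fun a b => ⟨a.m + b.m + c.c a.g b.g, a.g * b.g⟩⟩
instance cextOne (c : Coc G M) : One (CExt c) := ⟨⟨0, 1⟩⟩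
instance cextInv (c : Coc G M) : Inv (CExt c) := ⟨fun a => ⟨-a.m - c.c a.g⁻¹ a.g, a.g⁻¹⟩⟩

variable {c : Coc G M}

theorem cmul_m (a b : CExt c) : (a * b).m = a.m + b.m + c.c a.g b.g := rfl
theorem cmul_g (a b : CExt c) : (a * b).g = a.g * b.g := rfl
theorem cone_m : (1 : CExt c).m = 0 := rfl
theorem cone_g : (1 : CExt c).g = 1 := rfl
theorem cinv_m (a : CExt c) : a⁻¹.m = -a.m - c.c a.g⁻¹ a.g := rfl
theorem cinv_g (a : CExt c) : a⁻¹.g = a.g⁻¹ := rfl

instance cextGroup (c : Coc G M) : Group (CExt c) :=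
  Group.ofLeftAxioms
    (fun a b d => CExt.ext' (by
      simp only [cmul_m, cmul_g]
      have := c.coc a.g b.g d.g
      linear_combination this) (by simp only [cmul_g, mul_assoc]))
    (fun a => CExt.ext' (by simp only [cmul_m, cone_m, cone_g, c.one_l]; abel)
      (by simp only [cmul_g, cone_g, one_mul]))
    (fun a => CExt.ext' (by simp only [cmul_m, cinv_m, cinv_g, cone_m]; abel)
      (by simp only [cmul_g, cinv_g, cone_g, inv_mul_cancel]))

/-- The projection of the extension. -/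
def cproj (c : Coc G M) : CExt c →* G := MonoidHom.mk' (fun a => a.g) cmul_g

/-- The underlying set. -/
def cequiv (c : Coc G M) : CExt c ≃ M × G where
  toFun a := (a.m, a.g)
  invFun x := ⟨x.1, x.2⟩
  left_inv _ := rfl
  right_inv _ := rfl

theorem cproj_surj : Function.Surjective (cproj c) := fun g => ⟨⟨0, g⟩, rfl⟩

theorem cker_le : (cproj c).ker ≤ center (CExt c) := fun a ha => mem_center_iff.2 fun b => by
  have h : a.g = 1 := ha
  refine CExt.ext' ?_ ?_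
  · simp only [cmul_m, h, c.one_l, c.one_r]; abel
  · simp only [cmul_g, h, mul_one, one_mul]

theorem card_cker : Nat.card (cproj c).ker = Nat.card M :=
  Nat.card_congr
    { toFun := fun a => a.1.m
      invFun := fun m => ⟨⟨m, 1⟩, rfl⟩
      left_inv := fun a => Subtype.ext (CExt.ext' rfl (Eq.symm a.2))
      right_inv := fun _ => rfl }

theorem ccomm_iff {a b : CExt c} (h : a.g * b.g = b.g * a.g) :
    a * b = b * a ↔ c.c a.g b.g = c.c b.g a.g := by
  constructor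
  · intro e
    have := congrArg CExt.m e
    simp only [cmul_m] at this
    linear_combination this
  · intro e
    exact CExt.ext' (by simp only [cmul_m, e]; abel) h

end Ext

variable {G : Type u} [Group G] [Finite G]

theorem exists_adapted (P : Subgroup G) : ∃ r γ : G ⧸ P → G, (∀ ω, ((r ω * γ ω : G) : G ⧸ P) = ω) ∧
    (∀ ω, r ω ∈ P) ∧ ∀ x ∈ P, ∀ ω, γ (x • ω) = γ ω := by
  let o : G ⧸ P → G ⧸ P := fun ω => (Quotient.mk (MulAction.orbitRel P (G ⧸ P)) ω).out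
  have ho : ∀ ω, ∃ x : P, x • o ω = ω := fun ω => by
    have h : (MulAction.orbitRel P (G ⧸ P)) ω (o ω) :=
      (Quotient.exact (Quotient.out_eq (Quotient.mk (MulAction.orbitRel P (G ⧸ P)) ω)).symm)
    exact h
  choose r hr using ho
  refine ⟨fun ω => r ω, fun ω => (o ω).out, fun ω => ?_, fun ω => (r ω).2, fun x hx ω => ?_⟩
  · conv_rhs => rw [← hr ω, ← QuotientGroup.out_eq' (o ω)]
    rfl
  · have : o (x • ω) = o ω := by
      simp only [o]
      congr 1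
      exact Quotient.sound ⟨⟨x, hx⟩, rfl⟩
    simp only [this]

theorem exists_ext {p : ℕ} [Fact p.Prime] (P : Subgroup G) (hind : ¬ p ∣ P.index)
    (hc : ∀ x ∈ P, ∀ y ∈ P, x * y = y * x) (φ₁ φ₂ : G → ZMod p)
    (h₁ : ∀ x ∈ P, ∀ y ∈ P, φ₁ (x * y) = φ₁ x + φ₁ y)
    (h₂ : ∀ x ∈ P, ∀ y ∈ P, φ₂ (x * y) = φ₂ x + φ₂ y)
    (hf : ∀ g : G, ∀ x ∈ P, ∀ y ∈ P, g * x * g⁻¹ ∈ P → g * y * g⁻¹ ∈ P →
      (g * x * g⁻¹ = x ∧ g * y * g⁻¹ = y) ∨ (g * x * g⁻¹ = x⁻¹ ∧ g * y * g⁻¹ = y⁻¹)) :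
    ∃ (Γ : Type u) (_ : Group Γ) (_ : Finite Γ) (π : Γ →* G), Function.Surjective π ∧
      π.ker ≤ center Γ ∧ Nat.card π.ker = p ∧ ∀ a b : Γ, π a ∈ P → π b ∈ P →
        (a * b = b * a ↔ φ₁ (π a) * φ₂ (π b) = φ₁ (π b) * φ₂ (π a)) := by
  classical
  have := Fintype.ofFinite (G ⧸ P)
  obtain ⟨r, γ, hσ, hr, hγ⟩ := exists_adapted P
  have one : ∀ φ : G → ZMod p, (∀ x ∈ P, ∀ y ∈ P, φ (x * y) = φ x + φ y) → φ 1 = 0 := fun φ h => by
    have := h 1 P.one_mem 1 P.one_mem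
    rw [mul_one] at this
    linear_combination -this
  have inv : ∀ φ : G → ZMod p, (∀ x ∈ P, ∀ y ∈ P, φ (x * y) = φ x + φ y) → ∀ x ∈ P,
      φ x⁻¹ = -φ x := fun φ h x hx => by
    have := h x hx x⁻¹ (P.inv_mem hx)
    rw [mul_inv_cancel, one φ h] at this
    linear_combination -this
  let a : G → G ⧸ P → G := fun g ω => (r (g • ω) * γ (g • ω))⁻¹ * g * (r ω * γ ω)
  have ha : ∀ g ω, a g ω ∈ P := fun g ω => by
    have : ((r (g • ω) * γ (g • ω) : G) : G ⧸ P) = ((g * (r ω * γ ω) : G) : G ⧸ P) := by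
      rw [hσ]
      conv_lhs => rw [← hσ ω]
      rfl
    have h := QuotientGroup.eq.1 this
    simpa only [a, mul_assoc] using h
  have hm : ∀ g h ω, a (g * h) ω = a g (h • ω) * a h ω := fun g h ω => by
    simp only [a, mul_smul]; group
  have h1 : ∀ ω, a 1 ω = 1 := fun ω => by simp only [a, one_smul]; group
  have sh : ∀ (g : G) (F : G ⧸ P → ZMod p), ∑ ω, F (g • ω) = ∑ ω, F ω := fun g F =>
    Equiv.sum_comp (MulAction.toPerm g) F
  let c : Coc G (ZMod p) :=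
    { c := fun g h => ∑ ω, φ₁ (a g (h • ω)) * φ₂ (a h ω)
      one_l := fun g => by simp only [h1, one φ₁ h₁, zero_mul, Finset.sum_const_zero]
      one_r := fun g => by simp only [h1, one φ₂ h₂, mul_zero, Finset.sum_const_zero]
      coc := fun g h k => by
        rw [← sh k (fun ω => φ₁ (a g (h • ω)) * φ₂ (a h ω))]
        simp only [← Finset.sum_add_distrib]
        refine Finset.sum_congr rfl fun ω _ => ?_
        rw [hm, hm, h₁ _ (ha _ _) _ (ha _ _), h₂ _ (ha _ _) _ (ha _ _), mul_smul]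
        ring }
  have : Finite (CExt c) := Finite.of_equiv _ (cequiv c).symm
  let B : G → ZMod p := fun x => ∑ ω, φ₁ (r (x • ω)) * φ₂ (r ω)
  have key : ∀ x ∈ P, ∀ y ∈ P, c.c x y =
      P.index * (φ₁ x * φ₂ y) + B y - B 1 - B (x * y) + B x := fun x hx y hy => by
    have e1 : ∀ ω, φ₁ (a x (y • ω)) * φ₂ (a y ω) =
        (φ₁ x + φ₁ (r (y • ω)) - φ₁ (r (x • y • ω))) * (φ₂ y + φ₂ (r ω) - φ₂ (r (y • ω))) := by
      intro ω
      have q1 : (r (x • y • ω))⁻¹ * x * r (y • ω) ∈ P :=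
        P.mul_mem (P.mul_mem (P.inv_mem (hr _)) hx) (hr _)
      have q2 : (r (y • ω))⁻¹ * y * r ω ∈ P := P.mul_mem (P.mul_mem (P.inv_mem (hr _)) hy) (hr _)
      have a1 : a x (y • ω) = (γ ω)⁻¹ * ((r (x • y • ω))⁻¹ * x * r (y • ω)) * (γ ω)⁻¹⁻¹ := by
        simp only [a, hγ x hx, hγ y hy]; group
      have a2 : a y ω = (γ ω)⁻¹ * ((r (y • ω))⁻¹ * y * r ω) * (γ ω)⁻¹⁻¹ := by
        simp only [a, hγ y hy]; group
      have v1 : φ₁ ((r (x • y • ω))⁻¹ * x * r (y • ω)) =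
          φ₁ x + φ₁ (r (y • ω)) - φ₁ (r (x • y • ω)) := by
        rw [h₁ _ (P.mul_mem (P.inv_mem (hr _)) hx) _ (hr _), h₁ _ (P.inv_mem (hr _)) _ hx,
          inv φ₁ h₁ _ (hr _)]
        ring
      have v2 : φ₂ ((r (y • ω))⁻¹ * y * r ω) = φ₂ y + φ₂ (r ω) - φ₂ (r (y • ω)) := by
        rw [h₂ _ (P.mul_mem (P.inv_mem (hr _)) hy) _ (hr _), h₂ _ (P.inv_mem (hr _)) _ hy,
          inv φ₂ h₂ _ (hr _)]
        ring
      rcases hf (γ ω)⁻¹ _ q1 _ q2 (a1 ▸ ha _ _) (a2 ▸ ha _ _) with ⟨e, e'⟩ | ⟨e, e'⟩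
      · rw [a1, a2, e, e', v1, v2]
      · rw [a1, a2, e, e', inv φ₁ h₁ _ q1, inv φ₂ h₂ _ q2, v1, v2]; ring
    have s1 := sh y (fun ω => φ₂ (r ω))
    have s2 := sh x (fun ω => φ₁ (r ω))
    have s3 := sh y (fun ω => φ₁ (r (x • ω)))
    have s4 := sh y (fun ω => φ₁ (r ω))
    have s5 := sh y (fun ω => φ₁ (r ω) * φ₂ (r ω))
    have s6 := sh y (fun ω => φ₁ (r (x • ω)) * φ₂ (r ω))
    have e2 : c.c x y = ∑ ω, (φ₁ x * φ₂ y + φ₁ x * φ₂ (r ω) - φ₁ x * φ₂ (r (y • ω)) +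
        φ₂ y * φ₁ (r (y • ω)) - φ₂ y * φ₁ (r (x • y • ω)) + φ₁ (r (y • ω)) * φ₂ (r ω) -
        φ₁ (r (y • ω)) * φ₂ (r (y • ω)) - φ₁ (r (x • y • ω)) * φ₂ (r ω) +
        φ₁ (r (x • y • ω)) * φ₂ (r (y • ω))) :=
      Finset.sum_congr rfl fun ω _ => by rw [e1]; ring
    rw [e2]
    simp only [Finset.sum_add_distrib, Finset.sum_sub_distrib, ← Finset.mul_sum, Finset.sum_const,
      Finset.card_univ, nsmul_eq_mul, B, one_smul, mul_smul] at s1 s2 s3 s4 s5 s6 ⊢
    rw [s1, s3, s4, s5, s6, s2, index, Nat.card_eq_fintype_card]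
    ring
  refine ⟨CExt c, inferInstance, inferInstance, cproj c, cproj_surj, cker_le, ?_, fun x y hx hy => ?_⟩
  · rw [card_cker, Nat.card_zmod]
  · have hn : (P.index : ZMod p) ≠ 0 := fun h => hind ((ZMod.natCast_eq_zero_iff _ _).1 h)
    have hx' : x.g ∈ P := hx
    have hy' : y.g ∈ P := hy
    rw [ccomm_iff (hc _ hx' _ hy'), key _ hx' _ hy', key _ hy' _ hx', hc _ hy' _ hx']
    change _ ↔ φ₁ x.g * φ₂ y.g = φ₁ y.g * φ₂ x.g
    constructor
    · intro e
      exact mul_left_cancel₀ hn (by linear_combination e)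
    · intro e
      rw [e]; ring

end Cfsg.Agent.H5.ST
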