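import Cfsg.Agent.H5.ST4

/-! The virtual characters of a central extension with non-abelian Sylow subgroup. -/

set_option autoImplicit false
set_option linter.unusedSectionVars false
set_option linter.unusedVariables false

namespace Cfsg.Agent.H5.ST

open Cfsg Cfsg.Agent.H7 Subgroup
open scoped ComplexConjugate

universe u

variable {G Γ : Type u} [Group G] [Finite G] [Group Γ] [Finite Γ] {p : ℕ} [hp : Fact p.Prime]
  {m k a : ℕ} {P : Sylow p G}

/-- A central extension by a group of order `p` with prescribed commutator form. -/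
structure CE (P : Sylow p G) (π : Γ →* G)
    (F : P.1 →* Multiplicative (ZMod p) × Multiplicative (ZMod p)) : Prop where
  surj : Function.Surjective π
  cen : π.ker ≤ center Γ
  card : Nat.card π.ker = p
  fsurj : Function.Surjective F
  comm : ∀ (x y : Γ) (hx : π x ∈ P.1) (hy : π y ∈ P.1), x * y = y * x ↔
    (F ⟨π x, hx⟩).1.toAdd * (F ⟨π y, hy⟩).2.toAdd = (F ⟨π y, hy⟩).1.toAdd * (F ⟨π x, hx⟩).2.toAdd

namespace CE

variable {π : Γ →* G} {F : P.1 →* Multiplicative (ZMod p) × Multiplicative (ZMod p)}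
  (c : CE P π F)
include c

theorem zc {z : Γ} (hz : π z = 1) (g : Γ) : g * z = z * g := mem_center_iff.1 (c.cen hz) g

theorem zpow {z : Γ} (hz : π z = 1) : z ^ p = 1 := by
  have := pow_card_eq_one' (G := π.ker) (x := ⟨z, hz⟩)
  rw [c.card] at this
  exact congrArg Subtype.val this

theorem zsq (h2 : p ≠ 2) {z : Γ} (hz : π z = 1) (e : z * z = 1) : z = 1 :=
  orderOf_eq_one_iff.1 (Nat.eq_one_of_dvd_coprimes
    ((Nat.coprime_primes Nat.prime_two hp.out).2 h2.symm)
    (orderOf_dvd_of_pow_eq_one (by rw [pow_two, e])) (orderOf_dvd_of_pow_eq_one (c.zpow hz)))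

theorem exists_zeta : ∃ ζ : π.ker →* ℂˣ, Function.Injective ζ := by
  have : Fact (Nat.card π.ker).Prime := ⟨c.card ▸ hp.out⟩
  have : Nontrivial π.ker := Finite.one_lt_card_iff_nontrivial.1 (c.card ▸ hp.out.one_lt)
  obtain ⟨z, hz⟩ := exists_ne (1 : π.ker)
  obtain ⟨ζ, hζ⟩ := exists_lin (fun x y : π.ker => Subtype.ext (c.zc y.2 x)) hz
  refine ⟨ζ, (MonoidHom.ker_eq_bot_iff ζ).1 ((eq_bot_or_eq_top_of_prime_card ζ.ker).resolve_right
    fun e => hζ ?_)⟩
  exact (e ▸ mem_top z : z ∈ ζ.ker)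

theorem nc {x g : Γ} (hx : ∀ y, π y ∈ P.1 → y * x = x * y) (hg : π g * π x = π x * π g) :
    g * x * g⁻¹ = x := by
  let C : Subgroup Γ := (centralizer {π x}).comap π
  have hC : ∀ y : C, π (y.1 * x * y.1⁻¹ * x⁻¹) = 1 := fun y => by
    have : π y * π x = π x * π y := mem_centralizer_singleton_iff.1 y.2
    simp only [map_mul, map_inv, this]; group
  let φ : C →* π.ker := MonoidHom.mk' (fun y => ⟨_, hC y⟩) fun y z => Subtype.ext (by
    have := c.zc (hC z) (y.1 * x * y.1⁻¹ * x⁻¹)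
    have e := c.zc (hC z) y.1
    simp only [coe_mul]
    calc y.1 * z.1 * x * (y.1 * z.1)⁻¹ * x⁻¹
        = (y.1 * (z.1 * x * z.1⁻¹ * x⁻¹)) * x * y.1⁻¹ * x⁻¹ := by group
      _ = _ := by rw [e, this]; group)
  have hle : P.1.comap π ≤ C := fun y hy => mem_centralizer_singleton_iff.2 (by
    rw [← map_mul, hx y hy, map_mul])
  have h1 : φ.ker.index ∣ P.1.index := by
    rw [← index_comap_of_surjective _ c.surj]
    refine (index_dvd_of_le (H := (P.1.comap π).subgroupOf C) fun y hy => Subtype.ext ?_).trans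
      (relIndex_dvd_index_of_le hle)
    change y.1 * x * y.1⁻¹ * x⁻¹ = 1
    rw [hx y hy]; group
  have h2 : φ.ker.index ∣ p := by
    rw [index_ker, ← c.card]; exact card_subgroup_dvd_card _
  have h3 : φ.ker = ⊤ := index_eq_one.1 (Nat.eq_one_of_dvd_coprimes
    ((Nat.Prime.coprime_iff_not_dvd hp.out).2 P.not_dvd_index) h2 h1)
  have h4 : φ ⟨g, mem_centralizer_singleton_iff.2 hg⟩ = 1 := (h3 ▸ mem_top _ : _ ∈ φ.ker)
  exact mul_inv_eq_one.1 (congrArg Subtype.val h4)

open Classical in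
theorem exists_eta (h : Hyp P) (E : PE p G m k a) (E' : PE p Γ m k a) {r : G → P.1}
    (hr : ∀ g, IsConj (g ^ a) (r g : G)) :
    ∃ (η : Γ → ℂ) (ζ : π.ker →* ℂˣ), IsGeneralizedCharacter Γ η ∧
      (∀ g, η g * conj (η g) = if F (r (π g)) = 1 then (p : ℂ) ^ 2 else 0) ∧
      ∀ g (hg : g ^ a ∈ π.ker), η g = p * ζ ⟨g ^ a, hg⟩ := by
  obtain ⟨ζ, hζ⟩ := c.exists_zeta
  obtain ⟨τ₀, hτ⟩ := h.inv
  obtain ⟨τ, rfl⟩ := c.surj τ₀
  let S : Sylow p Γ := P.comapOfKerIsPGroup π (IsPGroup.of_card (n := 1) (by rw [c.card, pow_one]))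
    (by rw [MonoidHom.range_eq_top.2 c.surj]; exact le_top)
  have := Fintype.ofFinite S.1
  let ρ : S.1 →* P.1 := (π.comp S.1.subtype).codRestrict _ fun x => x.2
  let F' := F.comp ρ
  have hF' : Function.Surjective F' := c.fsurj.comp fun x => by
    obtain ⟨y, hy⟩ := c.surj x
    exact ⟨⟨y, (hy ▸ x.2 : π y ∈ P.1)⟩, Subtype.ext hy⟩
  have cm : ∀ x y : S.1, x * y = y * x ↔
      (F' x).1.toAdd * (F' y).2.toAdd = (F' y).1.toAdd * (F' x).2.toAdd := fun x y =>
    Subtype.ext_iff.trans (c.comm x y x.2 y.2)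
  have hσ : ∀ x : S.1, π (τ * x * τ⁻¹) = (π x)⁻¹ := fun x => by
    rw [map_mul, map_mul, map_inv, hτ _ x.2]
  let σ : S.1 → S.1 := fun x => ⟨τ * x * τ⁻¹, (hσ x ▸ P.1.inv_mem x.2 : π _ ∈ P.1)⟩
  have ρσ : ∀ x, ρ (σ x) = (ρ x)⁻¹ := fun x => Subtype.ext (hσ x)
  have Fσ : ∀ x, F' (σ x) = (F' x)⁻¹ := fun x => by
    simp only [F', MonoidHom.comp_apply, ρσ, map_inv]
  have hm : ∀ x : S.1, (x : Γ) * (τ * x * τ⁻¹) ∈ π.ker := fun x => by
    rw [MonoidHom.mem_ker, map_mul, hσ, mul_inv_cancel]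
  let μ' : S.1 → ℂˣ := fun x => ζ ⟨_, hm x⟩
  have μz : ∀ (y z : S.1) (hz : (z : Γ) ∈ π.ker), μ' (y * z) = μ' y * (ζ * ζ) ⟨z, hz⟩ := by
    intro y z hz
    simp only [μ', MonoidHom.mul_apply, ← map_mul]
    congr 1
    refine Subtype.ext ?_
    simp only [coe_mul]
    calc y.1 * z.1 * (τ * (y.1 * z.1) * τ⁻¹) = y.1 * (z.1 * (τ * y.1 * (z.1 * τ⁻¹))) := by group
      _ = _ := by rw [← c.zc hz τ⁻¹, ← c.zc hz (τ * y.1 * (τ⁻¹ * z.1))]; group
  have μ1 : μ' 1 = 1 := by
    simp only [μ']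
    rw [← map_one ζ]; congr 1; exact Subtype.ext (by simp)
  let A : Subgroup S.1 := ((MonoidHom.fst _ _).comp F').ker
  have hA : ∀ x, x ∈ A ↔ (F' x).1 = 1 := fun x => Iff.rfl
  have cA : ∀ x ∈ A, ∀ y ∈ A, x * y = y * x := fun x hx y hy => by
    rw [cm, (hA x).1 hx, (hA y).1 hy]; simp
  have σA : ∀ x ∈ A, σ x ∈ A := fun x hx => by rw [hA, Fσ, Prod.fst_inv, (hA x).1 hx, inv_one]
  let μ : A →* ℂˣ := MonoidHom.mk' (fun x => μ' x) fun x y => by
    simp only [μ', ← map_mul]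
    congr 1
    refine Subtype.ext ?_
    have e : (y.1 : Γ) * (τ * x.1 * τ⁻¹) = τ * x.1 * τ⁻¹ * y.1 :=
      congrArg Subtype.val (cA _ y.2 _ (σA _ x.2))
    simp only [coe_mul]
    calc (x.1 : Γ) * y.1 * (τ * (x.1 * y.1) * τ⁻¹)
        = x.1 * (y.1 * (τ * x.1 * τ⁻¹)) * (τ * y.1 * τ⁻¹) := by group
      _ = _ := by rw [e]; group
  let f : S.1 → ℂ := ind A.subtype fun x => μ x
  have fA : ∀ x ∈ A, f x = (Nat.card A : ℂ)⁻¹ * ∑ w, (μ' (w⁻¹ * x * w) : ℂ) := fun x hx => by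
    simp only [f]
    rw [ind_apply_of_injective A.subtype_injective]
    congr 1
    refine Finset.sum_congr rfl fun w _ => ?_
    have hw : w⁻¹ * x * w ∈ A := by
      simpa using (inferInstance : A.Normal).conj_mem x hx w⁻¹
    exact A.subtype_injective.extend_apply (fun x => (μ x : ℂ)) 0 ⟨_, hw⟩
  have iA : (Nat.card S.1 : ℂ) = Nat.card A * p := by
    rw [card_eq_ker_mul ((MonoidHom.fst _ _).comp F') (Prod.fst_surjective.comp hF')]
    simp [A]
  have c0 : ∀ x, F' x = 1 → ∀ y, y * x = x * y := fun x hx y => by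
    rw [cm, hx]; simp
  have f0 : ∀ x, F' x = 1 → f x = p * μ' x := fun x hx => by
    rw [fA x (by rw [hA, hx]; rfl)]
    simp only [mul_assoc, ← c0 x hx, inv_mul_cancel_left, Finset.sum_const, Finset.card_univ,
      nsmul_eq_mul, ← Nat.card_eq_fintype_card, iA]
    rw [inv_mul_cancel_left₀ (card_ne_zero' A)]
  have f1 : ∀ x, F' x ≠ 1 → f x = 0 := fun x hx => by
    by_cases hxA : x ∈ A
    · obtain ⟨w, hw⟩ := hF' (Multiplicative.ofAdd 1, 1)
      have hz : ((x⁻¹ * (w⁻¹ * x * w) : S.1) : Γ) ∈ π.ker := by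
        have := h.comm _ x.2 _ w.2
        simp only [MonoidHom.mem_ker, coe_mul, coe_inv, map_mul, map_inv, mul_assoc, this]
        group
      have hz1 : (ζ * ζ) ⟨_, hz⟩ ≠ 1 := fun e => by
        rw [MonoidHom.mul_apply, ← map_mul, ← map_one ζ] at e
        have e1 := c.zsq h.odd hz (congrArg Subtype.val (hζ e))
        have e2 : x * w = w * x := by
          have e3 : x⁻¹ * (w⁻¹ * x * w) = 1 := Subtype.ext e1
          rw [inv_mul_eq_one, mul_assoc, eq_inv_mul_iff_mul_eq] at e3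
          exact e3.symm
        rw [cm, hw, (hA x).1 hxA] at e2
        refine hx (Prod.ext ((hA x).1 hxA) ?_)
        simpa using e2.symm
      have e : ∑ y, (μ' (y⁻¹ * x * y) : ℂ) = ∑ y, (μ' (y⁻¹ * x * y) : ℂ) * (ζ * ζ) ⟨_, hz⟩ := by
        rw [← Equiv.sum_comp (Equiv.mulLeft w)]
        refine Finset.sum_congr rfl fun y _ => ?_
        rw [← Units.val_mul, ← μz]
        congr 2
        have e4 : y * (x⁻¹ * (w⁻¹ * x * w)) = (x⁻¹ * (w⁻¹ * x * w)) * y :=
          Subtype.ext (c.zc hz y)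
        rw [Equiv.coe_mulLeft, mul_assoc (y⁻¹ * x), e4]; group
      rw [← Finset.sum_mul] at e
      rw [fA x hxA]
      by_contra h0
      exact hz1 (Units.ext (mul_left_cancel₀ (right_ne_zero_of_mul h0) (by
        rw [← e, Units.val_one, mul_one])))
    · have : A.subtype.range.Normal := by rw [range_subtype]; infer_instance
      exact ind_apply_of_notMem _ (by rwa [range_subtype])
  have nc' : ∀ x : S.1, F' x = 1 → ∀ g : Γ, π (g * x * g⁻¹) = π x → g * x * g⁻¹ = x :=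
    fun x hx g e => c.nc (fun y hy => congrArg Subtype.val (c0 x hx ⟨y, hy⟩)) (by
      rw [map_mul, map_mul, map_inv, mul_inv_eq_iff_eq_mul] at e; exact e)
  have cj : ∀ x y : S.1, IsConj (x : Γ) y → ρ y = ρ x ∨ ρ y = (ρ x)⁻¹ := fun x y e =>
    h.conj_iff.1 (π.map_isConj e)
  have hs : ∀ x y : S.1, IsConj (x : Γ) y → f x = f y := fun x y e => by
    have e0 := cj x y e
    obtain ⟨g, hg⟩ := isConj_iff.1 e
    by_cases hx : F' x = 1
    · rcases e0 with e1 | e1
      · rw [show y = x from Subtype.ext (hg.symm.trans (nc' x hx g (hg ▸ congrArg Subtype.val e1)))]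
      · have hx' : F' (σ x) = 1 := by rw [Fσ, hx, inv_one]
        have e2 : g * τ⁻¹ * σ x * (g * τ⁻¹)⁻¹ = y := by rw [← hg]; simp only [σ]; group
        have e3 : y = σ x := Subtype.ext (e2.symm.trans (nc' _ hx' _ (by
          rw [e2]; exact congrArg Subtype.val (e1.trans (ρσ x).symm))))
        have e4 : τ * σ x * τ⁻¹ = x := by
          have := nc' x hx (τ * τ) (by
            have e5 := hσ (σ x)
            rw [show π (σ x) = (π x)⁻¹ from hσ x, inv_inv] at e5
            rw [← e5]; simp only [σ]; congr 1; group)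
          rw [← this]; simp only [σ]; group
        rw [e3, f0 x hx, f0 _ hx']
        simp only [μ']
        congr 3
        refine Subtype.ext ?_
        change (x : Γ) * σ x = σ x * (τ * σ x * τ⁻¹)
        rw [e4]
        exact (congrArg Subtype.val (c0 x hx (σ x))).symm
    · rw [f1 x hx, f1 y]
      simp only [F', MonoidHom.comp_apply] at hx ⊢
      rcases e0 with e1 | e1 <;> rw [e1]
      · exact hx
      · rwa [map_inv, inv_ne_one]
  obtain ⟨r', hr'⟩ := E'.exists_r S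
  refine ⟨fun g => f (r' g), ζ * ζ, E'.star S hr' (H6.isGen_of_isCharacter
    (char_ind _ (char_of_hom μ))) hs, fun g => ?_, fun g hg => ?_⟩
  · have e1 : IsConj ((r (π g) : G)) (ρ (r' g)) :=
      (hr _).symm.trans (by rw [← map_pow]; exact π.map_isConj (hr' g))
    have e2 : F' (r' g) = 1 ↔ F (r (π g)) = 1 := by
      simp only [F', MonoidHom.comp_apply]
      rcases h.conj_iff.1 e1 with e | e <;> rw [e]
      rw [map_inv, inv_eq_one]
    beta_reduce
    split_ifs with e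
    · have e3 : conj (μ' (r' g) : ℂ) = ((μ' (r' g) : ℂ))⁻¹ := conj_lin ζ _
      have := Units.ne_zero (μ' (r' g))
      rw [f0 _ (e2.2 e), map_mul, map_natCast, e3]
      field_simp
    · rw [f1 _ fun e' => e (e2.1 e'), zero_mul]
  · obtain ⟨w, hw⟩ := isConj_iff.1 (hr' g)
    rw [c.zc hg, mul_inv_cancel_right] at hw
    have e1 : (r' g : Γ) ∈ π.ker := hw ▸ hg
    have e2 : F' (r' g) = 1 := by
      simp only [F', MonoidHom.comp_apply]
      rw [show ρ (r' g) = 1 from Subtype.ext e1, map_one]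
    have e3 := μz 1 (r' g) e1
    rw [one_mul, μ1, one_mul] at e3
    simp only [f0 _ e2, e3, hw]

end CE

end Cfsg.Agent.H5.ST
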