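import Cfsg.Agent.H5.ST5

/-! The involution count in the central extension. -/

set_option autoImplicit false
set_option linter.unusedSectionVars false
set_option linter.unusedVariables false

namespace Cfsg.Agent.H5.ST

open Cfsg Cfsg.Agent.H7 Subgroup
open scoped ComplexConjugate

universe u

variable {G Γ : Type u} [Group G] [Finite G] [Group Γ] [Finite Γ] {p : ℕ} [hp : Fact p.Prime]
  {m k a : ℕ} {P : Sylow p G}

theorem PE.exists_b (E : PE p G m k a) : ∃ b, p ^ k ∣ b ∧ b ≡ 1 [MOD m] ∧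
    ∀ x : G, x ^ a * x ^ b = x := by
  have hc := E.cop.pow_right k
  obtain ⟨b, h1, h2⟩ := exists_piExp hc.symm
  refine ⟨b, h1, h2, fun x => ?_⟩
  rw [← pow_add]
  conv_rhs => rw [← _root_.pow_one x]
  refine pow_eq_pow_iff_modEq.2 (Nat.ModEq.of_dvd ((orderOf_dvd_natCard x).trans E.dvd) ?_)
  refine (Nat.modEq_and_modEq_iff_modEq_mul hc).1 ⟨?_, ?_⟩
  · simpa using ((Nat.modEq_zero_iff_dvd.2 E.ha).add h2)
  · simpa using (E.ha'.add (Nat.modEq_zero_iff_dvd.2 h1))

namespace CE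

variable {π : Γ →* G} {F : P.1 →* Multiplicative (ZMod p) × Multiplicative (ZMod p)}
  (c : CE P π F)
include c

theorem za (E' : PE p Γ m k a) {z : Γ} (hz : π z = 1) : z ^ a = z :=
  E'.pow_self (j := 1) (by rw [pow_one, c.zpow hz])

theorem w_gen (E' : PE p Γ m k a) {η : Γ → ℂ} {ζ : π.ker →* ℂˣ} (hη : IsClassFunction Γ η)
    (h2 : ∀ g (hg : g ^ a ∈ π.ker), η g = p * ζ ⟨g ^ a, hg⟩) {v : G → ℂ}
    (hv : IsGeneralizedCharacter G v) (v0 : ∀ g, g ^ a ≠ 1 → v g = 0) :
    IsGeneralizedCharacter Γ fun g => η g / p * v (π g) := by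
  classical
  have p0 : (p : ℂ) ≠ 0 := Nat.cast_ne_zero.2 hp.out.ne_zero
  have vc := H6.isClassFunction_of_isGen hv
  have hcf : IsClassFunction Γ fun g => η g / p * v (π g) := fun g x => by
    simp only [hη g x, map_mul, map_inv, vc (π g) (π x)]
  have hk : ∀ g, v (π g) ≠ 0 → g ^ a ∈ π.ker := fun g hg => by
    rw [MonoidHom.mem_ker, map_pow]
    by_contra e
    exact hg (v0 _ e)
  obtain ⟨b, b1, b2, b3⟩ := E'.exists_b
  refine gen_of_elem hcf fun H q hq hH => gen_of_ip_int (cf_comp H.subtype hcf) fun ψ hψ => ?_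
  have := Fintype.ofFinite H
  have := elem_nilpotent hq hH
  obtain ⟨β, hβ⟩ := exists_powHom (E := H) (E'.cop.pow_right k).symm
    (by rw [mul_comm]; exact (card_subgroup_dvd_card H).trans E'.dvd) b1 b2
  obtain ⟨l, hl⟩ := H6.exists_linear_of_le_center hψ (π.ker.subgroupOf H) fun z hz =>
    mem_center_iff.2 fun y => Subtype.ext (c.zc hz y)
  by_cases hz : ∀ z : π.ker.subgroupOf H, (ζ ⟨z.1.1, z.2⟩ : ℂ) * conj (l z : ℂ) = 1
  · obtain ⟨n, hn⟩ := ip_gen_int (H6.isGen_comp (π.comp H.subtype) hv)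
      (H6.isGen_comp β (H6.isGen_of_irr hψ))
    refine ⟨n, ?_⟩
    rw [← hn, ip_def, ip_def]
    congr 1
    refine Finset.sum_congr rfl fun x _ => ?_
    change η x / p * v (π x) * _ = v (π x) * _
    by_cases e : v (π x) = 0
    · simp [e]
    · have e1 := hk _ e
      have e2 : ψ x = l ⟨x ^ a, e1⟩ * ψ (β x) := by
        rw [← hl, hβ]; congr 1; exact Subtype.ext (b3 x).symm
      have e3 : (ζ ⟨x.1 ^ a, e1⟩ : ℂ) * conj (l ⟨x ^ a, e1⟩ : ℂ) = 1 := hz ⟨x ^ a, e1⟩
      rw [h2 _ e1, e2, map_mul, mul_div_cancel_left₀ _ p0]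
      linear_combination (v (π x) * conj (ψ (β x))) * e3
  · push Not at hz
    obtain ⟨z, hz⟩ := hz
    have z1 : π z.1.1 = 1 := z.2
    have e : ∑ x : H, η x / p * v (π x) * conj (ψ x) =
        (ζ ⟨z.1.1, z.2⟩ : ℂ) * conj (l z : ℂ) * ∑ x : H, η x / p * v (π x) * conj (ψ x) := by
      conv_lhs => rw [← Equiv.sum_comp (Equiv.mulLeft z.1)]
      rw [Finset.mul_sum]
      refine Finset.sum_congr rfl fun x _ => ?_
      simp only [Equiv.coe_mulLeft, coe_mul, map_mul, z1, one_mul, hl]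
      by_cases e : v (π x) = 0
      · simp [e]
      · have e1 := hk _ e
        have e2 : (z.1.1 * x.1) ^ a = z.1.1 * x.1 ^ a := by
          rw [Commute.mul_pow (c.zc z1 x.1).symm, c.za E' z1]
        have e3 : (z.1.1 * x.1) ^ a ∈ π.ker := e2 ▸ mul_mem z.2 e1
        have e4 : ζ ⟨_, e3⟩ = ζ ⟨z.1.1, z.2⟩ * ζ ⟨_, e1⟩ := by
          rw [← map_mul]; congr 1; exact Subtype.ext e2
        rw [h2 _ e1, h2 _ e3, e4, Units.val_mul]
        ring
    refine ⟨0, ?_⟩
    rw [ip_def, Int.cast_zero, mul_eq_zero]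
    right
    by_contra h0
    exact hz (mul_right_cancel₀ h0 (by rw [one_mul]; exact e.symm))

theorem main (h : Hyp P) (E : PE p G m k a) (E' : PE p Γ m k a) {s : G → ℂ}
    (hs : IsGeneralizedCharacter G s) (s1 : ip s s = 1) (s2 : ip s 1 = 0)
    (s3 : ∀ g, g ^ a ≠ 1 → s g = 1) {t : G} (ht : t * t = 1) : s 1 = 1 ∨ s t = s 1 := by
  classical
  have := Fintype.ofFinite Γ
  have := Fintype.ofFinite P.1
  have p0 : (p : ℂ) ≠ 0 := Nat.cast_ne_zero.2 hp.out.ne_zero
  obtain ⟨r, hr⟩ := E.exists_r P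
  obtain ⟨η, ζ, ηg, η1, η2⟩ := c.exists_eta h E E' hr
  set v : G → ℂ := 1 - s with hv
  have vg : IsGeneralizedCharacter G v := H6.isGen_sub H6.isGen_one hs
  have v0 : ∀ g, g ^ a ≠ 1 → v g = 0 := fun g hg => by simp [hv, s3 g hg]
  have wg := c.w_gen E' (H6.isClassFunction_of_isGen ηg) η2 vg v0
  set w : Γ → ℂ := fun g => η g / p * v (π g) with hw
  have s2' : ip 1 s = 0 := ip_eq_zero_comm.1 s2
  have η3 : ∀ g, v (π g) ≠ 0 → η g * conj (η g) = p ^ 2 := fun g hg => by
    have e : π g ^ a = 1 := by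
      by_contra e
      exact hg (v0 _ e)
    have e' : r (π g) = 1 := by simpa [e] using (hr (π g)).symm
    rw [η1, e', map_one, if_pos rfl]
  have n1 : ip η η = (1 + p ^ 2) / 2 := by
    let Φ : G → ℂ := fun x => (if F (r x) = 1 then (p : ℂ) ^ 2 else 0) - p ^ 2
    have e1 : η * star η = fun g => (Φ + ((p : ℂ) ^ 2) • (1 : G → ℂ)) (π g) := by
      ext g
      simp only [Pi.mul_apply, Pi.star_apply, RCLike.star_def, η1, Φ, Pi.add_apply, Pi.smul_apply,
        Pi.one_apply, smul_eq_mul, mul_one, sub_add_cancel]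
    have e2 := h.avg E hr (F := fun x => (if F x = 1 then (p : ℂ) ^ 2 else 0) - p ^ 2)
      (fun x => by simp only [map_inv, inv_eq_one]) (by simp)
    have e3 : (Nat.card P.1 : ℂ) = Nat.card F.ker * p ^ 2 := by
      rw [card_eq_ker_mul F c.fsurj]; simp [pow_two]
    have e4 : ∑ x, (if F x = 1 then (p : ℂ) ^ 2 else 0) = Nat.card P.1 := by
      rw [← Finset.sum_filter, Finset.sum_const, nsmul_eq_mul, e3, ← Fintype.card_subtype,
        ← Nat.card_eq_fintype_card]
      rfl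
    rw [← ip_one_right_eq, e1]
    refine (ip_comp_surjective π c.surj (Φ + ((p : ℂ) ^ 2) • (1 : G → ℂ)) 1).trans ?_
    rw [ip_add_left, show ip Φ 1 = _ from e2, ip_smul_left, ip_one_one, Finset.sum_sub_distrib, e4,
      Finset.sum_const, Finset.card_univ, ← Nat.card_eq_fintype_card, nsmul_eq_mul]
    have := card_ne_zero' P.1
    field_simp
    ring
  have n2 : ip η w = p := by
    have : ip η w = ip (fun g => ((p : ℂ) • (1 : G → ℂ)) (π g)) fun g => v (π g) := by
      rw [ip_def, ip_def]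
      congr 1
      refine Finset.sum_congr rfl fun g _ => ?_
      by_cases e : v (π g) = 0
      · simp [hw, e]
      · have := η3 g e
        simp only [hw, map_mul, map_div₀, map_natCast, Pi.smul_apply, Pi.one_apply, smul_eq_mul]
        field_simp
        linear_combination conj (v (π g)) * this
    rw [this, ip_comp_surjective π c.surj, ip_smul_left, hv, ip_sub_right, ip_one_one, s2']
    simp
  have n2' : ip w η = p := ip_natCast_comm n2
  have n3 : ip w w = 2 := by
    have : ip w w = ip (fun g => v (π g)) fun g => v (π g) := by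
      rw [ip_def, ip_def]
      congr 1
      refine Finset.sum_congr rfl fun g _ => ?_
      by_cases e : v (π g) = 0
      · simp [hw, e]
      · have := η3 g e
        simp only [hw, map_mul, map_div₀, map_natCast]
        field_simp
        linear_combination conj (v (π g)) * this
    rw [this, ip_comp_surjective π c.surj, hv]
    simp only [ip_sub_left, ip_sub_right, ip_one_one, s1, s2, s2']
    norm_num
  obtain ⟨j, hj⟩ := hp.out.odd_of_ne_two h.odd
  have hj' : (p : ℂ) = 2 * j + 1 := by exact_mod_cast hj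
  obtain ⟨t₀, ht₀⟩ := c.surj t
  have t1 : π (t₀ ^ p) = t := by
    rw [map_pow, ht₀, hj, pow_succ, pow_mul, pow_two, ht, one_pow, one_mul]
  have t2 : t₀ ^ p * t₀ ^ p = 1 := by
    rw [← (Commute.refl t₀).mul_pow, c.zpow (by rw [map_mul, ht₀, ht])]
  generalize t₀ ^ p = u at t1 t2
  have ηp : ∀ g, g ^ a = 1 → η g = p := fun g hg => by
    rw [η2 g (hg ▸ one_mem _)]
    simp only [hg]
    rw [show (⟨1, _⟩ : π.ker) = 1 from rfl, map_one, Units.val_one, mul_one]
  have ua : u ^ a = 1 := E'.pow_one (Nat.Coprime.coprime_dvd_left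
    (orderOf_dvd_of_pow_eq_one (n := 2) (by rw [pow_two, t2]))
    ((Nat.coprime_primes Nat.prime_two hp.out).2 h.odd.symm))
  have T : ∀ n : ℤ, (1 + (p : ℂ) ^ 2) / 2 - 2 * n * p + 2 * n ^ 2 = 1 →
      (p : ℂ) - n * (1 - s 1) ≠ 0 ∧ ∑ x, (η (x * u * x⁻¹ * u) - n * w (x * u * x⁻¹ * u)) =
        Nat.card Γ * ((p - n * (1 - s t)) * (p - n * (1 - s t)) / (p - n * (1 - s 1))) := by
    intro n hn
    have := tsum_one (H6.isGen_sub ηg (H6.isGen_intCast_smul n wg)) (by
      simp only [ip_sub_left, ip_sub_right, ip_smul_left, ip_smul_right, n1, n2, n2', n3,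
        map_intCast]
      linear_combination hn) u
    simpa only [Pi.sub_apply, Pi.smul_apply, smul_eq_mul, hw, ηp 1 (one_pow a), ηp u ua, t1,
      map_one, div_self p0, one_mul, hv, Pi.one_apply] using this
  obtain ⟨X0, X⟩ := T j (by rw [hj']; push_cast; ring)
  obtain ⟨Y0, Y⟩ := T (j + 1) (by rw [hj']; push_cast; ring)
  obtain ⟨A0, A⟩ := tsum_one (H6.isGen_comp π hs) ((ip_comp_surjective π c.surj s s).trans s1) u
  simp only [map_one, t1] at A0 A
  have W : ∀ x, w (x * u * x⁻¹ * u) = 1 - s (π (x * u * x⁻¹ * u)) := fun x => by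
    change η _ / p * v _ = v _
    by_cases e : v (π (x * u * x⁻¹ * u)) = 0
    · rw [e, mul_zero]
    · have e1 : π ((x * u * x⁻¹ * u) ^ a) = 1 := by
        rw [map_pow]
        by_contra e'
        exact e (v0 _ e')
      have iu : u⁻¹ = u := inv_eq_of_mul_eq_one_left t2
      have e2 : u * (x * u * x⁻¹ * u) * u⁻¹ = (x * u * x⁻¹ * u)⁻¹ := by
        simp only [mul_inv_rev, iu, inv_inv, mul_assoc, t2, mul_one]
      have e3 : u * (x * u * x⁻¹ * u) ^ a * u⁻¹ = ((x * u * x⁻¹ * u) ^ a)⁻¹ := by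
        rw [← conj_pow, e2, inv_pow]
      rw [c.zc e1, mul_inv_cancel_right] at e3
      rw [ηp _ (c.zsq h.odd e1 (mul_eq_one_iff_eq_inv.2 e3)), div_self p0, one_mul]
  have Z : ∑ x, w (x * u * x⁻¹ * u) = Nat.card Γ * (1 - s t * s t / s 1) := by
    simp only [W, Finset.sum_sub_distrib, A, Finset.sum_const, Finset.card_univ, nsmul_eq_mul,
      ← Nat.card_eq_fintype_card]
    ring
  simp only [Finset.sum_sub_distrib, ← Finset.mul_sum, Z] at X Y
  have j1 : ((j : ℤ) : ℂ) = (p - 1) / 2 := by rw [hj']; push_cast; ring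
  have j2 : ((j + 1 : ℤ) : ℂ) = (p + 1) / 2 := by rw [hj']; push_cast; ring
  rw [j1] at X0 X
  rw [j2] at Y0 Y
  refine alg (p := p) (fun e => ?_) A0 X0 Y0 (mul_left_cancel₀ (card_ne_zero' Γ) ?_)
  · have : p ^ 2 = 1 := by exact_mod_cast e
    have := hp.out.two_le
    nlinarith
  · linear_combination X - Y

end CE

end Cfsg.Agent.H5.ST
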