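import Cfsg.Agent.H5.ST6
import Cfsg.Agent.H5.ST3
import Cfsg.Agent.H5.PLen
import Cfsg.Agent.H1.Coprime
import Cfsg.Agent.H2.Cores
import Cfsg.Prelude.Def_CaseTheorems

/-! The Smith-Tyrer theorem. -/

set_option autoImplicit false
set_option linter.unusedSectionVars false
set_option linter.unusedVariables false

namespace Cfsg.Agent.H5.ST

open Cfsg Cfsg.Agent.H7 Subgroup
open scoped ComplexConjugate commutatorElement

universe u

variable {p : ℕ} [hp : Fact p.Prime]

theorem exists_F {H : Type*} [Group H] [Finite H] (hH : IsPGroup p H)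
    (hc : ∀ x y : H, x * y = y * x) (hn : ¬ IsCyclic H) :
    ∃ F : H →* Multiplicative (ZMod p) × Multiplicative (ZMod p), Function.Surjective F := by
  classical
  let _ : CommGroup H := { (inferInstance : Group H) with mul_comm := hc }
  obtain ⟨ι, _, n, h1, ⟨e⟩⟩ := CommGroup.equiv_prod_multiplicative_zmod_of_finite H
  have hd : ∀ i, p ∣ n i := fun i => by
    have : NeZero (n i) := ⟨by have := h1 i; omega⟩
    have h2 : IsPGroup p (Multiplicative (ZMod (n i))) :=
      hH.of_surjective ((Pi.evalMonoidHom _ i).comp e.toMonoidHom)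
        ((Function.surjective_eval i).comp e.surjective)
    obtain ⟨k, hk⟩ := h2.exists_card_eq
    rw [Nat.card_congr Multiplicative.toAdd, Nat.card_zmod] at hk
    have := h1 i
    rw [hk] at this ⊢
    exact dvd_pow_self p (by rintro rfl; simp at this)
  obtain ⟨i, j, hij⟩ : ∃ i j : ι, i ≠ j := by
    by_contra h
    push Not at h
    refine hn ?_
    rcases isEmpty_or_nonempty ι with h0 | ⟨⟨i⟩⟩
    · have : Subsingleton H := e.toEquiv.subsingleton
      infer_instance
    · have : NeZero (n i) := ⟨by have := h1 i; omega⟩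
      refine isCyclic_of_injective ((Pi.evalMonoidHom _ i).comp e.toMonoidHom) ?_
      refine fun x y hxy => e.injective (funext fun j => ?_)
      obtain rfl := h i j
      exact hxy
  let f : ∀ i, H →* Multiplicative (ZMod p) := fun i =>
    (AddMonoidHom.toMultiplicative (ZMod.castHom (hd i) (ZMod p)).toAddMonoidHom).comp
      ((Pi.evalMonoidHom _ i).comp e.toMonoidHom)
  refine ⟨(f i).prod (f j), fun ⟨x, y⟩ => ?_⟩
  obtain ⟨x', hx⟩ := ZMod.castHom_surjective (hd i) x.toAdd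
  obtain ⟨y', hy⟩ := ZMod.castHom_surjective (hd j) y.toAdd
  refine ⟨e.symm (Function.update (Function.update 1 i (Multiplicative.ofAdd x')) j
    (Multiplicative.ofAdd y')), Prod.ext ?_ ?_⟩
  · simp only [f, MonoidHom.prod_apply, MonoidHom.comp_apply, MulEquiv.coe_toMonoidHom,
      MulEquiv.apply_symm_apply, Pi.evalMonoidHom_apply, Function.update_of_ne hij,
      Function.update_self]
    exact congrArg Multiplicative.ofAdd hx
  · simp only [f, MonoidHom.prod_apply, MonoidHom.comp_apply, MulEquiv.coe_toMonoidHom,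
      MulEquiv.apply_symm_apply, Pi.evalMonoidHom_apply, Function.update_self]
    exact congrArg Multiplicative.ofAdd hy

theorem exists_four (h2 : p ≠ 2) {H : Type*} [Group H]
    {F : H →* Multiplicative (ZMod p) × Multiplicative (ZMod p)} (hF : Function.Surjective F) :
    ∃ l : Fin 4 → H →* ℂˣ, (∀ i j, l i * l j ≠ 1) ∧ Function.Injective l := by
  have hg : (Multiplicative.ofAdd 1 : Multiplicative (ZMod p)) ≠ 1 := by simp
  obtain ⟨ψ, hψ⟩ := exists_lin (fun x y : Multiplicative (ZMod p) => mul_comm x y) hg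
  have ho : orderOf (ψ (Multiplicative.ofAdd 1)) = p := orderOf_eq_prime (by
    rw [← map_pow, ← ofAdd_nsmul]; simp) hψ
  let L : ℤ → ℤ → H →* ℂˣ := fun a b => MonoidHom.mk' (fun x => ψ (F x).1 ^ a * ψ (F x).2 ^ b)
    fun x y => by simp only [map_mul, Prod.fst_mul, Prod.snd_mul, mul_zpow, mul_mul_mul_comm]
  have hL : ∀ a b c d, (∀ x, L a b x * L c d x = 1) → (p : ℤ) ∣ a + c ∧ (p : ℤ) ∣ b + d := by
    intro a b c d e
    obtain ⟨x, hx⟩ := hF (Multiplicative.ofAdd 1, 1)
    obtain ⟨y, hy⟩ := hF (1, Multiplicative.ofAdd 1)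
    have e1 := e x
    have e2 := e y
    simp only [L, MonoidHom.mk'_apply, hx, hy, map_one, one_zpow, mul_one, one_mul,
      ← zpow_add] at e1 e2
    rw [← orderOf_dvd_iff_zpow_eq_one, ho] at e1 e2
    exact ⟨e1, e2⟩
  have h3 : (3 : ℤ) ≤ p := by
    have := hp.out.two_le
    omega
  have hd : ∀ a : ℤ, (p : ℤ) ∣ a → -2 ≤ a → a ≤ 2 → a = 0 := fun a h _ _ =>
    Int.eq_zero_of_abs_lt_dvd h (abs_lt.2 ⟨by omega, by omega⟩)
  refine ⟨fun i => L (![1, 0, 1, 1] i) (![0, 1, 1, -1] i), fun i j e => ?_, fun i j e => ?_⟩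
  · obtain ⟨e1, e2⟩ := hL _ _ _ _ fun x => DFunLike.congr_fun e x
    have e1 := hd _ e1
    have e2 := hd _ e2
    revert e1 e2
    fin_cases i <;> fin_cases j <;> simp
  · obtain ⟨e1, e2⟩ := hL (![1, 0, 1, 1] i) (![0, 1, 1, -1] i) (-![1, 0, 1, 1] j)
      (-![0, 1, 1, -1] j) fun x => by
        rw [show L (![1, 0, 1, 1] i) (![0, 1, 1, -1] i) x = _ from DFunLike.congr_fun e x]
        simp only [L, MonoidHom.mk'_apply, zpow_neg, ← mul_inv, mul_inv_cancel]
    have e1 := hd _ e1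
    have e2 := hd _ e2
    revert e1 e2
    fin_cases i <;> fin_cases j <;> simp

variable {G : Type u} [Group G] [Finite G] {P : Sylow p G}

namespace Hyp

variable (h : Hyp P)
include h

theorem exists_ce {F : P.1 →* Multiplicative (ZMod p) × Multiplicative (ZMod p)}
    (hF : Function.Surjective F) :
    ∃ (Γ : Type u) (_ : Group Γ) (_ : Finite Γ) (π : Γ →* G), CE P π F := by
  classical
  obtain ⟨Γ, _, _, π, h1, h2, h3, h4⟩ := exists_ext (p := p) P.1 P.not_dvd_index h.comm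
    (fun g => if e : g ∈ P.1 then (F ⟨g, e⟩).1.toAdd else 0)
    (fun g => if e : g ∈ P.1 then (F ⟨g, e⟩).2.toAdd else 0)
    (fun x hx y hy => by
      rw [dif_pos hx, dif_pos hy, dif_pos (P.1.mul_mem hx hy), ← toAdd_mul, ← Prod.fst_mul,
        ← map_mul]; rfl)
    (fun x hx y hy => by
      rw [dif_pos hx, dif_pos hy, dif_pos (P.1.mul_mem hx hy), ← toAdd_mul, ← Prod.snd_mul,
        ← map_mul]; rfl) h.fus2
  exact ⟨Γ, _, inferInstance, π, h1, h2, h3, hF, fun x y hx hy => by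
    simpa only [dif_pos hx, dif_pos hy] using h4 x y hx hy⟩

theorem core (hn : ¬ IsCyclic P.1) (hO : pPrimeCore p G = ⊥) : P.1.Normal := by
  have := Fintype.ofFinite G
  obtain ⟨F, hF⟩ := exists_F P.isPGroup' (fun x y => Subtype.ext (h.comm _ x.2 _ y.2)) hn
  obtain ⟨l, l1, l2⟩ := exists_four h.odd hF
  obtain ⟨Γ, _, _, π, c⟩ := h.exists_ce hF
  obtain ⟨k, m, hm, hG⟩ := Nat.exists_eq_pow_mul_and_not_dvd (Nat.card_pos (α := G)).ne' p
    hp.out.ne_one
  have hc : m.Coprime p := ((Nat.Prime.coprime_iff_not_dvd hp.out).2 hm).symm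
  obtain ⟨a, a1, a2⟩ := exists_piExp (hc.pow_right (k + 1))
  have E : PE p G m (k + 1) a := ⟨hc, ⟨p, by rw [hG]; ring⟩, a1, a2⟩
  have E' : PE p Γ m (k + 1) a :=
    ⟨hc, by rw [card_eq_ker_mul π c.surj, c.card, hG]; exact ⟨1, by ring⟩, a1, a2⟩
  obtain ⟨r, hr⟩ := E.exists_r P
  obtain ⟨s, sg, s1, s2, s3⟩ := h.exists_s E hr l l1 l2
  obtain ⟨x, hx, x1⟩ : ∃ x ∈ P.1, x ≠ 1 := by
    by_contra e
    push Not at e
    have : Subsingleton P.1 := ⟨fun a b => Subtype.ext ((e a a.2).trans (e b b.2).symm)⟩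
    exact hn inferInstance
  have s1' := s1
  rw [ip_eq_classInner] at s1'
  by_cases hA : s 1 = 1
  · obtain ⟨lam, rfl⟩ := H6.exists_linear_of_degree_one
      (irr_char (H6.isIrr_of_norm_one_of_nonneg sg s1' (by rw [hA]; simp))) hA
    have k1 : ∀ g, g ^ a ≠ 1 → g ∈ lam.ker := fun g hg => Units.ext (s3 g hg)
    have k2 : P.1 ≤ lam.ker := fun y hy => by
      by_cases e : y = 1
      · rw [e]; exact one_mem _
      · exact k1 y (by rwa [E.pow_mem P hy])
    have k3 : ∀ n, (∀ y ∈ P.1, n * y * n⁻¹ = y) → n ∈ lam.ker := fun n hn => by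
      by_cases e : n ^ a = 1
      · have cm : Commute n x := mul_inv_eq_iff_eq_mul.1 (hn x hx)
        exact (mul_mem_cancel_right (k2 hx)).1
          (k1 (n * x) (by rwa [cm.mul_pow, e, one_mul, E.pow_mem P hx]))
      · exact k1 n e
    obtain ⟨K, hK, c1, c2⟩ := E.burn P h.comm lam.ker k2 fun n hn hn' => by
      refine (h.nor n hn').resolve_right fun e => ?_
      have h1 : normalizer (P.1 : Set G) ≤ lam.ker := fun g hg => by
        rcases h.nor g hg with e' | e'
        · exact k3 g e'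
        · refine (mul_mem_cancel_right hn).1 (k3 (g * n) fun y hy => ?_)
          calc g * n * y * (g * n)⁻¹ = g * (n * y * n⁻¹) * g⁻¹ := by group
            _ = y := by rw [e y hy, e' _ (P.1.inv_mem hy), inv_inv]
      have h2 : lam.ker = ⊤ := by
        rw [← P.normalizer_sup_eq_top' k2]
        exact (sup_eq_right.2 h1).symm
      have h3 : (fun g => (lam g : ℂ)) = 1 := funext fun g => by
        rw [show lam g = 1 from (h2 ▸ mem_top g : g ∈ lam.ker)]; rfl
      rw [h3, ip_one_one] at s2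
      exact one_ne_zero s2
    have : K.Normal := ⟨fun y hy g => (hK _).2 ⟨(inferInstance : lam.ker.Normal).conj_mem _
      ((hK y).1 hy).1 g, by rw [conj_pow, ((hK y).1 hy).2]; group⟩⟩
    have h1 : K = ⊥ := le_bot_iff.1 (hO ▸ H2.le_pPrimeCore c2)
    rw [h1, card_bot, one_mul] at c1
    rw [eq_of_le_of_card_ge k2 c1.ge]
    infer_instance
  · exfalso
    obtain ⟨τ, hτ⟩ := h.inv
    have h2 : 2 ∣ Nat.card G := by
      by_contra e
      obtain ⟨j, hj⟩ := Nat.odd_iff.2 (Nat.two_dvd_ne_zero.1 e)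
      have cm : Commute (τ ^ 2) x := by
        refine mul_inv_eq_iff_eq_mul.1 ?_
        calc τ ^ 2 * x * (τ ^ 2)⁻¹ = τ * (τ * x * τ⁻¹) * τ⁻¹ := by rw [pow_two]; group
          _ = x := by rw [hτ x hx, hτ _ (P.1.inv_mem hx), inv_inv]
      have cm' := cm.pow_left (j + 1)
      rw [← pow_mul, show 2 * (j + 1) = Nat.card G + 1 by omega, pow_succ, pow_card_eq_one',
        one_mul] at cm'
      exact x1 (h.sq hx (by rw [← hτ x hx, cm'.eq, mul_inv_cancel_right]))
    obtain ⟨t, ht⟩ := exists_prime_orderOf_dvd_card' 2 h2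
    have st := (c.main h E E' sg s1 s2 s3 (t := t) (by
      rw [← pow_two, ← ht, pow_orderOf_eq_one])).resolve_left hA
    obtain ⟨L, hL, hL'⟩ : ∃ L : Subgroup G, L.Normal ∧ ∀ g, g ∈ L ↔ s g = s 1 := by
      rcases H6.isIrr_or_neg_of_norm_one sg s1' with e | e
      · exact ⟨_, H6.charKer_normal (irr_cf e), fun g => H6.mem_charKer_iff_irr e⟩
      · exact ⟨_, H6.charKer_normal (irr_cf e), fun g =>
          (H6.mem_charKer_iff_irr e).trans neg_inj⟩
    have h3 : (Nat.card L).Coprime p := by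
      refine ((Nat.Prime.coprime_iff_not_dvd hp.out).2 fun e => ?_).symm
      obtain ⟨g, hg⟩ := exists_prime_orderOf_dvd_card' p e
      have g1 : (g : G) ^ p ^ 1 = 1 := by
        rw [pow_one, ← hg, ← coe_pow, pow_orderOf_eq_one, coe_one]
      refine hA (((hL' g).1 g.2).symm.trans (s3 _ ?_))
      rw [E.pow_self g1]
      intro e
      rw [show g = 1 from Subtype.ext e, orderOf_one] at hg
      exact hp.out.one_lt.ne hg
    have h4 : t ∈ (⊥ : Subgroup G) := hO ▸ H2.le_pPrimeCore h3 ((hL' t).2 st)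
    rw [mem_bot.1 h4, orderOf_one] at ht
    omega

theorem pl (hn : ¬ IsCyclic P.1) : PLengthLE p 1 G := by
  let f := QuotientGroup.mk' (pPrimeCore p G)
  have hf : Function.Surjective f := QuotientGroup.mk'_surjective _
  have hco : (Nat.card P.1).Coprime (Nat.card (pPrimeCore p G)) := by
    obtain ⟨k, hk⟩ := P.isPGroup'.exists_card_eq
    rw [hk]
    exact H2.pPrimeCore_coprime.symm.pow_left k
  have : IsMulCommutative P.1 := ⟨⟨fun x y => Subtype.ext (h.comm _ x.2 _ y.2)⟩⟩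
  have h' : Hyp (P.mapSurjective hf) := by
    refine ⟨h.odd, ?_, fun n hn => ?_, ?_⟩
    · rintro _ ⟨x, hx, rfl⟩ _ ⟨y, hy, rfl⟩
      rw [← map_mul, h.comm x hx y hy, map_mul]
    · have := P.isPGroup'.isNilpotent
      rw [Sylow.coe_mapSurjective, H1.normalizer_map_mk _ _ hco (Or.inl inferInstance)] at hn
      obtain ⟨n, hn, rfl⟩ := hn
      refine (h.nor n hn).imp (fun e => ?_) fun e => ?_ <;> rintro _ ⟨x, hx, rfl⟩
      · rw [← map_inv, ← map_mul, ← map_mul, e x hx]
      · rw [← map_inv, ← map_mul, ← map_mul, e x hx, map_inv]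
    · obtain ⟨τ, hτ⟩ := h.inv
      refine ⟨f τ, ?_⟩
      rintro _ ⟨x, hx, rfl⟩
      rw [← map_inv, ← map_mul, ← map_mul, hτ x hx, map_inv]
  have hN := h'.core (fun e => hn (@isCyclic_of_injective _ _ _ _ e (f.subgroupMap P.1) ?_))
    H2.pPrimeCore_quotient_self
  · rw [H5b.pLengthLE_one_iff_normal P]
    have := hN.comap f
    rwa [Sylow.coe_mapSurjective, comap_map_eq, QuotientGroup.ker_mk', sup_comm] at this
  · refine (injective_iff_map_eq_one (f.subgroupMap P.1)).2 fun x hx => ?_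
    have h1 : (x : G) ∈ pPrimeCore p G := (QuotientGroup.eq_one_iff _).1 (congrArg Subtype.val hx)
    exact Subtype.ext (mem_bot.1 ((inf_eq_bot_of_coprime hco) ▸ mem_inf.2 ⟨x.2, h1⟩))

end Hyp

theorem hyp_of (h2 : p ≠ 2) (P : Sylow p G) (hab : IsMulCommutative P.1)
    (hidx : ((centralizer (P.1 : Set G)).subgroupOf (normalizer (P.1 : Set G))).index = 2)
    (hR : pResidual p G = ⊤) : Hyp P := by
  have hc : ∀ x ∈ P.1, ∀ y ∈ P.1, x * y = y * x := fun x hx y hy =>
    congrArg Subtype.val (hab.1.1 ⟨x, hx⟩ ⟨y, hy⟩)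
  obtain ⟨τ, hτ⟩ := index_eq_two_iff.1 hidx
  have cen : ∀ n, n ∈ centralizer (P.1 : Set G) → ∀ x ∈ P.1, n * x * n⁻¹ = x := fun n hn x hx => by
    rw [← hn x hx, mul_inv_cancel_right]
  have t0 : τ ∉ (centralizer (P.1 : Set G)).subgroupOf (normalizer (P.1 : Set G)) := by
    have := hτ 1
    rw [one_mul] at this
    exact fun e => this.elim (fun h => h.2 (one_mem _)) fun h => h.2 e
  have tm : ∀ x ∈ P.1, τ.1 * x * τ.1⁻¹ ∈ P.1 := fun x hx => (mem_normalizer_iff.1 τ.2 x).1 hx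
  have nor : ∀ n ∈ normalizer (P.1 : Set G), (∀ x ∈ P.1, n⁻¹ * x * n = x) ∨
      ∀ x ∈ P.1, n⁻¹ * x * n = τ * x * τ.1⁻¹ := fun n hn => by
    rcases (hτ ⟨n, hn⟩).or with e | e
    · refine Or.inr fun x hx => ?_
      have := cen _ (inv_mem e) x hx
      simp only [coe_inv, coe_mul, coe_subtype] at this
      conv_rhs => rw [← this]
      group
    · refine Or.inl fun x hx => ?_
      simpa using cen _ (inv_mem e) x hx
  have t2 : ∀ x ∈ P.1, τ.1 * (τ.1 * x * τ.1⁻¹) * τ.1⁻¹ = x := fun x hx => by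
    have := cen _ ((hτ τ).or.resolve_right t0) x hx
    simp only [coe_mul, coe_subtype] at this
    conv_rhs => rw [← this]
    group
  have foc : P.1 = P.1.focalSubgroup := by
    have := H4.pResidual_le_ker (P.isPGroup'.to_quotient P.1.focalSubgroupOf) P.1.transferFocal
    rw [hR, top_le_iff] at this
    rw [← ker_transferFocal_inf_eq_focalSubgroup P, this, top_inf_eq]
  have inv : ∀ x ∈ P.1, τ.1 * x * τ.1⁻¹ = x⁻¹ := fun x hx => by
    rw [foc, focalSubgroup_def] at hx
    have : x ∈ P.1 ∧ τ.1 * x * τ.1⁻¹ = x⁻¹ := by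
      induction hx using closure_induction with
      | mem g hg =>
        obtain ⟨h1, y, hy, u, rfl⟩ := hg
        refine ⟨h1, ?_⟩
        have e0 : ⁅y, u⁆ = y * (u⁻¹⁻¹ * y⁻¹ * u⁻¹) := by rw [commutatorElement_def]; group
        rw [e0] at h1 ⊢
        obtain ⟨n, hn, e⟩ := P.conj_eq_normalizer_conj_of_mem y⁻¹ u⁻¹ (P.1.inv_mem hy)
          ((mul_mem_cancel_left hy).1 h1)
        rw [e]
        rcases nor n hn with e1 | e1 <;> rw [e1 _ (P.1.inv_mem hy)]
        · simp
        · calc τ.1 * (y * (τ.1 * y⁻¹ * τ.1⁻¹)) * τ.1⁻¹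
              = τ.1 * y * τ.1⁻¹ * (τ.1 * (τ.1 * y⁻¹ * τ.1⁻¹) * τ.1⁻¹) := by group
            _ = _ := by rw [t2 _ (P.1.inv_mem hy)]; group
      | one => exact ⟨one_mem _, by simp⟩
      | mul x y _ _ hx hy =>
        refine ⟨mul_mem hx.1 hy.1, ?_⟩
        rw [hc x hx.1 y hy.1, mul_inv_rev, ← hx.2, ← hy.2, ← hc x hx.1 y hy.1]; group
      | inv x _ hx =>
        refine ⟨inv_mem hx.1, ?_⟩
        calc τ.1 * x⁻¹ * τ.1⁻¹ = (τ.1 * x * τ.1⁻¹)⁻¹ := by group
          _ = _ := by rw [hx.2]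
    exact this.2
  refine ⟨h2, hc, fun n hn => (nor n⁻¹ (inv_mem hn)).imp (fun e x hx => ?_) fun e x hx => ?_,
    τ, inv⟩
  · simpa using e x hx
  · simpa [inv x hx] using e x hx

theorem smith_tyrer (h2 : p ≠ 2) (P : Sylow p G) (hab : IsMulCommutative P.1)
    (hn : ¬ IsCyclic P.1)
    (hidx : ((centralizer (P.1 : Set G)).subgroupOf (normalizer (P.1 : Set G))).index = 2) :
    pResidual p G ≠ ⊤ ∨ PLengthLE p 1 G := by
  by_cases hR : pResidual p G = ⊤
  · exact Or.inr ((hyp_of h2 P hab hidx hR).pl hn)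
  · exact Or.inl hR

end Cfsg.Agent.H5.ST
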