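import Cfsg.Agent.L1.Se0

/-! Computations in `S₅`. -/

set_option autoImplicit false
set_option synthInstance.maxSize 4000

namespace Cfsg.Agent.L1Se
open Equiv

theorem pB1_d3 : ∀ b : Perm (Fin 5), b * b * (b * b) = 1 ∨ b * b * (b * b) * b = 1 ∨ b * b * (b * b) * (b * b) = 1 := by
  decide +kernel

def pB1_ok (b : Perm (Fin 5)) : Prop := (b * b * (b * b) = 1 ∨ b * b * (b * b) * b = 1) ∧ b ≠ tE.2

instance pB1_dec (b : Perm (Fin 5)) : Decidable (pB1_ok b) := inferInstanceAs (Decidable (_ ∧ _))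

theorem pB1_d5 : ∀ b : Perm (Fin 5), pB1_ok b →
    pB1_ok (b * (eB.2 * b * eB.2⁻¹)) →
    pB1_ok (b * b * (zF.2 * b * zF.2⁻¹) * (zF.2 * (zF.2 * b * zF.2⁻¹) * zF.2⁻¹)) →
    pB1_ok (b * b * (zF.2 * (zF.2 * b * zF.2⁻¹) * zF.2⁻¹) * (zF.2 * b * zF.2⁻¹)) →
    pB1_ok (b * (zF.2 * b * zF.2⁻¹) * b * (zF.2 * (zF.2 * b * zF.2⁻¹) * zF.2⁻¹)) →
    pB1_ok (b * (eB.2 * b * eB.2⁻¹) * (zF.2 * b * zF.2⁻¹) * (zF.2 * (eB.2 * b * eB.2⁻¹) * zF.2⁻¹)) →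
    b = 1 := by decide +kernel

end Cfsg.Agent.L1Se
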