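import Cfsg.Agent.H5.SeB1a
import Cfsg.Agent.H5.SeB1d
import Cfsg.Agent.H10.SL

/-! The centraliser of the four-group `V₀`. -/

set_option autoImplicit false
set_option linter.unusedSectionVars false
set_option linter.unusedVariables false
set_option linter.style.haveILetI false
set_option synthInstance.maxSize 4000

namespace Cfsg.Agent.L1Se
open Subgroup Equiv Cfsg.Agent.FT

universe u

variable {G : Type u} [Group G] [Finite G] {ε : W →* G} {σ : G}

theorem pB1_DN (ε : W →* G) : pB1_D.map ε ≤ N(C[ε v1] ⊓ C[ε v2]) := by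
  rintro _ ⟨w, hw, rfl⟩
  have : ∀ w ∈ [1, zE, zE⁻¹, zF, zF⁻¹, zE * zF, (zE * zF)⁻¹, zE * zF⁻¹, (zE * zF⁻¹)⁻¹],
      w⁻¹ * v1 * w ∈ [v1, v2, v1 * v2] ∧ w⁻¹ * v2 * w ∈ [v1, v2, v1 * v2] := by decide +kernel
  exact pB1_nK ε (this w hw).1 (this w hw).2

theorem pB1_c9 (h : SA ε σ eB) : #(pB1_D.map ε) = 9 := by rw [card_map_of_injective h.inj, pB1_cD]
theorem pB1_c4 (h : SA ε σ eB) : #(pB1_V.map ε) = 4 := by rw [card_map_of_injective h.inj, pB1_cV]

theorem pB1_mK (ε : W →* G) {w : W} (h1 : w * v1 = v1 * w) (h2 : w * v2 = v2 * w) : ε w ∈ C[ε v1] ⊓ C[ε v2] :=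
  ⟨mem_cen1.2 (pB1_cm ε h1), mem_cen1.2 (pB1_cm ε h2)⟩

theorem pB1_Vc (ε : W →* G) {k v : G} (hk : k ∈ C[ε v1] ⊓ C[ε v2]) (hv : v ∈ pB1_V.map ε) :
    Commute k v ∧ v * v = 1 ∧ v ∈ C[ε v1] ⊓ C[ε v2] := by
  obtain ⟨w, hw, rfl⟩ := hv
  have c1 : Commute k (ε v1) := mem_cen1.1 hk.1
  have c2 : Commute k (ε v2) := mem_cen1.1 hk.2
  have hw' : w ∈ [1, v1, v2, v1 * v2] := hw
  have : ∀ w ∈ [1, v1, v2, v1 * v2], w * w = 1 ∧ w * v1 = v1 * w ∧ w * v2 = v2 * w := by decide +kernel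
  refine ⟨?_, by rw [← map_mul, (this w hw').1, map_one], pB1_mK ε (this w hw').2.1 (this w hw').2.2⟩
  simp only [List.mem_cons, List.not_mem_nil, or_false] at hw'
  rcases hw' with rfl | rfl | rfl | rfl
  exacts [map_one ε ▸ Commute.one_right k, c1, c2, map_mul ε v1 v2 ▸ c1.mul_right c2]

theorem pB1_z3 (ε : W →* G) : ε zE ^ 3 = 1 := by rw [← map_pow, show zE ^ 3 = 1 by decide, map_one]

theorem pB1_r5 (h : SA ε σ eB) : O[{3}ᶜ](C[ε v1] ⊓ C[ε v2]) ≤ pB1_V.map ε := by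
  set K := C[ε v1] ⊓ C[ε v2] with hK
  have pR : PiGrp {3}ᶜ O[{3}ᶜ](K) := pcore_pi _ _
  have RK : O[{3}ᶜ](K) ≤ K := pcore_le _ _
  have nR : K ≤ N(O[{3}ᶜ](K)) := pcore_nrm _ _
  have DN : pB1_D.map ε ≤ N(O[{3}ᶜ](K)) := norms_pcore _ (pB1_DN ε)
  generalize O[{3}ᶜ](K) = R at pR RK nR DN
  have pD : PGrp 3 (pB1_D.map ε) := pGrp_of_card Nat.prime_three (n := 2) (pB1_c9 h)
  have zK : ε zE ∈ K := pB1_mK ε (by decide) (by decide)
  have eK : ε eE ∈ K := pB1_mK ε (by decide) (by decide)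
  have p3 : ∀ {G' : Type u} [Group G'] {a : G'}, PiElt {3}ᶜ a → a ^ 3 = 1 → a = 1 := fun h1 h2 =>
    (pElt_of_pow_eq_one Nat.prime_three h2).eq_one h1
  have k1 : ∀ x ∈ R, Commute x (ε zE) → x ∈ pB1_V.map ε := fun x hx c => by
    obtain ⟨v, hv, e⟩ := pB1_r3 h (RK hx) c
    obtain ⟨c1, c2, -⟩ := pB1_Vc ε zK hv
    have z1 : ε zE ≠ 1 := fun e => absurd (h.inj (e.trans (map_one ε).symm)) (by decide)
    have z4 : ε zE ^ 4 = ε zE := by rw [pow_succ, pB1_z3, one_mul]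
    have v4 : v ^ 4 = 1 := by rw [show 4 = 2 * 2 from rfl, pow_mul, sq v, c2, one_pow]
    have p4 := (pR.piElt hx).pow 4
    rcases e with rfl | rfl | rfl
    · exact hv
    · rw [c1.mul_pow, v4, mul_one, z4] at p4
      exact absurd (p3 p4 (pB1_z3 ε)) z1
    · rw [c1.inv_left.mul_pow, v4, mul_one, inv_pow, z4] at p4
      exact absurd (inv_eq_one.1 (p3 p4 (by rw [inv_pow, pB1_z3, inv_one]))) z1
  let ψ : Perm (Fin 5) →* G := (MulAut.conj σ).toMonoidHom.comp (ε.comp (MonoidHom.inr _ _))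
  have hψ : ∀ b, ψ b = σ * ε (1, b) * σ⁻¹ := fun _ => rfl
  have iψ : Function.Injective ψ := (MulAut.conj σ).injective.comp (h.inj.comp fun a b e => congrArg Prod.snd e)
  have q1 : ψ zF.2 = ε zE := pB1_sw h h.sz
  have q2 : ψ eB.2 = ε eE := pB1_sw h h.se
  have q3 : ψ tE.2 = ε tE := h.st
  have ok : ∀ b ∈ R.comap ψ, pB1_ok b := fun b hb => by
    have pb : PiElt {3}ᶜ (ψ b) := pR.piElt hb
    refine ⟨?_, fun e => ?_⟩
    · rcases pB1_d3 b with e | e | e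
      exacts [.inl e, .inr e, .inl (by
        have : ψ b ^ 2 = 1 := p3 (pb.pow 2) (by
          rw [← map_pow, ← map_pow, show (b ^ 2) ^ 3 = b * b * (b * b) * (b * b) by simp only [pow_succ, pow_zero, one_mul], e, map_one])
        rw [show b * b = 1 from iψ (by rw [map_mul, ← sq, this, map_one]), mul_one])]
    · have := mem_cen1.1 (RK (show ψ b ∈ R from hb)).1
      rw [e, q3, ← map_mul, ← map_mul] at this
      exact absurd (h.inj this) (by decide)
  have cz : ∀ b ∈ R.comap ψ, zF.2 * b * zF.2⁻¹ ∈ R.comap ψ := fun b hb => by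
    show ψ _ ∈ R
    rw [map_mul, map_mul, map_inv, q1]; exact mem_nrm.1 (nR zK) _ hb
  have ce : ∀ b ∈ R.comap ψ, eB.2 * b * eB.2⁻¹ ∈ R.comap ψ := fun b hb => by
    show ψ _ ∈ R
    rw [map_mul, map_mul, map_inv, q2]; exact mem_nrm.1 (nR eK) _ hb
  have k2 : ∀ x ∈ R, Commute x (ε zF) → x = 1 := fun x hx c => by
    obtain ⟨w, rfl, hw⟩ := pB1_r2 h c
    have o1 : orderOf (σ * ε w * σ⁻¹) = orderOf w :=
      ((MulAut.conj σ).orderOf_eq (ε w)).trans (orderOf_injective ε h.inj w)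
    have p1 : PiElt {3}ᶜ w.1 := PiNat.of_dvd (pR.piElt hx) ((orderOf_map_dvd (MonoidHom.fst _ _) w).trans o1.symm.dvd)
    have w1 : w.1 = 1 := (pElt_of_pow_eq_one Nat.prime_three (by
      rcases pB1_d2 w.1 (congrArg Prod.fst hw) with e | e | e <;> rw [e] <;> decide)).eq_one p1
    have e : w = (1, w.2) := Prod.ext w1 rfl
    have hb : w.2 ∈ R.comap ψ := by rw [e] at hx; exact hx
    have b1 := cz _ hb
    have b2 := cz _ b1
    have b3 := ce _ hb
    have b4 := cz _ b3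
    have := pB1_d5 w.2 (ok _ hb) (ok _ (mul_mem hb b3)) (ok _ (mul_mem (mul_mem (mul_mem hb hb) b1) b2))
      (ok _ (mul_mem (mul_mem (mul_mem hb hb) b2) b1)) (ok _ (mul_mem (mul_mem (mul_mem hb b1) hb) b2))
      (ok _ (mul_mem (mul_mem (mul_mem hb b3) b1) b4))
    rw [e, this, ← hψ, map_one]
  refine coprime_abelian_gen_cent1 (ab_iff_forall.2 ?_) (fun hc => ?_) DN (pR.cop' pD) fun d hd d1 x hx => ?_
  · rintro _ ⟨a, ha, rfl⟩ _ ⟨b, hb, rfl⟩
    have : ∀ a ∈ [1, zE, zE⁻¹, zF, zF⁻¹, zE * zF, (zE * zF)⁻¹, zE * zF⁻¹, (zE * zF⁻¹)⁻¹],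
      ∀ b ∈ [1, zE, zE⁻¹, zF, zF⁻¹, zE * zF, (zE * zF)⁻¹, zE * zF⁻¹, (zE * zF⁻¹)⁻¹], a * b = b * a := by
      decide +kernel
    exact pB1_cm ε (this a ha b hb)
  · have := hc.card_dvd_of_pow (n := 3) (by
      rintro _ ⟨a, ha, rfl⟩
      have : ∀ a ∈ [1, zE, zE⁻¹, zF, zF⁻¹, zE * zF, (zE * zF)⁻¹, zE * zF⁻¹, (zE * zF⁻¹)⁻¹], a ^ 3 = 1 := by
        decide +kernel
      rw [← map_pow, this a ha, map_one])
    rw [pB1_c9 h] at this
    omega
  · rcases pB1_r4 h hd d1 (RK hx.1) (mem_cen1.1 hx.2) with c | c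
    · exact k1 x hx.1 c
    · rw [k2 x hx.1 c]; exact one_mem _

theorem pB1_r6 (t : T31.{u}) (h : SA ε σ eB) : #(C[ε v1] ⊓ C[ε v2]) ∣ 24 ∨ #(C[ε v1] ⊓ C[ε v2]) = 240 ∨
    #(C[ε v1] ⊓ C[ε v2]) = 672 := by
  have r5 := pB1_r5 h
  have r3 := fun g => pB1_r3 h (g := g)
  have vc := fun k v => pB1_Vc ε (k := k) (v := v)
  have zK : ε zE ∈ C[ε v1] ⊓ C[ε v2] := pB1_mK ε (by decide) (by decide)
  have c4 := pB1_c4 h
  generalize C[ε v1] ⊓ C[ε v2] = K at *
  generalize pB1_V.map ε = V at *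
  have VK : V ≤ K := fun v hv => (vc _ v zK hv).2.2
  haveI : (V.subgroupOf K).Normal := ⟨fun v hv g => by
    have : g * v = v * g := Subtype.ext (vc g v g.2 hv).1.eq
    rwa [this, mul_inv_cancel_right]⟩
  have cV : Nat.card (V.subgroupOf K) = 4 := (Nat.card_congr (subgroupOfEquivOfLe VK).toEquiv).trans c4
  have cK : #K = 4 * Nat.card (K ⧸ V.subgroupOf K) := by
    rw [← cV, mul_comm]; exact card_eq_card_quotient_mul_card_subgroup _
  let π := QuotientGroup.mk' (V.subgroupOf K)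
  have πs : Function.Surjective π := QuotientGroup.mk'_surjective _
  have π1 : ∀ k : K, π k = 1 ↔ (k : G) ∈ V := fun k => QuotientGroup.eq_one_iff k
  have z3 := pB1_z3 ε
  have z1 : ε zE ≠ 1 := fun e => absurd (h.inj (e.trans (map_one ε).symm)) (by decide)
  have cube : ∀ v ∈ V, v ^ 3 = v := fun v hv => by rw [pow_succ, sq, (vc _ v zK hv).2.1, one_mul]
  haveI : Fact (Nat.Prime 3) := ⟨Nat.prime_three⟩
  have o3 : orderOf (π ⟨_, zK⟩) = 3 := orderOf_eq_prime (by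
    rw [← map_pow, show (⟨ε zE, zK⟩ : K) ^ 3 = 1 from Subtype.ext z3, map_one]) fun e =>
      z1 ((cube _ ((π1 _).1 e)).symm.trans z3)
  have triv : ∀ N : Subgroup (K ⧸ V.subgroupOf K), N.Normal → (Nat.card N).Coprime 3 → N = ⊥ := fun N hN hc => by
    have h1 : (N.comap π).map K.subtype ≤ V := (pcore_max ((p'grp_iff_coprime Nat.prime_three).2 (by
      rw [card_map_of_injective K.subtype_injective]
      have := QuotientGroup.card_preimage_mk (V.subgroupOf K) (N : Set _)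
      rw [show Nat.card (N.comap π) = _ from this, cV]
      exact Nat.Coprime.mul_left (by norm_num) hc)) (nml_map_subtype _)).trans r5
    refine eq_bot_iff.2 fun y hy => ?_
    obtain ⟨k, rfl⟩ := πs y
    exact (π1 k).2 (h1 ⟨k, hy, rfl⟩)
  have qb : ∀ (N : Subgroup (K ⧸ V.subgroupOf K)), N = ⊥ → Nat.card (K ⧸ V.subgroupOf K) = Nat.card (_ ⧸ N) := by
    rintro _ rfl
    exact index_bot.symm.trans (index_eq_card _)
  rcases t (K ⧸ V.subgroupOf K) (zpowers (π ⟨_, zK⟩)) (by rw [Nat.card_zpowers, o3]) (le_antisymm (fun y hy => by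
      obtain ⟨k, rfl⟩ := πs y
      have h1 := hy _ (mem_zpowers _)
      have h2 : (ε zE)⁻¹ * (k * ε zE * (k : G)⁻¹) ∈ V := (π1 (⟨_, zK⟩⁻¹ * (k * ⟨_, zK⟩ * k⁻¹))).1 (by
        rw [map_mul, map_mul, map_mul, ← h1, map_inv, map_inv]; group)
      have h3 := cube _ h2
      have h4 : k * ε zE * (k : G)⁻¹ = ε zE * ((ε zE)⁻¹ * (k * ε zE * (k : G)⁻¹)) := by group
      have h5 : (k * ε zE * (k : G)⁻¹) ^ 3 = 1 := by rw [conj_pow, z3]; group
      rw [h4, (vc _ _ zK h2).1.mul_pow, z3, one_mul, h3, inv_mul_eq_one] at h5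
      obtain ⟨v, hv, e⟩ := r3 k k.2 (mul_inv_eq_iff_eq_mul.1 h5.symm)
      have pv : π ⟨v, VK hv⟩ = 1 := (π1 _).2 hv
      rcases e with e | e | e
      · rw [show k = ⟨v, VK hv⟩ from Subtype.ext e, pv]; exact one_mem _
      · rw [show k = ⟨_, zK⟩ * ⟨v, VK hv⟩ from Subtype.ext e, map_mul, pv, mul_one]; exact mem_zpowers _
      · rw [show k = ⟨_, zK⟩⁻¹ * ⟨v, VK hv⟩ from Subtype.ext e, map_mul, pv, mul_one, map_inv]
        exact inv_mem (mem_zpowers _)) (le_centralizer _)) with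
    ⟨N, hN, -, h1, h2⟩ | ⟨N, hN, -, h1, ⟨e⟩⟩ | ⟨⟨e⟩⟩
  · left
    rw [cK, qb N (triv N hN h1)]
    rcases h2 with e | ⟨⟨e⟩⟩
    · rw [e]; norm_num
    · rw [Nat.card_congr e.toEquiv, Nat.card_perm, Nat.card_fin]; decide
  · right; left
    have : IsPGroup 2 N := fun n => ⟨1, Subtype.ext (by simpa using h1 n n.2)⟩
    obtain ⟨n, hn⟩ := IsPGroup.iff_card.1 this
    rw [cK, qb N (triv N hN (hn ▸ Nat.Coprime.pow_left n (by norm_num))), Nat.card_congr e.toEquiv,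
      nat_card_alternatingGroup, Nat.card_fin]
    decide
  · right; right
    haveI : Fact (Nat.Prime 7) := ⟨by norm_num⟩
    have := H10.card_PSL_two (F := ZMod 7)
    rw [ZMod.card, show Nat.gcd 2 (7 - 1) = 2 from rfl] at this
    rw [cK, Nat.card_congr e.toEquiv]
    omega

theorem pB1_alt (Y : Subgroup (Perm (Fin 5))) (h1 : zF.2 ∈ Y) (h2 : eB.2 ∈ Y) (h3 : ∃ b ∈ Y, orderOf b = 5) :
    alternatingGroup (Fin 5) ≤ Y := by
  obtain ⟨b, hb, ob⟩ := h3
  have bA : b ∈ alternatingGroup (Fin 5) := by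
    have h5 : b ^ 5 = 1 := orderOf_dvd_iff_pow_eq_one.1 ob.dvd
    have := congrArg Perm.sign h5
    rw [map_pow, map_one] at this
    rcases Int.units_eq_one_or (Perm.sign b) with e | e
    · exact e
    · rw [e] at this; exact absurd this (by decide)
  have d : ∀ a ∈ Y, a ∈ alternatingGroup (Fin 5) → orderOf a ∣ Nat.card (Y.subgroupOf (alternatingGroup (Fin 5))) :=
    fun a ha hA => by
      have := orderOf_dvd_natCard (⟨⟨a, hA⟩, ha⟩ : Y.subgroupOf (alternatingGroup (Fin 5)))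
      rwa [← Subgroup.orderOf_coe, ← Subgroup.orderOf_coe] at this
  haveI : Fact (Nat.Prime 3) := ⟨Nat.prime_three⟩
  have d3 := d _ h1 (Perm.mem_alternatingGroup.2 (by decide))
  have d2 := d _ h2 (Perm.mem_alternatingGroup.2 (by decide))
  have d5 := d _ hb bA
  rw [orderOf_eq_prime (p := 3) (by decide) (by decide)] at d3
  rw [orderOf_eq_prime (p := 2) (by decide) (by decide)] at d2
  rw [ob] at d5
  have h60 := (Y.subgroupOf (alternatingGroup (Fin 5))).card_mul_index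
  rw [nat_card_alternatingGroup, Nat.card_fin] at h60
  obtain ⟨k, hk⟩ : 30 ∣ Nat.card (Y.subgroupOf (alternatingGroup (Fin 5))) := by omega
  have h7 : k * (Y.subgroupOf (alternatingGroup (Fin 5))).index = 2 := by
    rw [hk] at h60; simp only [Nat.factorial] at h60; nlinarith
  refine subgroupOf_eq_top.1 ?_
  rcases (Nat.dvd_prime Nat.prime_two).1 ⟨k, by rw [← h7, mul_comm]⟩ with e | e
  · exact index_eq_one.1 e
  · refine (IsSimpleGroup.eq_bot_or_eq_top_of_normal _ (normal_of_index_eq_two e)).resolve_left fun e2 => ?_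
    rw [e2, card_bot] at hk
    omega

theorem pB1 (t : T31.{u}) (h : SA ε σ eB) : CU ε ∨ KK ε σ := by
  have mK : ∀ {g}, Commute g (ε v1) → Commute g (ε v2) → g ∈ C[ε v1] ⊓ C[ε v2] := fun a b =>
    ⟨mem_cen1.2 a, mem_cen1.2 b⟩
  have zK : ε zE ∈ C[ε v1] ⊓ C[ε v2] := pB1_mK ε (by decide) (by decide)
  have eK : ε eE ∈ C[ε v1] ⊓ C[ε v2] := pB1_mK ε (by decide) (by decide)
  have hD : Syl 3 (pB1_D.map ε) ⊤ := by
    haveI : Fact (Nat.Prime 3) := ⟨Nat.prime_three⟩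
    obtain ⟨P, hP⟩ := h.syl
    exact (syl_top Nat.prime_three P).of_card_eq le_top ((pB1_c9 h).trans hP.symm)
  have elt : ∀ {p : ℕ} {k : G}, p = 5 ∨ p = 7 → k ∈ C[ε v1] ⊓ C[ε v2] → orderOf k = p →
      Commute k (ε zE) ∨ Commute k (ε zF) → p = 5 ∧ ∃ b, orderOf b = 5 ∧ k = σ * ε (1, b) * σ⁻¹ := by
    intro p k hp hk ok c
    rcases c with c | c
    · exfalso
      obtain ⟨v, hv, e⟩ := pB1_r3 h hk c
      obtain ⟨c1, c2, -⟩ := pB1_Vc ε zK hv
      have z6 : ε zE ^ 6 = 1 := by rw [show 6 = 3 * 2 from rfl, pow_mul, pB1_z3, one_pow]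
      have v6 : v ^ 6 = 1 := by rw [show 6 = 2 * 3 from rfl, pow_mul, sq v, c2, one_pow]
      have : k ^ 6 = 1 := by
        rcases e with rfl | rfl | rfl
        · exact v6
        · rw [c1.mul_pow, z6, v6, one_mul]
        · rw [c1.inv_left.mul_pow, inv_pow, z6, v6, inv_one, one_mul]
      have := orderOf_dvd_of_pow_eq_one this
      rw [ok] at this
      rcases hp with rfl | rfl <;> omega
    · obtain ⟨w, rfl, hw⟩ := pB1_r2 h c
      have o1 : orderOf w = p := (((MulAut.conj σ).orderOf_eq (ε w)).trans (orderOf_injective ε h.inj w)).symm.trans ok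
      have o2 := orderOf_dvd_natCard w
      rw [o1, Nat.card_prod, Nat.card_perm, Nat.card_perm, Nat.card_fin, Nat.card_fin] at o2
      obtain rfl : p = 5 := hp.resolve_right (by rintro rfl; revert o2; decide)
      have w5 : w.1 ^ 5 = 1 := congrArg Prod.fst (orderOf_dvd_iff_pow_eq_one.1 o1.dvd : w ^ 5 = 1)
      have w1 : w.1 = 1 := by
        revert w5
        rcases pB1_d2 w.1 (congrArg Prod.fst hw) with e | e | e <;> rw [e] <;> decide
      have e : w = (1, w.2) := Prod.ext w1 rfl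
      refine ⟨rfl, w.2, ?_, by rw [← e]⟩
      exact ((orderOf_injective (MonoidHom.inr (Perm (Fin 3)) _) (fun a b e => congrArg Prod.snd e) w.2).symm.trans
        (congrArg orderOf e.symm)).trans o1
  rcases pB1_r6 t h with c | c | c
  · left
    intro g g1 g2
    have l : ((⊤ : Subgroup (Perm (Fin 3))).prod (pB1_V.map (MonoidHom.snd _ _))).map ε ≤ C[ε v1] ⊓ C[ε v2] := by
      rintro _ ⟨⟨a, _⟩, ⟨-, w, hw, rfl⟩, rfl⟩
      have : ∀ w ∈ [1, v1, v2, v1 * v2], w.2 * v1.2 = v1.2 * w.2 ∧ w.2 * v2.2 = v2.2 * w.2 := by decide +kernel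
      exact pB1_mK ε (Prod.ext ((mul_one a).trans (one_mul a).symm) (this w hw).1)
        (Prod.ext ((mul_one a).trans (one_mul a).symm) (this w hw).2)
    have c4 : Nat.card (pB1_V.map (MonoidHom.snd (Perm (Fin 3)) (Perm (Fin 5)))) = 4 := by
      rw [← pB1_cV]
      refine Nat.card_congr (Equiv.ofBijective (fun w => ⟨w.1.2, w.1, w.2, rfl⟩) ⟨fun a b e => ?_, ?_⟩).symm
      · have : ∀ w ∈ [1, v1, v2, v1 * v2], w.1 = 1 := by decide +kernel
        exact Subtype.ext (Prod.ext ((this _ a.2).trans (this _ b.2).symm) (congrArg Subtype.val e))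
      · rintro ⟨_, w, hw, rfl⟩
        exact ⟨⟨w, hw⟩, rfl⟩
    have e := eq_of_le_of_card_ge l (by
      rw [card_map_of_injective h.inj, Nat.card_congr (prodEquiv _ _).toEquiv, Nat.card_prod, card_top, c4,
        Nat.card_perm, Nat.card_fin]
      exact Nat.le_of_dvd (by norm_num) c)
    exact map_le_range _ _ (e.ge (mK g1 g2))
  · right
    obtain ⟨P, hP⟩ := exists_syl 5 (C[ε v1] ⊓ C[ε v2])
    have cP : #P = 5 := by
      rw [hP.card_syl (by norm_num), c, show (240 : ℕ) = 5 * 48 from rfl,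
        Nat.factorization_mul (by norm_num) (by norm_num)]
      simp [Nat.Prime.factorization (show Nat.Prime 5 by norm_num), Nat.factorization_eq_zero_of_not_dvd]
    obtain ⟨d, hd, d1, k, hk, ok, cm⟩ := pB1_syl (pB1_DN ε) hD (pB1_c9 h) (by norm_num) hP cP (by rw [c]; decide)
      (.inl (by decide))
    obtain ⟨-, b, ob, rfl⟩ := elt (.inl rfl) hk ok (pB1_r4 h hd d1 hk cm)
    let ψ : Perm (Fin 5) →* G := (MulAut.conj σ).toMonoidHom.comp (ε.comp (MonoidHom.inr _ _))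
    have iψ : Function.Injective ψ := (MulAut.conj σ).injective.comp (h.inj.comp fun a b e => congrArg Prod.snd e)
    have q1 : ψ zF.2 = ε zE := pB1_sw h h.sz
    have q2 : ψ eB.2 = ε eE := pB1_sw h h.se
    have a1 := pB1_alt ((C[ε v1] ⊓ C[ε v2]).comap ψ) (show ψ _ ∈ _ from q1 ▸ zK) (show ψ _ ∈ _ from q2 ▸ eK)
      ⟨b, hk, ob⟩
    have cm : ∀ a b : Perm (Fin 5), Perm.sign a = 1 → Perm.sign b = 1 → Commute (ε (1, a)) (ψ b) := fun a b ha hb => by
      have hb' := a1 (Perm.mem_alternatingGroup.2 hb)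
      have s3 : ∀ w : W, w.2 = 1 → Commute (σ * ε w * σ⁻¹) (ψ b) := fun w hw => by
        have : Commute (ε w) (ε (1, b)) := pB1_cm ε (Prod.ext ((mul_one _).trans (one_mul _).symm) (by
          show w.2 * b = b * w.2
          rw [hw, mul_one, one_mul]))
        exact this.map (MulAut.conj σ)
      have m1 : v1.2 ∈ C[ψ b].comap (ε.comp (MonoidHom.inr _ _)) := mem_cen1.2 (mem_cen1.1 hb'.1).symm
      have m2 : v2.2 ∈ C[ψ b].comap (ε.comp (MonoidHom.inr _ _)) := mem_cen1.2 (mem_cen1.1 hb'.2).symm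
      refine mem_cen1.1 (pB1_alt (C[ψ b].comap (ε.comp (MonoidHom.inr _ _))) (mem_cen1.2 (h.sz ▸ s3 zE rfl))
        (mem_cen1.2 (h.se ▸ s3 eE rfl)) ⟨_, mul_mem (mem_cen1.2 (h.se ▸ s3 eE rfl) :
          eB.2 ∈ C[ψ b].comap (ε.comp (MonoidHom.inr _ _))) m2, ?_⟩ (Perm.mem_alternatingGroup.2 ha))
      haveI : Fact (Nat.Prime 5) := ⟨by norm_num⟩
      exact orderOf_eq_prime (by decide +kernel) (by decide +kernel)
    refine ⟨cm, fun g g1 g2 => ?_⟩
    have VK : pB1_V.map ε ≤ C[ε v1] ⊓ C[ε v2] := fun v hv => (pB1_Vc ε zK hv).2.2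
    have AK : (alternatingGroup (Fin 5)).map ψ ≤ C[ε v1] ⊓ C[ε v2] := map_le_iff_le_comap.2 a1
    have AN : (alternatingGroup (Fin 5)).map ψ ≤ N(pB1_V.map ε) := fun k hk => mem_nrm.2 fun v hv => by
      rwa [(pB1_Vc ε (AK hk) hv).1.eq, mul_inv_cancel_right]
    have i0 : pB1_V.map ε ⊓ (alternatingGroup (Fin 5)).map ψ = ⊥ := eq_bot_iff.2 (by
      rintro _ ⟨hv, b, hb, rfl⟩
      have c1 := (pB1_Vc ε zK hv).1
      have c2 := (pB1_Vc ε hk hv).1
      have c3 := (pB1_Vc ε eK hv).1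
      have a2 := pB1_alt (C[ψ b].comap ψ) (mem_cen1.2 (q1 ▸ c1)) (mem_cen1.2 (q2 ▸ c3)) ⟨_, mem_cen1.2 c2, ob⟩
      have k : ∀ b : Perm (Fin 5), v1.2 * b = b * v1.2 → v2.2 * b = b * v2.2 → zF.2 * b = b * zF.2 → b = 1 := by
        decide +kernel
      have cb : ∀ a ∈ alternatingGroup (Fin 5), a * b = b * a := fun a ha =>
        iψ (by rw [map_mul, map_mul]; exact mem_cen1.1 (a2 ha))
      rw [k b (cb _ (Perm.mem_alternatingGroup.2 (by decide))) (cb _ (Perm.mem_alternatingGroup.2 (by decide)))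
        (cb _ (Perm.mem_alternatingGroup.2 (by decide))), map_one]
      exact one_mem _)
    have me := mulEq_sup AN
    have cs := me.card
    rw [i0, card_bot, mul_one, pB1_c4 h, card_map_of_injective iψ, nat_card_alternatingGroup, Nat.card_fin] at cs
    have e := eq_of_le_of_card_ge (sup_le VK AK) (by rw [c, cs]; decide)
    obtain ⟨_, ⟨w, hw, rfl⟩, _, ⟨b, hb, rfl⟩, rfl⟩ := (mem_sup_norm AN).1 (e.ge (mK g1 g2))
    have hw' : w ∈ [1, v1, v2, v1 * v2] := hw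
    have m1 : v1.2 ∈ closure {v1.2, v2.2} := subset_closure (by simp)
    have m2 : v2.2 ∈ closure {v1.2, v2.2} := subset_closure (by simp)
    simp only [List.mem_cons, List.not_mem_nil, or_false] at hw'
    rcases hw' with rfl | rfl | rfl | rfl
    exacts [⟨1, one_mem _, b, hb, rfl⟩, ⟨_, m1, b, hb, rfl⟩, ⟨_, m2, b, hb, rfl⟩, ⟨_, mul_mem m1 m2, b, hb, rfl⟩]
  · exfalso
    haveI : Fact (Nat.Prime 7) := ⟨by norm_num⟩
    obtain ⟨T⟩ : Nonempty (Sylow 7 ↥(C[ε v1] ⊓ C[ε v2])) := inferInstance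
    have cT : Nat.card T = 7 := by
      rw [T.card_eq_multiplicity, c, show (672 : ℕ) = 7 * 96 from rfl,
        Nat.factorization_mul (by norm_num) (by norm_num)]
      simp [Nat.Prime.factorization (show Nat.Prime 7 by norm_num), Nat.factorization_eq_zero_of_not_dvd]
    have cP : #((T : Subgroup ↥(C[ε v1] ⊓ C[ε v2])).map (C[ε v1] ⊓ C[ε v2]).subtype) = 7 :=
      (card_map_of_injective (subtype_injective _)).trans cT
    have hP : Syl 7 ((T : Subgroup ↥(C[ε v1] ⊓ C[ε v2])).map (C[ε v1] ⊓ C[ε v2]).subtype) (C[ε v1] ⊓ C[ε v2]) :=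
      syl_of_not_dvd (map_subtype_le _) (pGrp_of_card_prime (by norm_num) cP) (by
        have := card_mul_relIndex (map_subtype_le (T : Subgroup ↥(C[ε v1] ⊓ C[ε v2])))
        rw [cP, c] at this
        omega)
    have n1 := card_sylow_modEq_one 7 ↥(C[ε v1] ⊓ C[ε v2])
    have n2 := T.card_dvd_index
    have n3 := (T : Subgroup ↥(C[ε v1] ⊓ C[ε v2])).card_mul_index
    have n4 := (normalizer ((T : Subgroup ↥(C[ε v1] ⊓ C[ε v2])) : Set ↥(C[ε v1] ⊓ C[ε v2]))).card_mul_index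
    rw [← show Nat.card (Sylow 7 ↥(C[ε v1] ⊓ C[ε v2])) = (normalizer ((T : Subgroup ↥(C[ε v1] ⊓ C[ε v2])) :
      Set ↥(C[ε v1] ⊓ C[ε v2]))).index from T.card_eq_index_normalizer, c] at n4
    rw [cT, c] at n3
    rw [show (T : Subgroup ↥(C[ε v1] ⊓ C[ε v2])).index = 96 by omega] at n2
    have n5 : ∀ n ∈ Nat.divisors 96, n % 7 = 1 % 7 → n = 1 ∨ n = 8 := by decide
    have n6 : 3 ∣ Nat.card (normalizer ((T : Subgroup ↥(C[ε v1] ⊓ C[ε v2])) : Set ↥(C[ε v1] ⊓ C[ε v2]))) := by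
      rcases n5 _ (Nat.mem_divisors.2 ⟨n2, by norm_num⟩) n1 with e | e <;> rw [e] at n4 <;> omega
    have n7 : (normalizer ((T : Subgroup ↥(C[ε v1] ⊓ C[ε v2])) : Set ↥(C[ε v1] ⊓ C[ε v2]))).map
        (C[ε v1] ⊓ C[ε v2]).subtype ≤ C[ε v1] ⊓ C[ε v2] ⊓
          N((T : Subgroup ↥(C[ε v1] ⊓ C[ε v2])).map (C[ε v1] ⊓ C[ε v2]).subtype) :=
      le_inf (map_subtype_le _) (le_normalizer_map _)
    obtain ⟨d, hd, d1, k, hk, ok, cm⟩ := pB1_syl (pB1_DN ε) hD (pB1_c9 h) (by norm_num) hP cP (by rw [c]; decide)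
      (.inr ⟨(n6.trans (card_map_of_injective (subtype_injective _)).symm.dvd).trans (card_dvd_of_le n7), by decide⟩)
    exact absurd (elt (.inr rfl) hk ok (pB1_r4 h hd d1 hk cm)).1 (by decide)

end Cfsg.Agent.L1Se
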