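import Cfsg.Agent.L1.Se0
import Cfsg.Agent.FT.BG01

/-! The centraliser of the four-group `V₀`: first reductions. -/

set_option autoImplicit false
set_option linter.unusedSectionVars false
set_option linter.unusedVariables false
set_option linter.style.haveILetI false
set_option synthInstance.maxSize 4000

namespace Cfsg.Agent.L1Se
open Subgroup Equiv Cfsg.Agent.FT

universe u

/-- a subgroup given by the list of its elements -/
def pB1_ls (L : List W) (h : 1 ∈ L ∧ (∀ a ∈ L, ∀ b ∈ L, a * b ∈ L) ∧ ∀ a ∈ L, a⁻¹ ∈ L) : Subgroup W where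
  carrier := {w | w ∈ L}
  one_mem' := h.1
  mul_mem' := fun ha hb => h.2.1 _ ha _ hb
  inv_mem' := fun ha => h.2.2 _ ha

theorem pB1_lc (L : List W) (h) (hn : L.Nodup) : Nat.card (pB1_ls L h) = L.length := by
  have : ((pB1_ls L h : Subgroup W) : Set W) = (L.toFinset : Set W) := by ext; simp [pB1_ls]
  rw [← List.toFinset_card_of_nodup hn, ← Set.ncard_coe_finset, ← this, ← Nat.card_coe_set_eq]; rfl

def pB1_V : Subgroup W := pB1_ls [1, v1, v2, v1 * v2] (by decide +kernel)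
def pB1_D : Subgroup W := pB1_ls [1, zE, zE⁻¹, zF, zF⁻¹, zE * zF, (zE * zF)⁻¹, zE * zF⁻¹, (zE * zF⁻¹)⁻¹]
  (by decide +kernel)

theorem pB1_cV : Nat.card pB1_V = 4 := pB1_lc _ _ (by decide +kernel)
theorem pB1_cD : Nat.card pB1_D = 9 := pB1_lc _ _ (by decide +kernel)

theorem pB1_d1 : ∀ b : Perm (Fin 5), b * v1.2 = v1.2 * b → b * v2.2 = v2.2 * b →
    ((1 : Perm (Fin 3)), b) ∈ [1, v1, v2, v1 * v2] := by decide +kernel

theorem pB1_d2 : ∀ a : Perm (Fin 3), a * zE.1 = zE.1 * a → a = 1 ∨ a = zE.1 ∨ a = zE.1⁻¹ := by decide +kernel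

variable {G : Type u} [Group G] [Finite G] {ε : W →* G} {σ : G}

theorem pB1_syl {K D P : Subgroup G} (DN : D ≤ N(K)) (hD : Syl 3 D ⊤) (c9 : #D = 9) {p : ℕ} (hp : p.Prime)
    (hP : Syl p P K) (cP : #P = p) (h9 : ¬ 9 ∣ #K) (h : ¬ 3 ∣ p - 1 ∨ (3 ∣ #(K ⊓ N(P)) ∧ ¬ 9 ∣ p - 1)) :
    ∃ d ∈ D, d ≠ 1 ∧ ∃ k ∈ K, orderOf k = p ∧ Commute k d := by
  have hn : K ⊴ K ⊔ D := nml_sup_left DN
  have h1 := (hP.frattini hn).card
  rw [← inf_assoc, inf_eq_left.2 (le_sup_left (a := K) (b := D))] at h1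
  obtain ⟨m, hm⟩ : 9 ∣ #(K ⊔ D) := c9 ▸ card_dvd_of_le (le_sup_right (a := K))
  have h2 := relIndex_cen_dvd_pred hp cP (A := (K ⊔ D) ⊓ N(P)) inf_le_right
  have h3 := card_inf_mul_relIndex C(P) ((K ⊔ D) ⊓ N(P))
  have h4 : 3 ∣ #(C(P) ⊓ ((K ⊔ D) ⊓ N(P))) := by
    by_contra h5
    have c1 : Nat.Coprime 3 #(C(P) ⊓ ((K ⊔ D) ⊓ N(P))) := (Nat.Prime.coprime_iff_not_dvd Nat.prime_three).2 h5
    rw [← h3, hm] at h1
    generalize #(C(P) ⊓ ((K ⊔ D) ⊓ N(P))) = a at h1 c1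
    generalize C(P).relIndex ((K ⊔ D) ⊓ N(P)) = r at h1 h2
    rcases h with h | ⟨⟨n, e⟩, h⟩
    · have c2 : Nat.Coprime 3 r := (Nat.Prime.coprime_iff_not_dvd Nat.prime_three).2 fun e => h (e.trans h2)
      exact h9 (((c1.mul_right c2).pow_left 2).dvd_of_dvd_mul_right ⟨m * #(K ⊓ N(P)), by rw [← h1]; ring⟩)
    · rw [e] at h1
      have h6 : 3 ^ 3 ∣ #K * r := (c1.pow_left 3).dvd_of_dvd_mul_left ⟨m * n, by
        rw [show a * (#K * r) = #K * (a * r) by ring, ← h1]; ring⟩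
      by_cases h7 : 3 ∣ #K
      · obtain ⟨k, hk⟩ := h7
        have c3 : Nat.Coprime 3 k := (Nat.Prime.coprime_iff_not_dvd Nat.prime_three).2 fun ⟨l, e⟩ =>
          h9 ⟨l, by rw [hk, e]; ring⟩
        rw [hk, mul_assoc, pow_succ'] at h6
        exact h (((c3.pow_left 2).dvd_of_dvd_mul_left (Nat.dvd_of_mul_dvd_mul_left (by norm_num) h6)).trans h2)
      · have := (((Nat.Prime.coprime_iff_not_dvd Nat.prime_three).2 h7).pow_left 3).dvd_of_dvd_mul_left h6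
        exact h ((show 9 ∣ 3 ^ 3 by norm_num).trans (this.trans h2))
  obtain ⟨a, ha, oa⟩ := exists_elt_of_prime_dvd Nat.prime_three h4
  obtain ⟨g, hg, h5⟩ := (hD.subl le_sup_right le_top).syl_elt ha.2.1
    (pElt_of_pow_eq_one Nat.prime_three (oa ▸ pow_orderOf_eq_one a))
  obtain ⟨k, hk, ok⟩ := exists_elt_of_prime_dvd hp cP.symm.dvd
  refine ⟨_, h5, fun e => ?_, g * k * g⁻¹, mem_nrm.1 (hn.nrm hg) k (hP.le hk), ?_, ?_⟩
  · rw [show a = 1 by simpa using e, orderOf_one] at oa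
    omega
  · rw [← ok]; exact (MulAut.conj g).orderOf_eq k
  · have := (show Commute k a from mem_cen.1 ha.1 k hk).map (MulAut.conj g)
    simpa only [MulAut.conj_apply] using this

theorem pB1_cm (ε : W →* G) {a b : W} (e : a * b = b * a) : ε a * ε b = ε b * ε a := by
  rw [← map_mul, ← map_mul, e]

theorem pB1_r1 {x : W} (h : SA ε σ x) {g : G} (hg : Commute g (ε zE)) : ∃ w, g = ε w ∧ w * zE = zE * w := by
  obtain ⟨w, rfl⟩ := (h.rng g).2 (mem_nrm.2 (by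
    rintro _ ⟨n, rfl⟩
    exact ⟨n, by simp only [(hg.zpow_right n).eq, mul_inv_cancel_right]⟩))
  exact ⟨w, rfl, h.inj (by rw [map_mul, map_mul]; exact hg.eq)⟩

theorem pB1_sw {x : W} (h : SA ε σ x) {a b : G} (e : σ * a * σ⁻¹ = b) : σ * b * σ⁻¹ = a := by
  have hs : σ⁻¹ = σ := inv_eq_of_mul_eq_one_right h.ss
  rw [← e, hs]
  calc σ * (σ * a * σ) * σ = (σ * σ) * a * (σ * σ) := by group
    _ = a := by rw [h.ss]; group

theorem pB1_r2 {x : W} (h : SA ε σ x) {g : G} (hg : Commute g (ε zF)) :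
    ∃ w, g = σ * ε w * σ⁻¹ ∧ w * zE = zE * w := by
  have := hg.map (MulAut.conj σ)
  simp only [MulAut.conj_apply, pB1_sw h h.sz] at this
  obtain ⟨w, e, hw⟩ := pB1_r1 h this
  exact ⟨w, (pB1_sw h e).symm, hw⟩

theorem pB1_r3 {x : W} (h : SA ε σ x) {g : G} (hK : g ∈ C[ε v1] ⊓ C[ε v2]) (hg : Commute g (ε zE)) :
    ∃ v ∈ pB1_V.map ε, g = v ∨ g = ε zE * v ∨ g = (ε zE)⁻¹ * v := by
  obtain ⟨w, rfl, hw⟩ := pB1_r1 h hg
  have h1 : w * v1 = v1 * w := h.inj (by rw [map_mul, map_mul]; exact mem_cen1.1 hK.1)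
  have h2 : w * v2 = v2 * w := h.inj (by rw [map_mul, map_mul]; exact mem_cen1.1 hK.2)
  refine ⟨ε (1, w.2), ⟨_, pB1_d1 w.2 (congrArg Prod.snd h1) (congrArg Prod.snd h2), rfl⟩, ?_⟩
  rw [← map_inv, ← map_mul, ← map_mul]
  rcases pB1_d2 w.1 (congrArg Prod.fst hw) with e | e | e
  · exact .inl (congrArg ε (Prod.ext e rfl))
  · exact .inr (.inl (congrArg ε (Prod.ext (e.trans (mul_one _).symm) (one_mul _).symm)))
  · exact .inr (.inr (congrArg ε (Prod.ext (e.trans (mul_one _).symm) (by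
      show w.2 = (1 : Perm (Fin 5))⁻¹ * w.2
      rw [inv_one, one_mul]))))

theorem pB1_nK (ε : W →* G) {w : W} (h1 : w⁻¹ * v1 * w ∈ [v1, v2, v1 * v2]) (h2 : w⁻¹ * v2 * w ∈ [v1, v2, v1 * v2]) :
    ε w ∈ N(C[ε v1] ⊓ C[ε v2]) := by
  have k : ∀ x ∈ C[ε v1] ⊓ C[ε v2], ∀ v : W, w⁻¹ * v * w ∈ [v1, v2, v1 * v2] → ε w * x * (ε w)⁻¹ ∈ C[ε v] := by
    intro x hx v hv
    have c1 : Commute x (ε v1) := mem_cen1.1 hx.1
    have c2 : Commute x (ε v2) := mem_cen1.1 hx.2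
    have : Commute x (ε (w⁻¹ * v * w)) := by
      simp only [List.mem_cons, List.not_mem_nil, or_false] at hv
      rcases hv with e | e | e <;> rw [e]
      exacts [c1, c2, map_mul ε v1 v2 ▸ c1.mul_right c2]
    rw [map_mul, map_mul, map_inv] at this
    refine mem_cen1.2 ?_
    calc ε w * x * (ε w)⁻¹ * ε v = ε w * (x * ((ε w)⁻¹ * ε v * ε w)) * (ε w)⁻¹ := by group
      _ = _ := by rw [this.eq]; group
  exact mem_nrm.2 fun x hx => ⟨k x hx _ h1, k x hx _ h2⟩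

theorem pB1_ry {x : W} (h : SA ε σ x) {g : G} (hK : g ∈ C[ε v1] ⊓ C[ε v2]) (hg : Commute g (ε (zE * zF))) :
    Commute g (ε zE) := by
  by_contra hn
  have cy := h.cy
  rw [← map_mul] at cy
  have l1 : pB1_D.map ε ≤ C[ε zE] ⊓ C[ε (zE * zF)] := by
    rintro _ ⟨w, hw, rfl⟩
    have : ∀ w ∈ [1, zE, zE⁻¹, zF, zF⁻¹, zE * zF, (zE * zF)⁻¹, zE * zF⁻¹, (zE * zF⁻¹)⁻¹],
        w * zE = zE * w ∧ w * (zE * zF) = zE * zF * w := by decide +kernel
    exact ⟨mem_cen1.2 (pB1_cm ε (this w hw).1), mem_cen1.2 (pB1_cm ε (this w hw).2)⟩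
  have d9 : 9 ∣ #(C[ε zE] ⊓ C[ε (zE * zF)]) := by
    have := card_dvd_of_le l1
    rwa [card_map_of_injective h.inj, pB1_cD] at this
  have d2 : 2 ∣ #(C[ε zE] ⊓ C[ε (zE * zF)]) := by
    have o2 : orderOf (ε tE) = 2 := by
      rw [orderOf_injective ε h.inj]; exact orderOf_eq_prime (by decide) (by decide)
    have := card_dvd_of_le (zpowers_le.2 (show ε tE ∈ C[ε zE] ⊓ C[ε (zE * zF)] from
      ⟨mem_cen1.2 (pB1_cm ε (by decide)), mem_cen1.2 (pB1_cm ε (by decide))⟩))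
    rwa [card_zpowers', o2] at this
  have h3 := card_inf_mul_relIndex C[ε zE] C[ε (zE * zF)]
  rw [cy] at h3
  have h4 : C[ε zE].relIndex C[ε (zE * zF)] ≠ 1 := fun e =>
    hn (mem_cen1.1 (relIndex_eq_one.1 e (mem_cen1.2 hg)))
  have h5 : C[ε zE].relIndex C[ε (zE * zF)] = 2 := by
    obtain ⟨k, hk⟩ := Nat.Coprime.mul_dvd_of_dvd_of_dvd (by norm_num) d9 d2
    rw [hk] at h3
    have : k * C[ε zE].relIndex C[ε (zE * zF)] = 2 := by nlinarith
    exact ((Nat.dvd_prime Nat.prime_two).1 ⟨k, by rw [← this, mul_comm]⟩).resolve_left h4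
  have sy : σ ∈ C[ε (zE * zF)] := mem_cen1.2 (by
    rw [← mul_inv_eq_iff_eq_mul, map_mul, ← conj_mul, h.sz, pB1_sw h h.sz]
    exact pB1_cm ε (by decide))
  have sz : σ ∉ C[ε zE] := fun e => by
    have := h.sz
    rw [mem_cen1.1 e, mul_inv_cancel_right] at this
    exact absurd (h.inj this) (by decide)
  have h6 := (mul_mem_iff_of_index_two h5 (a := ⟨σ, sy⟩) (b := ⟨g, mem_cen1.2 hg⟩)).2
    (iff_of_false sz fun e => hn (mem_cen1.1 e))
  have h7 : σ * g * ε zE = ε zE * (σ * g) := mem_cen1.1 h6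
  have h8 : g * ε zE * g⁻¹ = ε zF := by
    rw [← h.sz]
    refine (pB1_sw h ?_).symm
    calc σ * (g * ε zE * g⁻¹) * σ⁻¹ = σ * g * ε zE * (σ * g)⁻¹ := by group
      _ = _ := by rw [h7]; group
  have zK : ε zE ∈ C[ε v1] ⊓ C[ε v2] := ⟨mem_cen1.2 (pB1_cm ε (by decide)), mem_cen1.2 (pB1_cm ε (by decide))⟩
  have h9 := mul_mem (mul_mem hK zK) (inv_mem hK)
  rw [h8] at h9
  have := mem_cen1.1 h9.1
  rw [← map_mul, ← map_mul] at this
  exact absurd (h.inj this) (by decide)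

theorem pB1_r4 {x : W} (h : SA ε σ x) {d g : G} (hd : d ∈ pB1_D.map ε) (d1 : d ≠ 1)
    (hK : g ∈ C[ε v1] ⊓ C[ε v2]) (hg : Commute g d) : Commute g (ε zE) ∨ Commute g (ε zF) := by
  have k : Commute g (ε (zE * zF⁻¹)) → Commute g (ε zE) := fun e => by
    have n1 := pB1_nK ε (w := eA) (by decide) (by decide)
    have e1 := e.map (MulAut.conj (ε eA))
    simp only [MulAut.conj_apply] at e1
    rw [← map_inv ε eA, ← map_mul, ← map_mul, show eA * (zE * zF⁻¹) * eA⁻¹ = zE * zF by decide, map_inv] at e1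
    have e2 := (pB1_ry h (mem_nrm.1 n1 g hK) e1).map (MulAut.conj (ε eA)⁻¹)
    simp only [MulAut.conj_apply] at e2
    rw [show (ε eA)⁻¹ * ε zE * (ε eA)⁻¹⁻¹ = ε zE by
      rw [inv_inv, ← map_inv, ← map_mul, ← map_mul]; congr 1; decide] at e2
    simpa [mul_assoc] using e2
  have iv : ∀ w : W, Commute g (ε w⁻¹) → Commute g (ε w) := fun w e => by
    rw [map_inv] at e; simpa using e.inv_right
  obtain ⟨w, hw, rfl⟩ := hd
  have hw' : w ∈ [1, zE, zE⁻¹, zF, zF⁻¹, zE * zF, (zE * zF)⁻¹, zE * zF⁻¹, (zE * zF⁻¹)⁻¹] := hw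
  simp only [List.mem_cons, List.not_mem_nil, or_false] at hw'
  rcases hw' with rfl | rfl | rfl | rfl | rfl | rfl | rfl | rfl | rfl
  exacts [absurd (map_one ε) d1, .inl hg, .inl (iv _ hg), .inr hg, .inr (iv _ hg), .inl (pB1_ry h hK hg),
    .inl (pB1_ry h hK (iv _ hg)), .inl (k hg), .inl (k (iv _ hg))]

end Cfsg.Agent.L1Se
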