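import Cfsg.Agent.H7.M5

/-! A Galois refinement of Thompson's normal complement theorem for the principal 2-block. -/

set_option autoImplicit false

namespace Cfsg.Agent.H5.Sg

open Cfsg Subgroup Cfsg.Agent.H8 Cfsg.Agent.H9 Cfsg.Agent.H7
open scoped ComplexConjugate

variable {G : Type*} [Group G] [Finite G] {M : Ideal AlgInt} [hMm : M.IsMaximal]

theorem ext_deg (hM : IsPModular 2 M) {k : ℕ}
    (hk₁ : ∀ g : G, (∃ j : ℕ, orderOf g = 2 ^ j) → g ^ k = g ^ 3)
    (hk₂ : ∀ g : G, Odd (orderOf g) → g ^ k = g) (P : Sylow 2 G)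
    {θ : IrrCharacter (pResidual 2 G)} (h1 : θ ∈ principalBlock M (pResidual 2 G))
    (h2 : Odd (charDegree θ.1))
    (h3 : ∀ x ∈ P.1, ∀ n, θ.1 (MulAut.conjNormal x n) = θ.1 n) (h4 : ∀ n, θ.1 (n ^ k) = θ.1 n) :
    ∃ χ ∈ principalBlock M G, (∀ n : pResidual 2 G, χ.1 n = θ.1 n) ∧ ∀ g, χ.1 (g ^ k) = χ.1 g := by
  have hcp : ∀ {n : ℕ}, ¬ 2 ∣ n → n.Coprime 2 := fun h =>
    ((Nat.Prime.coprime_iff_not_dvd Nat.prime_two).2 h).symm
  obtain ⟨hk, -⟩ := m5_pow (p := 2) hk₁ fun g hg => hk₂ g (Nat.odd_iff.2 (by omega))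
  have hf := isNE_subtype (pResidual 2 G)
  have hQ : IsPGroup 2 (G ⧸ pResidual 2 G) := H4.isPGroup_quotient_pResidual 2
  have hr' : ∀ g : G, ¬ 2 ∣ orderOf g → g ∈ (pResidual 2 G).subtype.range := fun g hg => by
    rw [range_subtype]; exact H4.mem_pResidual (hcp hg)
  have hi : ∀ {n : ℕ}, ¬ 2 ∣ n → (pResidual 2 G).subtype.range.index.Coprime n := fun h => by
    obtain ⟨a, ha⟩ := IsPGroup.iff_card.1 hQ
    rw [range_subtype, index_eq_card, ha]
    exact (hcp h).symm.pow_left a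
  have h2' : ¬ 2 ∣ charDegree θ.1 := h2.not_two_dvd_nat
  have hinv : hf.Inv θ.1 := by
    rw [hf.inv_iff_inertia, eq_top_iff,
      ← H4.sup_eq_top_of_isPGroup_quotient _ hQ (H4.sylow_index_coprime P)]
    refine sup_le (fun n hn => hf.apply_mem_inertia (irr_cf θ.2) ⟨n, hn⟩) fun x hx => ?_
    rw [hf.mem_inertia, cjf_subtype]
    exact funext (h3 x hx)
  have hdet : ¬ 2 ∣ detOrder θ.1 := by
    rw [detOrder_eq]
    exact not_dvd_orderOf_hom Nat.prime_two (H4.pResidual_pResidual 2) _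
  obtain ⟨χ, a1, a2, a3⟩ := hf.exists_canonical_ext θ.2 hinv (m4_deg θ.2)
    ((hi hdet).mul_right (hi h2'))
  refine ⟨⟨χ, a1⟩, (m5_mem_iff hM hf.inj hr' a2).2 h1, a2, ?_⟩
  change ∀ g, χ (g ^ k) = χ g
  obtain ⟨τ, hτ⟩ := H6.exists_ringEquiv_map_isGen hk
  have e : (fun g => χ (g ^ k)) = fun g => (τ : ℂ →+* ℂ) (χ g) :=
    funext fun g => (hτ χ (H6.isGen_of_irr a1) g).symm
  refine congrFun (hf.canonical_ext_unique θ.2 (m4_deg θ.2) (hi h2')
    (irr_char (H6.isIrr_comp_pow a1 hk)) (irr_char a1) (fun n => ?_) a2 ?_ (a3 ▸ hi hdet))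
  · rw [← map_pow, a2, h4]
  · rw [e, detOrder_map _ (irr_char a1), a3]
    exact hi hdet

theorem s4549 (hM : IsPModular 2 M) (k : ℕ)
    (hk₁ : ∀ g : G, (∃ j : ℕ, orderOf g = 2 ^ j) → g ^ k = g ^ 3)
    (hk₂ : ∀ g : G, Odd (orderOf g) → g ^ k = g) :
    HasNormalPComplement 2 G ↔ ∀ χ ∈ principalBlock M G, Odd (charDegree (χ : G → ℂ)) →
      (∀ g : G, (χ : G → ℂ) (g ^ k) = (χ : G → ℂ) g) → charDegree (χ : G → ℂ) = 1 := by
  classical
  refine ⟨fun h χ hχ ho _ => ?_, fun h => ?_⟩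
  · have h1 := (H6.degree_dvd_index_charCenter χ.2 (m4_deg χ.2)).trans (index_dvd_of_le
      (((mem_principal_iff_of_hasNPC hM h χ).1 hχ).trans H6.charKer_le_charCenter))
    obtain ⟨a, ha⟩ := IsPGroup.iff_card.1 (H4.isPGroup_quotient_pResidual (G := G) 2)
    rw [index_eq_card, ha] at h1
    exact ((Nat.coprime_two_right.2 ho).pow_right a).eq_one_of_dvd h1
  rw [H4.hasNPC_iff_not_dvd]
  intro hd
  let N := pResidual 2 G
  let T := {θ : IrrCharacter N // θ ∈ principalBlock M N ∧ Odd (charDegree (θ : N → ℂ)) ∧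
    ∀ n : N, (θ : N → ℂ) (n ^ k) = (θ : N → ℂ) n}
  have h1 : Even (Nat.card T) := s4550 hM (even_iff_two_dvd.2 hd) k
    (fun g hg => Subtype.ext (hk₁ g (by simpa using hg)))
    fun g hg => Subtype.ext (hk₂ g (by simpa using hg))
  obtain ⟨P⟩ : Nonempty (Sylow 2 G) := inferInstance
  let _ : MulAction P.1 T :=
    { smul := fun x θ => ⟨⟨fun n => θ.1.1 (MulAut.conjNormal (x : G)⁻¹ n),
        H6.isIrr_comp_equiv _ θ.1.2⟩,
        (m5_mem_iff hM (f := (MulAut.conjNormal (x : G)⁻¹).toMonoidHom) (MulEquiv.injective _)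
          (fun g _ => MulEquiv.surjective _ g) fun _ => rfl).1 θ.2.1,
        by simpa [charDegree] using θ.2.2.1, fun n => by
          simp only [map_pow]
          exact θ.2.2.2 _⟩
      one_smul := fun θ => Subtype.ext (Subtype.ext (funext fun n => by
        change θ.1.1 (MulAut.conjNormal _ n) = _
        simp))
      mul_smul := fun x y θ => Subtype.ext (Subtype.ext (funext fun n => by
        change θ.1.1 (MulAut.conjNormal _ n) = θ.1.1 (MulAut.conjNormal _ (MulAut.conjNormal _ n))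
        simp)) }
  have h2 := P.isPGroup'.card_modEq_card_fixedPoints T
  have fx : ∀ θ : T, θ ∈ MulAction.fixedPoints P.1 T ↔
      ∀ x ∈ P.1, ∀ n, θ.1.1 (MulAut.conjNormal x n) = θ.1.1 n := fun θ =>
    ⟨fun e x hx n => by
      have := congrFun (congrArg (fun t : T => t.1.1) (e ⟨x, hx⟩⁻¹)) n
      change θ.1.1 (MulAut.conjNormal _ n) = _ at this
      simpa using this,
    fun e x => Subtype.ext (Subtype.ext (funext (e _ (inv_mem x.2))))⟩
  let U := MulAction.fixedPoints P.1 T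
  have := Fintype.ofFinite N
  let f : Function.End U := fun θ => ⟨⟨⟨fun n => conj (θ.1.1.1 n), H6.isIrr_conj θ.1.1.2⟩, by
    have := θ.1.2.1
    rw [mem_principal_iff_sum hM] at this ⊢
    rwa [← map_sum, map_ne_zero], by
      have := θ.1.2.2.1
      rwa [show charDegree (fun n => conj (θ.1.1.1 n)) = charDegree θ.1.1.1 from
        Nat.cast_injective (R := ℂ) (by
          rw [← m4_deg (H6.isIrr_conj θ.1.1.2), m4_deg θ.1.1.2, Complex.conj_natCast])],
      fun n => congrArg conj (θ.1.2.2.2 n)⟩, (fx _).2 fun x hx n =>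
        congrArg conj ((fx _).1 θ.2 x hx n)⟩
  have := Fintype.ofFinite U
  have h3 := Equiv.Perm.card_fixedPoints_modEq (f := f) (p := 2) (n := 1) (by
    funext θ
    exact Subtype.ext (Subtype.ext (Subtype.ext (funext fun n => Complex.conj_conj _))))
  rw [← Nat.card_eq_fintype_card, ← Nat.card_eq_fintype_card] at h3
  let o : U := ⟨⟨irrOne N, irrOne_mem_principalBlock, by
    rw [show charDegree (irrOne N : N → ℂ) = 1 from
      Nat.cast_injective (R := ℂ) (by rw [← irr_one_eq]; simp)]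
    exact odd_one, fun _ => rfl⟩, (fx _).2 fun _ _ _ => rfl⟩
  have h4 : Nat.card f.fixedPoints = 1 := by
    refine Nat.card_eq_one_iff_exists.2 ⟨⟨o, Subtype.ext (Subtype.ext (Subtype.ext
      (funext fun n => map_one conj)))⟩, fun ⟨θ, e⟩ => ?_⟩
    obtain ⟨χ, a1, a2, a3⟩ := ext_deg hM hk₁ hk₂ P θ.1.2.1 θ.1.2.2.1 ((fx _).1 θ.2) θ.1.2.2.2
    have b1 : charDegree χ.1 = charDegree θ.1.1.1 := by
      have := a2 1
      rw [coe_one] at this
      simp only [charDegree, this]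
    obtain ⟨l, hl⟩ := H6.exists_linear_of_degree_one (irr_char θ.1.1.2) (by
      rw [m4_deg θ.1.1.2, ← b1, h χ a1 (b1 ▸ θ.1.2.2.1) a3, Nat.cast_one])
    have b2 : l ^ 2 = 1 := MonoidHom.ext fun n => Units.ext (by
      have c1 : conj (θ.1.1.1 n) = θ.1.1.1 n := congrFun (congrArg (fun t : U => t.1.1.1) e) n
      have c2 := linear_mul_conj (irr_char θ.1.1.2) (by rw [hl]; simp) n
      rw [c1, hl] at c2
      simpa [sq] using c2)
    have b3 : l = 1 := orderOf_eq_one_iff.1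
      (((Nat.dvd_prime Nat.prime_two).1 (orderOf_dvd_of_pow_eq_one b2)).resolve_right fun e' =>
        not_dvd_orderOf_hom Nat.prime_two (H4.pResidual_pResidual 2) l (by rw [e']))
    refine Subtype.ext (Subtype.ext (Subtype.ext (Subtype.ext ?_)))
    rw [hl, b3]
    rfl
  rw [h4] at h3
  have := (h2.trans h3).symm
  obtain ⟨c, hc⟩ := h1
  rw [hc, Nat.ModEq] at this
  omega

end Cfsg.Agent.H5.Sg
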