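import Cfsg.Agent.H5.Aff
import Cfsg.Agent.H22.Hol

/-! Fixed points of Sylow `2`-subgroups on modules of `{2,p,q}`-groups: a support argument. -/

set_option autoImplicit false
set_option linter.unusedSectionVars false

namespace Cfsg.Agent.H5g

open Cfsg Subgroup Cfsg.Agent.FT
open scoped commutatorElement

variable {G : Type*} [Group G] [Finite G] {A B B' P Q T V U Z : Subgroup G} {g x : G} {p q d : ℕ}

/-- hyperplanes -/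
def Hp (p : ℕ) (A B : Subgroup G) : Prop := B ≤ A ∧ B.relIndex A = p

theorem Hp.cj (h : Hp p A B) (hg : g ∈ N(A)) : Hp p A (cj g B) :=
  ⟨cj_le_of_nrm hg h.1, by rw [← cj_of_mem_nrm hg, relIndex_cj, h.2]⟩

/-- the hypotheses -/
structure Su (p q d : ℕ) (V A T Q Z : Subgroup G) : Prop where
  pp : p.Prime
  qp : q.Prime
  p2 : p ≠ 2
  q2 : q ≠ 2
  abV : Abelem 2 V
  ne : V ≠ ⊥
  abA : Abelem p A
  Ane : A ≠ ⊥
  AV : A ≤ N(V)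
  cA : V ⊓ C(A) = ⊥
  pT : PGrp 2 T
  cQ : #Q = q
  card : #(T ⊔ Q) = #T * #Q
  HV : T ⊔ Q ≤ N(V)
  HA : T ⊔ Q ≤ N(A)
  ZA : Z ≤ A
  ZT : Z ≤ C(T)
  free : ∀ B, Hp p A B → Q ≤ N(B) → V ⊓ C(B) = ⊥
  big : ∀ U, U ≤ V → U ≠ ⊥ → Z ≤ N(U) → 2 ^ d ≤ #U

namespace Su

theorem cop (h : Su p q d V A T Q Z) : Cop V A := (h.abV.pGrp Nat.prime_two).cop_of_ne (h.abA.pGrp h.pp) h.p2.symm

theorem ti (h : Su p q d V A T Q Z) (hB : Hp p A B) : ⁅V, B⁆ ⊓ C(B) = ⊥ :=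
  coprime_abel_cent_TI (hB.1.trans h.AV) (h.cop.mono_right hB.1) h.abV.ab

theorem ex (h : Su p q d V A T Q Z) (hU : U ≤ V) (hn : A ≤ N(U)) (h1 : U ≠ ⊥) : ∃ B, Hp p A B ∧ U ⊓ C(B) ≠ ⊥ := by
  by_contra! e
  exact h1 (le_bot_iff.1 (coprime_abelem_gen_cent h.pp h.abA h.Ane hn (h.cop.mono_left hU) fun B h1 h2 =>
    (e B ⟨h1, h2⟩).le))

theorem le_comm (h : Su p q d V A T Q Z) (hB : Hp p A B) (hB' : Hp p A B') (hne : B' ≠ B) : V ⊓ C(B') ≤ ⁅V, B⁆ := by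
  have e : B ⊔ B' = A := (maxIn_of_prime_relIndex (hB.2 ▸ h.pp) hB.1).sup_eq hB'.1 fun a => hne (eq_of_card_eq a (by
    have a1 := card_mul_relIndex hB.1
    have a2 := card_mul_relIndex hB'.1
    rw [hB.2] at a1; rw [hB'.2, ← a1] at a2
    exact Nat.eq_of_mul_eq_mul_right h.pp.pos a2))
  have n : B ≤ N(V ⊓ C(B')) := norms_subcent (hB.1.trans h.AV) (hB.1.trans (h.abA.ab.norms hB'.1))
  have d := coprime_abelian_cent_dprod n (h.cop.mono inf_le_left hB.1) (h.abV.ab.mono inf_le_left)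
  rw [← d.sup, inf_assoc, ← cen_sup, sup_comm B', e, h.cA, sup_bot_eq]
  exact commSS inf_le_left le_rfl

/-- elements with support in a set -/
def Vs (p : ℕ) (V A : Subgroup G) (O : Subgroup G → Prop) : Subgroup G :=
  V ⊓ ⨅ B : {B // Hp p A B ∧ ¬ O B}, ⁅V, B.1⁆

theorem mem_Vs {O : Subgroup G → Prop} : x ∈ Vs p V A O ↔ x ∈ V ∧ ∀ B, Hp p A B → ¬ O B → x ∈ ⁅V, B⁆ := by
  simp [Vs, mem_iInf]

theorem Vs_le {O : Subgroup G → Prop} : Vs p V A O ≤ V := inf_le_left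

theorem conj_Vs {O O' : Subgroup G → Prop} (hV : g ∈ N(V)) (hA : g ∈ N(A)) (hO : ∀ B, O B → O' (cj g B))
    (hx : x ∈ Vs p V A O) : g * x * g⁻¹ ∈ Vs p V A O' := by
  rw [mem_Vs] at hx ⊢
  refine ⟨conj_mem hV hx.1, fun B h1 h2 => ?_⟩
  have := conj_mem_cj (g := g).2 (hx.2 _ (h1.cj (inv_mem hA)) fun e => h2 (cj_cj_inv g B ▸ hO _ e))
  rwa [cj_comm, cj_cj_inv, cj_of_mem_nrm hV] at this

theorem nA (h : Su p q d V A T Q Z) (O : Subgroup G → Prop) : A ≤ N(Vs p V A O) :=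
  normsI h.AV (norms_iInf fun B => normsR h.AV (h.abA.ab.norms B.2.1.1))

theorem disj (h : Su p q d V A T Q Z) {O O' : Subgroup G → Prop} (hd : ∀ B, O B → ¬ O' B) :
    Vs p V A O ⊓ Vs p V A O' = ⊥ := by
  by_contra e
  obtain ⟨B, h1, h2⟩ := h.ex (inf_le_left.trans Vs_le) (normsI (h.nA O) (h.nA O')) e
  refine h2 (inf_eq_bot_mono (h.ti h1) (fun x hx => ?_) le_rfl)
  by_cases c : O B
  exacts [(mem_Vs.1 hx.2).2 B h1 (hd B c), (mem_Vs.1 hx.1).2 B h1 c]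

theorem Vs_big (h : Su p q d V A T Q Z) {O : Subgroup G → Prop} (hO : ∀ t ∈ T, ∀ B, O B → O (cj t B)) (hB : Hp p A B)
    (h1 : O B) (h2 : V ⊓ C(B) ≠ ⊥) : 2 ^ d ≤ #(Vs p V A O ⊓ C(T)) := by
  have n : T ≤ N(Vs p V A O) := le_nrm_iff.2 fun t ht x hx =>
    conj_Vs (h.HV (mem_sup_left ht)) (h.HA (mem_sup_left ht)) (hO t ht) hx
  refine h.big _ (inf_le_left.trans Vs_le) (h.pT.meet_cen ((h.abV.pGrp Nat.prime_two).mono Vs_le) n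
    (ne_bot_of_le (fun x hx => mem_Vs.2 ⟨(mem_inf.1 hx).1, fun B' k1 k2 => h.le_comm k1 hB (fun e => k2 (e ▸ h1)) hx⟩) h2))
    (norms_subcent (h.ZA.trans (h.nA O)) (cents_norm h.ZT))

theorem moves (h : Su p q d V A T Q Z) (hB : Hp p A B) (h2 : V ⊓ C(B) ≠ ⊥) (hx : x ∈ Q) (x1 : x ≠ 1) :
    ¬ ∀ t ∈ T, ∃ t' ∈ T, cj x (cj t B) = cj t' B := fun e => by
  have pQ : PGrp q Q := pGrp_of_card_prime h.qp h.cQ
  have key : ∀ y ∈ Q, ∃ t' ∈ T, cj y B = cj t' B := fun y hy => by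
    rw [eq_zpowers_of_prime (h.cQ ▸ h.qp) hx x1, ← mem_powers_iff_mem_zpowers] at hy
    obtain ⟨k, rfl⟩ := hy
    induction k with
    | zero => exact ⟨1, one_mem _, by simp⟩
    | succ k ih =>
      obtain ⟨t, ht, e1⟩ := ih
      obtain ⟨t', ht', e2⟩ := e t ht
      exact ⟨t', ht', by simp only at e1 ⊢; rw [pow_succ', ← cj_cj, e1, e2]⟩
  have i : T ⊓ Q = ⊥ := (h.pT.cop_of_ne pQ h.q2.symm).inf
  have m : MulEq T Q (T ⊔ Q) := mulEq_of_card le_sup_left le_sup_right (by rw [i, card_bot', mul_one, h.card])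
  have m' : MulEq T ((T ⊔ Q) ⊓ N(B)) (T ⊔ Q) := ⟨le_sup_left, inf_le_left, fun u hu => by
    obtain ⟨t, ht, y, hy, rfl⟩ := m.mul u hu
    obtain ⟨t', ht', e⟩ := key y hy
    exact ⟨t * t', mul_mem ht ht', t'⁻¹ * y, ⟨mul_mem_sup (inv_mem ht') hy, cj_eq_cj_iff.1 e⟩, by group⟩⟩
  have sQ : Syl q Q (T ⊔ Q) := m.hall_right' (h.pT.p' h.q2.symm) pQ
  obtain ⟨R, hR, r1⟩ := (p'nat_relIndex_iff (p := q) inf_le_left).1
    (m'.relIndex_right ▸ (h.pT.p' h.q2.symm).relIndex _)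
  obtain ⟨g, hg, rfl⟩ := hR.syl_trans sQ
  refine h2 ?_
  have := h.free _ (hB.cj (h.HA hg)) (cj_norms.2 (r1.trans inf_le_right))
  rwa [← cj_cen, ← cj_of_mem_nrm (h.HV hg), ← cj_inf, cj_eq_bot] at this

theorem main (h : Su p q d V A T Q Z) : 2 ^ d * 2 ^ d ≤ #(V ⊓ C(T)) ∧
    (Q ≤ N(V ⊓ C(T)) → 2 ^ d * (2 ^ d * 2 ^ d) ≤ #(V ⊓ C(T))) := by
  obtain ⟨B, hB, h2⟩ := h.ex le_rfl h.AV h.ne
  let O : Subgroup G → Prop := fun X => ∃ t ∈ T, X = cj t B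
  have o1 : ∀ t ∈ T, ∀ X, O X → O (cj t X) := by
    rintro t ht _ ⟨t', ht', rfl⟩; exact ⟨t * t', mul_mem ht ht', cj_cj _ _ _⟩
  have o2 : ∀ t ∈ T, ∀ X, ¬ O X → ¬ O (cj t X) := fun t ht X hn e => hn (cj_inv_cj t X ▸ o1 _ (inv_mem ht) _ e)
  obtain ⟨x, hx, x1⟩ := exists_ne_one (ne_bot_of_prime_card (h.cQ ▸ h.qp))
  have TV : T ≤ N(V) := le_sup_left.trans h.HV
  have TA : T ≤ N(A) := le_sup_left.trans h.HA
  have QV : Q ≤ N(V) := le_sup_right.trans h.HV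
  have QA : Q ≤ N(A) := le_sup_right.trans h.HA
  have b1 := h.Vs_big o1 hB ⟨1, one_mem _, (cj_one B).symm⟩ h2
  have b2 : 2 ^ d ≤ #(Vs p V A (fun X => ¬ O X) ⊓ C(T)) := by
    have := h.moves hB h2 hx x1
    push Not at this
    obtain ⟨t, ht, e⟩ := this
    refine h.Vs_big o2 ((hB.cj (TA ht)).cj (QA hx)) (fun ⟨t', ht', a⟩ => e t' ht' a) ?_
    rwa [← cj_cen, ← cj_cen, ← cj_of_mem_nrm (QV hx), ← cj_inf, ← cj_of_mem_nrm (TV ht), ← cj_inf, Ne, cj_eq_bot,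
      cj_eq_bot]
  have prod : ∀ {X Y W : Subgroup G}, X ≤ W → Y ≤ W → X ⊓ Y = ⊥ → #X * #Y ≤ #W := fun h1 h2 h3 => by
    have := card_mul_le h1 h2
    rwa [h3, card_bot', mul_one] at this
  have dj : Vs p V A O ⊓ C(T) ⊓ (Vs p V A (fun X => ¬ O X) ⊓ C(T)) = ⊥ :=
    inf_eq_bot_mono (h.disj fun _ a b => b a) inf_le_left inf_le_left
  have b3 := prod (inf_le_inf_right C(T) Vs_le) (inf_le_inf_right C(T) Vs_le) dj
  refine ⟨(Nat.mul_le_mul b1 b2).trans b3, fun hn => le_trans (Nat.mul_le_mul b1 ?_) b3⟩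
  have key : ∀ y ∈ Q, y ≠ 1 → cj y (Vs p V A O ⊓ C(T)) ≤ Vs p V A (fun X => ¬ O X) ⊓ C(T) := by
    intro y hy y1 w hw
    have hwC : w ∈ V ⊓ C(T) := cj_le_of_nrm (hn hy) (inf_le_inf_right _ Vs_le) hw
    refine ⟨mem_Vs.2 ⟨hwC.1, fun X k1 k2 => ?_⟩, hwC.2⟩
    by_contra c
    obtain ⟨t₀, ht₀, rfl⟩ := not_not.1 k2
    refine h.moves hB h2 (inv_mem hy) (inv_ne_one.2 y1) fun t ht => ?_
    by_contra c'
    have a := (mem_Vs.1 (mem_cj.1 hw).1).2 _ ((hB.cj (TA ht)).cj (QA (inv_mem hy))) c'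
    rw [← cj_of_mem_nrm (QV (inv_mem hy)), ← cj_comm, mem_cj, inv_inv,
      show y * (y⁻¹ * w * y) * y⁻¹ = w by group] at a
    refine c ?_
    have b := conj_mem_cj (g := t₀ * t⁻¹).2 a
    rwa [mem_cen.1 hwC.2 _ (mul_mem ht₀ (inv_mem ht)), mul_inv_cancel_right, cj_comm,
      cj_of_mem_nrm (TV (mul_mem ht₀ (inv_mem ht))), cj_cj, inv_mul_cancel_right] at b
  have x2 : x * x ≠ 1 := fun e => h.q2 ((Nat.prime_dvd_prime_iff_eq h.qp Nat.prime_two).1 (by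
    rw [← h.cQ, eq_zpowers_of_prime (h.cQ ▸ h.qp) hx x1, card_zpowers']
    exact orderOf_dvd_of_pow_eq_one (by rw [pow_two, e])))
  have b4 := prod (key x hx x1) (key _ (mul_mem hx hx) x2) (by
    rw [← cj_cj, ← cj_inf, cj_eq_bot]; exact inf_eq_bot_mono dj le_rfl (key x hx x1))
  rw [card_cj, card_cj] at b4
  exact (Nat.mul_le_mul b1 b1).trans b4

end Su

end Cfsg.Agent.H5g
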