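import Cfsg.Agent.H5.Supp

/-! Extension of scalars via `Hom(k, E)`. -/

set_option autoImplicit false
set_option linter.unusedSectionVars false

namespace Cfsg.Agent.H5g

open Cfsg Subgroup Cfsg.Agent.FT
open scoped commutatorElement

instance fact_two_Supp : Fact (Nat.Prime 2) := ⟨Nat.prime_two⟩

variable {S E k : Type*} [Group S] [Finite S] [AddCommGroup E] [Module (ZMod 2) E] [Finite E]
  [Field k] [Algebra (ZMod 2) k] [Finite k] (ρ : Representation (ZMod 2) S E)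

variable (k) in
/-- the extended representation -/
noncomputable def ext : Representation (ZMod 2) (S × kˣ) (k →ₗ[ZMod 2] E) where
  toFun g := (LinearMap.llcomp (ZMod 2) k E E (ρ g.1)).comp (LinearMap.lcomp (ZMod 2) E (LinearMap.mulLeft (ZMod 2) (g.2 : k)))
  map_one' := by ext f a; simp
  map_mul' g h := by ext f a; simp [mul_left_comm, mul_assoc]

theorem ext_apply (g : S × kˣ) (f : k →ₗ[ZMod 2] E) (a : k) : ext k ρ g f a = ρ g.1 (f (g.2 * a)) := rfl

instance finite_ext : Finite (k →ₗ[ZMod 2] E) := Finite.of_injective _ DFunLike.coe_injective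

theorem card_ext (T : Subgroup S) : Nat.card {f : k →ₗ[ZMod 2] E // ∀ b ∈ T.map (MonoidHom.inl S kˣ), ext k ρ b f = f} =
    Nat.card {v : E // ∀ s ∈ T, ρ s v = v} ^ Module.finrank (ZMod 2) k := by
  let b := Module.finBasis (ZMod 2) k
  rw [← Nat.card_fin (Module.finrank (ZMod 2) k), ← Nat.card_fun]
  refine Nat.card_congr (Equiv.ofBijective (fun f i => ⟨f.1 (b i), fun s hs => by
    simpa [ext_apply] using congrArg (fun g => g (b i)) (f.2 _ (mem_map_of_mem _ hs))⟩) ⟨fun f g e =>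
      Subtype.ext (b.ext fun i => congrArg Subtype.val (congrFun e i)), fun v => ⟨⟨b.constr (ZMod 2) fun i => v i, ?_⟩,
        funext fun i => Subtype.ext (by simp)⟩⟩)
  rintro _ ⟨s, hs, rfl⟩
  have : (ρ s).comp (b.constr (ZMod 2) fun i => (v i : E)) = b.constr (ZMod 2) fun i => (v i : E) :=
    b.ext fun i => by simp [(v i).2 s hs]
  ext a
  simpa [ext_apply] using congrArg (fun g => g a) this

theorem fix_bound {p q : ℕ} (hp : p.Prime) (hq : q.Prime) (hp2 : p ≠ 2) (hq2 : q ≠ 2) (hpq : p ≠ q) {T P Q : Subgroup S}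
    (hT : PGrp 2 T) (hP : Abelem p P) (nP : P.Normal) (hQ : #Q = q) (hc : #(T ⊔ Q) = #T * #Q) (hcomm : ⁅P, Q⁆ = P)
    [Nontrivial E] (hfix : ∀ v : E, (∀ x ∈ P, ρ x v = v) → v = 0) :
    4 ≤ Nat.card {v : E // ∀ s ∈ T, ρ s v = v} ∧
      ((∀ x ∈ Q, ∀ v : E, (∀ s ∈ T, ρ s v = v) → ∀ s ∈ T, ρ s (ρ x v) = ρ x v) →
        8 ≤ Nat.card {v : E // ∀ s ∈ T, ρ s v = v}) := by
  classical
  have ex : ∃ d, 0 < d ∧ p ∣ 2 ^ d - 1 := ⟨p - 1, by have := hp.two_le; omega, (Nat.modEq_iff_dvd' Nat.one_le_two_pow).1 (by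
    have := Nat.ModEq.pow_totient ((Nat.coprime_primes Nat.prime_two hp).2 hp2.symm)
    rw [Nat.totient_prime hp] at this; exact this.symm)⟩
  obtain ⟨d0, d1⟩ := Nat.find_spec ex
  set d := Nat.find ex
  let k := GaloisField 2 d
  have fk : Module.finrank (ZMod 2) k = d := GaloisField.finrank 2 d0.ne'
  have : Fact p.Prime := ⟨hp⟩
  obtain ⟨ζ, hζ⟩ : ∃ ζ : kˣ, orderOf ζ = p := exists_prime_orderOf_dvd_card' p (by
    rw [Nat.card_units, GaloisField.card 2 d d0.ne']; exact d1)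
  have ζ1 : (ζ : k) - 1 ≠ 0 := fun e => hp.one_lt.ne' (by
    rw [← hζ, orderOf_eq_one_iff]; exact Units.ext (sub_eq_zero.1 e))
  let σ := ext k ρ
  let j : S →* Aff σ := (li σ).comp (MonoidHom.inl S kˣ)
  have ji : Function.Injective j := (li_inj σ).comp (Prod.mk_left_injective 1)
  have jm : ∀ B : Subgroup S, B.map j = (B.map (MonoidHom.inl S kˣ)).map (li σ) := fun B => (map_map _ _ _).symm
  let z : Aff σ := li σ (1, ζ)
  have zc : ∀ B : Subgroup S, ⟪z⟫ ≤ C(B.map j) := fun B => zpowers_le.2 (mem_cen.2 (by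
    rintro _ ⟨b, -, rfl⟩
    change li σ (b, 1) * li σ (1, ζ) = li σ (1, ζ) * li σ (b, 1)
    rw [← map_mul, ← map_mul]; simp))
  have oz : orderOf z = p := by
    rw [orderOf_injective _ (li_inj σ), ← hζ]
    exact orderOf_injective (MonoidHom.inr S kˣ) (Prod.mk_right_injective 1) ζ
  have cz : #⟪z⟫ = p := (card_zpowers' z).trans oz
  have nV : ∀ B : Subgroup S, B.map j ≤ N(tsub σ ⊤) := fun B => jm B ▸ norms_tsub_top σ _
  have nz : ⟪z⟫ ≤ N(tsub σ ⊤) := zpowers_le.2 (norms_tsub_top σ ⊤ (mem_map_of_mem _ trivial))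
  have cZ : tsub σ ⊤ ⊓ C(⟪z⟫) = ⊥ := eq_bot_iff.2 (by
    rintro _ ⟨⟨f, -, rfl⟩, hf⟩
    rw [cen_zpowers] at hf
    have := (tr_cen1 σ).1 hf
    refine (tr_eq_one σ).2 (LinearMap.ext fun a => ?_)
    have b := congrArg (fun g => g (a / (ζ - 1))) this
    simp only [σ, ext_apply, map_one, Module.End.one_apply] at b
    rw [← sub_eq_zero, ← map_sub, show (ζ : k) * (a / (ζ - 1)) - a / (ζ - 1) = a by rw [← sub_one_mul, mul_div_cancel₀ _ ζ1]] at b
    exact b)
  have cP : tsub σ ⊤ ⊓ C(P.map j) = ⊥ := eq_bot_iff.2 (by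
    rintro _ ⟨⟨f, -, rfl⟩, hf⟩
    rw [jm] at hf
    refine (tr_eq_one σ).2 (LinearMap.ext fun a => hfix _ fun x hx => ?_)
    simpa [σ, ext_apply] using congrArg (fun g => g a) ((tr_cen σ).1 hf _ (mem_map_of_mem _ hx)))
  have pQ : PGrp q (Q.map j) := (pGrp_of_card_prime hq hQ).map j
  have abA : Abelem p (P.map j ⊔ ⟪z⟫) := (hP.map j).sup (abelem_of_card_prime hp cz) (zc P)
  have nA : ∀ B : Subgroup S, B.map j ≤ N(P.map j ⊔ ⟪z⟫) := fun B =>
    normsY (map_norms j (le_top.trans (nml_top_iff.2 nP).nrm)) (cents_norm (centsC (zc B)))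
  have : Nontrivial (k →ₗ[ZMod 2] E) := by
    obtain ⟨v, hv⟩ := exists_ne (0 : E)
    let b := Module.finBasis (ZMod 2) k
    exact ⟨b.constr (ZMod 2) fun _ => v, 0, fun e => hv (by
      have := congrArg (fun g => g (b ⟨0, by rw [fk]; exact d0⟩)) e
      simpa only [Module.Basis.constr_basis, LinearMap.zero_apply] using this)⟩
  have su : Su p q d (tsub σ ⊤) (P.map j ⊔ ⟪z⟫) (T.map j) (Q.map j) ⟪z⟫ :=
    { pp := hp, qp := hq, p2 := hp2, q2 := hq2, abV := abelem_tsub σ _, ne := tsub_top_ne σ, abA := abA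
      Ane := ne_bot_of_le le_sup_right (ne_bot_of_prime_card (cz ▸ hp))
      AV := sup_le (nV P) nz
      cA := inf_eq_bot_mono cZ le_rfl (cen_anti le_sup_right)
      pT := hT.map j
      cQ := (card_map_inj ji Q).trans hQ
      card := by rw [← Subgroup.map_sup, card_map_inj ji, card_map_inj ji, card_map_inj ji, hc]
      HV := sup_le (nV T) (nV Q)
      HA := sup_le (nA T) (nA Q)
      ZA := le_sup_right
      ZT := zc T
      free := fun B hB hn => by
        have cp : Cop (P.map j ⊔ ⟪z⟫) (Q.map j) := (abA.pGrp hp).cop_of_ne pQ hpq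
        have e1 : ⁅P.map j ⊔ ⟪z⟫, Q.map j⁆ = P.map j := by
          rw [(mulEq_sup (cents_norm (zc P))).comm_eq_of_cents (zc Q), ← map_commutator, hcomm]
        have e2 := coprime_abelian_cent_dprod (nA Q) cp abA.ab
        have e3 := coprime_abelian_cent_dprod hn (cp.mono_left hB.1) (abA.ab.mono hB.1)
        by_cases c : ⟪z⟫ ≤ B
        · exact inf_eq_bot_mono cZ le_rfl (cen_anti c)
        refine inf_eq_bot_mono cP le_rfl (cen_anti ?_)
        have e4 : B ⊔ ⟪z⟫ = P.map j ⊔ ⟪z⟫ := (maxIn_of_prime_relIndex (hB.2 ▸ hp) hB.1).sup_eq le_sup_right c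
        rw [← e1, ← e4, (mulEq_sup (le_sup_right.trans (abA.ab.norms hB.1))).comm_eq_of_cents (zc Q)]
        exact comm_le_left hn
      big := fun U h1 h2 h3 => by
        obtain ⟨n, hn⟩ := ((abelem_tsub σ ⊤).mono h1).card Nat.prime_two
        have a := P22.card_modEq_cen hp (pGrp_of_card_prime hp cz) h3
        rw [inf_eq_bot_mono cZ h1 le_rfl, card_bot', hn] at a
        have b := one_lt_card h2
        rw [hn] at b ⊢
        exact Nat.pow_le_pow_right (by norm_num) (Nat.find_min' ex ⟨Nat.pos_of_ne_zero (by rintro rfl; simp at b),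
          (Nat.modEq_iff_dvd' Nat.one_le_two_pow).1 a.symm⟩) }
  obtain ⟨m1, m2⟩ := su.main
  have e : #(tsub σ ⊤ ⊓ C(T.map j)) = Nat.card {v : E // ∀ s ∈ T, ρ s v = v} ^ d := by
    rw [jm, card_fix, card_ext, fk]
  rw [e] at m1 m2
  refine ⟨(Nat.pow_le_pow_iff_left d0.ne').1 (by rwa [← mul_pow] at m1), fun h =>
    (Nat.pow_le_pow_iff_left d0.ne').1 (by
      rw [← mul_pow, ← mul_pow] at m2
      refine m2 (le_nrm_iff.2 ?_)
      rintro _ ⟨x, hx, rfl⟩ _ ⟨⟨f, -, rfl⟩, hf⟩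
      rw [jm] at hf ⊢
      change li σ (x, 1) * _ * (li σ (x, 1))⁻¹ ∈ _
      rw [li_tr]
      refine ⟨⟨_, trivial, rfl⟩, (tr_cen σ).2 ?_⟩
      rintro _ ⟨s, hs, rfl⟩
      ext a
      simp only [σ, ext_apply, MonoidHom.inl_apply, Units.val_one, one_mul]
      refine h x hx _ (fun t ht => ?_) s hs
      simpa [σ, ext_apply] using congrArg (fun g => g a) ((tr_cen σ).1 hf _ (mem_map_of_mem _ ht)))⟩

end Cfsg.Agent.H5g
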