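import Cfsg.Agent.H1.Coprime2
import Cfsg.Agent.H2.Cores
import Cfsg.Agent.H16.FCStruct
import Cfsg.Agent.FT.Main

/-! Non-normal Hall TI-subgroups of `π`-separable groups. -/

set_option autoImplicit false
set_option linter.unusedSectionVars false
set_option linter.unusedVariables false

namespace Cfsg.Agent.H5.TI

open Subgroup Cfsg.Agent.H1
open scoped commutatorElement Pointwise

variable {G : Type*} [Group G] [Finite G] {H : Subgroup G}

/-- the largest normal subgroup of order coprime to that of `H` -/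
def OO (H : Subgroup G) : Subgroup G :=
  sSup {K : Subgroup G | K.Normal ∧ (Nat.card K).Coprime (Nat.card H)}

theorem le_OO {K : Subgroup G} (hK : K.Normal) (h : (Nat.card K).Coprime (Nat.card H)) :
    K ≤ OO H := le_sSup ⟨hK, h⟩

theorem cop_sup {A B : Subgroup G} {n : ℕ} (h : A ≤ normalizer (B : Set G))
    (hA : (Nat.card A).Coprime n) (hB : (Nat.card B).Coprime n) :
    (Nat.card (A ⊔ B : Subgroup G)).Coprime n :=
  (Nat.Coprime.mul_left hA hB).coprime_dvd_left (H2.card_sup_dvd_of_le_normalizer h)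

theorem OO_mem (H : Subgroup G) : (OO H).Normal ∧ (Nat.card (OO H)).Coprime (Nat.card H) := by
  obtain ⟨K, -, hK⟩ := exists_maximal_ge_of_wellFoundedGT
    (fun K : Subgroup G => K.Normal ∧ (Nat.card K).Coprime (Nat.card H)) ⊥
    ⟨inferInstance, by simp⟩
  obtain ⟨h1, h2⟩ := hK.prop
  have : OO H = K := by
    refine le_antisymm (sSup_le fun L hL => ?_) (le_OO h1 h2)
    obtain ⟨h3, h4⟩ := hL
    have := hK.le_of_ge (y := L ⊔ K) ⟨inferInstance, cop_sup le_normalizer_of_normal h4 h2⟩ le_sup_right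
    exact le_sup_left.trans this
  rw [this]; exact ⟨h1, h2⟩

instance OO_normal (H : Subgroup G) : (OO H).Normal := (OO_mem H).1

theorem sol_or {A B : Subgroup G} (h : (Nat.card A).Coprime (Nat.card B)) :
    Group.IsSolvable A ∨ Group.IsSolvable B := by
  rcases Nat.even_or_odd (Nat.card A) with h1 | h1
  · refine Or.inr (FT.odd_order_solvable ?_)
    rw [← Nat.coprime_two_left]
    exact h.coprime_dvd_left h1.two_dvd
  · exact Or.inl (FT.odd_order_solvable h1)

section
variable (hTI : Cfsg.IsTISubset (H : Set G))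
include hTI

theorem mem_nrm {x g : G} (hx : x ∈ H) (h1 : x ≠ 1) (hg : g * x * g⁻¹ ∈ H) :
    g ∈ normalizer (H : Set G) := by
  by_contra h
  exact h1 (hTI g h x hx hg)

theorem nrm_le {P : Subgroup G} (hP : P ≤ H) (h1 : P ≠ ⊥) :
    normalizer (P : Set G) ≤ normalizer (H : Set G) := by
  obtain ⟨⟨x, hx⟩, h⟩ := (ne_bot_iff_exists_ne_one).1 h1
  intro g hg
  exact mem_nrm hTI (hP hx) (fun e => h (Subtype.ext e)) (hP ((hg x).1 hx))

variable (hHall : (Nat.card H).Coprime (H.subgroupOf (normalizer (H : Set G))).index)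
include hHall

theorem syl {p : ℕ} (hp : p.Prime) (hd : p ∣ Nat.card H) {P : Subgroup G}
    (hP : IsPiHallOf {p} P H) : IsPiHallOf {p} P ⊤ := by
  have := Fact.mk hp
  have h1 : P ≠ ⊥ := by
    rintro rfl
    refine hP.2.2 p hp rfl ?_
    rwa [relIndex_bot_left]
  have h2 : IsPiHallOf {p} P (normalizer (H : Set G)) :=
    hallOf_trans hP le_normalizer ((isPiNum_compl_singleton_iff hp).2
      (hHall.symm.coprime_dvd_right hd))
  refine hallOf_singleton_of_normalizer (hallOf_of_le h2 (le_inf le_top le_normalizer) ?_)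
  exact inf_le_right.trans (nrm_le hTI hP.1 h1)

theorem exists_syl {p : ℕ} (hp : p.Prime) (hd : p ∣ Nat.card H) :
    ∃ P : Subgroup G, P ≤ H ∧ IsPiHallOf {p} P ⊤ := by
  have := Fact.mk hp
  obtain ⟨P, hP, -⟩ := exists_sylowOf_ge (p := p) (bot_le : ⊥ ≤ H) IsPGroup.of_bot
  exact ⟨P, hP.1, syl hTI hHall hp hd hP⟩

end

theorem exists_K (hnn : ¬ H.Normal)
    (hsep : ∃ (n : ℕ) (M : Fin (n + 1) → Subgroup G), M 0 = ⊥ ∧ M (Fin.last n) = ⊤ ∧ Monotone M ∧
      (∀ i, (M i).Normal) ∧
      ∀ i : Fin n, (∀ q : ℕ, q.Prime → q ∣ (M i.castSucc).relIndex (M i.succ) → q ∣ Nat.card H) ∨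
        ((M i.castSucc).relIndex (M i.succ)).Coprime (Nat.card H)) :
    ∃ K : Subgroup G, K.Normal ∧ ¬ K ≤ OO H ∧
      ∀ q : ℕ, q.Prime → q ∣ (OO H).relIndex K → q ∣ Nat.card H := by
  obtain ⟨n, M, h0, hl, hm, hn, hs⟩ := hsep
  by_contra hne
  have key : ∀ i, M i ≤ OO H := by
    intro i
    induction i using Fin.induction with
    | zero => rw [h0]; exact bot_le
    | succ i ih =>
      have hle : M i.castSucc ≤ M i.succ := hm (Fin.castSucc_le_succ i)
      rcases hs i with h | h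
      · by_contra h'
        exact hne ⟨M i.succ, hn _, h', fun q hq hd => h q hq (hd.trans (relIndex_dvd_of_le_left _ ih))⟩
      · refine le_OO (hn _) ?_
        rw [← H2.card_mul_relIndex hle]
        exact Nat.Coprime.mul_left ((OO_mem H).2.coprime_dvd_left (card_dvd_of_le ih)) h
  have h1 : H ≤ OO H := le_top.trans (hl ▸ key _)
  have h2 : Nat.card H = 1 := Nat.eq_one_of_dvd_coprimes (OO_mem H).2 (card_dvd_of_le h1) dvd_rfl
  rw [card_eq_one] at h2
  exact hnn (h2 ▸ inferInstance)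

theorem frattini_le {p : ℕ} [Fact p.Prime] {K P : Subgroup G} [K.Normal]
    (hP : IsPiHallOf {p} P K) : K ⊔ normalizer (P : Set G) = ⊤ := by
  refine top_le_iff.1 fun g _ => ?_
  obtain ⟨k, hk, e⟩ := sylowOf_exists_conj
    (hallOf_conj_of_mem_normalizer hP (g := g) (le_normalizer_of_normal (mem_top g))) hP
  rw [conj_smul_conj_smul, ← mem_normalizer_iff_conj_smul_eq] at e
  have : g = k⁻¹ * (k * g) := by group
  rw [this]
  exact mul_mem (mem_sup_left (inv_mem hk)) (mem_sup_right e)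

theorem sup_top (hTI : Cfsg.IsTISubset (H : Set G))
    (hHall : (Nat.card H).Coprime (H.subgroupOf (normalizer (H : Set G))).index)
    {K : Subgroup G} [hK : K.Normal] (h1 : ¬ K ≤ OO H)
    (h2 : ∀ q : ℕ, q.Prime → q ∣ (OO H).relIndex K → q ∣ Nat.card H) :
    OO H ⊔ normalizer (H : Set G) = ⊤ := by
  have hKO : K ≤ OO H ⊔ H := by
    refine le_of_forall_sylowOf_le fun q hq hd => ?_
    have := Fact.mk hq
    by_cases h : q ∣ Nat.card H
    · obtain ⟨P, hPH, hP⟩ := exists_syl hTI hHall hq h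
      exact ⟨P ⊓ K, hallOf_inf_of_le_normalizer hP le_top le_normalizer_of_normal,
        inf_le_left.trans (hPH.trans le_sup_right)⟩
    · obtain ⟨P, hP, -⟩ := exists_sylowOf_ge (p := q) (bot_le : ⊥ ≤ OO H ⊓ K) IsPGroup.of_bot
      refine ⟨P, hallOf_trans hP inf_le_right ?_, (hP.1.trans inf_le_left).trans le_sup_left⟩
      rw [inf_relIndex_right, isPiNum_compl_singleton_iff hq, Nat.coprime_comm, hq.coprime_iff_not_dvd]
      exact fun hd' => h (h2 q hq hd')
  obtain ⟨p, hp, hd⟩ := Nat.exists_prime_and_dvd (fun e => h1 (relIndex_eq_one.1 e))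
  have := Fact.mk hp
  obtain ⟨P, hPH, hP⟩ := exists_syl hTI hHall hp (h2 p hp hd)
  have hP' := hallOf_inf_of_le_normalizer hP (le_top : K ≤ ⊤) le_normalizer_of_normal
  have hne : P ⊓ K ≠ ⊥ := by
    intro e
    rw [e] at hP'
    refine hP'.2.2 p hp rfl ?_
    rw [relIndex_bot_left]
    exact hd.trans (relIndex_dvd_card _ _)
  refine top_le_iff.1 ((frattini_le hP').ge.trans (sup_le (hKO.trans ?_) ?_))
  · exact sup_le_sup_left le_normalizer _
  · exact (nrm_le hTI (inf_le_left.trans hPH) hne).trans le_sup_right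

theorem sup_normal (h : OO H ⊔ normalizer (H : Set G) = ⊤) : (OO H ⊔ H).Normal := by
  rw [← normalizer_eq_top_iff, ← top_le_iff, ← h]
  exact sup_le (le_sup_left.trans le_normalizer) (le_normalizer_sup le_normalizer_of_normal le_rfl)

/-- the action of `Aut X` on the quotient by the derived subgroup -/
def autAb (X : Type*) [Group X] : MulAut X →* MulAut (X ⧸ commutator X) :=
  MonoidHom.mk' (fun φ => QuotientGroup.congr _ _ φ
    (characteristic_iff_map_eq.1 (inferInstance : (commutator X).Characteristic) φ)) fun φ ψ => by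
    ext x
    obtain ⟨x, rfl⟩ := QuotientGroup.mk_surjective x
    rfl

theorem autAb_mk {X : Type*} [Group X] (φ : MulAut X) (x : X) :
    autAb X φ (x : X ⧸ commutator X) = (φ x : X) := rfl

theorem noInt (hTI : Cfsg.IsTISubset (H : Set G)) (hnn : ¬ H.Normal)
    (h : OO H ⊔ normalizer (H : Set G) = ⊤) : H16.NoInt H := by
  have hcop := (OO_mem H).2
  have h1 : ¬ OO H ≤ centralizer (H : Set G) := fun h' => hnn (by
    rw [← normalizer_eq_top_iff, ← top_le_iff, ← h]
    exact sup_le (h'.trans (centralizer_le_normalizer _)) le_rfl)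
  obtain ⟨r, hr, R, hR, hn, hc⟩ : ∃ r : ℕ, r.Prime ∧ ∃ R : Subgroup G, IsPiHallOf {r} R (OO H) ∧
      H ≤ normalizer (R : Set G) ∧ ¬ R ≤ centralizer (H : Set G) := by
    by_contra hne
    refine h1 (le_of_forall_sylowOf_le fun r hr _ => ?_)
    have := Fact.mk hr
    obtain ⟨R, hR, hn⟩ := exists_invariant_sylowOf H (OO H) le_normalizer_of_normal hcop.symm
      (sol_or hcop.symm) r
    refine ⟨R, hR, ?_⟩
    by_contra hc
    exact hne ⟨r, hr, R, hR, hn, hc⟩
  have := Fact.mk hr
  have hRp : IsPGroup r R := isPGroup_iff_isPiNum.2 (hallOf_card hR)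
  set K := ⁅R, H⁆ with hKdef
  have hKR : K ≤ R := commutator_le_left_of_le_normalizer hn
  have hHK : H ≤ normalizer (K : Set G) := normalizer_commutator_ge_right R H
  have hKO : K ≤ OO H := hKR.trans hR.1
  have hcK : (Nat.card H).Coprime (Nat.card K) := hcop.symm.coprime_dvd_right (card_dvd_of_le hKO)
  have hKK : ⁅K, H⁆ = K := commutator_commutator_eq H R hn
    (hcop.symm.coprime_dvd_right (card_dvd_of_le hR.1))
  have hK1 : K ≠ ⊥ := fun e => hc (commutator_eq_bot_iff_le_centralizer.1 e)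
  have hKs : Group.IsSolvable K := isSolvable_of_isPGroup (hRp.to_le hKR)
  have hlt := commutator_self_lt hKs hK1
  have hLK : ⁅K, K⁆ ≤ K := hlt.le
  have hmem : ∀ x : K, x ∈ commutator K ↔ (x : G) ∈ ⁅K, K⁆ := fun x => by
    rw [← map_subtype_commutator]
    exact (mem_map_iff_mem K.subtype_injective).symm
  have hnt : Nontrivial (K ⧸ commutator K) := by
    obtain ⟨x, hx, hx'⟩ := SetLike.exists_of_lt hlt
    exact ⟨⟨((⟨x, hx⟩ : K) : K ⧸ commutator K), 1, fun e =>
      hx' ((hmem _).1 ((QuotientGroup.eq_one_iff _).1 e))⟩⟩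
  refine H16.FreeAut.noInt (K := K ⧸ commutator K)
    (φ := (autAb K).comp (K.normalizerMonoidHom.comp (inclusion hHK))) ?_
  intro g hg k e
  obtain ⟨k, rfl⟩ := QuotientGroup.mk_surjective k
  rw [MonoidHom.comp_apply, autAb_mk, eq_comm, QuotientGroup.eq, hmem] at e
  change (k : G)⁻¹ * (g * k * (g : G)⁻¹) ∈ _ at e
  have hz : zpowers (g : G) ≤ H := zpowers_le.2 g.2
  have hzL : H ≤ normalizer ((⁅K, K⁆ : Subgroup G) : Set G) := le_normalizer_commutator hHK hHK
  obtain ⟨n, hn', hcen⟩ := exists_mul_mem_centralizer' (zpowers (g : G)) ⁅K, K⁆ (hz.trans hzL)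
    (coprime_of_le hcK hz hLK) (Or.inl (isSolvable_zpowers _)) k (by
      have hall : ∀ m : ℕ, (k : G)⁻¹ * ((g : G) ^ m * k * ((g : G) ^ m)⁻¹) ∈ ⁅K, K⁆ := by
        intro m
        induction m with
        | zero => simp
        | succ m ih =>
          have h3 := conj_mem_of_le_normalizer hzL g.2 ih
          have : (k : G)⁻¹ * ((g : G) ^ (m + 1) * k * ((g : G) ^ (m + 1))⁻¹) =
              ((k : G)⁻¹ * (g * k * (g : G)⁻¹)) *
                (g * ((k : G)⁻¹ * ((g : G) ^ m * k * ((g : G) ^ m)⁻¹)) * (g : G)⁻¹) := by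
            rw [pow_succ']; group
          rw [this]; exact mul_mem e h3
      intro a ha
      obtain ⟨m, rfl⟩ := (Submonoid.mem_powers_iff _ _).1 (mem_powers_iff_mem_zpowers.2 ha)
      exact hall m)
  have hcK' : (k : G) * n ∈ K := mul_mem k.2 (hLK hn')
  have hcN : (k : G) * n ∈ normalizer (H : Set G) := by
    refine mem_nrm hTI g.2 (fun e => hg (Subtype.ext e)) ?_
    rw [← hcen g (mem_zpowers _), mul_inv_cancel_right]
    exact g.2
  have hcC : (k : G) * n ∈ centralizer (H : Set G) := by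
    intro y hy
    have h3 : ((k : G) * n) * y * ((k : G) * n)⁻¹ * y⁻¹ ∈ H := mul_mem ((hcN y).1 hy) (inv_mem hy)
    have h4 : ((k : G) * n) * y * ((k : G) * n)⁻¹ * y⁻¹ ∈ OO H := by
      rw [mul_assoc, mul_assoc]
      exact mul_mem (hKO hcK') (by
        rw [← mul_assoc]; exact (OO_normal H).conj_mem _ (inv_mem (hKO hcK')) y)
    have h5 := (disjoint_def.1 (disjoint_of_coprime_natCard hcop)) h4 h3
    rw [mul_inv_eq_one, mul_inv_eq_iff_eq_mul] at h5
    exact h5.symm
  have h6 := centralizer_inf_commutator_le H K hHK hcK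
    (show (k : G) * n ∈ _ from ⟨⟨hcK', hcC⟩, hKK.symm ▸ hcK'⟩)
  rw [QuotientGroup.eq_one_iff, hmem]
  have := mul_mem h6 (inv_mem hn')
  rwa [mul_inv_cancel_right] at this

end Cfsg.Agent.H5.TI
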