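import Cfsg.Agent.H5.TI1

/-! Non-normal Hall TI-subgroups of `π`-separable groups: the two theorems. -/

set_option autoImplicit false
set_option linter.unusedSectionVars false
set_option linter.unusedVariables false

namespace Cfsg.Agent.H5.TI

open Subgroup Cfsg.Agent.H1
open scoped commutatorElement Pointwise

variable {G : Type*} [Group G] [Finite G] {H : Subgroup G}

theorem sol_of_comm {Q : Subgroup G} (h : Group.IsSolvable (⁅Q, Q⁆ : Subgroup G)) :
    Group.IsSolvable Q := by
  have h1 : Group.IsSolvable (commutator Q) := by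
    rw [← map_subtype_commutator] at h
    exact H2.isSolvable_of_equiv (equivMapOfInjective _ _ Q.subtype_injective).symm
  exact Group.isSolvable_of_ker_le_range (commutator Q).subtype Abelianization.of (by
    rw [Abelianization.ker_of, range_subtype])

theorem cyc_of_z [IsZGroup H] {p : ℕ} [Fact p.Prime] {P : Subgroup G} (hP : P ≤ H)
    (hp : IsPGroup p P) : IsCyclic P := by
  have h1 : IsCyclic (P.subgroupOf H) := (hp.comap_subtype (K := H)).isCyclic_of_isZGroup
  exact isCyclic_of_surjective _ (subgroupOfEquivOfLe hP).surjective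

theorem solvable (hTI : Cfsg.IsTISubset (H : Set G)) (hnn : ¬ H.Normal)
    (hHall : (Nat.card H).Coprime (H.subgroupOf (normalizer (H : Set G))).index)
    (h : OO H ⊔ normalizer (H : Set G) = ⊤) (hO : Group.IsSolvable (OO H))
    (hH : Group.IsSolvable H) : Group.IsSolvable G := by
  obtain ⟨Q, hQN, h1, h2, h3, -⟩ := exists_complement_in H (normalizer (H : Set G)) le_normalizer
    le_rfl hHall
  have hcop : (Nat.card Q).Coprime (Nat.card H) := h3 ▸ hHall.symm
  have hC : Q ⊓ centralizer (H : Set G) ≤ OO H := by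
    refine le_sup_right.trans (le_OO (K := OO H ⊔ (Q ⊓ centralizer (H : Set G))) ?_ ?_)
    · rw [← normalizer_eq_top_iff, ← top_le_iff, ← h, ← h2]
      refine sup_le (le_sup_left.trans le_normalizer) (sup_le ?_ ?_)
      · refine le_normalizer_sup le_normalizer_of_normal (le_trans ?_ (centralizer_le_normalizer _))
        exact le_centralizer_iff.1 inf_le_right
      · exact le_normalizer_sup le_normalizer_of_normal
          (le_normalizer_inf le_normalizer (le_normalizer_centralizer hQN))
    · rw [sup_comm]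
      exact cop_sup le_normalizer_of_normal (hcop.coprime_dvd_left (card_dvd_of_le inf_le_left))
        (OO_mem H).2
  have hQ : Group.IsSolvable Q := by
    rcases Nat.even_or_odd (Nat.card H) with he | ho
    · refine FT.odd_order_solvable ?_
      rw [← Nat.coprime_two_left]
      exact hcop.symm.coprime_dvd_left he.two_dvd
    · have hZ : IsZGroup H := (noInt hTI hnn h).isZGroup_of_odd (Nat.coprime_two_right.2 ho)
      refine sol_of_comm (isSolvable_of_le (le_trans ?_ hC) hO)
      refine le_inf (commutator_le_left_of_le_normalizer le_normalizer) ?_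
      rw [le_centralizer_iff]
      refine le_of_forall_sylowOf_le fun p hp _ => ?_
      have := Fact.mk hp
      obtain ⟨P, hP, hn⟩ := exists_invariant_sylowOf Q H hQN hcop (Or.inr hH) p
      have := cyc_of_z hP.1 (isPGroup_iff_isPiNum.2 (hallOf_card hP))
      refine ⟨P, hP, ?_⟩
      rw [le_centralizer_iff, commutator_le]
      exact fun x hx y hy => H16.commutator_mem_centralizer_of_isCyclic (hn hx) (hn hy)
  have h4 : Group.IsSolvable (Q ⊔ H : Subgroup G) := H2.isSolvable_sup_of_le_normalizer hQN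
  have h5 : Group.IsSolvable ((Q ⊔ H) ⊔ OO H : Subgroup G) :=
    H2.isSolvable_sup_of_le_normalizer le_normalizer_of_normal
  rw [sup_comm Q H, h2, sup_comm, h] at h5
  exact H2.isSolvable_of_equiv topEquiv

theorem thmA (H : Subgroup G)
    (hTI : Cfsg.IsTISubset (H : Set G)) (hnn : ¬ H.Normal)
    (hHall : (Nat.card H).Coprime (H.subgroupOf (Subgroup.normalizer (H : Set G))).index)
    (hsep : ∃ (n : ℕ) (M : Fin (n + 1) → Subgroup G), M 0 = ⊥ ∧ M (Fin.last n) = ⊤ ∧ Monotone M ∧ (∀ i, (M i).Normal) ∧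
      ∀ i : Fin n, (∀ q : ℕ, q.Prime → q ∣ (M i.castSucc).relIndex (M i.succ) → q ∣ Nat.card H) ∨
        ((M i.castSucc).relIndex (M i.succ)).Coprime (Nat.card H))
    (O : Subgroup G) (hO : O = sSup {K : Subgroup G | K.Normal ∧ (Nat.card K).Coprime (Nat.card H)}) :
    O ⊔ Subgroup.normalizer (H : Set G) = ⊤ ∧ (O ⊔ H).Normal ∧
    (Group.IsSolvable G ↔ Group.IsSolvable O ∧
      ∀ K : Subgroup G, K ≤ H → ¬ Nonempty (K ≃* Matrix.SpecialLinearGroup (Fin 2) (ZMod 5))) := by
  obtain rfl : O = OO H := hO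
  obtain ⟨K, hK, h1, h2⟩ := exists_K hnn hsep
  have h := sup_top hTI hHall h1 h2
  refine ⟨h, sup_normal h, fun hs => ⟨inferInstance, fun K _ ⟨e⟩ => ?_⟩, fun ⟨hs, hK⟩ => ?_⟩
  · exact H16.not_isSolvable_sl25 (H2.isSolvable_of_equiv e)
  · refine solvable hTI hnn hHall h hs ?_
    by_contra hns
    obtain ⟨φ, hφ, -⟩ := (noInt hTI hnn h).exists_sl25 hns
    exact hK (H.subtype.comp φ).range (by rintro _ ⟨x, rfl⟩; exact (φ x).2)
      ⟨(MonoidHom.ofInjective (f := H.subtype.comp φ) fun a b e => hφ (Subtype.ext e)).symm⟩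

open scoped IsMulCommutative in
theorem eq_bot_of_central {p : ℕ} [Fact p.Prime] {K P : Subgroup G} (hP : IsPiHallOf {p} P K)
    (hc : K ≤ centralizer (P : Set G)) (hle : P ≤ ⁅K, K⁆) : P = ⊥ := by
  obtain ⟨S, rfl⟩ := exists_sylow_of_hallOf hP
  have h1 : normalizer (S : Set K) ≤ centralizer (S : Set K) := fun x _ y hy =>
    Subtype.ext (hc x.2 y (mem_map_of_mem _ hy))
  have h2 : (S : Subgroup K) ≤ commutator K := by
    rwa [← map_subtype_commutator, map_subtype_le_map_subtype] at hle
  have h3 := MonoidHom.ker_transferSylow_disjoint S h1 S S.2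
  have h4 : (S : Subgroup K) = ⊥ :=
    disjoint_self.1 (h3.mono_left (h2.trans (commutator_le.2 fun a _ b _ => by
      rw [MonoidHom.mem_ker, map_commutatorElement, commutatorElement_eq_one_iff_mul_comm]
      exact Subtype.ext (h1 (le_normalizer (MonoidHom.transferSylow S h1 b).2) _
        (MonoidHom.transferSylow S h1 a).2))))
  rw [h4, Subgroup.map_bot]

theorem not_dvd_comm [IsZGroup H] {Q P : Subgroup G} (hQ : Q ≤ normalizer (H : Set G))
    (hcop : (Nat.card Q).Coprime (Nat.card H)) {p : ℕ} (hp : p.Prime) (hP : IsPiHallOf {p} P H)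
    (hc : P ≤ centralizer (Q : Set G)) : ¬ p ∣ Nat.card (⁅H, Q⁆ : Subgroup G) := by
  have := Fact.mk hp
  set K := ⁅H, Q⁆ with hKdef
  have hKH : K ≤ H := commutator_le_left_of_le_normalizer hQ
  have hQK : Q ≤ normalizer (K : Set G) := normalizer_commutator_ge_right H Q
  have hHK : H ≤ normalizer (K : Set G) := normalizer_commutator_ge_left H Q
  have hKK : ⁅K, Q⁆ = K := commutator_commutator_eq Q H hQ hcop
  have hcK : (Nat.card Q).Coprime (Nat.card K) := hcop.coprime_dvd_right (card_dvd_of_le hKH)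
  have hP0 := hallOf_inf_of_le_normalizer hP hKH hHK
  set P0 := P ⊓ K with hP0def
  have hc0 : P0 ≤ centralizer (Q : Set G) := inf_le_left.trans hc
  have hle : P0 ≤ ⁅K, K⁆ := le_trans (le_inf (le_inf inf_le_right hc0) (hKK.symm ▸ inf_le_right))
    (centralizer_inf_commutator_le Q K hQK hcK)
  have hLK : ⁅K, K⁆ ≤ K := commutator_le_left_of_le_normalizer le_normalizer
  have hZK : IsZGroup K := IsZGroup.of_injective (f := inclusion hKH) (inclusion_injective hKH)
  have hcy : IsCyclic (⁅K, K⁆ : Subgroup G) := by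
    rw [← map_subtype_commutator]
    have := IsZGroup.isCyclic_commutator K
    exact isCyclic_of_surjective _ (equivMapOfInjective _ _ K.subtype_injective).surjective
  have hab : ∀ a ∈ ⁅K, K⁆, ∀ b ∈ ⁅K, K⁆, a * b = b * a := fun a ha b hb => by
    have := (IsCyclic.isMulCommutative (α := (⁅K, K⁆ : Subgroup G))).is_comm.comm ⟨a, ha⟩ ⟨b, hb⟩
    exact congrArg Subtype.val this
  have hP1 := hallOf_of_le hP0 hle hLK
  have hKN : K ≤ normalizer (P0 : Set G) := by
    intro k hk
    have hkL : k ∈ normalizer ((⁅K, K⁆ : Subgroup G) : Set G) :=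
      le_normalizer_commutator le_normalizer le_normalizer hk
    have h1 := hallOf_conj_of_mem_normalizer hP1 hkL
    rw [mem_normalizer_iff_conj_smul_eq]
    refine eq_of_le_of_card_ge (le_hallOf_of_le_normalizer' hP1 h1.1 (hallOf_card h1) ?_)
      (card_conj_smul _ _).ge
    exact fun a ha => centralizer_le_normalizer _ fun b hb => hab b (hle hb) a (h1.1 ha)
  have hKC : K ≤ centralizer (P0 : Set G) := by
    rw [← hKK, commutator_le]
    intro k hk q hq
    have hq' : q ∈ centralizer (P0 : Set G) := le_centralizer_iff.1 hc0 hq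
    exact mul_mem (conj_mem_of_le_normalizer (le_normalizer_centralizer hKN) hk hq') (inv_mem hq')
  have h0 := eq_bot_of_central hP0 hKC hle
  rw [h0] at hP0
  have := hP0.2.2 p hp rfl
  rwa [relIndex_bot_left] at this

theorem exists_cent [IsZGroup H] {Q : Subgroup G} (hQ : Q ≤ normalizer (H : Set G))
    (hcop : (Nat.card Q).Coprime (Nat.card H)) {p : ℕ} (hp : p.Prime)
    (hd : p ∣ Nat.card (H ⊓ centralizer (Q : Set G) : Subgroup G)) :
    ∃ P : Subgroup G, IsPiHallOf {p} P H ∧ P ≤ centralizer (Q : Set G) := by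
  have := Fact.mk hp
  obtain ⟨⟨x, hxH, hxC⟩, hx⟩ := exists_prime_orderOf_dvd_card' p hd
  rw [← orderOf_coe] at hx
  change orderOf x = p at hx
  have hU : IsPGroup p (zpowers x) := IsPGroup.of_card (n := 1) (by rw [Nat.card_zpowers, hx, pow_one])
  have hzc : zpowers x ≤ centralizer (Q : Set G) := zpowers_le.2 hxC
  obtain ⟨P, hP, hxP, hn⟩ := exists_invariant_sylowOf_ge hQ hcop (Or.inr inferInstance)
    (zpowers_le.2 hxH) hU ((le_centralizer_iff.1 hzc).trans (centralizer_le_normalizer _))
  have hPp : IsPGroup p P := isPGroup_iff_isPiNum.2 (hallOf_card hP)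
  have := cyc_of_z hP.1 hPp
  have hcP : (Nat.card Q).Coprime (Nat.card P) := hcop.coprime_dvd_right (card_dvd_of_le hP.1)
  refine ⟨P, hP, ?_⟩
  rcases hPp.commutator_eq_bot_or_commutator_eq_self hn hcP.symm with h | h
  · rw [commutator_comm] at h
    exact commutator_eq_bot_iff_le_centralizer.1 h
  · exfalso
    have : IsMulCommutative P := IsCyclic.isMulCommutative
    have h1 := centralizer_inf_commutator_eq_bot Q P hn hcP
    rw [commutator_comm, h] at h1
    have h2 : x ∈ (⊥ : Subgroup G) := h1 ▸ ⟨⟨hxP (mem_zpowers x), hxC⟩, hxP (mem_zpowers x)⟩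
    rw [mem_bot.1 h2, orderOf_one] at hx
    exact hp.one_lt.ne hx

theorem thmB (H : Subgroup G)
    (hTI : Cfsg.IsTISubset (H : Set G)) (hnn : ¬ H.Normal)
    (hHall : (Nat.card H).Coprime (H.subgroupOf (Subgroup.normalizer (H : Set G))).index)
    (hsep : ∃ (n : ℕ) (M : Fin (n + 1) → Subgroup G), M 0 = ⊥ ∧ M (Fin.last n) = ⊤ ∧ Monotone M ∧ (∀ i, (M i).Normal) ∧
      ∀ i : Fin n, (∀ q : ℕ, q.Prime → q ∣ (M i.castSucc).relIndex (M i.succ) → q ∣ Nat.card H) ∨
        ((M i.castSucc).relIndex (M i.succ)).Coprime (Nat.card H))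
    (h2 : ∀ P : Sylow 2 H, IsMulCommutative (P : Subgroup H))
    (Q : Subgroup G) (hQ : Q ≤ Subgroup.normalizer (H : Set G)) (hQH : Q ⊓ H = ⊥) (hQH' : Q ⊔ H = Subgroup.normalizer (H : Set G)) :
    (Nat.card ↥(H ⊓ Subgroup.centralizer (Q : Set G))).Coprime (H ⊓ Subgroup.centralizer (Q : Set G)).index ∧
    ∃ N : Subgroup G, N.Normal ∧ N.IsComplement' (H ⊓ Subgroup.centralizer (Q : Set G)) := by
  obtain ⟨K0, hK0, h1, h3⟩ := exists_K hnn hsep
  have h := sup_top hTI hHall h1 h3
  have hI := noInt hTI hnn h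
  have hZ : IsZGroup H := ⟨fun p hp P => by
    have := Fact.mk hp
    by_cases e : p = 2
    · subst e
      have := h2 P
      exact hI.isCyclic_of_comm _
    · exact hI.isCyclic_of_odd e P.2⟩
  have hcop : (Nat.card Q).Coprime (Nat.card H) := by
    have h4 := H2.card_sup_mul_card_inf_of_le_normalizer hQ
    rw [hQH, hQH', card_bot, mul_one, ← H2.card_mul_relIndex (le_normalizer : H ≤ _), mul_comm] at h4
    rw [← Nat.eq_of_mul_eq_mul_right Nat.card_pos h4]
    exact hHall.symm
  set D := H ⊓ centralizer (Q : Set G) with hD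
  have hDH : Nat.card D ∣ Nat.card H := card_dvd_of_le inf_le_left
  suffices hN : (OO H ⊔ (⁅H, Q⁆ ⊔ Q)).Normal by
    refine ⟨Nat.coprime_of_dvd fun p hp hd hi => ?_, OO H ⊔ (⁅H, Q⁆ ⊔ Q), hN, ?_⟩
    · obtain ⟨P, hP, hc⟩ := exists_cent hQ hcop hp hd
      have := (syl hTI hHall hp (hd.trans hDH) hP).2.2 p hp rfl
      rw [relIndex_top_right] at this
      exact this (hi.trans (index_dvd_of_le (le_inf hP.1 hc)))
    · have hc : (Nat.card (OO H ⊔ (⁅H, Q⁆ ⊔ Q) : Subgroup G)).Coprime (Nat.card D) := by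
        rw [sup_comm, sup_comm ⁅H, Q⁆]
        refine cop_sup le_normalizer_of_normal (cop_sup (normalizer_commutator_ge_right H Q)
          (hcop.coprime_dvd_right hDH) ?_) ((OO_mem H).2.coprime_dvd_right hDH)
        refine Nat.coprime_of_dvd fun p hp hd hi => ?_
        obtain ⟨P, hP, hc⟩ := exists_cent hQ hcop hp hi
        exact not_dvd_comm hQ hcop hp hP hc hd
      have htop : (OO H ⊔ (⁅H, Q⁆ ⊔ Q)) ⊔ D = ⊤ := by
        rw [← top_le_iff, ← h, ← hQH']
        refine sup_le (le_sup_left.trans le_sup_left) (sup_le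
          ((le_sup_right.trans le_sup_right).trans le_sup_left) ?_)
        conv_lhs => rw [← commutator_sup_centralizer Q H hQ hcop (Or.inr inferInstance)]
        exact sup_le_sup_right (le_sup_left.trans le_sup_right) _
      refine isComplement'_of_disjoint_and_mul_eq_univ (disjoint_of_coprime_natCard hc) ?_
      rw [← normal_mul, htop, coe_top]
  rw [← normalizer_eq_top_iff, ← top_le_iff, ← h, ← hQH']
  refine sup_le (le_sup_left.trans le_normalizer) (sup_le
    ((le_sup_right.trans le_sup_right).trans le_normalizer)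
    (le_normalizer_sup le_normalizer_of_normal ?_))
  rw [le_normalizer_iff_commutator_le_left, commutator_le]
  intro a ha y hy
  obtain ⟨k, hk, q, hq, rfl⟩ :=
    (mem_sup_iff_of_le_normalizer (normalizer_commutator_ge_right H Q)).1 ha
  refine mem_sup_left ?_
  have h5 : ⁅q, y⁆ ∈ ⁅H, Q⁆ := by rw [commutator_comm]; exact commutator_mem_commutator hq hy
  have h6 : y * k⁻¹ * y⁻¹ ∈ ⁅H, Q⁆ :=
    conj_mem_of_le_normalizer (normalizer_commutator_ge_left H Q) hy (inv_mem hk)
  have : ⁅k * q, y⁆ = k * ⁅q, y⁆ * (y * k⁻¹ * y⁻¹) := by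
    simp only [commutatorElement_def]; group
  rw [this]
  exact mul_mem (mul_mem hk h5) h6

end Cfsg.Agent.H5.TI
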