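import Mathlib

/-! An element of order three with one Jordan block of size three normalizing a four-group. -/

set_option autoImplicit false

namespace Cfsg.Agent.H5t

open Subgroup
open scoped commutatorElement

variable {W E : Type*} [Group W] [AddCommGroup E] [Module (ZMod 3) E]

/-- A faithful module with an intertwining operator of order three and small commutator space. -/
structure Su (σ : MulAut W) (ρ : Representation (ZMod 3) W E) (β : E →ₗ[ZMod 3] E) : Prop where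
  inj : ∀ x, (∀ e, ρ x e = e) → x = 1
  comm : ∀ x e, β (ρ x e) = ρ (σ x) (β e)
  cube : ∀ e, β (β (β e)) = e
  small : Nat.card (LinearMap.range (β - 1)) ≤ 9

/-- `u` generates with its images a four-group permuted cyclically. -/
structure Qd (σ : MulAut W) (u : W) : Prop where
  ne : u ≠ 1
  sq : u * u = 1
  mul : σ (σ u) = u * σ u

variable {σ : MulAut W} {ρ : Representation (ZMod 3) W E} {β : E →ₗ[ZMod 3] E} {u : W}

theorem rm (x y : W) (e : E) : ρ (x * y) e = ρ x (ρ y e) := by rw [map_mul]; rfl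

theorem r1 (e : E) : ρ 1 e = e := by rw [map_one]; rfl

theorem three (e : E) : e + e + e = 0 := by
  have : (3 : ZMod 3) • e = 0 := by rw [show (3 : ZMod 3) = 0 from rfl, zero_smul]
  rw [← this]; module

theorem eq_zero_of_neg {e : E} (h : e = -e) : e = 0 := by
  have := three e
  rwa [show e + e = 0 from eq_neg_iff_add_eq_zero.mp h, zero_add] at this

theorem z3 (a : ZMod 3) : a = 0 ∨ a = 1 ∨ a = -1 := by revert a; decide

theorem Qd.sq' (q : Qd σ u) : σ u * σ u = 1 := by rw [← map_mul, q.sq, map_one]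

theorem Qd.co (q : Qd σ u) : u * σ u = σ u * u := by
  have h : u * σ u * (u * σ u) = 1 := by rw [← q.mul, ← map_mul, q.sq', map_one]
  calc u * σ u = u * (u * σ u * (u * σ u)) * σ u := by
        simp only [← mul_assoc, q.sq, one_mul]; simp only [mul_assoc, q.sq', mul_one]
        exact (show σ u * u = u * σ u from by
          have := congrArg (fun x => u * x * σ u) h
          simp only [← mul_assoc, q.sq, one_mul, mul_one] at this
          simp only [mul_assoc, q.sq', mul_one] at this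
          exact this).symm
    _ = σ u * u := by
        simp only [← mul_assoc, q.sq, one_mul]; simp only [mul_assoc, q.sq', mul_one]

theorem Qd.three (q : Qd σ u) : σ (u * σ u) = u := by
  rw [map_mul, q.mul, q.co, ← mul_assoc, q.sq', one_mul]

theorem Qd.next (q : Qd σ u) : Qd σ (σ u) :=
  ⟨by simpa using q.ne, q.sq', by rw [q.mul, map_mul, q.mul]⟩

theorem Qd.sne (q : Qd σ u) : σ u ≠ u := fun e => by
  have := q.mul
  rw [e, e, q.sq] at this
  exact q.ne this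

theorem mkQd (h3 : ∀ x, σ (σ (σ x)) = x) {x : W} (h1 : σ x ≠ x) (hc : x * σ x = σ x * x)
    (hs : σ (x * x) = x * x) : Qd σ (x⁻¹ * σ x) := by
  have c1 : Commute x (σ x) := hc
  have c2 : Commute (σ x) (σ (σ x)) := c1.map σ
  have c3 : Commute (σ (σ x)) x := by simpa only [h3] using c2.map σ
  have hs' : σ (σ (x * x)) = x * x := by rw [hs, hs]
  rw [map_mul] at hs
  rw [map_mul, map_mul] at hs'
  refine ⟨fun e => h1 (inv_mul_eq_one.mp e).symm, ?_, ?_⟩
  · rw [mul_assoc, ← mul_assoc (σ x), ← c1.inv_left.eq, mul_assoc, hs]; group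
  · simp only [map_mul, map_inv, h3]
    rw [mul_assoc, mul_inv_cancel_left, inv_mul_eq_iff_eq_mul, ← mul_assoc, c3.inv_right.eq,
      mul_assoc, hs', inv_mul_cancel_left]

namespace Su

variable (h : Su σ ρ β)
include h

theorem s3 (x : W) : σ (σ (σ x)) = x := by
  rw [← mul_inv_eq_one]
  refine h.inj _ fun e => ?_
  rw [rm, ← h.cube (ρ x⁻¹ e), ← h.comm, ← h.comm, ← h.comm, ← rm, mul_inv_cancel, r1, h.cube]

theorem binj {e : E} (he : β e = 0) : e = 0 := by rw [← h.cube e, he, map_zero, map_zero]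

end Su

/-- The frame attached to a four-group. -/
structure Fr (σ : MulAut W) (ρ : Representation (ZMod 3) W E) (β : E →ₗ[ZMod 3] E) (u : W)
    (e : E) : Prop where
  ne : e ≠ 0
  ue : ρ u e = e
  ve : ρ (σ u) e = -e
  line : ∀ x, ρ u x = x → ρ (σ u) x = -x → ∃ a : ZMod 3, x = a • e
  fix : ∀ x, ρ u x = x → ρ (σ u) x = x → β x = x
  ran : ∀ x, ∃ a c : ZMod 3, β x - x = a • (β e - e) + c • (β (β e) - β e)

section Eig

variable (h : Su σ ρ β) (q : Qd σ u)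
include h q

theorem b_u {x : E} {a c : ZMod 3} (h1 : ρ u x = a • x) (h2 : ρ (σ u) x = c • x) :
    ρ u (β x) = (a * c) • β x ∧ ρ (σ u) (β x) = a • β x := by
  refine ⟨?_, by rw [← h.comm, h1, map_smul]⟩
  conv_lhs => rw [← q.three, ← h.comm, rm, h2, map_smul, h1, smul_smul, map_smul, mul_comm]

omit h in
theorem decomp (x : E) : ∃ x0 x1 x2 x3 : E, x = x0 + x1 + x2 + x3 ∧
    (ρ u x0 = x0 ∧ ρ (σ u) x0 = x0) ∧ (ρ u x1 = x1 ∧ ρ (σ u) x1 = -x1) ∧
    (ρ u x2 = -x2 ∧ ρ (σ u) x2 = x2) ∧ (ρ u x3 = -x3 ∧ ρ (σ u) x3 = -x3) ∧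
    ∀ N : Submodule (ZMod 3) E, (∀ y ∈ N, ρ u y ∈ N) → (∀ y ∈ N, ρ (σ u) y ∈ N) → x ∈ N →
      x0 ∈ N ∧ x1 ∈ N ∧ x2 ∈ N ∧ x3 ∈ N := by
  have uu : ∀ y, ρ u (ρ u y) = y := fun y => by rw [← rm, q.sq, r1]
  have vv : ∀ y, ρ (σ u) (ρ (σ u) y) = y := fun y => by rw [← rm, q.sq', r1]
  have uv : ∀ y, ρ (σ u) (ρ u y) = ρ u (ρ (σ u) y) := fun y => by rw [← rm, ← rm, q.co]
  refine ⟨x + ρ u x + ρ (σ u) x + ρ u (ρ (σ u) x), x + ρ u x - ρ (σ u) x - ρ u (ρ (σ u) x),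
    x - ρ u x + ρ (σ u) x - ρ u (ρ (σ u) x), x - ρ u x - ρ (σ u) x + ρ u (ρ (σ u) x), ?_,
    ⟨?_, ?_⟩, ⟨?_, ?_⟩, ⟨?_, ?_⟩, ⟨?_, ?_⟩, fun N h1 h2 hx => ?_⟩
  · linear_combination (norm := module) -three x
  iterate 8 simp only [map_add, map_sub, uu, vv, uv]; abel
  have a := h1 x hx
  have b := h2 x hx
  have c := h1 _ b
  exact ⟨add_mem (add_mem (add_mem hx a) b) c, sub_mem (sub_mem (add_mem hx a) b) c,
    sub_mem (add_mem (sub_mem hx a) b) c, add_mem (sub_mem (sub_mem hx a) b) c⟩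

omit h q in
theorem indep {x0 x1 x2 x3 : E} (h0 : ρ u x0 = x0 ∧ ρ (σ u) x0 = x0)
    (h1 : ρ u x1 = x1 ∧ ρ (σ u) x1 = -x1) (h2 : ρ u x2 = -x2 ∧ ρ (σ u) x2 = x2)
    (h3 : ρ u x3 = -x3 ∧ ρ (σ u) x3 = -x3) (e : x0 + x1 + x2 + x3 = 0) :
    x0 = 0 ∧ x1 = 0 ∧ x2 = 0 ∧ x3 = 0 := by
  have a := congrArg (ρ u) e
  have b := congrArg (ρ (σ u)) e
  have c := congrArg (ρ u) b
  simp only [map_add, map_neg, map_zero, h0.1, h0.2, h1.1, h1.2, h2.1, h2.2, h3.1, h3.2] at a b c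
  refine ⟨?_, ?_, ?_, ?_⟩
  · linear_combination (norm := module) e + a + b + c - three x0
  · linear_combination (norm := module) e + a - b - c - three x1
  · linear_combination (norm := module) e - a + b - c - three x2
  · linear_combination (norm := module) e - a - b + c - three x3

theorem b1 {x : E} (h1 : ρ u x = x ∧ ρ (σ u) x = -x) :
    ρ u (β x) = -β x ∧ ρ (σ u) (β x) = β x := by
  simpa using b_u h q (a := 1) (c := -1) (by simpa using h1.1) (by simpa using h1.2)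

theorem b2 {x : E} (h1 : ρ u x = -x ∧ ρ (σ u) x = x) :
    ρ u (β x) = -β x ∧ ρ (σ u) (β x) = -β x := by
  simpa using b_u h q (a := -1) (c := 1) (by simpa using h1.1) (by simpa using h1.2)

theorem b3 {x : E} (h1 : ρ u x = -x ∧ ρ (σ u) x = -x) :
    ρ u (β x) = β x ∧ ρ (σ u) (β x) = -β x := by
  simpa using b_u h q (a := -1) (c := -1) (by simpa using h1.1) (by simpa using h1.2)

theorem b0 {x : E} (h1 : ρ u x = x ∧ ρ (σ u) x = x) :
    ρ u (β x) = β x ∧ ρ (σ u) (β x) = β x := by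
  simpa using b_u h q (a := 1) (c := 1) (by simpa using h1.1) (by simpa using h1.2)

theorem exists_fr [Finite E] : ∃ e, Fr σ ρ β u e := by
  obtain ⟨e, he, h1⟩ : ∃ e, e ≠ 0 ∧ ρ u e = e ∧ ρ (σ u) e = -e := by
    by_contra! H
    refine q.ne (h.inj u fun x => ?_)
    obtain ⟨x0, x1, x2, x3, e, a0, a1, a2, a3, -⟩ := decomp (ρ := ρ) q x
    have k : ∀ y, ρ u y = y ∧ ρ (σ u) y = -y → y = 0 := fun y hy => by
      by_contra h0
      exact H y h0 hy.1 hy.2
    rw [e, h.binj (h.binj (k _ (b3 h q (b2 h q a2)))), h.binj (k _ (b3 h q a3)), k _ a1]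
    simpa using a0.1
  have h2 := b1 h q h1
  have h3 := b2 h q h2
  have sm : ∀ {x : E} {s t : ZMod 3} (a : ZMod 3), ρ u x = s • x ∧ ρ (σ u) x = t • x →
      ρ u (a • x) = s • a • x ∧ ρ (σ u) (a • x) = t • a • x := fun a hx => by
    rw [map_smul, map_smul, hx.1, hx.2, smul_comm a, smul_comm a]; exact ⟨rfl, rfl⟩
  have ind : ∀ (x0 x1 x2 : E) (a c : ZMod 3), ρ u x0 = x0 ∧ ρ (σ u) x0 = x0 →
      ρ u x1 = x1 ∧ ρ (σ u) x1 = -x1 → ρ u x2 = -x2 ∧ ρ (σ u) x2 = x2 →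
      x0 + x1 + x2 = a • (β e - e) + c • (β (β e) - β e) → x0 = 0 ∧ x1 = -a • e ∧ c = 0 :=
    fun x0 x1 x2 a c a0 a1 a2 e1 => by
      obtain ⟨k0, k1, -, k3⟩ := indep (ρ := ρ) (σ := σ) (u := u) (x0 := x0) (x1 := x1 + a • e)
        (x2 := x2 - (a - c) • β e) (x3 := -c • β (β e)) a0
        (by simp [a1.1, a1.2, h1.1, h1.2]; abel) (by simp [a2.1, a2.2, h2.1, h2.2]; abel)
        (by simp [h3.1, h3.2]) (by linear_combination (norm := module) e1)
      refine ⟨k0, by linear_combination (norm := module) k1, ?_⟩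
      exact neg_eq_zero.mp ((smul_eq_zero.mp k3).resolve_right fun e0 => he (h.binj (h.binj e0)))
  let f : ZMod 3 × ZMod 3 → LinearMap.range (β - 1) := fun p =>
    ⟨p.1 • (β e - e) + p.2 • (β (β e) - β e), ⟨p.1 • e + p.2 • β e, by
      simp only [LinearMap.sub_apply, map_add, map_smul, Module.End.one_apply]⟩⟩
  have hf : Function.Injective f := fun p p' e1 => by
    have e2 : p.1 • (β e - e) + p.2 • (β (β e) - β e) =
      p'.1 • (β e - e) + p'.2 • (β (β e) - β e) := congrArg Subtype.val e1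
    obtain ⟨-, k1, k2⟩ := ind 0 0 0 (p.1 - p'.1) (p.2 - p'.2) (by simp) (by simp) (by simp)
      (by linear_combination (norm := module) -e2)
    exact Prod.ext (sub_eq_zero.mp (neg_eq_zero.mp ((smul_eq_zero.mp k1.symm).resolve_right he)))
      (sub_eq_zero.mp k2)
  have hs := (hf.bijective_of_nat_card_le (h.small.trans (by simp))).2
  have ran : ∀ x, ∃ a c : ZMod 3, β x - x = a • (β e - e) + c • (β (β e) - β e) := fun x => by
    obtain ⟨p, hp⟩ := hs ⟨β x - x, x, rfl⟩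
    exact ⟨p.1, p.2, (congrArg Subtype.val hp).symm⟩
  refine ⟨e, he, h1.1, h1.2, fun x a b => ?_, fun x a b => ?_, ran⟩
  · obtain ⟨s, t, e1⟩ := ran x
    obtain ⟨-, k1, -⟩ := ind 0 (-x) (β x) s t (by simp) (by simp [a, b]) (b1 h q ⟨a, b⟩)
      (by rw [← e1]; abel)
    exact ⟨s, by linear_combination (norm := module) -k1⟩
  · obtain ⟨s, t, e1⟩ := ran x
    have := b0 h q ⟨a, b⟩
    obtain ⟨k0, -⟩ := ind (β x - x) 0 0 s t (by simp [a, b, this.1, this.2]) (by simp) (by simp)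
      (by rw [← e1]; abel)
    exact sub_eq_zero.mp k0

variable {e : E} (f : Fr σ ρ β u e)
include f

/-- A subspace invariant under the four-group is spanned by its fixed vectors and frame vectors. -/
theorem Fr.span (x : E) : ∃ (x0 : E) (a b c : ZMod 3), x = x0 + a • e + b • β e + c • β (β e) ∧
    ρ u x0 = x0 ∧ ρ (σ u) x0 = x0 ∧
    ∀ N : Submodule (ZMod 3) E, (∀ y ∈ N, ρ u y ∈ N) → (∀ y ∈ N, ρ (σ u) y ∈ N) → x ∈ N →
      x0 ∈ N ∧ a • e ∈ N ∧ b • β e ∈ N ∧ c • β (β e) ∈ N := by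
  obtain ⟨x0, x1, x2, x3, e1, a0, a1, a2, a3, hN⟩ := decomp (ρ := ρ) q x
  obtain ⟨a, rfl⟩ := f.line _ a1.1 a1.2
  obtain ⟨b, hb⟩ := f.line _ (b3 h q (b2 h q a2)).1 (b3 h q (b2 h q a2)).2
  obtain ⟨c, hc⟩ := f.line _ (b3 h q a3).1 (b3 h q a3).2
  obtain rfl : x2 = b • β e := by rw [← h.cube x2, hb, map_smul]
  obtain rfl : x3 = c • β (β e) := by rw [← h.cube x3, hc, map_smul, map_smul]
  exact ⟨x0, a, b, c, e1, a0.1, a0.2, hN⟩

theorem Fr.ext {x : W} (h0 : ∀ y, ρ u y = y → ρ (σ u) y = y → ρ x y = y) (h1 : ρ x e = e)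
    (h2 : ρ x (β e) = β e) (h3 : ρ x (β (β e)) = β (β e)) : x = 1 := h.inj x fun y => by
  obtain ⟨x0, a, b, c, rfl, a0, a1, -⟩ := f.span h q y
  simp only [map_add, map_smul, h0 x0 a0 a1, h1, h2, h3]

omit h q in
theorem Fr.sign {x : W} (h1 : x * u = u * x) (h2 : x * σ u = σ u * x) :
    ∃ a : ZMod 3, a * a = 1 ∧ ρ x e = a • e := by
  obtain ⟨a, ha⟩ := f.line (ρ x e) (by rw [← rm, ← h1, rm, f.ue])
    (by rw [← rm, ← h2, rm, f.ve, map_neg])
  refine ⟨a, ?_, ha⟩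
  rcases z3 a with rfl | rfl | rfl
  · exact absurd (by rw [← r1 (ρ := ρ) e, ← inv_mul_cancel x, rm, ha, zero_smul, map_zero]) f.ne
  all_goals simp

omit h f in
theorem Qd.cen_s {x : W} (h1 : x * u = u * x) (h2 : x * σ u = σ u * x) :
    σ x * u = u * σ x ∧ σ x * σ u = σ u * σ x := by
  refine ⟨?_, by rw [← map_mul, h1, map_mul]⟩
  conv_lhs => rw [← q.three, ← map_mul, ← mul_assoc, h1, mul_assoc, h2, ← mul_assoc, map_mul,
    q.three]

/-- The commutators of the centralizer of the four-group lie in the four-group. -/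
theorem Fr.cen {x : W} (h1 : x * u = u * x) (h2 : x * σ u = σ u * x) :
    x⁻¹ * σ x = 1 ∨ x⁻¹ * σ x = u ∨ x⁻¹ * σ x = σ u ∨ x⁻¹ * σ x = u * σ u := by
  obtain ⟨h3, h4⟩ := q.cen_s h1 h2
  obtain ⟨h5, h6⟩ := q.cen_s h3 h4
  obtain ⟨a, ha, e1⟩ := f.sign h1 h2
  obtain ⟨b, hb, e2⟩ := f.sign h3 h4
  obtain ⟨c, hc, e3⟩ := f.sign h5 h6
  have k1 : ρ (σ x) (β e) = a • β e := by rw [← h.comm, e1, map_smul]
  have k2 : ρ x (β e) = c • β e := by
    conv_lhs => rw [← h.s3 x, ← h.comm, e3, map_smul]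
  have k3 : ρ (σ x) (β (β e)) = c • β (β e) := by rw [← h.comm, k2, map_smul]
  have k4 : ρ x (β (β e)) = b • β (β e) := by
    conv_lhs => rw [← h.s3 x, ← h.comm, ← h.comm, e2, map_smul, map_smul]
  have k0 : ∀ y, ρ u y = y → ρ (σ u) y = y → ρ (σ x) y = ρ x y := fun y y1 y2 => by
    rw [← f.fix y y1 y2, ← h.comm, f.fix y y1 y2, f.fix (ρ x y) (by rw [← rm, ← h1, rm, y1])
      (by rw [← rm, ← h2, rm, y2])]
  have p1 := b1 h q ⟨f.ue, f.ve⟩
  have p2 := b2 h q p1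
  have key : ∀ (w : W) (s t r : ZMod 3), (∀ y, ρ u y = y → ρ (σ u) y = y → ρ w y = y) →
      ρ w e = s • e → ρ w (β e) = t • β e → ρ w (β (β e)) = r • β (β e) → b = a * s →
      a = c * t → c = b * r → x⁻¹ * σ x = w := fun w s t r w0 w1 w2 w3 s1 s2 s3 => by
    have : (x * w)⁻¹ * σ x = 1 := by
      have l : ∀ y, ρ (σ x) y = ρ x (ρ w y) → ρ ((x * w)⁻¹ * σ x) y = y := fun y hy => by
        rw [rm, hy, ← rm x w, ← rm, inv_mul_cancel, r1]
      refine f.ext h q (fun y y1 y2 => l y (by rw [w0 y y1 y2, k0 y y1 y2])) (l _ ?_) (l _ ?_)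
        (l _ ?_)
      · rw [w1, map_smul, e1, e2, smul_smul, s1, mul_comm]
      · rw [w2, map_smul, k1, k2, smul_smul, mul_comm, ← s2]
      · rw [w3, map_smul, k3, k4, smul_smul, mul_comm, ← s3]
    rw [← inv_mul_eq_one.mp this, inv_mul_cancel_left]
  have c1 := key 1 1 1 1 (fun y _ _ => r1 y) (by simp) (by simp) (by simp)
  have c2 := key u 1 (-1) (-1) (fun y a _ => a) (by simp [f.ue]) (by simp [p1.1]) (by simp [p2.1])
  have c3 := key (σ u) (-1) 1 (-1) (fun y _ a => a) (by simp [f.ve]) (by simp [p1.2])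
    (by simp [p2.2])
  have c4 := key (u * σ u) (-1) (-1) 1 (fun y a b => by rw [rm, b, a]) (by simp [f.ue, f.ve])
    (by simp [p1.1, p1.2]) (by simp [p2.1, p2.2])
  have : ∀ a b c : ZMod 3, a * a = 1 → b * b = 1 → c * c = 1 →
    (b = a * 1 ∧ a = c * 1 ∧ c = b * 1) ∨ (b = a * 1 ∧ a = c * -1 ∧ c = b * -1) ∨
    (b = a * -1 ∧ a = c * 1 ∧ c = b * -1) ∨ (b = a * -1 ∧ a = c * -1 ∧ c = b * 1) := by decide
  rcases this a b c ha hb hc with s | s | s | s
  exacts [Or.inl (c1 s.1 s.2.1 s.2.2), Or.inr (Or.inl (c2 s.1 s.2.1 s.2.2)),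
    Or.inr (Or.inr (Or.inl (c3 s.1 s.2.1 s.2.2))), Or.inr (Or.inr (Or.inr (c4 s.1 s.2.1 s.2.2)))]

end Eig

end Cfsg.Agent.H5t
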