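import Mathlib
import Cfsg.Agent.H5.Th1
import Cfsg.Agent.H3.Extra

/-! The commutator space of a three-prime group generated by its commutators with the operator. -/

set_option autoImplicit false

namespace Cfsg.Agent.H5t

open Subgroup
open scoped commutatorElement

variable {W E : Type*} [Group W] [AddCommGroup E] [Module (ZMod 3) E]

/-- Elements acting trivially modulo `N`. -/
def actK (ρ : Representation (ZMod 3) W E) (N : Submodule (ZMod 3) E) : Subgroup W where
  carrier := {x | ∀ y, ρ x y - y ∈ N}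
  one_mem' y := by simp
  mul_mem' {a b} ha hb y := by simpa [rm] using add_mem (ha (ρ b y)) (hb y)
  inv_mem' {a} ha y := by simpa [← rm] using neg_mem (ha (ρ a⁻¹ y))

/-- Elements acting trivially on `N`. -/
def fixK (ρ : Representation (ZMod 3) W E) (N : Submodule (ZMod 3) E) : Subgroup W where
  carrier := {x | ∀ y ∈ N, ρ x y = y}
  one_mem' y _ := r1 y
  mul_mem' {a b} ha hb y hy := by rw [rm, hb y hy, ha y hy]
  inv_mem' {a} ha y hy := by
    conv_lhs => rw [← ha y hy, ← rm, inv_mul_cancel, r1]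

/-- The commutator space. -/
def cs (ρ : Representation (ZMod 3) W E) : Submodule (ZMod 3) E :=
  Submodule.span _ (Set.range fun p : W × E => ρ p.1 p.2 - p.2)

variable {σ : MulAut W} {ρ : Representation (ZMod 3) W E} {β : E →ₗ[ZMod 3] E} {u : W} {e : E}

theorem cs_mem (x : W) (y : E) : ρ x y - y ∈ cs ρ := Submodule.subset_span ⟨(x, y), rfl⟩

theorem cs_le {N : Submodule (ZMod 3) E} (h : ∀ x y, ρ x y - y ∈ N) : cs ρ ≤ N :=
  Submodule.span_le.2 (by rintro _ ⟨p, rfl⟩; exact h _ _)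

theorem cs_inv (x : W) {y : E} (hy : y ∈ cs ρ) : ρ x y ∈ cs ρ := by
  simpa using add_mem (cs_mem x y) hy

theorem cs_b (h : Su σ ρ β) {y : E} (hy : y ∈ cs ρ) : β y ∈ cs ρ :=
  cs_le (N := (cs ρ).comap β) (fun x y => by
    rw [Submodule.mem_comap, map_sub, h.comm]; exact cs_mem _ _) hy

theorem cs_compl [Finite W] (hW : (Nat.card W).Coprime 3) :
    (∀ y ∈ cs ρ, (∀ x, ρ x y = y) → y = 0) ∧ ∀ y, ∃ y1, (∀ x, ρ x y1 = y1) ∧ y - y1 ∈ cs ρ := by
  have := Fintype.ofFinite W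
  have hc : ((Fintype.card W : ℕ) : ZMod 3) ≠ 0 := by
    rw [Ne, ZMod.natCast_eq_zero_iff, ← Nat.card_eq_fintype_card]
    exact (Nat.Prime.coprime_iff_not_dvd Nat.prime_three).1 hW.symm
  let s : E →ₗ[ZMod 3] E := ∑ x, ρ x
  have hs : ∀ y, s y = ∑ x, ρ x y := fun y => LinearMap.sum_apply _ _ _
  refine ⟨fun y hy hf => ?_, fun y => ⟨(Fintype.card W : ZMod 3)⁻¹ • s y, fun x => ?_, ?_⟩⟩
  · have h0 : s y = 0 := cs_le (N := LinearMap.ker s) (fun x y => by
      rw [LinearMap.mem_ker, map_sub, hs, hs, sub_eq_zero]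
      exact Fintype.sum_equiv (Equiv.mulRight x) _ _ fun g => (rm _ _ _).symm) hy
    simp only [hs, hf, Finset.sum_const, Finset.card_univ] at h0
    rw [← Nat.cast_smul_eq_nsmul (ZMod 3)] at h0
    exact (smul_eq_zero.1 h0).resolve_left hc
  · rw [map_smul, hs, map_sum]
    exact congrArg _ (Fintype.sum_equiv (Equiv.mulLeft x) _ _ fun g => (rm _ _ _).symm)
  · have : y - (Fintype.card W : ZMod 3)⁻¹ • s y =
        -(Fintype.card W : ZMod 3)⁻¹ • ∑ x, (ρ x y - y) := by
      rw [Finset.sum_sub_distrib, ← hs, Finset.sum_const, Finset.card_univ,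
        ← Nat.cast_smul_eq_nsmul (ZMod 3), smul_sub, smul_smul, neg_mul, inv_mul_cancel₀ hc]
      module
    rw [this]
    exact Submodule.smul_mem _ _ (Submodule.sum_mem _ fun x _ => cs_mem x y)

theorem Fr.mem_cs (f : Fr σ ρ β u e) : e ∈ cs ρ := by
  have := cs_mem (ρ := ρ) (σ u) e
  rwa [f.ve, show -e - e = e by linear_combination (norm := module) -three e] at this

theorem Fr.ran_le (f : Fr σ ρ β u e) {N : Submodule (ZMod 3) E} (he : e ∈ N)
    (hb : ∀ y ∈ N, β y ∈ N) (y : E) : β y - y ∈ N := by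
  obtain ⟨a, c, e1⟩ := f.ran y
  rw [e1]
  exact add_mem (N.smul_mem _ (sub_mem (hb _ he) he))
    (N.smul_mem _ (sub_mem (hb _ (hb _ he)) (hb _ he)))

/-- `W` is generated by its commutators with the operator. -/
def Gen (σ : MulAut W) : Prop := ∀ K : Subgroup W, (∀ x, x⁻¹ * σ x ∈ K) → K = ⊤

theorem irr [Finite W] (hW : (Nat.card W).Coprime 3) (h : Su σ ρ β) (q : Qd σ u)
    (f : Fr σ ρ β u e) (gen : Gen σ) {N : Submodule (ZMod 3) E} (hN : N ≤ cs ρ)
    (hr : ∀ x, ∀ y ∈ N, ρ x y ∈ N) (hb : ∀ y ∈ N, β y ∈ N) : N = ⊥ ∨ N = cs ρ := by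
  by_cases he : e ∈ N
  · refine .inr (le_antisymm hN (cs_le fun x => ?_))
    have : actK ρ N = ⊤ := gen _ fun x y => by
      have := add_mem (hr x⁻¹ _ (f.ran_le he hb (ρ x (β (β y))))) (neg_mem (f.ran_le he hb (β (β y))))
      rw [map_sub, ← rm x⁻¹ x, inv_mul_cancel, r1, h.comm, ← rm] at this
      simpa [h.cube] using this
    exact (this ▸ mem_top x : x ∈ actK ρ N)
  · have k : ∀ (a : ZMod 3) (y : E), a • y ∈ N → y ∉ N → a = 0 := fun a y h1 h2 => by
      by_contra h0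
      exact h2 ((N.smul_mem_iff h0).1 h1)
    have fx : ∀ y ∈ N, β y = y := fun y hy => by
      obtain ⟨x0, a, b, c, e1, a0, a1, hm⟩ := f.span h q y
      obtain ⟨-, m1, m2, m3⟩ := hm N (hr u) (hr _) hy
      rw [e1, k _ _ m1 he, k _ _ m2 fun m => he (h.cube e ▸ hb _ (hb _ m)),
        k _ _ m3 fun m => he (h.cube e ▸ hb _ m)]
      simpa using f.fix x0 a0 a1
    have : fixK ρ N = ⊤ := gen _ fun x y hy => by
      conv_lhs => rw [rm, ← fx y hy, ← h.comm, fx _ (hr x y hy), ← rm, inv_mul_cancel, r1]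
    exact .inl ((Submodule.eq_bot_iff _).2 fun y hy =>
      (cs_compl hW).1 y (hN hy) fun x => (this ▸ mem_top x : x ∈ fixK ρ N) y hy)

end Cfsg.Agent.H5t
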