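import Mathlib
import Cfsg.Agent.H5.Th2

/-! Groups with centre of order two and an operator of order three. -/

set_option autoImplicit false

namespace Cfsg.Agent.H5t

open Subgroup
open scoped commutatorElement

variable {W : Type*} [Group W]

open Classical in
/-- The indicator of non-commutation. -/
noncomputable def chi (x g : W) : ZMod 2 := if x * g = g * x then 0 else 1

/-- `x` and `g` commute up to `z`. -/
def Al (z x g : W) : Prop := x * g = g * x ∨ x * g = z * (g * x)

/-- The centre is `{1, z}` and is fixed by the operator. -/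
structure Cz (σ : MulAut W) (z : W) : Prop where
  ne : z ≠ 1
  sq : z * z = 1
  cz : ∀ y, y * z = z * y
  cen : ∀ x, (∀ y, x * y = y * x) → x = 1 ∨ x = z
  fz : σ z = z
  s3 : ∀ x, σ (σ (σ x)) = x
  gen : Gen σ

variable {σ : MulAut W} {z x y g k u : W}

theorem chi0 : chi x g = 0 ↔ x * g = g * x := by unfold chi; split_ifs with h <;> simp [h]

theorem chi1 : chi x g = 1 ↔ x * g ≠ g * x := by unfold chi; split_ifs with h <;> simp [h]

theorem chi_congr {a b : W} (h : x * g = g * x ↔ a * b = b * a) : chi x g = chi a b := by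
  unfold chi; rw [h]

theorem chi_symm (x g : W) : chi x g = chi g x := chi_congr eq_comm

theorem chi_map (σ : MulAut W) (x g : W) : chi (σ x) (σ g) = chi x g :=
  chi_congr (by simp only [← map_mul, σ.injective.eq_iff])

theorem chi_self (x : W) : chi x x = 0 := chi0.2 rfl

theorem chi_one (x : W) : chi x 1 = 0 := chi0.2 (by simp)

theorem z2 (a : ZMod 2) : a = 0 ∨ a = 1 := by revert a; decide

theorem aa (a : ZMod 2) : a + a = 0 := by revert a; decide

theorem Al.refl (z x : W) : Al z x x := .inl rfl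

theorem Al.one (z x : W) : Al z x 1 := .inl (by simp)

namespace Cz

variable (c : Cz σ z)
include c

theorem zz (y : W) : z * (z * y) = y := by rw [← mul_assoc, c.sq, one_mul]

theorem mz (a b : W) : a * (z * b) = z * (a * b) := by rw [← mul_assoc, c.cz, mul_assoc]

theorem nz (y : W) : z * y ≠ y := by simpa using c.ne

theorem symm (h : Al z x g) : Al z g x := h.imp Eq.symm fun e => by rw [e, c.zz]

theorem mul (h1 : Al z x g) (h2 : Al z x k) : Al z x (g * k) ∧ chi x (g * k) = chi x g + chi x k := by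
  have n : ∀ {a b : W}, a * b = z * (b * a) → chi a b = 1 := fun e => chi1.2 (e ▸ c.nz _)
  rcases h1 with h1 | h1 <;> rcases h2 with h2 | h2
  · have : x * (g * k) = g * k * x := by rw [← mul_assoc, h1, mul_assoc, h2, mul_assoc]
    exact ⟨.inl this, by rw [chi0.2 this, chi0.2 h1, chi0.2 h2, add_zero]⟩
  · have : x * (g * k) = z * (g * k * x) := by rw [← mul_assoc, h1, mul_assoc, h2, c.mz, mul_assoc]
    exact ⟨.inr this, by rw [n this, chi0.2 h1, n h2, zero_add]⟩
  · have : x * (g * k) = z * (g * k * x) := by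
      rw [← mul_assoc, h1, mul_assoc, mul_assoc, h2, mul_assoc]
    exact ⟨.inr this, by rw [n this, chi0.2 h2, n h1, add_zero]⟩
  · have : x * (g * k) = g * k * x := by
      rw [← mul_assoc, h1, mul_assoc, mul_assoc, h2, c.mz g, c.zz, mul_assoc]
    exact ⟨.inl this, by rw [chi0.2 this, n h1, n h2, aa]⟩

omit c in
theorem chi_inv (x g : W) : chi x g⁻¹ = chi x g := chi_congr Commute.inv_right_iff

theorem inv (h : Al z x g) : Al z x g⁻¹ := c.symm (h.imp (fun e => (Commute.inv_right e).eq.symm)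
  fun e => by
    calc g⁻¹ * x = g⁻¹ * (x * g) * g⁻¹ := by group
      _ = z * (x * g⁻¹) := by rw [e, c.mz]; group)

theorem map (h : Al z x g) : Al z (σ x) (σ g) :=
  h.imp (fun e => by rw [← map_mul, e, map_mul]) fun e => by
    rw [← map_mul, e, map_mul, map_mul, c.fz]

theorem fix (h : ∀ y, x * y = y * x) : σ x = x := by
  rcases c.cen x h with rfl | rfl
  exacts [map_one σ, c.fz]

end Cz

/-- The second centre. -/
def Z2 (z x : W) : Prop := ∀ g, Al z x g

namespace Cz

variable (c : Cz σ z)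
include c

theorem r (h : Z2 z x) (g k : W) : chi x (g * k) = chi x g + chi x k := (c.mul (h g) (h k)).2

theorem zmul (h1 : Z2 z x) (h2 : Z2 z y) : Z2 z (x * y) := fun g =>
  c.symm (c.mul (c.symm (h1 g)) (c.symm (h2 g))).1

theorem l (h1 : Z2 z x) (h2 : Z2 z y) (g : W) : chi (x * y) g = chi x g + chi y g := by
  rw [chi_symm, (c.mul (c.symm (h1 g)) (c.symm (h2 g))).2, chi_symm, chi_symm g]

theorem zinv (h : Z2 z x) : Z2 z x⁻¹ := fun g => c.symm (c.inv (c.symm (h g)))

theorem zmap (h : Z2 z x) : Z2 z (σ x) := fun g => by simpa using c.map (h (σ.symm g))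

theorem zcen (h : x = 1 ∨ x = z) : Z2 z x := fun g => .inl (by
  rcases h with rfl | rfl
  exacts [by simp, (c.cz g).symm])

theorem ss (x g : W) : chi x (σ g) = chi (σ (σ x)) g := by rw [← chi_map σ _ g, c.s3]

theorem noinv (h : Z2 z x) (hs : ∀ g, chi (σ x) g = chi x g) (g : W) : chi x g = 0 := by
  have : centralizer {x} = ⊤ := c.gen _ fun g => mem_centralizer_singleton_iff.2 (chi0.1 (by
    rw [chi_symm, c.r h, chi_inv, ← hs (σ g), chi_map, aa]))
  rw [chi_symm]
  exact chi0.2 (mem_centralizer_singleton_iff.1 (this ▸ mem_top g))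

theorem norm (h : Z2 z x) (g : W) : chi (σ (σ x)) g = chi x g + chi (σ x) g := by
  have h1 := c.zmap h
  have h2 := c.zmap h1
  have := c.noinv (c.zmul (c.zmul h h1) h2) (fun g => by
    rw [map_mul, map_mul, c.s3, c.l (c.zmul h1 h2) h, c.l h1 h2, c.l (c.zmul h h1) h2, c.l h h1]
    ring) g
  rw [c.l (c.zmul h h1) h2, c.l h h1] at this
  rw [← add_zero (_ + _), ← aa (chi (σ (σ x)) g), ← add_assoc, this, zero_add]

theorem z2_of [Finite W] (hx : ∀ g, ⁅x, g⁆ ∈ center W) : Z2 z x := fun g =>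
  (c.cen _ fun y => (mem_center_iff.1 (hx g) y).symm).imp
    commutatorElement_eq_one_iff_mul_comm.1 fun e => by rw [← e, commutatorElement_def]; group

/-- A four-group inside the second centre. -/
theorem exists_qd [Finite W] [Group.IsNilpotent W] (q : Qd σ u) : ∃ u, Qd σ u ∧ Z2 z u := by
  have nc : ∀ {x : W}, x ∉ center W → ∃ g, chi x g = 1 := fun {x} hx => by
    by_contra! H
    exact hx (mem_center_iff.2 fun g => (chi0.1 ((z2 _).resolve_right (H g))).symm)
  suffices ∃ x, Z2 z x ∧ (∃ g, chi x g = 1) ∧ chi x (σ x) = 0 by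
    obtain ⟨x, h, ⟨g, hg⟩, h0⟩ := this
    refine ⟨_, mkQd c.s3 (fun e => ?_) (chi0.1 h0) (c.fix fun y => chi0.1 ?_),
      c.zmul (c.zinv h) (c.zmap h)⟩
    · exact zero_ne_one ((c.noinv h (fun g => by rw [e]) g).symm.trans hg)
    · rw [c.l h h, aa]
  obtain ⟨x, -, hx, h⟩ := H3.exists_mem_central_mod ⊤ (center W) fun e =>
    q.sne (c.fix fun y => (mem_center_iff.1 (e (mem_top u)) y).symm)
  replace h := c.z2_of h
  have h1 := c.zmap h
  rcases z2 (chi x (σ x)) with e | e
  · exact ⟨x, h, nc hx, e⟩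
  have e' : chi (σ x) x = 1 := by rw [chi_symm, e]
  have nm : ∀ {x : W}, Z2 z x → (centralizer {x}).Normal := fun {x} h => ⟨fun y hy g => by
    rw [mem_centralizer_singleton_iff, ← chi0, chi_symm] at hy ⊢
    rw [c.r h, c.r h, chi_inv, hy, add_zero, aa]⟩
  have := nm h
  have := nm h1
  obtain ⟨y, y0, hy, k⟩ := H3.exists_mem_central_mod (centralizer {x} ⊓ centralizer {σ x})
    (center W) fun le => by
      have key : ∀ d, chi x u = chi x d → chi (σ x) u = chi (σ x) d →
          chi d (σ d) = 0 ∧ σ d ≠ d := fun d d1 d2 => by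
        have w := mem_center_iff.1 (le (show u * d⁻¹ ∈ _ from mem_inf.2 ⟨?_, ?_⟩))
        · have w1 : σ (u * d⁻¹) = u * d⁻¹ := c.fix fun y => (w y).symm
          have hu : u = u * d⁻¹ * d := by group
          have hv : σ u = u * d⁻¹ * σ d := by rw [← w1, ← map_mul, ← hu]
          refine ⟨chi0.2 ?_, fun e => q.sne (by rw [hv, e, ← hu])⟩
          have := q.co
          rw [hv] at this
          generalize u * d⁻¹ = t at *
          rw [hu, mul_assoc, mul_assoc, mul_right_inj, ← mul_assoc, ← mul_assoc, w, w, mul_assoc,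
            mul_assoc, mul_right_inj] at this
          exact this
        all_goals
          rw [mem_centralizer_singleton_iff, ← chi0, chi_symm]
        · rw [c.r h, chi_inv, d1, aa]
        · rw [c.r h1, chi_inv, d2, aa]
      rcases z2 (chi x u) with a | a <;> rcases z2 (chi (σ x) u) with b | b
      · exact (key 1 (by rw [a, chi_one]) (by rw [b, chi_one])).2 (map_one σ)
      · exact zero_ne_one ((key x (by rw [a, chi_self]) (by rw [b, e'])).1.symm.trans e)
      · exact zero_ne_one ((key (σ x) (by rw [a, e]) (by rw [b, chi_self])).1.symm.trans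
          (by rw [chi_map, e]))
      · refine zero_ne_one ((key (x * σ x) (by rw [a, c.r h, e, chi_self, zero_add])
          (by rw [b, c.r h1, e', chi_self, add_zero])).1.symm.trans ?_)
        rw [map_mul, c.l h h1, c.r h, c.r h1, e, chi_self, chi_map, e, c.ss x, chi_map, e']
        rfl
  replace k := c.z2_of k
  obtain ⟨y1, y2⟩ := mem_inf.1 y0
  rw [mem_centralizer_singleton_iff, ← chi0] at y1 y2
  rcases z2 (chi y (σ y)) with f | f
  · exact ⟨y, k, nc hy, f⟩
  refine ⟨x * y, c.zmul h k, ⟨σ x, by rw [c.l h k, e, y2, add_zero]⟩, ?_⟩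
  rw [map_mul, c.l h k, c.r h, c.r k, e, f, y2, c.ss x, c.norm h, chi_symm x, chi_symm (σ x), y1, y2]
  rfl

/-- An element inverting exactly one generator modulo the centre. -/
theorem exists_g (q : Qd σ u) (h : Z2 z u) : ∃ g, chi u g = 0 ∧ chi (σ u) g = 1 := by
  obtain ⟨g, hg⟩ : ∃ g, chi u g = 1 := by
    by_contra! H
    exact q.sne (c.fix fun g => chi0.1 ((z2 _).resolve_right (H g)))
  have k : ∀ g, chi u g = 1 → chi (σ u) g = 1 → chi u (σ g) = 0 ∧ chi (σ u) (σ g) = 1 :=
    fun g a b => ⟨by rw [c.ss, c.norm h, a, b, aa], by rw [chi_map, a]⟩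
  rcases z2 (chi (σ u) g) with b | b
  · exact ⟨_, k (σ g) (by rw [c.ss, c.norm h, hg, b, add_zero]) (by rw [chi_map, hg])⟩
  · exact ⟨_, k g hg b⟩

/-- All commutators are central once the centralizer of the four-group is small. -/
theorem all (h : Z2 z u) (hC : ∀ t, chi u t = 0 → chi (σ u) t = 0 → Z2 z t)
    (hF : ∀ t, chi u t = 0 → chi (σ u) t = 0 → σ t = t → t = 1 ∨ t = z) (g : W) : Z2 z g := by
  have h1 := c.zmap h
  have s1 : ∀ g, chi u (σ g) = chi u g + chi (σ u) g := fun g => by rw [c.ss, c.norm h]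
  have a1 : Al z g (σ g) := by
    have c1 : chi u ⁅g, σ g⁆ = 0 := by
      simp only [commutatorElement_def, c.r h, chi_inv]
      generalize chi u g = a, chi u (σ g) = b; revert a b; decide
    have c2 : chi (σ u) ⁅g, σ g⁆ = 0 := by
      simp only [commutatorElement_def, c.r h1, chi_inv]
      generalize chi (σ u) g = a, chi (σ u) (σ g) = b; revert a b; decide
    have n := hC (g * σ g * σ (σ g)) (by
      simp only [c.r h, s1, chi_map]
      generalize chi u g = a, chi (σ u) g = b; revert a b; decide) (by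
      simp only [c.r h1, s1, chi_map]
      generalize chi u g = a, chi (σ u) g = b; revert a b; decide) (σ g)⁻¹
    have m := hC _ c1 c2 (σ g * g)
    have e1 : σ ⁅g, σ g⁆ = g⁻¹ * (g * σ g * σ (σ g) * (σ g)⁻¹) * (g * σ g * σ (σ g))⁻¹ * g * σ g := by
      rw [map_commutatorElement, commutatorElement_def]; group
    have e2 : ⁅g, σ g⁆ * (σ g * g) = g * σ g := by rw [commutatorElement_def]; group
    have e3 : σ ⁅g, σ g⁆ = ⁅g, σ g⁆ ∨ σ ⁅g, σ g⁆ = z * ⁅g, σ g⁆ := by
      have k : ∀ n : W, g⁻¹ * ((σ g)⁻¹ * n) * n⁻¹ * g * σ g = (σ g * g)⁻¹ * (g * σ g) :=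
        fun n => by group
      have k' : ∀ n : W, g⁻¹ * (z * ((σ g)⁻¹ * n)) * n⁻¹ * g * σ g =
          z * ((σ g * g)⁻¹ * (g * σ g)) := fun n => by rw [c.mz]; group
      rcases n with n | n <;> rcases m with m | m <;> rw [e1, n]
      · left; rw [k, ← e2, m, inv_mul_cancel_left]
      · right; rw [k, ← e2, m, c.mz, inv_mul_cancel_left]
      · right; rw [k', ← e2, m, inv_mul_cancel_left]
      · left; rw [k', ← e2, m, c.mz _ (_ * _), c.zz, inv_mul_cancel_left]
    have e4 : σ ⁅g, σ g⁆ = ⁅g, σ g⁆ := e3.resolve_right fun e => by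
      have := c.s3 ⁅g, σ g⁆
      rw [e, map_mul σ z, c.fz, e, c.zz, e] at this
      exact c.nz _ this
    exact (hF _ c1 c2 e4).imp commutatorElement_eq_one_iff_mul_comm.1 fun e => by rw [← e, e2]
  intro k
  have key : ∀ d, Al z g d → chi u k = chi u d → chi (σ u) k = chi (σ u) d → Al z g k :=
    fun d a d1 d2 => by
      simpa using (c.mul (c.symm (hC (k * d⁻¹) (by rw [c.r h, chi_inv, d1, aa])
        (by rw [c.r h1, chi_inv, d2, aa]) g)) a).1
  have t : ∀ a b a' b' : ZMod 2, (a = 0 ∧ b = 0) ∨ (a' = 0 ∧ b' = 0) ∨ (a' = a ∧ b' = b) ∨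
    (a' = a + b ∧ b' = a) ∨ (a' = a + (a + b) ∧ b' = b + a) := by decide
  rcases t (chi u g) (chi (σ u) g) (chi u k) (chi (σ u) k) with t | t | t | t | t
  · exact hC g t.1 t.2 k
  · exact c.symm (hC k t.1 t.2 g)
  · exact key g (.refl _ _) t.1 t.2
  · exact key _ a1 (by rw [s1, t.1]) (by rw [chi_map, t.2])
  · exact key _ (c.mul (.refl _ _) a1).1 (by rw [c.r h, s1, t.1]) (by rw [c.r h1, chi_map, t.2])

end Cz

end Cfsg.Agent.H5t
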