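import Mathlib
import Cfsg.Agent.H5.Th3

/-! The two-groups generated by commutators with an element with one Jordan block of size three. -/

set_option autoImplicit false
set_option linter.unusedSectionVars false

namespace Cfsg.Agent.H5t

open Subgroup
open scoped commutatorElement

variable {W E : Type*} [Group W] [AddCommGroup E] [Module (ZMod 3) E] [Finite W] [Finite E]
  {σ : MulAut W} {ρ : Representation (ZMod 3) W E} {β : E →ₗ[ZMod 3] E} {u z g : W} {e : E}

theorem det_one (h : Su σ ρ β) (gen : Gen σ) (x : W) : LinearMap.det (ρ x) = 1 := by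
  have hb : LinearMap.det β ≠ 0 := fun e => by
    have : β ∘ₗ β ∘ₗ β = LinearMap.id := LinearMap.ext h.cube
    have := congrArg LinearMap.det this
    simp [e] at this
  have : (LinearMap.det.comp ρ).ker = ⊤ := gen _ fun x => by
    have : β ∘ₗ ρ x = ρ (σ x) ∘ₗ β := LinearMap.ext (h.comm x)
    have := congrArg LinearMap.det this
    rw [LinearMap.det_comp, LinearMap.det_comp, mul_comm, mul_left_inj' hb] at this
    rw [MonoidHom.mem_ker, map_mul, MonoidHom.comp_apply _ _ (σ x), ← this,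
      ← MonoidHom.comp_apply, ← map_mul, inv_mul_cancel, map_one]
  exact (this ▸ mem_top x : x ∈ (LinearMap.det.comp ρ).ker)

variable (hW : (Nat.card W).Coprime 3) (h : Su σ ρ β) (gen : Gen σ) (q : Qd σ u) (f : Fr σ ρ β u e)
include hW h

theorem eq_one_of_cs {x : W} (hx : ∀ y ∈ cs ρ, ρ x y = y) : x = 1 := h.inj x fun y => by
  obtain ⟨y1, a, b⟩ := (cs_compl (ρ := ρ) hW).2 y
  simpa [a] using hx _ b

include gen q f

theorem scalar {x : W} (hx : ∀ y, x * y = y * x) (hs : σ x = x) :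
    x = 1 ∨ ∀ y ∈ cs ρ, ρ x y = -y := by
  obtain ⟨a, ha, e1⟩ := f.sign (hx _) (hx _)
  have := (irr hW h q f gen (N := cs ρ ⊓ LinearMap.ker (ρ x - a • 1)) inf_le_left
    (fun g y hy => ⟨cs_inv g hy.1, ?_⟩) fun y hy => ⟨cs_b h hy.1, ?_⟩).resolve_left fun e0 =>
      f.ne ((Submodule.eq_bot_iff _).1 e0 e ⟨f.mem_cs, by simp [e1]⟩)
  · have k : ∀ y ∈ cs ρ, ρ x y = a • y := fun y hy => by
      simpa [sub_eq_zero] using (this.ge hy).2
    rcases z3 a with rfl | rfl | rfl
    · simp at ha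
    · exact .inl (eq_one_of_cs hW h fun y hy => by simpa using k y hy)
    · exact .inr fun y hy => by simpa using k y hy
  all_goals
    have : ρ x y = a • y := by simpa [sub_eq_zero] using hy.2
    simp only [SetLike.mem_coe, LinearMap.mem_ker, LinearMap.sub_apply, LinearMap.smul_apply,
      Module.End.one_apply, sub_eq_zero]
  · rw [← rm, hx, rm, this, map_smul]
  · rw [← hs, ← h.comm, this, map_smul]

theorem exists_cz (h2 : IsPGroup 2 W) (hs : ∀ x, (∀ y, x * y = y * x) → σ x = x) :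
    ∃ z, Cz σ z ∧ ∀ y ∈ cs ρ, ρ z y = -y := by
  have : Nontrivial W := ⟨⟨u, 1, q.ne⟩⟩
  obtain ⟨⟨z, hz⟩, z1⟩ := @exists_ne _ h2.center_nontrivial 1
  replace hz := mem_center_iff.1 hz
  replace z1 : z ≠ 1 := fun e => z1 (Subtype.ext e)
  have k := (scalar hW h gen q f (fun y => (hz y).symm) (hs z fun y => (hz y).symm)).resolve_left z1
  have zz : z * z = 1 := eq_one_of_cs hW h fun y hy => by rw [rm, k y hy, map_neg, k y hy, neg_neg]
  refine ⟨z, ⟨z1, zz, hz, fun x hx => (scalar hW h gen q f hx (hs x hx)).imp_right fun k' => ?_,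
    hs z fun y => (hz y).symm, h.s3, gen⟩, k⟩
  exact mul_right_cancel ((eq_one_of_cs hW h fun y hy => by
    rw [rm, k y hy, map_neg, k' y hy, neg_neg]).trans zz.symm)

omit gen

theorem fix_cen (c : Cz σ z) (hz : ∀ y ∈ cs ρ, ρ z y = -y) (hu : Z2 z u) {t : W}
    (h1 : t * u = u * t) (h2 : t * σ u = σ u * t) (hs : σ t = t) : t = 1 ∨ t = z := by
  obtain ⟨g, g1, g2⟩ := c.exists_g q hu
  replace g1 := chi0.1 g1
  have g3 : σ u * g = z * (g * σ u) := (c.zmap hu g).resolve_left (chi1.1 g2)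
  have g4 : σ u * g⁻¹ = z * (g⁻¹ * σ u) :=
    (c.zmap hu g⁻¹).resolve_left (chi1.1 (by rw [Cz.chi_inv, g2]))
  have m0 : ρ g e ∈ cs ρ := cs_inv g f.mem_cs
  have u0 : ρ u (ρ g e) = ρ g e := by rw [← rm, g1, rm, f.ue]
  have v0 : ρ (σ u) (ρ g e) = ρ g e := by rw [← rm, g3, rm, rm, f.ve, map_neg, map_neg, hz _ m0, neg_neg]
  have n0 : ρ g e ≠ 0 := fun e0 => f.ne (by rw [← r1 (ρ := ρ) e, ← inv_mul_cancel g, rm, e0, map_zero])
  have line : ∀ y ∈ cs ρ, ρ u y = y → ρ (σ u) y = y → ∃ a : ZMod 3, y = a • ρ g e :=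
    fun y hy y1 y2 => by
      obtain ⟨a, ha⟩ := f.line (ρ g⁻¹ y) (by rw [← rm, (Commute.inv_right g1).eq, rm, y1])
        (by rw [← rm, g4, rm, rm, y2, hz _ (cs_inv _ hy)])
      exact ⟨a, by rw [← map_smul, ← ha, ← rm, mul_inv_cancel, r1]⟩
  have key : ∀ t : W, t * u = u * t → t * σ u = σ u * t → σ t = t → ρ t e = e → t = 1 :=
    fun t h1 h2 hs e1 => by
      have e2 : ρ t (β e) = β e := by rw [← hs, ← h.comm, e1]
      have e3 : ρ t (β (β e)) = β (β e) := by rw [← hs, ← h.comm, e2]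
      obtain ⟨a, ha⟩ := line (ρ t (ρ g e)) (cs_inv _ m0) (by rw [← rm, ← h1, rm, u0])
        (by rw [← rm, ← h2, rm, v0])
      have k0 : ∀ y, ρ u y = y → ρ (σ u) y = y → ∃ d : ZMod 3, ρ t y = y + (d * (a - 1)) • ρ g e :=
        fun y y1 y2 => by
          obtain ⟨w, w1, w2⟩ := (cs_compl (ρ := ρ) hW).2 y
          obtain ⟨d, hd⟩ := line _ w2 (by rw [map_sub, y1, w1]) (by rw [map_sub, y2, w1])
          refine ⟨d, ?_⟩
          rw [sub_eq_iff_eq_add.1 hd, map_add, map_smul, ha, w1]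
          module
      have k : ∀ y, ∃ d : ZMod 3, ρ t y = y + d • ρ g e := fun y => by
        obtain ⟨x0, a', b, c, rfl, a0, a1, -⟩ := f.span h q y
        obtain ⟨d, hd⟩ := k0 x0 a0 a1
        exact ⟨_, by simp only [map_add, map_smul, e1, e2, e3, hd]; abel⟩
      obtain ⟨φ, hφ⟩ := Module.Projective.exists_dual_eq_one (ZMod 3) n0
      have tr : ρ t = LinearMap.transvection (φ ∘ₗ (ρ t - 1)) (ρ g e) := LinearMap.ext fun y => by
        obtain ⟨d, hd⟩ := k y
        simp [LinearMap.transvection.apply, hd, hφ]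
      have := det_one h c.gen t
      rw [tr, LinearMap.transvection.det] at this
      have a1 : a - 1 = 0 := by simpa [ha, hφ, sub_eq_zero] using this
      exact f.ext h q (fun y y1 y2 => by simpa [a1] using k0 y y1 y2) e1 e2 e3
  obtain ⟨a, ha, e1⟩ := f.sign h1 h2
  rcases z3 a with rfl | rfl | rfl
  · simp at ha
  · exact .inl (key t h1 h2 hs (by simpa using e1))
  · refine .inr (mul_right_cancel ((key (t * z) ?_ ?_ (by rw [map_mul, hs, c.fz]) ?_).trans c.sq.symm))
    · rw [mul_assoc, ← c.cz, ← mul_assoc, h1, mul_assoc]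
    · rw [mul_assoc, ← c.cz, ← mul_assoc, h2, mul_assoc]
    · rw [rm, hz _ f.mem_cs, map_neg, e1, neg_smul, one_smul, neg_neg]

theorem cen_split {t : W} (h1 : t * u = u * t) (h2 : t * σ u = σ u * t) :
    ∃ w, (w = 1 ∨ w = u ∨ w = σ u ∨ w = u * σ u) ∧ t * w * u = u * (t * w) ∧
      t * w * σ u = σ u * (t * w) ∧ σ (t * w) = t * w := by
  have c1 : Commute t u := h1
  have c2 : Commute t (σ u) := h2
  have c3 : Commute u (σ u) := q.co
  rcases f.cen h q h1 h2 with k | k | k | k <;> rw [inv_mul_eq_iff_eq_mul] at k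
  · exact ⟨1, .inl rfl, by simpa, by simpa, by simpa using k⟩
  · exact ⟨σ u, .inr (.inr (.inl rfl)), (c1.mul_left c3.symm).eq, (c2.mul_left (.refl _)).eq, by
      rw [map_mul, k, q.mul, mul_assoc, ← mul_assoc u, q.sq, one_mul]⟩
  · exact ⟨u * σ u, .inr (.inr (.inr rfl)), (c1.mul_left ((Commute.refl _).mul_left c3.symm)).eq,
      (c2.mul_left (c3.mul_left (.refl _))).eq, by rw [map_mul, k, q.three, mul_assoc, q.co]⟩
  · exact ⟨u, .inr (.inl rfl), (c1.mul_left (.refl _)).eq, (c2.mul_left c3).eq, by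
      rw [map_mul, k, mul_assoc, mul_assoc, q.sq', mul_one]⟩

omit hW h q f in
theorem mc {K : Subgroup W} {x : W} (h : K ≤ centralizer {x}) : x ∈ centralizer (K : Set W) :=
  mem_centralizer_iff.2 fun _ hy => mem_centralizer_singleton_iff.1 (h hy)

omit hW h q f in
theorem zc {x y : W} (h : y * x = x * y) : zpowers y ≤ centralizer {x} :=
  zpowers_le.2 (mem_centralizer_singleton_iff.2 h)

omit f

theorem caseB (h2 : IsPGroup 2 W) (c : Cz σ z) (hz : ∀ y ∈ cs ρ, ρ z y = -y) :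
    IsExtraspecial 2 W ∧ Nat.card W = 32 ∧
      ∃ A : Subgroup W, IsElementaryAbelian 2 A ∧ Nat.card A = 8 := by
  have := h2.isNilpotent
  obtain ⟨u, q, hu⟩ := c.exists_qd q
  obtain ⟨e, f⟩ := exists_fr h q
  have hF : ∀ t, chi u t = 0 → chi (σ u) t = 0 → σ t = t → t = 1 ∨ t = z := fun t a b =>
    fix_cen hW h q f c hz hu (chi0.1 a).symm (chi0.1 b).symm
  have sp : ∀ K : Subgroup W, z ∈ K → u ∈ K → σ u ∈ K → ∀ t, chi u t = 0 → chi (σ u) t = 0 → t ∈ K :=
    fun K k1 k2 k3 t a b => by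
      obtain ⟨w, hw, w1, w2, w3⟩ := cen_split hW h q f (chi0.1 a).symm (chi0.1 b).symm
      have m : w ∈ K := by
        rcases hw with rfl | rfl | rfl | rfl
        exacts [one_mem _, k2, k3, mul_mem k2 k3]
      refine (K.mul_mem_cancel_right m).1 ?_
      rcases fix_cen hW h q f c hz hu w1 w2 w3 with k | k <;> rw [k]
      exacts [one_mem _, k1]
  have all := c.all hu (sp ⟨⟨⟨{x | Z2 z x}, c.zmul⟩, c.zcen (.inl rfl)⟩, c.zinv⟩ (c.zcen (.inr rfl)) hu
    (c.zmap hu)) hF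
  have z2 : z ^ 2 = 1 := by rw [sq, c.sq]
  have u2 : u ^ 2 = 1 := by rw [sq, q.sq]
  have v2 : σ u ^ 2 = 1 := by rw [sq, q.sq']
  have oz : orderOf z = 2 := orderOf_eq_prime z2 c.ne
  have xs : H3.XS 2 (⊤ : Subgroup W) z := ⟨⟨Nat.prime_two, oz, mem_top _,
    mem_centralizer_iff.2 fun y _ => c.cz y, fun x _ y _ => (H3.mem_zpowers_two z2).2 <|
      (all x y).imp commutatorElement_eq_one_iff_mul_comm.2 fun e => by
        rw [commutatorElement_def, e]; group⟩, by
    rw [H3.center_top']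
    ext x
    rw [H3.mem_zpowers_two z2, mem_center_iff]
    refine ⟨fun k => c.cen x fun y => (k y).symm, ?_⟩
    rintro (rfl | rfl) y
    exacts [by simp, c.cz y]⟩
  obtain ⟨g, g1, g2⟩ := c.exists_g q hu
  have m1 : u ∈ centralizer (zpowers z : Set W) := mc (zc (c.cz u).symm)
  have m2 : σ u ∈ centralizer ((zpowers z ⊔ zpowers u : Subgroup W) : Set W) :=
    mc (sup_le (zc (c.cz _).symm) (zc q.co))
  have hA := H3.elemAb_sup_zpowers (H3.elemAb_sup_zpowers (H3.elemAb_zpowers z2) u2 m1) v2 m2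
  have cA : Nat.card (zpowers z ⊔ zpowers u ⊔ zpowers (σ u) : Subgroup W) = 8 := by
    rw [H3.card_sup_zpowers_of_elemAb v2 m2 fun m => chi1.1 g2 (mem_centralizer_singleton_iff.1
      (sup_le (zc (c.cz _).symm) (zc (chi0.1 g1)) m)), H3.card_sup_zpowers_of_elemAb u2 m1 fun m =>
        q.sne (c.fix fun y => mem_centralizer_singleton_iff.1 (zc (c.cz _).symm m)),
      Nat.card_zpowers, oz]
  refine ⟨xs.isExtraspecial_top fun k => chi1.1 g2 (congrArg Subtype.val
    (k.1.1 ⟨_, mem_top _⟩ ⟨_, mem_top _⟩)), ?_, _, hA, cA⟩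
  have := xs.card_perp (A := zpowers z ⊔ zpowers u ⊔ zpowers (σ u)) le_top
    (mem_sup_left (mem_sup_left (mem_zpowers z)))
  rw [top_inf_eq, le_antisymm (fun t ht => sp _ (mem_sup_left (mem_sup_left (mem_zpowers z)))
    (mem_sup_left (mem_sup_right (mem_zpowers u))) (mem_sup_right (mem_zpowers _)) t
    (chi0.2 (ht _ (mem_sup_left (mem_sup_right (mem_zpowers u)))))
    (chi0.2 (ht _ (mem_sup_right (mem_zpowers _))))) (le_centralizer_iff_isMulCommutative.2 hA.1),
    cA, card_top] at this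
  omega

theorem caseA (gen : Gen σ) {x : W} (hx : ∀ y, x * y = y * x) (hs : σ x ≠ x) :
    IsElementaryAbelian 2 (⊤ : Subgroup W) ∧ Nat.card W = 4 := by
  obtain ⟨e, f⟩ := exists_fr h q
  have k : ∀ {x : W}, x ∈ center W → σ x ∈ center W := fun {x} hx => mem_center_iff.2 fun y => by
    simpa using congrArg σ (mem_center_iff.1 hx (σ.symm y))
  have x0 : x ∈ center W := mem_center_iff.2 fun y => (hx y).symm
  have x1 := mul_mem (inv_mem x0) (k x0)
  have hu : u ∈ center W := by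
    rcases f.cen h q (hx _) (hx _) with e | e | e | e <;> rw [e] at x1
    · exact absurd (inv_mul_eq_one.1 e).symm hs
    · exact x1
    · exact h.s3 u ▸ k (k x1)
    · exact q.three ▸ k x1
  have u2 : u ^ 2 = 1 := by rw [sq, q.sq]
  have v2 : σ u ^ 2 = 1 := by rw [sq, q.sq']
  have m : σ u ∈ centralizer (zpowers u : Set W) := mc (zc q.co)
  have top : zpowers u ⊔ zpowers (σ u) = ⊤ := gen _ fun y => by
    have a := mem_sup_left (T := zpowers (σ u)) (mem_zpowers u)
    have b := mem_sup_right (S := zpowers u) (mem_zpowers (σ u))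
    rcases f.cen h q (mem_center_iff.1 hu y) (mem_center_iff.1 (k hu) y) with e | e | e | e <;> rw [e]
    exacts [one_mem _, a, b, mul_mem a b]
  refine ⟨top ▸ H3.elemAb_sup_zpowers (H3.elemAb_zpowers u2) v2 m, ?_⟩
  rw [← card_top, ← top, H3.card_sup_zpowers_of_elemAb v2 m fun m => ((H3.mem_zpowers_two u2).1 m).elim
    q.next.ne q.sne, Nat.card_zpowers, orderOf_eq_prime u2 q.ne]

omit hW in
theorem two (gen : Gen σ) (h2 : IsPGroup 2 W) :
    (IsElementaryAbelian 2 (⊤ : Subgroup W) ∧ Nat.card W = 4) ∨ (IsExtraspecial 2 W ∧ Nat.card W = 32 ∧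
      ∃ A : Subgroup W, IsElementaryAbelian 2 A ∧ Nat.card A = 8) := by
  have hW : (Nat.card W).Coprime 3 := by
    obtain ⟨n, hn⟩ := h2.exists_card_eq
    exact hn ▸ Nat.Coprime.pow_left n (by norm_num)
  by_cases hs : ∀ x, (∀ y, x * y = y * x) → σ x = x
  · obtain ⟨e, f⟩ := exists_fr h q
    obtain ⟨z, c, hz⟩ := exists_cz hW h gen q f h2 hs
    exact .inr (caseB hW h q h2 c hz)
  · push Not at hs
    obtain ⟨x, hx, hs⟩ := hs
    exact .inl (caseA hW h q gen hx hs)

end Cfsg.Agent.H5t
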