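import Mathlib
import Cfsg.Agent.H5.Th4
import Cfsg.Agent.FT.BG07b

/-! Elements of order prime to six. -/

set_option autoImplicit false
set_option linter.unusedSectionVars false

namespace Cfsg.Agent.H5t

open Subgroup Module Cfsg.Agent.FT
open scoped commutatorElement

variable {S E : Type*} [Group S] [AddCommGroup E] [Module (ZMod 3) E] [Finite S] [Finite E]
  {ρ : Representation (ZMod 3) S E} {p n : ℕ} {y c : S} {M : Submodule (ZMod 3) E}

theorem fixmod {α : Type*} [Finite α] (hp : p.Prime) {f : Function.End α} (hf : f ^ p ^ n = 1) :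
    Nat.card α ≡ Nat.card f.fixedPoints [MOD p] := by
  classical
  have := Fact.mk hp
  have := Fintype.ofFinite α
  convert Equiv.Perm.card_fixedPoints_modEq hf <;> exact Nat.card_eq_fintype_card

theorem pe (hy : PiElt {p} y) : ∃ n, y ^ p ^ n = 1 := by
  obtain ⟨n, hn⟩ := PiNat.exists_pow hy (orderOf_pos y).ne'
  exact ⟨n, hn ▸ pow_orderOf_eq_one y⟩

theorem pe_one {q : ℕ} (hq : q.Prime) (hpq : p ≠ q) (hy : PiElt {p} y) (h : y ^ q = 1) : y = 1 :=
  orderOf_eq_one_iff.1 (((Nat.dvd_prime hq).1 (orderOf_dvd_of_pow_eq_one h)).resolve_right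
    fun e => hpq (PiNat.eq_prime hy hq (e ▸ dvd_rfl)).symm)

theorem cancel_mod {a j k : ℕ} (hp : p.Prime) (ha : a.Prime) (hpa : p ≠ a)
    (h : a ^ (k + j) ≡ a ^ k [MOD p]) : a ^ j ≡ 1 [MOD p] :=
  Nat.ModEq.cancel_left_of_coprime (((Nat.coprime_primes hp ha).2 hpa).pow_right k)
    (by rwa [← pow_add, mul_one])

theorem card3 (M : Submodule (ZMod 3) E) : Nat.card M = 3 ^ finrank (ZMod 3) M := by
  rw [Module.natCard_eq_pow_finrank (K := ZMod 3), Nat.card_zmod]

theorem orb (hp : p.Prime) (h3 : p ≠ 3) (hy : PiElt {p} y) (hM : ∀ v ∈ M, ρ y v ∈ M) :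
    ∃ j, finrank (ZMod 3) M = finrank (ZMod 3) (M ⊓ LinearMap.ker (ρ y - 1) : Submodule _ _) + j ∧
      3 ^ j ≡ 1 [MOD p] := by
  obtain ⟨n, hn⟩ := pe hy
  obtain ⟨j, hj⟩ := Nat.exists_eq_add_of_le (Submodule.finrank_mono
    (inf_le_left : M ⊓ LinearMap.ker (ρ y - 1) ≤ M))
  let f : Function.End M := fun v => ⟨ρ y v, hM v v.2⟩
  have hf : ∀ k (v : M), ((f ^ k) v : E) = ρ (y ^ k) v := fun k => by
    induction k with
    | zero => exact fun v => by rw [pow_zero, pow_zero, r1]; rfl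
    | succ k ih => intro v; rw [pow_succ, pow_succ, rm]; exact ih (f v)
  have := fixmod hp (f := f) (n := n) (funext fun v => Subtype.ext (by rw [hf, hn, r1]; rfl))
  have mk : ∀ v, v ∈ LinearMap.ker (ρ y - 1) ↔ ρ y v = v := fun v => by simp [sub_eq_zero]
  rw [Nat.card_congr (α := Function.fixedPoints f) (β := (M ⊓ LinearMap.ker (ρ y - 1) : Submodule _ _))
    ⟨fun v => ⟨v.1.1, v.1.2, (mk _).2 (congrArg Subtype.val v.2)⟩,
      fun v => ⟨⟨v.1, v.2.1⟩, Subtype.ext ((mk _).1 v.2.2)⟩,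
      fun _ => rfl, fun _ => rfl⟩,
    card3, card3, hj] at this
  exact ⟨j, hj, cancel_mod hp Nat.prime_three h3 this⟩

theorem fix_of_rank (h : finrank (ZMod 3) M =
    finrank (ZMod 3) (M ⊓ LinearMap.ker (ρ y - 1) : Submodule _ _) + 0) : y ∈ fixK ρ M := fun _ hv =>
  sub_eq_zero.1 ((Submodule.eq_of_le_of_finrank_eq inf_le_left h.symm).ge hv).2

theorem orb2 (hp : p.Prime) (h2 : p ≠ 2) (h3 : p ≠ 3) (hy : PiElt {p} y) (hM : ∀ v ∈ M, ρ y v ∈ M)
    (hr : finrank (ZMod 3) M ≤ 2) : y ∈ fixK ρ M := by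
  obtain ⟨j, hj, hm⟩ := orb hp h3 hy hM
  have k : ∀ i, p ∣ 2 ^ i → False := fun i h =>
    h2 ((Nat.prime_dvd_prime_iff_eq hp Nat.prime_two).1 (hp.dvd_of_dvd_pow h))
  obtain rfl | rfl | rfl : j = 0 ∨ j = 1 ∨ j = 2 := by omega
  · exact fix_of_rank hj
  · exact (k 1 ((Nat.modEq_iff_dvd' (by norm_num)).1 hm.symm)).elim
  · exact (k 3 ((Nat.modEq_iff_dvd' (by norm_num)).1 hm.symm)).elim

theorem act_inv (h : y ∈ actK ρ M) : ∀ v ∈ M, ρ y v ∈ M := fun v hv => by
  simpa using add_mem (h v) hv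

theorem act_fix (inj : ∀ x, (∀ e, ρ x e = e) → x = 1) (h3 : p ≠ 3) (hy : PiElt {p} y)
    (h : y ∈ actK ρ M) (h' : y ∈ fixK ρ M) : y = 1 :=
  pe_one Nat.prime_three h3 hy (inj _ fun v => by
    have := h' _ (h v)
    rw [map_sub, sub_eq_iff_eq_add] at this
    rw [pow_succ, sq, rm, rm, this, map_add, h' _ (h v), this]
    linear_combination (norm := module) three (ρ y v - v))

theorem rank2 (a b : E) : finrank (ZMod 3) (Submodule.span (ZMod 3) {a, b}) ≤ 2 := by
  classical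
  exact (finrank_span_le_card _).trans (by simpa using Finset.card_le_two)

theorem free_dvd {Y : Subgroup S} (hinv : ∀ y ∈ Y, ∀ m ∈ M, ρ y m ∈ M)
    (hfree : ∀ y ∈ Y, ∀ m ∈ M, ρ y m = m → y = 1 ∨ m = 0) : #Y ∣ Nat.card M - 1 := by
  classical
  let _ : MulAction Y {m : M // m ≠ 0} :=
    { smul := fun y m => ⟨⟨ρ y m.1, hinv y y.2 _ m.1.2⟩, fun e => m.2 (Subtype.ext (by
        rw [← r1 (ρ := ρ) m.1.1, ← inv_mul_cancel y.1, rm, show ρ y m.1 = 0 from congrArg Subtype.val e,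
          map_zero]; rfl))⟩
      one_smul := fun m => Subtype.ext (Subtype.ext (r1 _))
      mul_smul := fun a b m => Subtype.ext (Subtype.ext (rm _ _ _)) }
  have := Nat.card_congr (MulAction.selfEquivOrbitsQuotientProd (G := Y) (X := {m : M // m ≠ 0})
    fun m => eq_bot_iff.2 fun y hy => Subtype.ext ((hfree y y.2 _ m.1.2
      (congrArg (fun x => x.1.1) hy)).resolve_right fun e => m.2 (Subtype.ext e)))
  rw [← Nat.card_congr (Equiv.optionSubtypeNe (0 : M)), Finite.card_option, this, Nat.card_prod]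
  exact Dvd.intro_left _ rfl

theorem two_cent {X : Subgroup S} (hX : PGrp 2 X) (hc : PiElt {13} c) (hn : c ∈ N(X))
    (hi : #X ≤ #(X ⊓ C[c]) * 1024) : X ≤ C[c] := by
  obtain ⟨n, hn'⟩ := pe hc
  obtain ⟨a, ha⟩ := hX.card
  obtain ⟨k, hk⟩ := (hX.inf_left C[c]).card
  have le := card_le (inf_le_left : X ⊓ C[c] ≤ X)
  obtain ⟨j, rfl⟩ := Nat.exists_eq_add_of_le ((Nat.pow_le_pow_iff_right one_lt_two).1 (hk ▸ ha ▸ le))
  let f : Function.End X := fun v => ⟨c * v * c⁻¹, (mem_normalizer_iff.1 hn v).1 v.2⟩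
  have hf : ∀ k (v : X), ((f ^ k) v : S) = c ^ k * v * (c ^ k)⁻¹ := fun k => by
    induction k with
    | zero => exact fun v => by rw [pow_zero, pow_zero, one_mul, inv_one, mul_one]; rfl
    | succ k ih => intro v; rw [pow_succ, pow_succ]; exact (ih (f v)).trans (by simp only [f]; group)
  have := fixmod (p := 13) (by norm_num) (f := f) (n := n)
    (funext fun v => Subtype.ext (by rw [hf, hn', one_mul, inv_one, mul_one]; rfl))
  rw [Nat.card_congr (α := Function.fixedPoints f) (β := (X ⊓ C[c] : Subgroup S))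
    ⟨fun v => ⟨v.1.1, v.1.2, mem_centralizer_singleton_iff.2
        (mul_inv_eq_iff_eq_mul.1 (congrArg Subtype.val v.2)).symm⟩,
      fun v => ⟨⟨v.1, v.2.1⟩, Subtype.ext (mul_inv_eq_iff_eq_mul.2
        (mem_centralizer_singleton_iff.1 v.2.2).symm)⟩, fun _ => rfl, fun _ => rfl⟩, ha, hk] at this
  have hm := cancel_mod (by norm_num) Nat.prime_two (by norm_num) this
  rw [ha, hk, pow_add, Nat.mul_le_mul_left_iff (by positivity),
    show 1024 = 2 ^ 10 from rfl, Nat.pow_le_pow_iff_right one_lt_two] at hi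
  have : j = 0 := by interval_cases j <;> first | rfl | exact absurd hm (by decide)
  exact inf_eq_left.1 (eq_of_le_of_card_ge inf_le_left (by rw [ha, hk, this, add_zero]))

section
variable {σ : MulAut S} {β : E →ₗ[ZMod 3] E} {u : S} (h : Su σ ρ β) (q : Qd σ u)
include h q

theorem cent_u {K : Subgroup S} [hK : K.Normal] (hp : p.Prime) (h2 : p ≠ 2) (h3 : p ≠ 3)
    (pK : PGrp p K) (hy : y ∈ K) (hu : y * u = u * y) : y * σ u = σ u * y := by
  obtain ⟨e, f⟩ := exists_fr h q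
  have p1 := b1 h q ⟨f.ue, f.ve⟩
  have p2 := b2 h q p1
  have k := (fixK ρ (LinearMap.ker (ρ u + 1))).inv_mem (orb2 hp h2 h3 (pK.piElt hy) (fun v hv => by
    rw [LinearMap.mem_ker, LinearMap.add_apply, ← rm, ← hu, rm, Module.End.one_apply, ← map_add]
    exact (congrArg (ρ y) hv).trans (map_zero _))
      ((Submodule.finrank_mono fun x hx => ?_).trans (rank2 (β e) (β (β e)))))
  · have k1 := k (β e) (by simp [p1.1])
    have k2 := k (β (β e)) (by simp [p2.1])
    have i : ∀ {x}, ρ y⁻¹ x = x → ρ y x = x := fun {x} hx => by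
      conv_lhs => rw [← hx, ← rm, mul_inv_cancel, r1]
    have vi : (σ u)⁻¹ = σ u := inv_eq_of_mul_eq_one_right q.sq'
    have mK : ⁅σ u, y⁆ ∈ K := mul_mem (hK.conj_mem _ hy _) (inv_mem hy)
    have ac : ⁅σ u, y⁆ ∈ actK ρ (Submodule.span _ {e, ρ y e}) := fun x => by
      obtain ⟨x0, a, b, c, rfl, a0, a1, -⟩ := f.span h q x
      have R : ∀ x, ρ u x = x → ρ u (ρ (σ u) x) = ρ (σ u) x ∧ ∃ a : ZMod 3, ρ (σ u) x = x + a • e :=
        fun x hx => by
          have : ρ u (ρ (σ u) x) = ρ (σ u) x := by rw [← rm, q.co, rm, hx]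
          obtain ⟨a, ha⟩ := f.line (ρ (σ u) x - x) (by rw [map_sub, this, hx])
            (by rw [map_sub, ← rm, q.sq', r1, neg_sub])
          exact ⟨this, a, by rw [← ha]; abel⟩
      have u1 : ρ u (ρ y⁻¹ (x0 + a • e)) = ρ y⁻¹ (x0 + a • e) := by
        rw [← rm, ← (Commute.inv_left hu).eq, rm, map_add, map_smul, a0, f.ue]
      obtain ⟨u2, s, hs⟩ := R _ u1
      obtain ⟨-, t, ht⟩ := R (ρ y (ρ (σ u) (ρ y⁻¹ (x0 + a • e)))) (by rw [← rm, ← hu, rm, u2])
      rw [commutatorElement_def, vi, rm, rm, rm, map_add, map_add, map_add, map_add, map_add, map_add,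
        map_add, map_add, ht, hs, map_add, ← rm y y⁻¹, mul_inv_cancel, r1]
      simp only [map_smul, k1, k2, p1.2, p2.2, i k1, i k2, map_neg, neg_neg]
      exact Submodule.mem_span_pair.2 ⟨t, s, by module⟩
    exact (commutatorElement_eq_one_iff_mul_comm.1 (act_fix h.inj h3 (pK.piElt mK) ac
      (orb2 hp h2 h3 (pK.piElt mK) (act_inv ac) (rank2 _ _)))).symm
  · obtain ⟨x0, a, b, c, rfl, a0, a1, -⟩ := f.span h q x
    simp only [LinearMap.mem_ker, LinearMap.add_apply, Module.End.one_apply, map_add, map_smul, a0,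
      f.ue, p1.1, p2.1] at hx
    exact Submodule.mem_span_pair.2 ⟨b, c, by
      linear_combination (norm := module) hx - three (x0 + a • e)⟩

theorem fix_nml {K : Subgroup S} [hK : K.Normal] (hp : p.Prime) (h2 : p ≠ 2) (h3 : p ≠ 3)
    (pK : PGrp p K) (hs : ∀ y ∈ K, σ y ∈ K) (hy : y ∈ K) : σ y = y := by
  obtain ⟨e, f⟩ := exists_fr h q
  have u2 : u ^ 2 = 1 := by rw [sq, q.sq]
  have v2 : σ u ^ 2 = 1 := by rw [sq, q.sq']
  have m : σ u ∈ C(⟪u⟫) := mc (zc q.co)
  have hA := H3.elemAb_sup_zpowers (H3.elemAb_zpowers u2) v2 m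
  have cA : #(⟪u⟫ ⊔ ⟪σ u⟫) = 4 := by
    rw [H3.card_sup_zpowers_of_elemAb v2 m fun m => ((H3.mem_zpowers_two u2).1 m).elim
      q.next.ne q.sne, Nat.card_zpowers, orderOf_eq_prime u2 q.ne]
  have := hA.1
  obtain ⟨c1, c2⟩ := mem_inf.1 (H1.le_of_centralizer_singleton_le (⟪u⟫ ⊔ ⟪σ u⟫) K (C[u] ⊓ C[σ u])
    (H3.not_isCyclic_of_elemAb hA (by omega)) le_normalizer_of_normal
    ((pGrp_of_card (n := 2) Nat.prime_two cA).cop_of_ne pK h2.symm) (fun a ha a1 y hy => by
      obtain ⟨a, ha', b, hb, rfl⟩ := (mem_sup_norm (cents_norm (zpowers_le.2 m))).1 ha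
      have y1 := mem_centralizer_singleton_iff.1 hy.2
      simp only [mem_inf, mem_centralizer_singleton_iff]
      rcases (H3.mem_zpowers_two u2).1 ha' with rfl | rfl <;>
        rcases (H3.mem_zpowers_two v2).1 hb with rfl | rfl
      · simp at a1
      · rw [one_mul] at y1
        have := cent_u h q.next hp h2 h3 pK hy.1 y1
        rw [q.mul, mul_assoc, ← y1, ← mul_assoc, ← mul_assoc, mul_left_inj] at this
        exact ⟨this, y1⟩
      · rw [mul_one] at y1
        exact ⟨y1, cent_u h q hp h2 h3 pK hy.1 y1⟩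
      · have := cent_u h q.next.next hp h2 h3 pK hy.1 (q.mul ▸ y1)
        rw [h.s3] at this
        rw [← mul_assoc, this, mul_assoc, mul_assoc, mul_right_inj] at y1
        exact ⟨this, y1⟩) hy)
  refine (inv_mul_eq_one.1 (pe_one Nat.prime_two h2 (pK.piElt (mul_mem (inv_mem hy) (hs y hy))) ?_)).symm
  rcases f.cen h q (mem_centralizer_singleton_iff.1 c1) (mem_centralizer_singleton_iff.1 c2) with
    e | e | e | e <;> rw [e]
  exacts [one_pow _, u2, v2, by rw [sq, ← q.mul, q.next.sq']]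

end

end Cfsg.Agent.H5t
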