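import Mathlib
import Cfsg.Agent.H5.Th5

/-! The commutator of the three-prime core with the centre of a Sylow three-subgroup. -/

set_option autoImplicit false
set_option linter.unusedSectionVars false

namespace Cfsg.Agent.H5t

open Subgroup Module Cfsg.Agent.FT
open scoped commutatorElement

variable {S E : Type*} [Group S] [AddCommGroup E] [Module (ZMod 3) E] [Finite S] [Finite E]
  {ρ : Representation (ZMod 3) S E} {p : ℕ} {b u : S} {T W Y : Subgroup S}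

theorem odd_cent [hT : T.Normal] (sT : Sol T) (pT : PiGrp {3}ᶜ T) (b3 : b ^ 3 = 1)
    (h : Su (MulAut.conj b) ρ (ρ b)) (q : Qd (MulAut.conj b) u) (hW : #W ≤ 32)
    (hX : ∀ x ∈ O[{2}](T), ⁅x, b⁆ ∈ W) (hp : p.Prime) (h2 : p ≠ 2) (h3 : p ≠ 3) (pY : PGrp p Y)
    (YT : Y ≤ T) (hb : ⟪b⟫ ≤ N(Y)) : Y ≤ C[b] := fun y hy => by
  have nO : ∀ r, (O[{r}](T)).Normal := fun r => nml_top_iff.1 ((nml_top_iff.2 hT).pcore _)
  have hO : ∀ r : ℕ, r.Prime → r ≠ 2 → O[{r}](T) ≤ C[b] := fun r hr r2 x hx => by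
    by_cases r3 : r = 3
    · rw [r3, pT.pcore_eq_bot, mem_bot] at hx
      exact hx ▸ one_mem _
    · exact mem_cen1.2 (mul_inv_eq_iff_eq_mul.1 (fix_nml h q hr r2 r3 (pcore_pi _ T)
        (fun y hy => (nO r).conj_mem y hy b) hx)).symm
  have cY : ⁅b, y⁆ ∈ Y := mul_mem (le_nrm_iff.1 hb b (mem_zpowers b) y hy) (inv_mem hy)
  have ce : ⁅b, y⁆ = b * (y * b * y⁻¹)⁻¹ := by rw [commutatorElement_def]; group
  suffices hc : ⁅b, y⁆ ∈ C[b] by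
    refine mem_cen1.2 (commutatorElement_eq_one_iff_mul_comm.1
      (pe_one Nat.prime_three h3 (pY.piElt cY) ?_)).symm
    have e1 : MulAut.conj b y = ⁅b, y⁆ * y := by rw [commutatorElement_def]; simp
    have e2 : MulAut.conj b ⁅b, y⁆ = ⁅b, y⁆ := mul_inv_eq_iff_eq_mul.2 (mem_cen1.1 hc).symm
    have := h.s3 y
    rw [e1, map_mul, e1, e2, map_mul, map_mul, e1, e2, ← mul_assoc, ← mul_assoc, mul_eq_right] at this
    rwa [pow_succ, sq]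
  by_cases p13 : p = 13
  · subst p13
    refine hO 13 hp h2 ((pcore_syl_fitting 13 T).mem_of_nml ((fitting_le T).trans (pcore_nrm _ T))
      (cent_sub_Fitting sT ⟨YT cY, le_cen1.1 (fitting_le_of_forall_pcore fun r hr => ?_)⟩)
      (pY.piElt cY))
    by_cases r2 : r = 2
    · subst r2
      refine two_cent (pcore_pi _ T) (pY.piElt cY) (pcore_nrm _ T (YT cY)) ?_
      have a1 := H3.card_le_card_inf_centralizer_mul _ _ hX
      have a2 := H3.card_le_card_inf_centralizer_mul (O[{2}](T) ⊓ C[b]) (cj y W) (y := y * b * y⁻¹)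
        fun x hx => mem_cj'.2 ⟨_, hX _ ((nO 2).conj_mem' x hx.1 y), by
          simp only [commutatorElement_def]; group⟩
      have a3 : #(O[{2}](T) ⊓ C[b] ⊓ C[y * b * y⁻¹]) ≤ #(O[{2}](T) ⊓ C[⁅b, y⁆]) :=
        card_le fun x hx => ⟨hx.1.1, cen1_comm.1 (ce ▸ mul_mem (cen1_comm.1 hx.1.2)
          (inv_mem (cen1_comm.1 hx.2)))⟩
      rw [card_cj] at a2
      calc _ ≤ _ := a1
        _ ≤ #(O[{2}](T) ⊓ C[⁅b, y⁆]) * 32 * 32 := by gcongr; exact a2.trans (by gcongr)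
        _ = _ := by ring
    · have := nO r
      have m := le_cen1.1 (hO r hr r2)
      exact le_cen1.2 (ce ▸ mul_mem m (inv_mem (Normal.conj_mem inferInstance _ m y)))
  by_contra hc
  obtain ⟨e, f⟩ := exists_fr h q
  obtain ⟨R, hR, rR⟩ : ∃ R : Submodule (ZMod 3) E, b ∈ actK ρ R ∧ finrank (ZMod 3) R ≤ 2 :=
    ⟨_, fun v => by
      obtain ⟨a, c, e1⟩ := f.ran v
      exact Submodule.mem_span_pair.2 ⟨a, c, e1.symm⟩, rank2 _ _⟩
  obtain ⟨M, m1, m2, rM⟩ : ∃ M : Submodule (ZMod 3) E, b ∈ actK ρ M ∧ y * b * y⁻¹ ∈ actK ρ M ∧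
      finrank (ZMod 3) M ≤ 4 :=
    ⟨R ⊔ R.map (ρ y), fun v => Submodule.mem_sup_left (hR v), fun v => Submodule.mem_sup_right
      ⟨_, hR (ρ y⁻¹ v), by rw [map_sub, rm, rm, ← rm y y⁻¹, mul_inv_cancel, r1]⟩,
      (Submodule.finrank_add_le_finrank_add_finrank _ _).trans (by
        have := Submodule.finrank_map_le (ρ y) R
        omega)⟩
  have key : ∀ x ∈ Y ⊓ actK ρ M, x ≠ 1 → p = 5 ∧ finrank (ZMod 3) M = 4 ∧
      M ⊓ LinearMap.ker (ρ x - 1) = ⊥ := fun x hx x1 => by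
    obtain ⟨j, hj, hm⟩ := orb hp h3 (pY.piElt hx.1) (act_inv hx.2)
    have k : ∀ i r : ℕ, r.Prime → p ∣ 2 ^ i * r → p = r := fun i r hr h => (Nat.prime_dvd_prime_iff_eq hp hr).1
      (((Nat.Prime.dvd_mul hp).1 h).resolve_left fun h =>
        h2 ((Nat.prime_dvd_prime_iff_eq hp Nat.prime_two).1 (hp.dvd_of_dvd_pow h)))
    obtain rfl | rfl | rfl | rfl | rfl : j = 0 ∨ j = 1 ∨ j = 2 ∨ j = 3 ∨ j = 4 := by omega
    · exact (x1 (act_fix h.inj h3 (pY.piElt hx.1) hx.2 (fix_of_rank hj))).elim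
    · exact (h2 (k 0 2 Nat.prime_two ((Nat.modEq_iff_dvd' (by norm_num)).1 hm.symm))).elim
    · exact (h2 (k 2 2 Nat.prime_two ((Nat.modEq_iff_dvd' (by norm_num)).1 hm.symm))).elim
    · exact (p13 (k 1 13 (by norm_num) ((Nat.modEq_iff_dvd' (by norm_num)).1 hm.symm))).elim
    · exact ⟨k 4 5 (by norm_num) ((Nat.modEq_iff_dvd' (by norm_num)).1 hm.symm), by omega,
        Submodule.finrank_eq_zero.1 (by omega)⟩
  have c1 : ⁅b, y⁆ ∈ Y ⊓ actK ρ M := mem_inf.2 ⟨cY, ce ▸ mul_mem m1 (inv_mem m2)⟩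
  have c2 : ⁅b, y⁆ ≠ 1 := fun e => hc (e ▸ one_mem _)
  obtain ⟨rfl, r4, -⟩ := key _ c1 c2
  have dv := free_dvd (Y := Y ⊓ actK ρ M) (fun x hx => act_inv hx.2) fun x hx m hm e =>
    or_iff_not_imp_left.2 fun x1 => (Submodule.eq_bot_iff _).1 (key x hx x1).2.2 m
      ⟨hm, by simp [e]⟩
  obtain ⟨k, hk⟩ := (pY.inf_left (actK ρ M)).card
  rw [card3, r4, hk] at dv
  obtain rfl | rfl | k2 : k = 0 ∨ k = 1 ∨ 2 ≤ k := by omega
  · exact c2 (mem_bot.1 (eq_bot_iff_card'.2 hk ▸ c1))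
  · refine absurd ((pElt_of_pow_eq_one Nat.prime_three b3).zpowers.dvd_pred_of_not_cents hp hk
      (normsI hb (norms_of_le (zpowers_le.2 m1))) fun e => hc ?_) (by norm_num)
    exact mem_cen1.2 (mem_cen.1 (e (mem_zpowers b)) _ c1)
  · exact absurd ((pow_dvd_pow 5 k2).trans dv) (by norm_num)

theorem gen_of (hb : b ∈ N(W)) (hW : ⁅W, ⟪b⟫⁆ = W) : Gen (W.normalizerMonoidHom ⟨b, hb⟩) :=
  fun K hK => by
    have : ⁅W, ⟪b⟫⁆ ≤ K.map W.subtype := commutator_le.2 fun w hw g hg => by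
      obtain ⟨k, rfl⟩ := mem_powers_iff_mem_zpowers.2 hg
      induction k with
      | zero => simp
      | succ k ih =>
        have : ⁅w, b ^ (k + 1)⁆ = ⁅w, b ^ k⁆ * ((b ^ k * w⁻¹ * (b ^ k)⁻¹)⁻¹ *
            (b * (b ^ k * w⁻¹ * (b ^ k)⁻¹) * b⁻¹)) := by
          simp only [commutatorElement_def]; group
        exact this ▸ mul_mem (ih (npow_mem_zpowers b k))
          ⟨_, hK ⟨_, conj_mem (pow_mem hb k) (inv_mem hw)⟩, rfl⟩
    refine eq_top_iff.2 fun x _ => ?_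
    obtain ⟨y, hy, e⟩ := this (hW.ge x.2)
    exact (Subtype.ext e : y = x) ▸ hy

theorem small_of {β : E →ₗ[ZMod 3] E} (h3 : ∀ v, β (β (β v)) = v) {E₀ E₁ : Submodule (ZMod 3) E}
    (h01 : E₀ ⊔ E₁ = ⊤) (h1 : ∀ v ∈ E₁, β v = v) (h0 : ∀ v ∈ E₀, β v ∈ E₀) (c0 : Nat.card E₀ = 27)
    (hi : ∃ v ∈ E₀, β (β v - v) - (β v - v) ≠ 0) : Nat.card (LinearMap.range (β - 1)) ≤ 9 := by
  obtain ⟨v, hv, hn⟩ := hi
  have r0 : finrank (ZMod 3) E₀ = 3 := Nat.pow_right_injective (a := 3) (by norm_num)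
    (show 3 ^ _ = 3 ^ 3 from (card3 E₀).symm.trans c0)
  have a := LinearMap.finrank_range_add_finrank_ker ((β - 1).domRestrict E₀)
  have m := sub_mem (h0 _ hv) hv
  have k : LinearMap.ker ((β - 1).domRestrict E₀) ≠ ⊥ := fun e => hn (congrArg Subtype.val
    ((Submodule.eq_bot_iff _).1 e ⟨_, sub_mem (h0 _ m) m⟩ (by
      simp only [LinearMap.mem_ker, LinearMap.domRestrict_apply, LinearMap.sub_apply, map_sub,
        Module.End.one_apply, h3]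
      linear_combination (norm := module) three (β v - β (β v)))))
  have l : LinearMap.range (β - 1) ≤ LinearMap.range ((β - 1).domRestrict E₀) := by
    rintro _ ⟨x, rfl⟩
    obtain ⟨x0, a0, x1, a1, rfl⟩ := Submodule.mem_sup.1 (h01.ge (Submodule.mem_top (x := x)))
    exact ⟨⟨x0, a0⟩, by simp [h1 x1 a1]⟩
  have := Submodule.finrank_mono l
  have := mt Submodule.finrank_eq_zero.1 k
  rw [card3]
  exact Nat.pow_le_pow_right (n := 3) (by norm_num) (show _ ≤ 2 by omega)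

theorem s4415 [Group.IsSolvable S] (hfaith : Function.Injective ρ) {B : Subgroup S} (hB : #B = 3)
    (hb : ⟪b⟫ = B) {E₀ E₁ : Submodule (ZMod 3) E} (h01 : E₀ ⊔ E₁ = ⊤) (h1 : ∀ v ∈ E₁, ρ b v = v)
    (h0 : ∀ v ∈ E₀, ρ b v ∈ E₀) (c0 : Nat.card E₀ = 27)
    (hi : ∃ v ∈ E₀, ρ b (ρ b v - v) - (ρ b v - v) ≠ 0) {Q : Subgroup S} (hQ : Abelem 2 Q) (hQ4 : #Q = 4)
    (hBQ : B ≤ N(Q)) (hBQ' : ¬ B ≤ C(Q)) (P : Sylow 3 S)
    (hBZ : (center (P : Subgroup S)).map (P : Subgroup S).subtype = B) :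
    ((Abelem 2 ⁅pPrimeCore 3 S, B⁆ ∧ #⁅pPrimeCore 3 S, B⁆ = 4) ∨
      (IsExtraspecial 2 ↥⁅pPrimeCore 3 S, B⁆ ∧ #⁅pPrimeCore 3 S, B⁆ = 32 ∧
        ∃ A : Subgroup S, A ≤ ⁅pPrimeCore 3 S, B⁆ ∧ Abelem 2 A ∧ #A = 8)) ∧
    ∃ F₀ F₁ : Submodule (ZMod 3) E, F₀ ⊓ F₁ = ⊥ ∧ F₀ ⊔ F₁ = ⊤ ∧
      (∀ r ∈ ⁅pPrimeCore 3 S, B⁆, ∀ v ∈ F₁, ρ r v = v) ∧
      (∀ r ∈ ⁅pPrimeCore 3 S, B⁆ ⊔ B, ∀ v ∈ F₀, ρ r v ∈ F₀) ∧
      (∀ r ∈ ⁅pPrimeCore 3 S, B⁆ ⊔ B, (∀ v ∈ F₀, ρ r v = v) → r = 1) ∧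
      (∀ N : Submodule (ZMod 3) E, N ≤ F₀ → (∀ r ∈ ⁅pPrimeCore 3 S, B⁆ ⊔ B, ∀ v ∈ N, ρ r v ∈ N) →
        N = ⊥ ∨ N = F₀) := by
  subst hb
  have b3 : b ^ 3 = 1 := hB ▸ pow_card (mem_zpowers b)
  have pB : PGrp 3 ⟪b⟫ := pGrp_of_card_prime Nat.prime_three hB
  have cube : ∀ v, ρ b (ρ b (ρ b v)) = v := fun v => by rw [← rm, ← rm, ← sq, ← pow_succ, b3, r1]
  have h : Su (MulAut.conj b) ρ (ρ b) := ⟨fun x hx => hfaith (by ext v; rw [hx, r1]),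
    fun x v => by rw [← rm, ← rm]; simp, cube, small_of cube h01 h1 h0 c0 hi⟩
  rw [← piCore_compl_singleton Nat.prime_three, ← pcore_top]
  have BP : ⟪b⟫ ≤ ppCore 3 ⊤ := (hBZ.symm.trans (center_eq_map _).symm).le.trans
    (center_syl_le_ppCore Nat.prime_three (sol_top.2 ‹_›) (syl_top Nat.prime_three P))
  have pQ : PGrp 2 Q := pGrp_of_card (n := 2) Nat.prime_two hQ4
  have QT := bg7_comm_le_p'core Nat.prime_three BP le_top (pQ.p' (by norm_num)) hBQ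
  have pT := pcore_pi {3}ᶜ (⊤ : Subgroup S)
  have nT := nml_top_iff.1 (pcore_nml {3}ᶜ (⊤ : Subgroup S))
  generalize O[{3}ᶜ]((⊤ : Subgroup S)) = T at *
  have sT : Sol T := inferInstance
  have cT : Cop T ⟪b⟫ := pT.cop' pB
  obtain ⟨x, hx, xb⟩ : ∃ x ∈ Q, MulAut.conj b x ≠ x := by
    by_contra! H
    exact hBQ' (zpowers_le.2 (mem_cen.2 fun x hx => (mul_inv_eq_iff_eq_mul.1 (H x hx)).symm))
  have x1 : MulAut.conj b x ∈ Q := conj_mem (hBQ (mem_zpowers b)) hx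
  have q := mkQd h.s3 xb (mem_cen.1 (Ab.le_cen hQ.1 x1) x hx) (by rw [← sq, hQ.2 x hx, map_one])
  have uQ : x⁻¹ * MulAut.conj b x ∈ ⁅Q, ⟪b⟫⁆ := by
    simpa [commutatorElement_def, mul_assoc] using commutator_mem_commutator (inv_mem hx) (mem_zpowers b)
  generalize x⁻¹ * MulAut.conj b x = u at q uQ
  obtain ⟨P, hP, bP, QP⟩ := coprime_Sylow_subset le_normalizer_of_normal cT (.inl sT) QT
    (pQ.mono (comm_le_left hBQ)) (normsR hBQ (le_nrm _))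
  have uW : u ∈ ⁅P, ⟪b⟫⁆ := by
    have := commutator_mem_commutator (inv_mem (conj_mem (bP (mem_zpowers b)) (QP uQ))) (mem_zpowers b)
    have e : (MulAut.conj b u)⁻¹ * MulAut.conj b (MulAut.conj b u) = u := by
      rw [inv_eq_of_mul_eq_one_right q.sq', ← map_mul, ← q.mul, h.s3]
    rw [← e]
    simpa [commutatorElement_def, mul_assoc] using this
  have bW : b ∈ N(⁅P, ⟪b⟫⁆) := normsR bP (le_nrm _) (mem_zpowers b)
  have gen := gen_of bW (coprime_commGid bP (hP.pi.cop_of_ne pB (by norm_num)))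
  have pW : PGrp 2 ⁅P, ⟪b⟫⁆ := hP.pi.mono (comm_le_left bP)
  have h' : Su (⁅P, ⟪b⟫⁆.normalizerMonoidHom ⟨b, bW⟩) (ρ.comp ⁅P, ⟪b⟫⁆.subtype) (ρ b) :=
    ⟨fun x hx => Subtype.ext (h.inj _ hx), fun x v => h.comm x v, cube, h.small⟩
  have q' : Qd (⁅P, ⟪b⟫⁆.normalizerMonoidHom ⟨b, bW⟩) ⟨u, uW⟩ :=
    ⟨fun e => q.ne (congrArg Subtype.val e), Subtype.ext q.sq, Subtype.ext q.mul⟩
  have tw := two h' q' gen pW.isPGroup
  have e : ⁅T, ⟪b⟫⁆ = ⁅P, ⟪b⟫⁆ := (hP.mulEq_of_relIndex (R := T ⊓ C(⟪b⟫)) inf_le_left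
    fun r hr hd => by
      by_contra r2
      obtain ⟨Y, hY, bY⟩ := coprime_Sylow_exists r le_normalizer_of_normal cT (.inl sT)
      refine (hY.relIndex_of_le (le_inf hY.le (cen_zpowers b ▸ odd_cent sT pT b3 h q
        (W := ⁅P, ⟪b⟫⁆) (by omega) (fun x hx => commutator_mem_commutator (pcore_le_syl hP hx)
          (mem_zpowers b)) hr r2 ((pT.relIndex _).mem hr hd) hY.pi hY.le bY))).not_dvd hr rfl hd
    ).comm_eq_of_cents inf_le_right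
  rw [e]
  generalize ⁅P, ⟪b⟫⁆ = W at *
  have cW : (#W).Coprime 3 := hB ▸ pW.cop_of_ne pB (by norm_num)
  obtain ⟨v, f⟩ := exists_fr h' q'
  have ac : W ⊔ ⟪b⟫ ≤ actK ρ (cs (ρ.comp W.subtype)) := sup_le (fun x hx => cs_mem (ρ := ρ.comp W.subtype) ⟨x, hx⟩)
    (zpowers_le.2 (f.ran_le f.mem_cs fun _ => cs_b h'))
  obtain ⟨k1, k2⟩ := cs_compl (ρ := ρ.comp W.subtype) cW
  have fx : W ⊔ ⟪b⟫ ≤ fixK ρ (Representation.invariants (ρ.comp W.subtype)) :=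
    sup_le (fun x hx y hy => hy ⟨x, hx⟩) (zpowers_le.2 fun y hy => sub_eq_zero.1
      (k1 _ (ac (mem_sup_right (mem_zpowers b)) y) fun x => by
        obtain ⟨x, rfl⟩ := (W.normalizerMonoidHom ⟨b, bW⟩).surjective x
        rw [map_sub, ← h'.comm, hy, hy]))
  refine ⟨tw.imp (fun t => ⟨by simpa [← MonoidHom.range_eq_map] using Abelem.map t.1 W.subtype, t.2⟩) fun ⟨a, c, A, hA, cA⟩ =>
    ⟨a, c, A.map W.subtype, map_subtype_le _, Abelem.map hA _, (H1.card_map_subtype A).trans cA⟩,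
    cs (ρ.comp W.subtype), Representation.invariants (ρ.comp W.subtype),
    (Submodule.eq_bot_iff _).2 fun y hy => k1 y hy.1 hy.2, eq_top_iff.2 fun y _ => ?_,
    fun r hr => fx (mem_sup_left hr), fun r hr => act_inv (ac hr), fun r hr hv => h.inj r fun y => ?_,
    fun N hN hr => irr cW h' q' f gen hN (fun x => hr x (mem_sup_left x.2))
      (hr b (mem_sup_right (mem_zpowers b)))⟩
  all_goals obtain ⟨y1, a, c⟩ := k2 y
  · exact Submodule.mem_sup.2 ⟨_, c, y1, a, sub_add_cancel _ _⟩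
  · simpa [fx hr y1 a] using hv _ c

end Cfsg.Agent.H5t
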