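import Cfsg.Agent.H5.Nca
import Cfsg.Agent.FT.BG04p
import Cfsg.Agent.FT.BG04b
import Cfsg.Agent.FT.BG03a

/-! Elements of order three moving only a four-group of an elementary abelian `2`-group. -/

set_option autoImplicit false
set_option linter.unusedSectionVars false

namespace Cfsg.Agent.H5g

open Cfsg Subgroup Cfsg.Agent.FT Cfsg.Agent.P22 Cfsg.Agent.H5f
open scoped commutatorElement

variable {G : Type*} [Group G] [Finite G] {A B C D E F H K M P Q R T U V W X Y Z : Subgroup G} {q t u x y : G} {p r : ℕ}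

theorem idx_cen_fact (hn : H ≤ N(V)) : C(V).relIndex H ∣ (#V - 1).factorial := by
  refine (relIndex_cen_dvd_card_aut hn).trans ?_
  rw [← card_stab (1 : V)]
  let f : MulAut V →* MulAction.stabilizer (Equiv.Perm V) (1 : V) :=
    (MulAut.toPerm V).codRestrict _ fun a => map_one a
  exact card_dvd_of_injective f fun a b e => MulEquiv.ext fun v => congrArg (fun z => z.1 v) e

theorem ge_four (hY : PGrp 2 Y) (hn : R ≤ N(Y)) (hc : ¬ R ≤ C(Y)) : 4 ≤ #Y := by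
  obtain ⟨n, e⟩ := hY.card
  rcases n with _ | _ | n
  · exact absurd (comm_eq_bot'.1 (by rw [eq_bot_iff_card'.2 e, commutator_bot_left])) hc
  · exact absurd (cents_two e hn) hc
  · rw [e, pow_succ, pow_succ]; have := Nat.one_le_two_pow (n := n); omega

theorem comm_four (hM : PGrp 2 M) (hQ : PiGrp {2}ᶜ Q) (h4 : #⁅M, Q⁆ = 4) (hU : U ≤ M) (hn : Q ≤ N(U))
    (hc : ¬ Q ≤ C(U)) : ⁅U, Q⁆ = ⁅M, Q⁆ :=
  eq_of_card_le (commSS hU le_rfl) (h4.le.trans (ge_four (hM.mono ((comm_le_left hn).trans hU)) (norm_comm_right U Q)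
    fun e => hc (comm_eq_bot'.1 ((coprime_commGid hn ((hM.mono hU).cop hQ)).symm.trans (comm_eq_bot'.2 e)))))

theorem hyper_cents (hM : Abelem 2 M) (hr : r.Prime) (r2 : r ≠ 2) (hA : Abelem r A) (h1 : A ≠ ⊥) (hn : A ≤ N(M))
    (hq : PiElt {2}ᶜ q) (qA : q ∈ N(A)) (qM : q ∈ N(M)) (h4 : #⁅M, ⟪q⟫⁆ = 4) :
    ∃ B, B ≤ A ∧ B.relIndex A = r ∧ B ≤ C(⁅M, ⟪q⟫⁆) := by
  by_contra hh
  have pM := hM.pGrp Nat.prime_two
  have cop := pM.cop ((hA.pGrp hr).p' r2)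
  have : M ≤ C(⟪q⟫) := coprime_abelem_gen_cent hr hA h1 hn cop fun B hB i => by
    by_cases e : q ∈ N(M ⊓ C(B))
    · by_contra c
      exact hh ⟨B, hB, i, centsC ((comm_four pM hq.zpowers h4 inf_le_left (zpowers_le.2 e) fun a => c (centsC a)).ge.trans
        ((comm_le_left (zpowers_le.2 e)).trans inf_le_right))⟩
    exfalso
    have qC : q ∈ N(⁅M, A⁆) := zpowers_le.1 (normsR (zpowers_le.2 qM) (zpowers_le.2 qA))
    have lM : ⁅M, A⁆ ≤ M := comm_le_left hn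
    have nU : ∀ B, B ≤ A → A ≤ N(⁅M, A⁆ ⊓ C(B)) := fun B h => normsI (norm_comm_right M A) (norms_cent (hA.ab.norms h))
    have ti : ∀ B B', B ≤ A → B' ≤ A → B.relIndex A = r → B'.relIndex A = r → B ≠ B' → ⁅M, A⁆ ⊓ C(B) ⊓ C(B') = ⊥ :=
      fun B B' a b c d e => by
        rw [inf_assoc, ← cen_sup, (eq_or_eq_of_prime_relIndex (c ▸ hr) le_sup_left (sup_le a b)).resolve_left fun k =>
          e (eq_of_card_eq (sup_eq_left.1 k) (Nat.eq_of_mul_eq_mul_right hr.pos (by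
            rw [← c, card_mul_relIndex a, c, ← d, card_mul_relIndex b]))).symm]
        exact coprime_abel_cent_TI hn cop hM.ab
    have cj1 : ∀ B, cj q (⁅M, A⁆ ⊓ C(B)) = ⁅M, A⁆ ⊓ C(cj q B) := fun B => by rw [cj_inf, cj_cen, cj_of_mem_nrm qC]
    have l1 := cj_le_of_nrm qA hB
    have l2 := cj_le_of_nrm qA l1
    have i1 : (cj q B).relIndex A = r := by rw [← i, ← relIndex_cj q B, cj_of_mem_nrm qA]
    have i2 : (cj q (cj q B)).relIndex A = r := by rw [← i1, ← relIndex_cj q (cj q B), cj_of_mem_nrm qA]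
    have n1 : B ≠ cj q B := fun a => e (zpowers_le.1 (norms_subcent (zpowers_le.2 qM) (zpowers_le.2 (cj_eq_self.1 a.symm))))
    have n2 : cj q B ≠ cj q (cj q B) := fun a => n1 (cj_eq_cj.1 a)
    have n3 : B ≠ cj q (cj q B) := fun a => n1 (cj_eq_self.2 (hq.mem_of_pow_mem (n := 2)
      (piNat_compl_compl.2 ((piNat_prime Nat.prime_two).2 rfl)) (pow_two q ▸ cj_eq_self.1 (by rw [← cj_cj, ← a])))).symm
    have c4 : 4 ≤ #(⁅M, A⁆ ⊓ C(B)) := ge_four (pM.mono (inf_le_left.trans lM)) (nU B hB) fun a => e (by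
      have nB := norms_subcent hn (hA.ab.norms hB)
      have b : ⁅M ⊓ C(B), A⁆ ≤ ⁅M, A⁆ ⊓ C(B) := le_inf (commSS inf_le_left le_rfl) ((comm_le_left nB).trans inf_le_right)
      have c : A ≤ C(M ⊓ C(B)) := comm_eq_bot'.1 ((coprime_commGid nB (cop.mono_left inf_le_left)).symm.trans
        (comm_eq_bot'.2 (centsS b a)))
      rw [show M ⊓ C(B) = M ⊓ C(A) from le_antisymm (le_inf inf_le_left (centsC c)) (inf_le_inf_left _ (cen_anti hB))]
      exact zpowers_le.1 (norms_subcent (zpowers_le.2 qM) (zpowers_le.2 qA)))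
    have t1 := ti _ _ hB l1 i i1 n1
    have t2 := ti _ _ l1 l2 i1 i2 n2
    have t3 := ti _ _ hB l2 i i2 n3
    have e1 := cj1 B
    have e2 := cj1 (cj q B)
    have m1 := nU _ hB
    have m2 := nU _ l1
    have k0 : ⁅M, A⁆ ⊓ C(B) ≤ M := inf_le_left.trans lM
    have k1 : ⁅M, A⁆ ⊓ C(cj q B) ≤ M := inf_le_left.trans lM
    have k2 : ⁅M, A⁆ ⊓ C(cj q (cj q B)) ≤ M ⊓ C(cj q (cj q B)) := inf_le_inf_right _ lM
    have t0 := inf_eq_bot_mono t1 le_rfl (inf_le_right : ⁅M, A⁆ ⊓ C(cj q B) ≤ _)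
    generalize ⁅M, A⁆ ⊓ C(B) = U at *
    generalize ⁅M, A⁆ ⊓ C(cj q B) = U' at *
    generalize ⁅M, A⁆ ⊓ C(cj q (cj q B)) = U'' at *
    have lU : U ⊔ U' ≤ M := sup_le k0 k1
    have nn := k1.trans (hM.ab.norms k0)
    have s := (coprime_cent_mulG (mulEq_sup nn) (l2.trans m1) (l2.trans m2) (by rw [t0]; exact cop_bot_left _)
      (.inl (by rw [t0]; exact sol_bot))).sup
    rw [t2, t3, sup_bot_eq] at s
    have y1 : cj q ((U ⊔ U') ⊓ C[q]) = (U ⊔ U') ⊓ C[q] := cj_of_mem_cen (by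
      rw [← zpowers_le, cen_comm, cen_zpowers]; exact inf_le_right)
    have y2 : (U ⊔ U') ⊓ C[q] ≤ U' := by
      have a : (U ⊔ U') ⊓ C[q] ≤ (U ⊔ U') ⊓ (U' ⊔ U'') := le_inf inf_le_left (by
        rw [← y1, ← e2, ← e1, ← cj_sup, e1]; exact cj_mono q inf_le_left)
      rw [inf_sup_left ((k2.trans inf_le_left).trans (hM.ab.norms k1)) le_sup_right,
        inf_eq_bot_mono s.symm le_rfl (k2.trans inf_le_right), sup_bot_eq] at a
      exact a
    have y3 : (U ⊔ U') ⊓ C[q] = ⊥ := eq_bot_of_le (le_inf y2 (y1.ge.trans ((cj_mono q y2).trans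
      (e2.le.trans (k2.trans inf_le_right))))) t2
    have c1 := card_inf_mul_relIndex C[q] (U ⊔ U')
    rw [inf_comm, y3, card_bot, one_mul, card_sup_of_inf nn t0, ← e1, card_cj] at c1
    have c2 := card_comm_zp hM.ab qM
    have c3 := card_inf_mul_relIndex C[q] M
    rw [h4, ← c3, inf_comm, mul_comm] at c2
    have c5 := relIndex_le_of_le_right (H := C[q]) lU ((relIndex_pos _ _).ne')
    rw [← Nat.eq_of_mul_eq_mul_left (card_pos _) c2, ← e1, c1] at c5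
    nlinarith
  rw [comm_eq_bot.2 this, card_bot] at h4
  omega

theorem idx_small (hp : p.Prime) (h3 : 3 < p) (hP : PGrp p P) (hn : P ≤ N(W)) (h8 : #W ≤ 8) : C(W).relIndex P ∣ p := by
  obtain ⟨k, e⟩ := (hP.relIndex C(W)).exists_pow ((relIndex_pos _ _).ne')
  have a := (idx_cen_fact hn).trans (Nat.factorial_dvd_factorial (by omega : #W - 1 ≤ 7))
  rw [e] at a ⊢
  rcases k with _ | _ | k
  · simp
  · simp
  have b : p * p ∣ 5040 := dvd_trans ⟨p ^ k, by ring⟩ a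
  have c : p ≤ 7 := hp.dvd_factorial.1 (dvd_trans (Dvd.intro _ rfl) b : p ∣ Nat.factorial 7)
  interval_cases p <;> first | omega | exact absurd hp (by norm_num)

theorem cents_four (hp : p.Prime) (h3 : 3 < p) (hP : PGrp p P) (hn : P ≤ N(V)) (h4 : #V = 4) : P ≤ C(V) :=
  relIndex_eq_one.1 (by_contra fun e => by
    have := hp.dvd_factorial.1 (((hP.relIndex C(V)).dvd_of_ne_one e).trans (idx_cen_dvd hn h4.le) : p ∣ Nat.factorial 3)
    omega)

theorem idx_faithful (hM : Abelem 2 M) (hp : p.Prime) (h3 : 3 < p) (hP : PGrp p P) (hQ : #Q = 3) (hn : Q ≤ N(P))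
    (nP : P ≤ N(M)) (nQ : Q ≤ N(M)) (hf : P ⊓ C(M) = ⊥) (h4 : #⁅M, Q⁆ = 4) : C(⁅M, Q⁆).relIndex P ∣ p := by
  have pM := hM.pGrp Nat.prime_two
  have pQ : PGrp 3 Q := pGrp_of_card (n := 1) Nat.prime_three hQ
  have oQ : PiGrp {2}ᶜ Q := pQ.p' (by norm_num)
  have cP := hP.cop_of_ne pQ h3.ne'
  have cM := pM.cop_of_ne hP (by omega)
  have lR := comm_le_left hn
  have lZ : Z(⁅P, Q⁆) ≤ P := inf_le_left.trans lR
  have qZ : Q ≤ N(Z(⁅P, Q⁆)) := norms_center (norm_comm_right P Q)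
  have pZ : P ≤ N(Z(⁅P, Q⁆)) := norms_center (norm_comm_left P Q)
  have nV : ∀ X, X ≤ P → X ≤ C(Q) → X ≤ C(⁅M, Q⁆) := fun X a b =>
    cents_four hp h3 (hP.mono a) (normsR (a.trans nP) (cents_norm b)) h4
  by_cases e : Q ≤ C(Z(⁅P, Q⁆))
  · have a := nV _ lZ (centsC e)
    have nU : Q ≤ N(⁅M, Z(⁅P, Q⁆)⁆) := normsR nQ qZ
    have b : Q ≤ C(⁅M, Z(⁅P, Q⁆)⁆) := comm_eq_bot'.1 (eq_bot_of_le (le_inf (comm_le_left nU)
      ((commSS (comm_le_left (lZ.trans nP)) le_rfl).trans (centsC a)))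
      (coprime_abel_cent_TI (lZ.trans nP) (cM.mono_right lZ) hM.ab))
    have c : ⁅P, Q⁆ ≤ C(⁅M, Z(⁅P, Q⁆)⁆) := (commSS le_rfl b).trans (comm_le_right (norms_cent (normsR nP pZ)))
    have d : Z(⁅P, Q⁆) = ⊥ := eq_bot_of_le (le_inf lZ (comm_eq_bot'.1 ((coprime_commGid (lZ.trans nP)
      (cM.mono_right lZ)).symm.trans (comm_eq_bot'.2 (inf_le_left.trans c))))) hf
    rw [relIndex_eq_one.2 (nV P le_rfl (comm_eq_bot.1 (by_contra fun k => (hP.mono lR).center_ne_bot k d)))]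
    exact one_dvd p
  have lA := (comm_le_left qZ).trans lZ
  have qA := norm_comm_right Z(⁅P, Q⁆) Q
  have ne : ⁅Z(⁅P, Q⁆), Q⁆ ≠ ⊥ := mt comm_eq_bot'.1 e
  have nA : P ≤ N(⁅Z(⁅P, Q⁆), Q⁆) := (coprime_cent_prod hn cP hP.sol).sup.ge.trans (sup_le
    (cents_norm (centsC ((comm_le_left qZ).trans inf_le_right))) (normsR (inf_le_left.trans pZ) (cents_norm inf_le_right)))
  have ti := coprime_abel_cent_TI qZ (cP.mono_left lZ) (ab_center _)
  generalize ⁅Z(⁅P, Q⁆), Q⁆ = A at *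
  have lW := comm_le_left (lA.trans nP)
  have qW := normsR nQ qA
  have w := Frobenius_Wielandt_card (frob_sup (semiReg_of_prime (hQ ▸ Nat.prime_three) ti) qA ne
    (ne_bot_of_one_lt_card (by omega))) (sup_le (norm_comm_right M A) qW)
    ((pM.mono lW).cop (((hP.mono lA).p' (by omega)).sup oQ qA)) (pM.mono lW).sol
    (coprime_abel_cent_TI (lA.trans nP) (cM.mono_right lA) hM.ab)
  have w1 := one_lt_card (show ⁅M, A⁆ ≠ ⊥ from fun k => ne (eq_bot_of_le (le_inf lA (comm_eq_bot'.1 k)) hf))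
  have cW : ¬ Q ≤ C(⁅M, A⁆) := fun k => by
    rw [inf_eq_left.2 (centsC k), hQ] at w
    nlinarith [Nat.mul_le_mul w1 w1]
  have eV := comm_four pM oQ h4 lW qW cW
  have w2 := card_sup_of_inf (cents_norm (inf_le_left.trans ((hM.ab.mono lW).cents (comm_le_left qW) le_rfl)))
    (eq_bot_of_le (inf_le_inf_left _ inf_le_right) (coprime_abel_cent_TI qW ((pM.mono lW).cop oQ) (hM.ab.mono lW)) :
      ⁅⁅M, A⁆, Q⁆ ⊓ (⁅M, A⁆ ⊓ C(Q)) = ⊥)
  rw [(coprime_cent_prod qW ((pM.mono lW).cop oQ) (pM.mono lW).sol).sup, eV, h4] at w2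
  refine (relIndex_dvd_of_le_left P (cen_anti (eV.ge.trans (comm_le_left qW)))).trans
    (idx_small hp h3 hP (normsR nP nA) ?_)
  rw [hQ] at w
  have := card_pos (⁅M, A⁆ ⊓ C(Q))
  generalize #(⁅M, A⁆ ⊓ C(Q)) = c at *
  by_contra k
  have : 3 ≤ c := by omega
  nlinarith [Nat.mul_le_mul this this]

theorem idx_general (hM : Abelem 2 M) (hp : p.Prime) (h3 : 3 < p) (hP : PGrp p P) (hQ : Cyc Q) (pQ : PGrp 3 Q)
    (hc : ∀ x ∈ Q, x ^ 3 ∈ C(M)) (hn : Q ≤ N(P)) (nP : P ≤ N(M)) (nQ : Q ≤ N(M)) (h4 : #⁅M, Q⁆ = 4) :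
    C(⁅M, Q⁆).relIndex P ∣ p := by
  have o : PiGrp {2}ᶜ (P ⊔ Q) := (hP.p' (by omega)).sup (pQ.p' (by norm_num)) hn
  have ti := (o.inf_left C(M)).inf_eq_bot' (hM.pGrp Nat.prime_two)
  have n1 : P ⊔ Q ≤ N((P ⊔ Q) ⊓ C(M)) := norms_subcent (le_nrm _) (sup_le nP nQ)
  have n2 : M ≤ N((P ⊔ Q) ⊓ C(M)) := cents_norm (centsC inf_le_right)
  have l1 : P ⊓ C(M) ≤ (P ⊔ Q) ⊓ C(M) := inf_le_inf_right _ le_sup_left
  have l2 : Q ⊓ C(M) ≤ (P ⊔ Q) ⊓ C(M) := inf_le_inf_right _ le_sup_right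
  generalize (P ⊔ Q) ⊓ C(M) = K at *
  have lV := comm_le_left nQ
  have key : ∀ U, U ≤ M → qpre(K, C(U /ₛ K)) ⊓ P ≤ C(U) := fun U hU => comm_eq_bot.1 (eq_bot_of_le
    (le_inf ((le_qpre_cen (hU.trans n2)).1 inf_le_left).2 ((commSS inf_le_right hU).trans (comm_le_right nP))) ti)
  have c4 : #⁅M /ₛ K, Q /ₛ K⁆ = 4 := by
    rw [← quo_comm n2 (le_sup_right.trans n1), card_quo_of_inf (lV.trans n2) (inf_eq_bot_mono ti le_rfl lV), h4]
  have c3 : #(Q /ₛ K) = 3 := ((Nat.dvd_prime Nat.prime_three).1 ((hQ.quo K).card_dvd_of_pow fun u hu => by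
    obtain ⟨x, hx, x1, rfl⟩ := mem_quo.1 hu
    rw [← coset_pow x1]; exact coset_of_mem (l2 ⟨pow_mem hx 3, hc x hx⟩))).resolve_left fun e => by
      rw [eq_bot_iff_card'.2 e, commutator_bot_right, card_bot] at c4; omega
  have := idx_faithful (hM.quo K) hp h3 (hP.quo K) c3 (quo_norms K hn) (quo_norms K nP) (quo_norms K nQ) (by
    rw [← quo_inf_qpre, inf_comm]; exact quo_eq_bot_of_le ((le_inf inf_le_right (key M le_rfl)).trans l1)) c4
  rw [← quo_comm n2 (le_sup_right.trans n1), ← relIndex_qpre _ (le_sup_left.trans n1), ← inf_relIndex_right] at this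
  exact (relIndex_dvd_of_le_left P (key _ lV)).trans this

theorem not_cyc_of_idx (hF : PnElem p 3 F H) (h : C(V).relIndex F ≤ p) : ¬ Cyc (F ⊓ C(V) : Subgroup G) := fun c => by
  have a := Nat.le_of_dvd hF.prime.pos ((hF.abelem.mono inf_le_left).card_dvd_of_cyc c)
  have b := card_inf_mul_relIndex C(V) F
  rw [inf_comm, hF.card] at b
  have := hF.prime.one_lt
  have := Nat.mul_le_mul a h
  nlinarith [Nat.mul_pos (Nat.mul_pos hF.prime.pos hF.prime.pos) (Nat.sub_pos_of_lt hF.prime.one_lt)]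

end Cfsg.Agent.H5g
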